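import Cfsg.Agent.H35.S4Defs

/-!
# The doubled short root groups centralize the doubled long root group between them
-/

set_option autoImplicit false

namespace Cfsg.Agent.H69.S4R

open Cfsg Cfsg.Agent.H63 Cfsg.Agent.H63.SL Cfsg.Agent.H35.S4 Subgroup
open scoped commutatorElement

universe u v

variable {F : Type v} [Field F] {G : Type u} [Group G] {L : Subgroup G} {x : ZMod 8 → F → G}
  {t : G}

theorem comm_of {a b z : G} (h : a * z * a⁻¹ = b * z * b⁻¹) : Commute (a⁻¹ * b) z := by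
  have : z = a⁻¹ * (b * z * b⁻¹) * a := by rw [← h]; group
  show a⁻¹ * b * z = z * (a⁻¹ * b)
  conv_rhs => rw [this]
  group

theorem cj_of {a z : G} (h : Commute a z) : a * z * a⁻¹ = z := by rw [h.eq, mul_inv_cancel_right]

theorem cm_of {S : Subgroup G} {g z : G} (hg : g ∈ C[S]) (hz : z ∈ S) : Commute g z :=
  (mem_centralizer_iff.1 hg z hz).symm

omit [Field F] in
theorem xX (i : ZMod 8) (a : F) : x i a ∈ XR x i := subset_closure ⟨a, rfl⟩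

theorem xA0 (i : ZMod 8) (a : F) : x (i - 1) a ∈ A3 x i := mem_sup_left (mem_sup_left (xX _ a))

theorem xA1 (i : ZMod 8) (a : F) : x i a ∈ A3 x i := mem_sup_left (mem_sup_right (xX _ a))

theorem xA2 (i : ZMod 8) (a : F) : x (i + 1) a ∈ A3 x i := mem_sup_right (xX _ a)

/-- Every element of a doubled group is a commutator with a torus element modulo the root group. -/
theorem dec (C : Ctx L x t) {Z : Subgroup G} {j : ZMod 8}
    (nH : ∀ h ∈ HH x L, ∀ p ∈ Z, h * p * h⁻¹ ∈ Z) (mov : ∀ p ∈ Z, ∃ a, p * t * p⁻¹ = t * x j a)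
    (cen : ∀ p ∈ Z, ∀ a, Commute p (x j a)) (fix : ∀ p ∈ Z, Commute p t → ∃ a, p = x j a)
    {h : G} (hh : h ∈ HH x L) {δ : F} (hδ : δ ≠ 1) (ha : ∀ a, h * x j a * h⁻¹ = x j (δ * a))
    {p : G} (hp : p ∈ Z) : ∃ p' ∈ Z, ∃ d, p * p' = h * p' * h⁻¹ * x j d := by
  have two := C.mod.pin.two
  have h1 : δ + 1 ≠ 0 := fun e => hδ (by linear_combination e - two)
  obtain ⟨k, hk, α, β, hT, hw⟩ := C.kb.wtH j (Units.mk0 _ h1)⁻¹
  obtain ⟨a, e⟩ := mov p hp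
  have cj : ∀ {k q z : G}, k ∈ HH x L → q * t * q⁻¹ = t * z →
      k * q * k⁻¹ * t * (k * q * k⁻¹)⁻¹ = t * (k * z * k⁻¹) := by
    intro k q z hk e
    have c := (C.kb.tL k hk.1).symm
    calc _ = k * (q * (k⁻¹ * t * k⁻¹⁻¹) * q⁻¹) * k⁻¹ := by group
      _ = k * t * k⁻¹ * (k * z * k⁻¹) := by rw [cj_of c.inv_left, e]; group
      _ = _ := by rw [cj_of c]
  have e1 := cj hk e
  rw [hT, hw] at e1
  have e2 := cj hh e1
  rw [ha] at e2
  have hp' := nH k hk p hp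
  set p' := k * p * k⁻¹
  have e3 : p * p' * t * (p * p')⁻¹ = t * x j (δ * (((Units.mk0 _ h1)⁻¹ : Fˣ) * a)) := by
    calc _ = p * (p' * t * p'⁻¹) * p⁻¹ := by group
      _ = p * t * p⁻¹ * (p * x j (((Units.mk0 _ h1)⁻¹ : Fˣ) * a) * p⁻¹) := by rw [e1]; group
      _ = _ := by
        rw [e, cj_of (cen p hp _), mul_assoc, ← C.mod.pin.add]
        congr 2
        simp only [Units.val_inv_eq_inv_val, Units.val_mk0]
        field_simp
        linear_combination a * two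
  obtain ⟨d, hd⟩ := fix _ (mul_mem (inv_mem (nH h hh p' hp')) (mul_mem hp hp'))
    (comm_of (e2.trans e3.symm))
  exact ⟨p', hp', d, by rw [← hd]; group⟩

theorem main (C : Ctx L x t) {c l c' l' : F} {Xh : ZMod 8 → Subgroup G} {Y : Subgroup G}
    (hX : HatP L x t c l Xh) (hY : Hat2 L x t c' l' Y) {i i' f : ZMod 8}
    (hi : (i = 1 ∧ i' = 3 ∧ f = 0) ∨ (i = 3 ∧ i' = 1 ∧ f = 4)) :
    ∀ g ∈ Xh i, ∀ P ∈ Y, Commute g P := by
  have pin := C.mod.pin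
  have two := pin.two
  have si : sh i := by rcases hi with ⟨rfl, -, -⟩ | ⟨rfl, -, -⟩ <;> decide
  have mX := hX.mem i si
  have gi : ∀ g ∈ Xh i, ∀ a, Commute g (x i a) := fun g hg a => cm_of ((mX g).1 hg).1 (xA1 i a)
  have g2 : ∀ g ∈ Xh i, ∀ a, Commute g (x 2 a) ∧ Commute g (x f a) := fun g hg a => by
    have h0 := cm_of ((mX g).1 hg).1 (xA0 i a)
    have h2 := cm_of ((mX g).1 hg).1 (xA2 i a)
    rcases hi with ⟨rfl, -, rfl⟩ | ⟨rfl, -, rfl⟩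
    exacts [⟨h2, h0⟩, ⟨h0, h2⟩]
  have g3 : ∀ g ∈ Xh i, ∀ s, ∃ b, g * x i' s * g⁻¹ = x 2 b * x i' s := fun g hg s => by
    obtain ⟨a, e, -⟩ := ((mX g).1 hg).2.2.1
    obtain ⟨h0, h2⟩ := hX.act i si g hg a e s
    rcases hi with ⟨rfl, rfl, -⟩ | ⟨rfl, rfl, -⟩
    exacts [⟨_, mul_inv_eq_iff_eq_mul.1 h2⟩, ⟨_, mul_inv_eq_iff_eq_mul.1 h0⟩]
  have P2 : ∀ P ∈ Y, ∀ a, Commute P (x 2 a) := fun P hP a => cm_of (hY.cen hP).1 (xA1 2 a)
  have Pi : ∀ P ∈ Y, ∀ a, Commute P (x i a) ∧ Commute P (x i' a) := fun P hP a => by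
    have h0 := cm_of (hY.cen hP).1 (xA0 2 a)
    have h2 := cm_of (hY.cen hP).1 (xA2 2 a)
    rcases hi with ⟨rfl, rfl, -⟩ | ⟨rfl, rfl, -⟩
    exacts [⟨h0, h2⟩, ⟨h2, h0⟩]
  have Pf : ∀ P ∈ Y, ∃ b, P * x f 1 * P⁻¹ = x i b * x f 1 := fun P hP => by
    obtain ⟨w, -, -, -, e⟩ := hY.mov P hP
    obtain ⟨h0, h2⟩ := e 1
    rw [one_pow] at h0 h2
    rcases hi with ⟨rfl, -, rfl⟩ | ⟨rfl, -, rfl⟩
    exacts [⟨_, mul_inv_eq_iff_eq_mul.1 h2⟩, ⟨_, mul_inv_eq_iff_eq_mul.1 h0⟩]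
  have mA : ∀ v, v ∈ A3 x 2 → ∃ a b d, v = x i a * x 2 b * x i' d := fun v hv => by
    obtain ⟨a, b, d, rfl⟩ := (C.kp.memA 2 v).1 hv
    rcases hi with ⟨rfl, rfl, -⟩ | ⟨rfl, rfl, -⟩
    · exact ⟨a, b, d, rfl⟩
    · refine ⟨d, b, a, ?_⟩
      have c1 : Commute (x 1 a) (x 2 b) := pin.c1 1 a b
      have c2 : Commute (x 2 b) (x 3 d) := pin.c1 2 b d
      have c3 : Commute (x 1 a) (x 3 d) := pin.c2 1 a d
      change x 1 a * x 2 b * x 3 d = x 3 d * x 2 b * x 1 a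
      rw [← c2.eq, ← (c1.mul_right c3).eq, mul_assoc]
  have cf : ∀ a b, Commute (x i a) (x f b) ∧ Commute (x 2 a) (x f b) := fun a b => by
    rcases hi with ⟨rfl, -, rfl⟩ | ⟨rfl, -, rfl⟩
    exacts [⟨(pin.c1 0 b a).symm, (pin.c2 0 b a).symm⟩, ⟨pin.c1 3 a b, pin.c2 2 a b⟩]
  have ci2 : ∀ a b, Commute (x i a) (x 2 b) := fun a b => by
    rcases hi with ⟨rfl, -, -⟩ | ⟨rfl, -, -⟩
    exacts [pin.c1 1 a b, (pin.c1 2 b a).symm]
  have x0 : ∀ j, x j 0 = 1 := fun j => by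
    have := pin.add j 0 0
    rw [add_zero] at this
    exact left_eq_mul.1 this
  have nf : ∀ d, Commute (x i' d) (x f 1) → d = 0 := fun d h => by
    rcases hi with ⟨-, rfl, rfl⟩ | ⟨-, rfl, rfl⟩
    · have e := (commutatorElement_eq_one_iff_commute.2 h.symm).symm.trans
        (pin.rl 0 (by decide) 1 d)
      have := (C.kp.uniq 1 (1 * d) (1 * d ^ 2) 0 0 (by rw [x0, x0, mul_one, mul_one]; exact e.symm)).1
      rwa [one_mul] at this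
    · have e := (commutatorElement_eq_one_iff_commute.2 h).symm.trans (pin.rs 1 (by decide) d 1)
      have := (C.kp.uniq 2 (d ^ 2 * 1) (d * 1) 0 0
        (by rw [x0, x0, mul_one, mul_one]; exact e.symm)).2.1
      rwa [mul_one] at this
  obtain ⟨γ, hγ, -⟩ := C.kb.ne1
  have T1 : ∃ h ∈ TT x L i, ∀ a, h * x 2 a * h⁻¹ = x 2 (γ * a) := by
    rcases hi with ⟨rfl, -, -⟩ | ⟨rfl, -, -⟩
    · obtain ⟨h, hh, hT⟩ := C.kp.tor 1 γ
      exact ⟨h, (C.kb.memT 1 h).2 ⟨hh.1, _, _, hT, rfl⟩, fun a => by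
        rw [hT, show wt 1 γ 2 = 1 ^ 2 * γ from rfl, one_pow, one_mul]⟩
    · obtain ⟨h, hh, hT⟩ := C.kp.tor γ γ⁻¹
      exact ⟨h, (C.kb.memT 3 h).2 ⟨hh.1, _, _, hT, mul_inv_cancel γ⟩, fun a => by
        rw [hT, show wt γ γ⁻¹ 2 = γ ^ 2 * γ⁻¹ from rfl, sq, mul_inv_cancel_right]⟩
  have T2 : ∃ h ∈ TT x L 2, ∃ δ : Fˣ, δ ≠ 1 ∧ ∀ a, h * x i a * h⁻¹ = x i (δ * a) := by
    obtain ⟨h, hh, hT⟩ := C.kp.tor γ (γ ^ 2)⁻¹
    refine ⟨h, (C.kb.memT 2 h).2 ⟨hh.1, _, _, hT, mul_inv_cancel _⟩, _, ?_, hT i⟩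
    rcases hi with ⟨rfl, -, -⟩ | ⟨rfl, -, -⟩
    · exact hγ
    · rw [show wt γ (γ ^ 2)⁻¹ 3 = γ * (γ ^ 2)⁻¹ from rfl, sq, mul_inv_rev, mul_inv_cancel_left]
      exact inv_ne_one.2 hγ
  -- the commutator
  have key : ∀ g ∈ Xh i, ∀ P ∈ Y, ∃ a b, ∃ τ ∈ C[L], (g * P)⁻¹ * (P * g) = x i a * x 2 b * τ := by
    intro g hg P hP
    have k0 : ∀ z, Commute g z → Commute P z → Commute ((g * P)⁻¹ * (P * g)) z := fun z h h' =>
      (h.mul_left h').inv_left.mul_left (h'.mul_left h)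
    have kt : Commute ((g * P)⁻¹ * (P * g)) t := by
      obtain ⟨a, e, -⟩ := ((mX g).1 hg).2.2.1
      obtain ⟨w, e', -⟩ := hY.mov P hP
      refine comm_of ?_
      calc _ = g * (P * t * P⁻¹) * g⁻¹ := by group
        _ = g * t * g⁻¹ * (g * x 2 (w ^ 2) * g⁻¹) := by rw [e']; group
        _ = P * t * P⁻¹ * (P * x i a * P⁻¹) := by
          rw [e, e', cj_of (g2 g hg _).1, cj_of (Pi P hP a).1, mul_assoc, mul_assoc, (ci2 _ _).eq]
        _ = P * (g * t * g⁻¹) * P⁻¹ := by rw [e]; group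
        _ = _ := by group
    have k3 : ∀ s, Commute ((g * P)⁻¹ * (P * g)) (x i' s) := fun s => by
      obtain ⟨b, e⟩ := g3 g hg s
      refine comm_of ?_
      calc _ = g * (P * x i' s * P⁻¹) * g⁻¹ := by group
        _ = P * (g * x i' s * g⁻¹) * P⁻¹ := by
          rw [cj_of (Pi P hP s).2, e, cj_of ((P2 P hP b).mul_right (Pi P hP s).2)]
        _ = _ := by group
    have kf : Commute ((g * P)⁻¹ * (P * g)) (x f 1) := by
      obtain ⟨b, e⟩ := Pf P hP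
      refine comm_of ?_
      calc _ = g * (P * x f 1 * P⁻¹) * g⁻¹ := by group
        _ = P * (g * x f 1 * g⁻¹) * P⁻¹ := by
          rw [cj_of (g2 g hg 1).2, e, cj_of ((gi g hg b).mul_right (g2 g hg 1).2)]
        _ = _ := by group
    have kA : (g * P)⁻¹ * (P * g) ∈ C[A3 x 2] := mem_centralizer_iff.2 fun v hv => by
      obtain ⟨a, b, d, rfl⟩ := mA v hv
      exact (((k0 _ (gi g hg a) (Pi P hP a).1).mul_right
        (k0 _ (g2 g hg b).1 (P2 P hP b))).mul_right (k3 d)).symm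
    obtain ⟨v, hv, τ, hτ, e⟩ : ∃ v ∈ A3 x 2, ∃ τ ∈ C[L], (g * P)⁻¹ * (P * g) = v * τ := by
      obtain ⟨v, hv, o, ho, e | e⟩ := C.kb.cA 2 _ kt kA
      · exact ⟨v, hv, o, ho.1, e⟩
      · obtain ⟨a, b, d, rfl⟩ := mA v hv
        refine ⟨_, hv, t * o, mul_mem C.tc.tc ho.1, ?_⟩
        rw [e, (C.kb.tL _ (mul_mem (mul_mem (C.kb.xL _ _) (C.kb.xL _ _)) (C.kb.xL _ _))).eq,
          mul_assoc]
    obtain ⟨a, b, d, rfl⟩ := mA v hv
    have hd : d = 0 := by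
      refine nf d ?_
      have : x i' d = (x i a * x 2 b)⁻¹ * ((g * P)⁻¹ * (P * g)) * τ⁻¹ := by rw [e]; group
      rw [this]
      exact (((cf a 1).1.mul_left (cf b 1).2).inv_left.mul_left kf).mul_left
        (cm_of hτ (C.kb.xL _ _)).inv_left
    exact ⟨a, b, τ, hτ, by rw [e, hd, x0, mul_one]⟩
  have stepA : ∀ g ∈ Xh i, ∀ P ∈ Y, ∃ e, g⁻¹ * P * g = P * x 2 e := by
    intro g hg P hP
    obtain ⟨h, hh, ha⟩ := T1
    obtain ⟨P', hP', d, e⟩ := dec C (Z := Y) (j := 2)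
      (fun h hh p hp => (mem_normalizer_iff.1 (hY.nH hh) p).1 hp)
      (fun p hp => by obtain ⟨w, e, -⟩ := hY.mov p hp; exact ⟨_, e⟩) P2
      (fun p hp hc => by
        obtain ⟨w, e, -, e', -⟩ := hY.mov p hp
        rw [cj_of hc, left_eq_mul] at e
        exact (C.kp.memX 2 p).1 (e' (pow_eq_zero_iff two_ne_zero |>.1 (pin.inj _ _ e))))
      hh.1 (δ := γ) (fun e => hγ (Units.ext e)) ha hP
    obtain ⟨a, b, τ, hτ, e1⟩ := key g hg P' hP'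
    set κ := x i a * x 2 b * τ with hκ
    have e2 : g⁻¹ * P' * g = P' * κ := by rw [← e1]; group
    have c1 : Commute g h := cm_of ((mX g).1 hg).2.1 hh
    have c2 : ∀ s, Commute κ (x 2 s) := fun s =>
      ((ci2 a s).mul_left (by
        show _ * _ = _ * _
        rw [← pin.add, ← pin.add, add_comm])).mul_left (cm_of hτ (C.kb.xL _ _))
    have e3 : h * κ * h⁻¹ = x 2 ((γ + 1) * b) * κ := by
      calc _ = h * x i a * h⁻¹ * (h * x 2 b * h⁻¹) * (h * τ * h⁻¹) := by rw [hκ]; group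
        _ = x i a * (x 2 ((γ + 1) * b) * x 2 b) * τ := by
          rw [ha, cj_of (cm_of hh.2 (xX i a)), cj_of (cm_of hτ hh.1.1).symm, ← pin.add]
          congr 3
          linear_combination (-b) * two
        _ = _ := by rw [← mul_assoc, (ci2 a _).eq, hκ]; group
    refine ⟨(γ + 1) * b, ?_⟩
    calc _ = g⁻¹ * (P * P') * g * (g⁻¹ * P' * g)⁻¹ := by group
      _ = g⁻¹ * h * g⁻¹⁻¹ * (g⁻¹ * P' * g) * (g⁻¹ * h * g⁻¹⁻¹)⁻¹ * (g⁻¹ * x 2 d * g⁻¹⁻¹) *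
          (g⁻¹ * P' * g)⁻¹ := by rw [e]; group
      _ = h * P' * h⁻¹ * (h * κ * h⁻¹) * x 2 d * κ⁻¹ * P'⁻¹ := by
        rw [cj_of c1.inv_left, cj_of (g2 g hg d).1.inv_left, e2]; group
      _ = h * P' * h⁻¹ * (x 2 ((γ + 1) * b) * (κ * x 2 d * κ⁻¹)) * P'⁻¹ := by rw [e3]; group
      _ = h * P' * h⁻¹ * x 2 d * x 2 ((γ + 1) * b) * P'⁻¹ := by
        rw [cj_of (c2 d), ← pin.add, add_comm, pin.add]; group
      _ = P * (P' * x 2 ((γ + 1) * b) * P'⁻¹) := by rw [← e]; group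
      _ = _ := by rw [cj_of (P2 P' hP' _)]
  intro g hg P hP
  obtain ⟨h, hh, δ, hδ, ha⟩ := T2
  obtain ⟨g', hg', d, e⟩ := dec C (Z := Xh i) (j := i)
    (fun h hh p hp => (mX _).2 (C.kb.hatH h hh c i p ((mX p).1 hp)))
    (fun p hp => by obtain ⟨a, e, -⟩ := ((mX p).1 hp).2.2.1; exact ⟨a, e⟩) gi (hX.fix i si)
    hh.1 (δ := δ) (fun e => hδ (Units.ext e)) ha hg
  obtain ⟨s, e1⟩ := stepA g' hg' P hP
  have c1 : Commute h P := (cm_of (hY.cen hP).2 hh).symm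
  have e2 : (g * g')⁻¹ * P * (g * g') = g'⁻¹ * P * g' := by
    calc _ = (x i d)⁻¹ * (h * (g'⁻¹ * (h⁻¹ * P * h⁻¹⁻¹) * g') * h⁻¹) * (x i d)⁻¹⁻¹ := by
          rw [e]; group
      _ = _ := by
        rw [cj_of c1.inv_left, e1, cj_of (c1.mul_right (cm_of hh.2 (xX 2 s))),
          cj_of ((Pi P hP d).1.symm.mul_right (ci2 d s)).inv_left]
  show g * P = P * g
  calc g * P = g * g' * (g'⁻¹ * P * g') * g'⁻¹ := by group
    _ = _ := by rw [← e2]; group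

theorem rad1 : Rad1Stmt.{u, v} := fun _ _ _ C _ _ _ _ _ _ hX hY =>
  ⟨main C hX hY (Or.inl ⟨rfl, rfl, rfl⟩), main C hX hY (Or.inr ⟨rfl, rfl, rfl⟩)⟩

end Cfsg.Agent.H69.S4R
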