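import Cfsg.Agent.H53.AhKit
import Cfsg.Agent.H28.MwS

/-! Project AH, piece E2: the primitive case with `e = 2`. -/

set_option autoImplicit false

namespace Cfsg.Agent.H69.AhE2

open MulAction Cfsg.Agent.H12.RO Cfsg.Agent.H53.MW Cfsg.Agent.H53.AH

universe u

theorem four {W : Type*} [AddCommGroup W] [Finite W] (h4 : Nat.card W = 4) (h2 : ∀ w : W, w + w = 0)
    {x y : W} (hx : x ≠ 0) (hy : y ≠ 0) (hxy : x ≠ y) (w : W) :
    w = 0 ∨ w = x ∨ w = y ∨ w = x + y := by
  classical
  have := Fintype.ofFinite W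
  have h1 : x + y ≠ 0 := fun e => hxy (by rw [← add_zero x, ← h2 y, ← add_assoc, e, zero_add])
  have h3 : ({0, x, y, x + y} : Finset W) = Finset.univ := by
    apply Finset.eq_univ_of_card
    rw [← Nat.card_eq_fintype_card, h4, Finset.card_insert_of_notMem, Finset.card_insert_of_notMem,
      Finset.card_pair]
    · simpa using hx
    · simpa using ⟨hxy, hy⟩
    · simpa using ⟨hx.symm, hy.symm, h1.symm⟩
  have : w ∈ ({0, x, y, x + y} : Finset W) := h3 ▸ Finset.mem_univ w
  simpa using this

section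
variable {G V : Type*} [Group G] [AddCommGroup V] [DistribMulAction G V] {p : ℕ}
  {β : V →+ V →+ ZMod p}

/-- on `p²` vectors the action is free -/
theorem free [Finite V] (h : Mod G V p β) (hV : Nat.card V = p ^ 2) {g : G} {v : V} (hv : v ≠ 0)
    (hg : g • v = v) (x : V) : g • x = x := by
  have := Fact.mk h.prime
  obtain ⟨w, hw⟩ := h.toFrm.exists_ne hv
  let f : V → ZMod p × ZMod p := fun x => (β v x, β w x)
  have hf : Function.Surjective f := by
    rintro ⟨a, c⟩
    refine ⟨(a / β v w).val • w + (-c / β v w).val • v, Prod.ext ?_ ?_⟩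
    · simp only [f, map_add, nsmul_right, h.alt, ZMod.natCast_val, ZMod.cast_id', id]
      field_simp
      ring
    · simp only [f, map_add, nsmul_right, h.alt, ZMod.natCast_val, ZMod.cast_id', id, h.skew v w]
      field_simp
      ring
  have hi : Function.Injective f :=
    ((Nat.bijective_iff_surjective_and_card f).2 ⟨hf, by simp [hV, sq]⟩).1
  have e1 : ∀ x, β v (g • x) = β v x := fun x => by nth_rw 1 [← hg]; exact h.inv g v x
  obtain ⟨k, hk⟩ : ∃ k : ℕ, g • w = w + k • v := by
    refine ⟨(-β w (g • w) / β v w).val, hi (Prod.ext ?_ ?_)⟩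
    · simp only [f, map_add, nsmul_right, h.alt, e1, mul_zero, add_zero]
    · simp only [f, map_add, nsmul_right, h.alt, ZMod.natCast_val, ZMod.cast_id', id, h.skew v w]
      field_simp
      ring
  have e2 : ∀ n : ℕ, g ^ n • w = w + n • k • v := fun n => by
    induction n with
    | zero => simp
    | succ n ih =>
      rw [pow_succ', mul_smul, ih, smul_add, hk, smul_comm g n, smul_comm g k, hg, succ_nsmul]
      abel
  obtain ⟨a, ha⟩ := h.sm
  have e3 : k • v = 0 := h.nsmul_eq_zero (k := 6 ^ a) (fun hd => by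
    have := h.ge
    rcases t23_of_dvd_pow dvd_rfl p h.prime hd with e | e <;> omega)
    (by have := e2 (6 ^ a); rwa [ha, left_eq_add] at this)
  rw [e3, add_zero] at hk
  refine hi (Prod.ext (e1 x) ?_)
  show β w (g • x) = β w x
  nth_rw 1 [← hk]; exact h.inv g w x

end

section
variable {G V K W : Type*} [Group G] [AddCommGroup V] [DistribMulAction G V] [Field K]
  [Module K V] [AddCommGroup W] [DistribMulAction G W] {σ : G →* RingAut K}
  {U To E M : Subgroup G} {π : G → W} {b : W → W → Kˣ} {e p : ℕ} {β : V →+ V →+ ZMod p}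
  [Nontrivial V] [Finite W]

theorem good7 (h : Px G V K W σ U To E M π b e p β) (h4 : Nat.card W = 4)
    (hf : ∀ (g : G) (v : V), v ≠ 0 → g • v = v → g = 1) {g : G} {x : W} (hx : g • x ≠ x)
    (hg : ∀ w : W, g • g • w = w) {v : V} (hv : v ≠ 0) : Good7 G v ⊤ := by
  have hM := h.pk.Mn
  have sec := h.pk.sec
  have x0 : x ≠ 0 := by rintro rfl; exact hx (smul_zero g)
  have y0 : g • x ≠ 0 := by rwa [Ne, smul_eq_zero_iff_eq]
  have all := four h4 h.add_self x0 y0 hx.symm
  have k0 : x + g • x ≠ 0 := fun e => hx ((eq_neg_of_add_eq_zero_right e).trans (h.neg_eq x))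
  have bxy : b x (g • x) ≠ 1 := fun e => x0 (h.pk.b_nd x fun w => by
    rcases all w with rfl | rfl | rfl | rfl
    · have := h.pk.b_add_right x x x
      rwa [h.add_self, h.pk.b_self, one_mul] at this
    · exact h.pk.b_self _
    · exact e
    · rw [h.pk.b_add_right, h.pk.b_self, e, one_mul])
  have fix : ∀ w : W, g • w = w → w = 0 ∨ w = x + g • x := fun w hw => by
    rcases all w with e | e | e | e
    · exact Or.inl e
    · exact absurd (e ▸ hw) hx
    · rw [e, hg] at hw; exact absurd hw.symm hx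
    · exact Or.inr e
  obtain ⟨i, hi, rfl⟩ := sec.surj x
  have g2 : g ^ 2 ∈ M := h.mem_M fun w => by rw [sq, mul_smul, hg]
  obtain ⟨c, c1, c2, c3⟩ : ∃ c : G, (∀ w : W, c • w = g • w) ∧ c ^ 2 ∈ M ∧
      π (c ^ 2) = π i + g • π i := by
    rcases fix (π (g ^ 2)) (by rw [← sec.conj g _ g2]; congr 1; group) with e | e
    · have e1 : (g * i) ^ 2 = g * i * g⁻¹ * g ^ 2 * i := by simp only [sq]; group
      have m1 := h.conj_mem g hi
      refine ⟨g * i, fun w => by rw [mul_smul, sec.smul_of_mem hi], ?_, ?_⟩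
      · rw [e1]; exact M.mul_mem (M.mul_mem m1 g2) hi
      · rw [e1, sec.mul _ (M.mul_mem m1 g2) _ hi, sec.mul _ m1 _ g2, e, add_zero, sec.conj g i hi,
          add_comm]
    · exact ⟨g, fun _ => rfl, g2, e⟩
  have c4 : ∀ u : V, c ^ 4 • u = -u := by
    have e1 : c ^ 4 = (c ^ 2) ^ 2 := by group
    rcases h.pm (h.sq_mem c2) with e | e
    · refine absurd (c3 ▸ (sec.ker _ c2).2 ?_) k0
      by_cases hc : c ^ 2 = 1
      · rw [hc]; exact U.one_mem
      · refine h.neg_mem fun u => ?_
        by_contra hu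
        refine hc (hf _ (u + c ^ 2 • u) (fun e' => hu (eq_neg_of_add_eq_zero_right e')) ?_)
        rw [smul_add, ← mul_smul, ← sq, e, one_smul, add_comm]
    · rwa [e1]
  refine ⟨c, trivial, fun n _ => c4 _, fun n _ e => ?_, i, trivial, ?_⟩
  · have zU := h.neg_mem c4
    have e1 : n * c * n⁻¹ = c ^ 4 * c := by
      rw [← inv_mul_eq_one]
      exact hf _ v hv (by rw [mul_smul, mul_smul (c ^ 4), c4, ← e, inv_smul_smul])
    have e2 : n * c ^ 2 * n⁻¹ = c ^ 2 := by
      calc _ = n * c * n⁻¹ * (n * c * n⁻¹) := by simp only [sq]; group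
        _ = (c ^ 4) ^ 2 * c ^ 2 := by rw [e1]; group
        _ = _ := by rw [h.sqU _ zU, one_mul]
    have e3 : n • (π i + g • π i) = π i + g • π i := by rw [← c3, ← sec.conj n _ c2, e2]
    have key : ∀ t : G, t • π i = π i → t • (π i + g • π i) = π i + g • π i →
        t * c * t⁻¹ = c ^ 4 * c → False := fun t t1 t2 t3 => by
      have tM : t ∈ M := h.mem_M fun w => by
        rcases all w with rfl | rfl | rfl | rfl
        · exact smul_zero t
        · exact t1
        · rwa [smul_add, t1, add_right_inj] at t2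
        · exact t2
      have e4 : g • π t = π t := by
        have e5 : c * t * c⁻¹ = (c ^ 4)⁻¹ * t := by
          calc _ = (c ^ 4)⁻¹ * (c ^ 4 * c) * t * c⁻¹ := by group
            _ = _ := by rw [← t3]; group
        have m1 := h.pk.U_le (U.inv_mem zU)
        rw [← c1, ← sec.conj c t tM, e5, sec.mul _ m1 _ tM, (sec.ker _ m1).2 (U.inv_mem zU), zero_add]
      have cm : Commute t c := by
        rcases fix _ e4 with e | e
        · exact (h.comm ((sec.ker t tM).1 e) c).symm
        · have := h.comm ((sec.eq_iff c2 tM).1 (c3.trans e.symm)) c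
          rw [← mul_inv_cancel_left (c ^ 2) t]
          exact ((Commute.refl c).pow_left 2).mul_left this.symm
      rw [cm.eq, mul_inv_cancel_right, right_eq_mul] at t3
      exact hv (h.mod.eq_zero_of_neg (by rw [← c4, t3, one_smul]))
    rcases all (n • π i) with e | e | e | e
    · exact x0 ((smul_eq_zero_iff_eq n).1 e)
    · exact key n e e3 e1
    · refine key (c⁻¹ * n) (by rw [mul_smul, e, ← c1, inv_smul_smul]) ?_ ?_
      · rw [mul_smul, e3, inv_smul_eq_iff, c1, smul_add, hg, add_comm]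
      · calc _ = c⁻¹ * (n * c * n⁻¹) * c := by group
          _ = _ := by rw [e1]; group
    · rw [← e3, smul_left_cancel_iff, left_eq_add] at e
      exact y0 e
  · rw [mul_smul, mul_smul, h.anti hi c2 (by rwa [c3, h.pk.b_add_right, h.pk.b_self, one_mul]),
      smul_inv_smul]

end

theorem e2 (hc : H53.AH.CntStmt.{u}) : E2Stmt.{u} := by
  intro G V K W _ _ _ _ _ _ _ _ _ _ _ _ _ σ U To E M π b e p β h he
  subst he
  have i6 := H28.MwS.sqf G W Kˣ b 2 le_rfl Nat.prime_two.squarefree h.pk.card h.pk.b_add_left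
    h.pk.b_add_right h.pk.b_self h.pk.b_nd h.b_inv
  have cG := h.card_G
  rw [h.card_U_eq (by norm_num)] at cG
  have cV : Nat.card V ≤ 3 * Nat.card (img G V) := hc G V p β h.mod
  rw [h.card_img] at cV
  obtain ⟨f, f0, hK⟩ := h.card_K
  obtain ⟨d, hd⟩ := h.even (by norm_num)
  have d1 := h.pk.le
  have p5 := h.mod.ge
  have hV : Nat.card V = p ^ 2 := by
    have e1 := h.card_V
    rw [hK, ← pow_mul, hd] at e1
    rw [e1]
    congr 1
    by_contra hne
    have h4 : 4 ≤ f * (d + d) := by
      rcases f with _ | _ | f <;> rcases d with _ | _ | d <;> first | omega | nlinarith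
    have : 5 ^ 4 ≤ p ^ (f * (d + d)) :=
      (Nat.pow_le_pow_left p5 4).trans (Nat.pow_le_pow_right (by omega) h4)
    omega
  have hf : ∀ (g : G) (v : V), v ≠ 0 → g • v = v → g = 1 := fun g v hv hg =>
    h.pk.faith g (free h.mod hV hv hg)
  obtain ⟨v, hv⟩ := exists_ne (0 : V)
  have cG' : Nat.card G = p ^ 2 - 1 := by
    have bij : Function.Bijective fun g : G =>
        (⟨g • v, by rwa [Set.mem_compl_singleton_iff, Ne, smul_eq_zero_iff_eq]⟩ : ({0}ᶜ : Set V)) := by
      refine ⟨fun a c e => ?_, fun w => ?_⟩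
      · have e' : a • v = c • v := congrArg Subtype.val e
        rw [← inv_mul_eq_one]
        exact hf _ v hv (by rw [mul_smul, ← e', inv_smul_smul])
      · obtain ⟨g, hg⟩ := h.mod.dos.of_stab hv w.2 fun g =>
          ⟨fun e => by rw [hf g v hv e, one_smul], fun e => by rw [hf g w w.2 e, one_smul]⟩
        exact ⟨g, Subtype.ext hg⟩
    rw [Nat.card_eq_of_bijective _ bij, Nat.card_coe_set_eq, Set.ncard_compl, hV, Set.ncard_singleton]
  have p7 : p ≤ 7 := by
    by_contra! hp
    have : 8 ^ 2 ≤ p ^ 2 := Nat.pow_le_pow_left hp 2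
    omega
  refine ⟨v, ⊤, ⟨hv, fun _ _ => trivial, fun g hg n _ => by rw [hf g v hv hg, one_smul],
    fun a ha => absurd trivial ha, fun a _ _ ha => absurd trivial ha⟩, ?_⟩
  have hp := h.mod.prime
  interval_cases p
  · left
    have := Fact.mk Nat.prime_three
    let φ : img G W ≃* Multiplicative (ZMod 3) :=
      mulEquivOfPrimeCardEq (p := 3) (by omega) (by simp)
    refine ⟨fun g => (φ ((toPermHom G W).rangeRestrict g)).toAdd, fun a _ c _ => by simp,
      fun g hg => by simp [hf g v hv hg], ?_⟩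
    obtain ⟨g, hg⟩ := (toPermHom G W).rangeRestrict_surjective (φ.symm (Multiplicative.ofAdd 1))
    exact ⟨g, trivial, by simp only [hg, MulEquiv.apply_symm_apply, toAdd_ofAdd]; exact one_ne_zero⟩
  · exact absurd hp (by norm_num)
  · right
    have := Fact.mk Nat.prime_two
    obtain ⟨⟨_, g, rfl⟩, hg⟩ := exists_prime_orderOf_dvd_card' (G := img G W) 2 (by omega)
    obtain ⟨g1, g2⟩ := orderOf_eq_prime_iff.1 hg
    obtain ⟨x, hx⟩ : ∃ x : W, g • x ≠ x := by
      by_contra! hx
      exact g2 (Subtype.ext (Equiv.ext hx))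
    exact good7 h h.pk.card hf hx
      (fun w => Equiv.ext_iff.1 (congrArg Subtype.val (sq (_ : img G W) ▸ g1)) w) hv

end Cfsg.Agent.H69.AhE2
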