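import Cfsg.Agent.H9.C3Defs
import Cfsg.Agent.H72.SpHSa
import Cfsg.Agent.H3.Fitting

/-! Groups in which the centraliser of every element of order 3 is elementary of order 9. -/

set_option autoImplicit false
set_option linter.unusedSectionVars false

namespace Cfsg.Agent.H69.C3X

open Subgroup Cfsg.Agent.H9.C3

universe u

variable {X : Type u} [Group X] [Finite X]

/-- The hypothesis on the centralisers. -/
structure HH (X : Type u) [Group X] : Prop where
  c9 : ∀ x : X, orderOf x = 3 → Nat.card (C1 x) = 9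
  c3 : ∀ x : X, orderOf x = 3 → ∀ g : X, g * x = x * g → g ^ 3 = 1
  d3 : 3 ∣ Nat.card X

instance : Fact (Nat.Prime 3) := ⟨Nat.prime_three⟩

theorem ex_inf {H : Type*} [Group H] [Finite H] (P : Sylow 3 H) (M : Subgroup H) [hM : M.Normal]
    (h : 3 ∣ Nat.card M) : ∃ x ∈ M, x ∈ (P : Subgroup H) ∧ x ≠ 1 := by
  obtain ⟨y, hy⟩ := exists_prime_orderOf_dvd_card' (G := M) 3 h
  have o : orderOf (y : H) = 3 := by rw [orderOf_coe, hy]
  obtain ⟨Q, hQ⟩ := (IsPGroup.of_card (p := 3) (n := 1) (G := zpowers (y : H))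
    (by rw [Nat.card_zpowers, o]; rfl)).exists_le_sylow
  obtain ⟨g, rfl⟩ := MulAction.exists_smul_eq H P Q
  refine ⟨g⁻¹ * y * g⁻¹⁻¹, hM.conj_mem _ y.2 _, ?_, fun e => ?_⟩
  · obtain ⟨p, hp, e⟩ := hQ (mem_zpowers _)
    have e' : g * p * g⁻¹ = y := e
    rwa [← e', show g⁻¹ * (g * p * g⁻¹) * g⁻¹⁻¹ = p by group]
  · rw [conj_eq_one_iff.1 e, orderOf_one] at o
    exact absurd o (by decide)

theorem eq_of_two {P K : Subgroup X} (hP : Nat.card P = 9) {x b : X} (hx : orderOf x = 3)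
    (h1 : x ∈ K ⊓ P) (h2 : b ∈ K ⊓ P) (h3 : b ∉ zpowers x) : P ≤ K := by
  have d1 : Nat.card (K ⊓ P : Subgroup X) ∣ 3 ^ 2 :=
    (card_dvd_of_le (inf_le_right (a := K))).trans hP.dvd
  have d2 : 3 ∣ Nat.card (K ⊓ P : Subgroup X) := by
    rw [← hx, ← Nat.card_zpowers]; exact card_dvd_of_le (zpowers_le.2 h1)
  obtain ⟨k, hk, e⟩ := (Nat.dvd_prime_pow Nat.prime_three).1 d1
  interval_cases k
  · rw [e] at d2; exact absurd d2 (by decide)
  · exact absurd ((eq_of_le_of_card_ge (zpowers_le.2 h1)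
      (by rw [e, Nat.card_zpowers, hx]; rfl)).ge h2) h3
  · exact (eq_of_le_of_card_ge (inf_le_right (a := K)) (by rw [e, hP]; rfl)).ge.trans inf_le_left

namespace HH

variable (h : HH X)
include h

theorem syl (P : Sylow 3 X) : Nat.card (P : Subgroup X) = 9 ∧
    ∀ x ∈ (P : Subgroup X), x ≠ 1 → orderOf x = 3 ∧ C1 x = P := by
  have hne : Nontrivial (P : Subgroup X) := Finite.one_lt_card_iff_nontrivial.1
    (lt_of_lt_of_le (by decide) (Nat.le_of_dvd Nat.card_pos (P.dvd_card_of_dvd_card h.d3)))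
  have := P.isPGroup'.center_nontrivial
  obtain ⟨z, hz⟩ := exists_prime_orderOf_dvd_card' (G := center (P : Subgroup X)) 3
    ((P.isPGroup'.to_subgroup _).card_eq_or_dvd.resolve_left Finite.one_lt_card.ne')
  have o : orderOf (z.1.1 : X) = 3 := by rw [orderOf_coe, orderOf_coe, hz]
  have hc : ∀ g ∈ (P : Subgroup X), g * z.1.1 = z.1.1 * g := fun g hg =>
    congrArg Subtype.val (mem_center_iff.1 z.2 ⟨g, hg⟩)
  have e : C1 (z.1.1 : X) = P := P.is_maximal' (IsPGroup.of_card (n := 2) (h.c9 _ o))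
    fun g hg => mem_centralizer_singleton_iff.2 (hc g hg)
  have c : Nat.card (P : Subgroup X) = 9 := e ▸ h.c9 _ o
  have cm := (IsPGroup.isMulCommutative_of_card_eq_prime_sq (p := 3) (G := (P : Subgroup X)) c).is_comm.comm
  refine ⟨c, fun x hx x1 => ?_⟩
  have ox := orderOf_eq_prime (h.c3 _ o x (hc x hx)) x1
  refine ⟨ox, (eq_of_le_of_card_ge (fun g hg => mem_centralizer_singleton_iff.2
    (congrArg Subtype.val (cm ⟨g, hg⟩ ⟨x, hx⟩))) (by rw [c, h.c9 _ ox])).symm⟩

theorem n27 : ¬ 27 ∣ Nat.card X := fun k => by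
  obtain ⟨P⟩ : Nonempty (Sylow 3 X) := inferInstance
  rw [← (P : Subgroup X).card_mul_index, (h.syl P).1] at k
  exact P.not_dvd_index (Nat.dvd_of_mul_dvd_mul_left (by decide) (show 9 * 3 ∣ _ from k))

theorem o3 {g : X} (k : 3 ∣ orderOf g) : orderOf g = 3 := by
  have o : orderOf (g ^ (orderOf g / 3)) = 3 := orderOf_pow_orderOf_div (orderOf_pos g).ne' k
  exact Nat.dvd_antisymm (orderOf_dvd_of_pow_eq_one (h.c3 _ o g (Commute.self_pow g _).eq)) k

theorem ord : H9.C3.Ord X where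
  o6 _ k := .inl (h.o3 k)
  d9 := by
    obtain ⟨P⟩ : Nonempty (Sylow 3 X) := inferInstance
    exact (h.syl P).1 ▸ card_subgroup_dvd_card _
  n27 := h.n27
  np P := by
    have := H72.HS.dvd_pred (K := (P : Subgroup X)) (R := Nm (P : Subgroup X)) le_rfl
      ((P : Subgroup X).relIndex (Nm (P : Subgroup X)))
      fun x hx x1 => by rw [← ((h.syl P).2 x hx x1).2]
    rw [(h.syl P).1] at this
    rw [← H3.card_mul_relIndex (le_normalizer (H := (P : Subgroup X))), (h.syl P).1]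
    exact Nat.mul_dvd_mul_left 9 this

theorem sub {P : Sylow 3 X} {N : Subgroup X} [hN : N.Normal] (hP : (P : Subgroup X) ≤ N) :
    HH N where
  c9 x hx := by
    have o : orderOf (x : X) = 3 := by rw [orderOf_coe, hx]
    obtain ⟨Q, hQ⟩ := (IsPGroup.of_card (p := 3) (n := 1) (G := zpowers (x : X))
      (by rw [Nat.card_zpowers, o]; rfl)).exists_le_sylow
    have e := ((h.syl Q).2 x (hQ (mem_zpowers _)) fun e => by
      rw [e, orderOf_one] at o; exact absurd o (by decide)).2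
    have hle : C1 (x : X) ≤ N := by
      rw [e]
      obtain ⟨g, rfl⟩ := MulAction.exists_smul_eq X P Q
      rintro _ ⟨p, hp, rfl⟩
      exact hN.conj_mem p (hP hp) g
    rw [← h.c9 _ o, ← Nat.card_congr (subgroupOfEquivOfLe hle).toEquiv]
    congr 2
    ext g
    simp only [mem_subgroupOf, mem_centralizer_singleton_iff, Subtype.ext_iff, coe_mul]
  c3 x hx g e := Subtype.ext (h.c3 x (by rw [orderOf_coe, hx]) g (congrArg Subtype.val e))
  d3 := (show 3 ∣ 9 by decide).trans ((h.syl P).1 ▸ card_dvd_of_le hP)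

theorem le_of {P : Sylow 3 X} {e : X} (f : Fr (P : Subgroup X) e) {K : Subgroup X} {x : X}
    (hx : x ∈ (P : Subgroup X)) (x1 : x ≠ 1) (h1 : x ∈ K) (h2 : e * x * e⁻¹ ∈ K) :
    (P : Subgroup X) ≤ K := by
  classical
  have o := ((h.syl P).2 x hx x1).1
  refine eq_of_two (h.syl P).1 o ⟨h1, hx⟩ ⟨h2, (mem_normalizer_iff.1 f.norm x).1 hx⟩ fun k => x1 ?_
  have x3 : x ^ 3 = 1 := o ▸ pow_orderOf_eq_one x
  have e1 : e * (e * x * e⁻¹) * e⁻¹ = x⁻¹ := by rw [← f.inv x hx]; group
  have fin : x = x⁻¹ → x = 1 := fun k => by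
    calc x = x * x * x := by nth_rw 1 [← mul_one x, ← mul_inv_cancel x, ← k]; rw [mul_assoc]
      _ = 1 := by rw [← x3, pow_succ, sq]
  obtain ⟨n, hn, e2⟩ := (mem_zpowers_iff_mem_range_orderOf.trans Finset.mem_image).1 k
  rw [Finset.mem_range, o] at hn
  interval_cases n
  · exact conj_eq_one_iff.1 (e2.symm.trans (pow_zero x))
  · rw [pow_one] at e2
    rw [← e2, ← e2] at e1
    exact fin e1
  · rw [← e2, ← conj_pow, ← e2, ← pow_mul, pow_succ, x3, one_mul] at e1
    exact fin e1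

end HH

theorem xs : XSStmt.{u} := by
  intro X _ _ c9 c3 hO P e f d3
  have h : HH X := ⟨c9, c3, d3⟩
  by_cases hPn : (P : Subgroup X).Normal
  · exact .inl hPn
  have : Nontrivial X := Finite.one_lt_card_iff_nontrivial.1
    (lt_of_lt_of_le (by decide) (Nat.le_of_dvd Nat.card_pos d3))
  obtain ⟨N, hN, N1, hmin⟩ := H3.exists_minimal_normal X
  obtain ⟨x0, h1, h2, h3⟩ := ex_inf P N (by_contra fun k => N1 (hO N hN k))
  have hPN : (P : Subgroup X) ≤ N := h.le_of f h2 h3 h1 (hN.conj_mem _ h1 e)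
  have hs := h.sub hPN
  -- nontrivial normal subgroups of `N` meet `P`
  have hA : ∀ M : Subgroup N, M.Normal → M ≠ ⊥ → ∃ x ∈ M, (x : X) ∈ (P : Subgroup X) ∧ x ≠ 1 := by
    intro M hM M1
    refine ex_inf (P.subtype hPN) M (by_contra fun k => M1 ?_)
    have := H3.pPrimeCore_characteristic 3 N
    have e1 := hO _ (H3.normal_map_subtype_of_characteristic N (Cfsg.pPrimeCore 3 N)) (by
      rw [H3.card_map_subtype]
      exact (Nat.prime_three.coprime_iff_not_dvd).1 (H3.pPrimeCore_coprime 3 N).symm)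
    rw [map_eq_bot_iff_of_injective _ N.subtype_injective] at e1
    exact eq_bot_iff.2 ((H3.le_pPrimeCore
      ((Nat.prime_three.coprime_iff_not_dvd).2 k).symm).trans e1.le)
  -- normal subgroups of `N` which contain `P`
  have hB : ∀ M : Subgroup N, M.Normal → (P : Subgroup X).subgroupOf N ≤ M → M = ⊤ := by
    intro M hM hle
    have e1 : normalClosure {x0} = N :=
      (hmin _ inferInstance (normalClosure_le_normal (Set.singleton_subset_iff.2 h1))).resolve_left
        fun k => h3 (k.le (subset_normalClosure rfl))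
    have e2 : normalClosure {x0} ≤ M.map N.subtype := (closure_le _).2 fun y hy => by
      obtain ⟨_, rfl, hc⟩ := Group.mem_conjugatesOfSet_iff.1 hy
      obtain ⟨c, rfl⟩ := isConj_iff.1 hc
      have o := ((h.syl P).2 _ h2 h3).1
      refine ⟨⟨_, hN.conj_mem _ h1 c⟩, ?_, rfl⟩
      have y3 : (⟨_, hN.conj_mem _ h1 c⟩ : N) ^ 3 = 1 := Subtype.ext (by
        rw [coe_pow, conj_pow, ← o, pow_orderOf_eq_one]; simp)
      have hi : ¬ 3 ∣ M.index := fun k => (P.subtype hPN).not_dvd_index (k.trans (index_dvd_of_le hle))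
      rw [SetLike.mem_coe, ← QuotientGroup.eq_one_iff, ← orderOf_eq_one_iff]
      exact Nat.eq_one_of_dvd_coprimes ((Nat.prime_three.coprime_iff_not_dvd).2 hi)
        (orderOf_dvd_of_pow_eq_one (by rw [← QuotientGroup.mk_pow, y3]; rfl)) (orderOf_dvd_natCard _)
    refine eq_top_iff.2 fun y _ => ?_
    obtain ⟨z, hz, e3⟩ := e2 (e1.ge y.2)
    exact (Subtype.ext e3 : z = y) ▸ hz
  have hC : ¬ ((P : Subgroup X).subgroupOf N).Normal := fun k => hPn (by
    rw [le_antisymm hPN (subgroupOf_eq_top.1 (hB _ k le_rfl))]; exact hN)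
  refine .inr ⟨N, hN, hPN, ?_, fun k => hC inferInstance, hs.ord, fun g k => ?_⟩
  · have : Nontrivial N := (nontrivial_iff_ne_bot N).2 N1
    refine ⟨fun M hM => by_contra fun k => hC ?_⟩
    obtain ⟨M1, M2⟩ := not_or.1 k
    let α : MulAut N := MulAut.conjNormal e
    have key : ∀ {K : Subgroup N} {x : N}, (x : X) ∈ (P : Subgroup X) → x ≠ 1 → x ∈ K → α x ∈ K →
        (P : Subgroup X).subgroupOf N ≤ K := fun {K x} k1 k2 k3 k4 y hy => by
      obtain ⟨z, hz, e3⟩ := h.le_of f (K := K.map N.subtype) k1 (fun k => k2 (Subtype.ext k))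
        ⟨x, k3, rfl⟩ ⟨α x, k4, rfl⟩ hy
      exact (Subtype.ext e3 : z = y) ▸ hz
    have hM' : (M.comap (α : N →* N)).Normal := hM.comap _
    have hD : M ⊓ M.comap (α : N →* N) = ⊥ := by_contra fun k => by
      obtain ⟨x, k1, k2, k3⟩ := hA _ inferInstance k
      exact M2 (hB M hM (key k2 k3 k1.1 k1.2))
    obtain ⟨x, k1, k2, k3⟩ := hA M hM M1
    have k4 : ((α.symm x : N) : X) ∈ (P : Subgroup X) := (mem_normalizer_iff.1 f.norm _).2 (by
      have : ((α (α.symm x) : N) : X) ∈ (P : Subgroup X) := by rwa [MulEquiv.apply_symm_apply]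
      exact this)
    have k5 : α.symm x ≠ 1 := fun k => k3 (by simpa using k)
    have k6 : α.symm x ∈ M.comap (α : N →* N) := by simpa using k1
    have cm := commute_of_normal_of_disjoint M _ hM hM' (disjoint_iff.2 hD)
    have l1 : M ≤ (P : Subgroup X).subgroupOf N := fun y hy => by
      rw [mem_subgroupOf, ← ((h.syl P).2 _ k4 fun k => k5 (Subtype.ext k)).2]
      exact mem_centralizer_singleton_iff.2 (congrArg Subtype.val (cm y _ hy k6).eq)
    have l2 : M.comap (α : N →* N) ≤ (P : Subgroup X).subgroupOf N := fun y hy => by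
      rw [mem_subgroupOf, ← ((h.syl P).2 _ k2 fun k => k3 (Subtype.ext k)).2]
      exact mem_centralizer_singleton_iff.2 (congrArg Subtype.val (cm _ y k1 hy).eq.symm)
    rw [le_antisymm (key (K := M ⊔ M.comap (α : N →* N)) k4 k5 (mem_sup_right k6)
      (mem_sup_left (by simpa using k1))) (sup_le l1 l2)]
    infer_instance
  · have := hs.o3 (g := g) (by rw [k]; decide)
    omega

end Cfsg.Agent.H69.C3X
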