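import Mathlib

/-! The dihedral argument (after `H19.CoEnd.cent_le`, with the counting hypothesis made abstract):
if every member of the class `I` fixes a unique coset of `H`, centralizers of subgroups of a
suitable elementary abelian subgroup `A` lie in `H`. -/

set_option autoImplicit false

namespace Cfsg.Agent.H69

open Subgroup

variable {G : Type*} [Group G] [Finite G]

theorem dih_cent_le {H A : Subgroup G} {I : Set G} (hAH : A ≤ H)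
    (hI : ∀ a ∈ I, ∀ g, g * a * g⁻¹ ∈ I) (hI2 : ∀ a ∈ I, a * a = 1)
    (hU : ∀ a ∈ I, a ∈ H → ∀ g, g * a * g⁻¹ ∈ H → g ∈ H) (hA : ∀ a ∈ A, a * a = 1)
    (F1 : ∀ x ∈ I, x ∈ H → ∀ f ∈ A, f ≠ 1 → f ∉ I → x * f = f * x → x * f ∈ I → x ∈ A)
    (F2 : ∀ E ≤ A, E ≠ ⊥ → (∀ f ∈ E, f ∉ I) → (∃ a ∈ A, a ∈ I ∧ ∃ f ∈ E, f ≠ 1 ∧ a * f ∈ I) ∧
      ∃ b ∈ A, b ∈ I ∧ ¬ ∃ f ∈ E, f ≠ 1 ∧ b * f ∈ I)
    (E : Subgroup G) (hE : E ≤ A) (h1 : E ≠ ⊥) : centralizer (E : Set G) ≤ H := by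
  classical
  have inv : ∀ a ∈ A, a⁻¹ = a := fun a h => inv_eq_of_mul_eq_one_right (hA a h)
  have cA : ∀ a ∈ A, ∀ b ∈ A, a * b = b * a := fun a ha b hb => by
    rw [← inv _ (mul_mem ha hb), mul_inv_rev, inv a ha, inv b hb]
  induction hn : E.index using Nat.strong_induction_on generalizing E with
  | _ n ih =>
  intro g hg
  set X := centralizer (E : Set G) with hX
  have cX : ∀ x ∈ X, ∀ f ∈ E, x * f = f * x := fun x hx f hf => (mem_centralizer_iff.1 hx f hf).symm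
  have AX : A ≤ X := fun a ha => mem_centralizer_iff.2 fun f hf => cA f (hE hf) a ha
  by_cases hEI : ∃ a ∈ E, a ∈ I
  · obtain ⟨a, h1, h2⟩ := hEI
    exact hU a h2 (hAH (hE h1)) g (by rw [cX g hg a h1]; simpa using hAH (hE h1))
  push Not at hEI
  let N : G → Prop := fun x => ∃ f ∈ E, f ≠ 1 ∧ x * f ∈ I
  have N1 : ∀ x, ∀ y ∈ X, N (y * x * y⁻¹) ↔ N x := fun x y hy => by
    refine exists_congr fun f => and_congr_right fun hf => and_congr_right fun _ => ?_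
    have : y * x * y⁻¹ * f = y * (x * f) * y⁻¹ := by
      rw [mul_assoc, cX _ (inv_mem hy) f hf]; group
    rw [this]
    exact ⟨fun h => by simpa [mul_assoc] using hI _ h y⁻¹, fun h => hI _ h y⟩
  have N2 : ∀ x, ∀ e ∈ E, x * e ∈ I → N (x * e) → N x := fun x e he h1 h2 => by
    by_cases e1 : e = 1
    · rwa [e1, mul_one] at h2
    · exact ⟨e, he, e1, h1⟩
  obtain ⟨⟨a, aA, aI, Na⟩, b, bA, bI, Nb⟩ := F2 E hE h1 hEI
  by_contra hgH
  have key : ∀ p q w, p ∈ A → p ∈ I → w ∈ X → w ∉ E → w * w ∈ E → p * w * p⁻¹ = w⁻¹ → q ∈ X →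
      q * w * q⁻¹ = w⁻¹ → p * w ∈ I → N (p * w) → q ∈ H := by
    intro p q w p1 p2 w1 w2 w3 p3 q1 q2 y1 y2
    have yH : p * w ∈ H := hU p p2 (hAH p1) _ (by
      have : p * w * p * (p * w)⁻¹ = (w * w)⁻¹ * p := by
        calc _ = p * w * p⁻¹ * (p * p) * w⁻¹ * p⁻¹ := by group
          _ = _ := by rw [p3, hA p p1, inv p p1]; group
      rw [this]
      exact mul_mem (inv_mem (hAH (hE w3))) (hAH p1))
    obtain ⟨f, f1, f2, f3⟩ := y2
    have wA : w ∈ A := (A.mul_mem_cancel_left p1).1 (F1 _ y1 yH f (hE f1) f2 (hEI f f1)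
      (cX _ (mul_mem (AX p1) w1) f f1) f3)
    have lt : E < E ⊔ zpowers w := left_lt_sup.2 fun h => w2 (h (mem_zpowers w))
    refine ih _ (hn ▸ index_strictAnti lt) (E ⊔ zpowers w) (sup_le hE (zpowers_le.2 wA))
      (ne_bot_of_gt lt) rfl ?_
    rw [inv w wA, mul_inv_eq_iff_eq_mul] at q2
    have : E ⊔ zpowers w ≤ centralizer {q} := sup_le
      (fun f hf => mem_centralizer_singleton_iff.2 (cX q q1 f hf).symm)
      (zpowers_le.2 (mem_centralizer_singleton_iff.2 q2.symm))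
    exact mem_centralizer_iff.2 fun f hf => mem_centralizer_singleton_iff.1 (this hf)
  obtain ⟨c, hc⟩ : ∃ c, c = g * b * g⁻¹ := ⟨_, rfl⟩
  have cI : c ∈ I := hc ▸ hI b bI g
  have cX' : c ∈ X := hc ▸ mul_mem (mul_mem hg (AX bA)) (inv_mem hg)
  obtain ⟨r, hr⟩ : ∃ r, r = a * c := ⟨_, rfl⟩
  have rX : r ∈ X := hr ▸ mul_mem (AX aA) cX'
  have ia : a⁻¹ = a := inv a aA
  have ic : c⁻¹ = c := inv_eq_of_mul_eq_one_right (hI2 c cI)
  have ra : ∀ m : ℕ, a * r ^ m * a⁻¹ = (r ^ m)⁻¹ := fun m => by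
    rw [← conj_pow, ← inv_pow, hr, mul_inv_rev, ic, ← mul_assoc, hA a aA, one_mul]
  have rc : ∀ m : ℕ, c * r ^ m * c⁻¹ = (r ^ m)⁻¹ := fun m => by
    rw [← conj_pow, ← inv_pow, hr, mul_inv_rev, ia, ← mul_assoc, mul_inv_cancel_right, ic]
  have ex : ∃ k, r ^ (k + 1) ∈ E := ⟨orderOf r - 1, by
    rw [Nat.sub_add_cancel (orderOf_pos r), pow_orderOf_eq_one]; exact one_mem _⟩
  have k1 := Nat.find_spec ex
  have k2 := fun m => Nat.find_min ex (m := m)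
  generalize Nat.find ex = k at k1 k2
  have e0 : ∀ m : ℕ, (r ^ m)⁻¹ * a * (r ^ m)⁻¹⁻¹ = a * r ^ (m + m) := fun m => by
    rw [inv_inv, ← ra, pow_add]; group
  rcases Nat.even_or_odd' k with ⟨j, rfl | rfl⟩
  · have t1 := (N1 a _ (inv_mem (pow_mem rX (j + 1)))).2 Na
    have t2 := hI a aI (r ^ (j + 1))⁻¹
    rw [e0, show j + 1 + (j + 1) = 1 + (2 * j + 1) by ring, pow_add, pow_one, ← mul_assoc] at t1 t2
    have := N2 _ _ k1 t2 t1
    rw [hr, ← mul_assoc, hA a aA, one_mul, hc, N1 _ _ hg] at this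
    exact Nb this
  have w1 : r ^ (j + 1) ∉ E := k2 j (by omega)
  have w2 : r ^ (j + 1) * r ^ (j + 1) ∈ E := by
    rwa [← pow_add, show j + 1 + (j + 1) = 2 * j + 1 + 1 by ring]
  rcases Nat.even_or_odd' j with ⟨m, rfl | rfl⟩
  · have e1 : c * r ^ (2 * m + 1) = ((r ^ m)⁻¹ * c) * a * ((r ^ m)⁻¹ * c)⁻¹ := by
      calc _ = c * r ^ m * c⁻¹ * c * r * r ^ m := by group
        _ = (r ^ m)⁻¹ * c * (a * c⁻¹) * r ^ m := by rw [rc, ic, ← hr]
        _ = _ := by group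
    have gi := inv_mem hg
    have cj : ∀ u v : G, g⁻¹ * u * g⁻¹⁻¹ * (g⁻¹ * v * g⁻¹⁻¹) * (g⁻¹ * u * g⁻¹⁻¹)⁻¹ =
      g⁻¹ * (u * v * u⁻¹) * g⁻¹⁻¹ := fun u v => by group
    have eb : b = g⁻¹ * c * g⁻¹⁻¹ := by rw [hc]; group
    have e2 : b * (g⁻¹ * r ^ (2 * m + 1) * g⁻¹⁻¹) = g⁻¹ * (c * r ^ (2 * m + 1)) * g⁻¹⁻¹ := by
      rw [eb]; group
    have := key b (g⁻¹ * a * g⁻¹⁻¹) (g⁻¹ * r ^ (2 * m + 1) * g⁻¹⁻¹) bA bI
      (mul_mem (mul_mem gi (pow_mem rX _)) (inv_mem gi)) (fun h => w1 (by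
        have := cX g hg _ h
        rw [inv_inv, ← mul_assoc, ← mul_assoc, mul_inv_cancel, one_mul, mul_left_inj] at this
        rw [this]; rwa [inv_inv] at h))
      (by
        have : g⁻¹ * r ^ (2 * m + 1) * g⁻¹⁻¹ * (g⁻¹ * r ^ (2 * m + 1) * g⁻¹⁻¹) =
          g⁻¹ * (r ^ (2 * m + 1) * r ^ (2 * m + 1)) * g⁻¹⁻¹ := by group
        rw [this, cX _ gi _ w2, mul_inv_cancel_right]; exact w2)
      (by conv_lhs => rw [eb, cj, rc]
          group)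
      (mul_mem (mul_mem gi (AX aA)) (inv_mem gi)) (by rw [cj, ra]; group)
      (by rw [e2, e1]; exact hI _ (hI _ aI _) _)
      (by rw [e2, N1 _ _ gi, e1, N1 _ _ (mul_mem (inv_mem (pow_mem rX _)) cX')]; exact Na)
    exact hgH (H.inv_mem_iff.1 (hU a aI (hAH aA) _ this))
  · have e1 := e0 (m + 1)
    rw [show m + 1 + (m + 1) = 2 * m + 1 + 1 by ring] at e1
    exact hgH (hU b bI (hAH bA) g (hc ▸ key a c _ aA aI (pow_mem rX _) w1 w2 (ra _) cX' (rc _)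
      (e1 ▸ hI a aI _) (by rw [← e1, N1 _ _ (inv_mem (pow_mem rX _))]; exact Na)))

end Cfsg.Agent.H69
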