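import Cfsg.Agent.H50.E72Defs

/-!
# Project E72, piece L43B: the Levi factor acts trivially on the four-dimensional fixed space
-/

set_option autoImplicit false

namespace Cfsg.Agent.H69.E72L43b

open Module Multiplicative Cfsg.Agent.H50.E72
open scoped Matrix MatrixGroups

theorem nine (d : (Fin 2 → ZMod 3) → ℕ) (h1 : ∀ χ, d χ ≤ d ![χ 0 + χ 1, χ 1])
    (h2 : ∀ χ, d χ ≤ d ![χ 0, χ 0 + χ 1]) (hs : ∑ χ, d χ = 4) : d ![0, 0] = 4 := by
  rw [← (finTwoArrowEquiv (ZMod 3)).symm.sum_comp, Fintype.sum_prod_type] at hs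
  have e : ∀ f : ZMod 3 → ℕ, ∑ a, f a = f 0 + f 1 + f 2 := fun f => Fin.sum_univ_three f
  simp only [e] at hs
  change d ![0, 0] + d ![0, 1] + d ![0, 2] + (d ![1, 0] + d ![1, 1] + d ![1, 2]) +
    (d ![2, 0] + d ![2, 1] + d ![2, 2]) = 4 at hs
  have a1 : d ![0, 1] ≤ d ![1, 1] := h1 ![0, 1]
  have a2 : d ![1, 1] ≤ d ![2, 1] := h1 ![1, 1]
  have a3 : d ![2, 1] ≤ d ![0, 1] := h1 ![2, 1]
  have a4 : d ![0, 2] ≤ d ![2, 2] := h1 ![0, 2]
  have a5 : d ![2, 2] ≤ d ![1, 2] := h1 ![2, 2]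
  have a6 : d ![1, 2] ≤ d ![0, 2] := h1 ![1, 2]
  have b1 : d ![1, 0] ≤ d ![1, 1] := h2 ![1, 0]
  have b2 : d ![1, 1] ≤ d ![1, 2] := h2 ![1, 1]
  have b3 : d ![1, 2] ≤ d ![1, 0] := h2 ![1, 2]
  have b4 : d ![2, 0] ≤ d ![2, 2] := h2 ![2, 0]
  have b5 : d ![2, 2] ≤ d ![2, 1] := h2 ![2, 2]
  have b6 : d ![2, 1] ≤ d ![2, 0] := h2 ![2, 1]
  omega

/-- The third index. -/
def th (i j : Fin 4) : Fin 4 := 2 - i - j

/-- The elements of a row of the Levi factor. -/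
def xe (i j : Fin 4) (e : Fin 2 → ZMod 3) : SL(4, ZMod 3) :=
  Tv i j ^ (e 0).val * Tv i (th i j) ^ (e 1).val

theorem th_ne : ∀ i j : Fin 4, i ≠ 0 → j ≠ 0 → i ≠ j → th i j ≠ 0 ∧ i ≠ th i j ∧ j ≠ th i j := by
  decide

theorem xe_add : ∀ i j : Fin 4, i ≠ 0 → j ≠ 0 → i ≠ j → ∀ e e' : Fin 2 → ZMod 3,
    xe i j (e + e') = xe i j e * xe i j e' := by decide +kernel

theorem xe_one : ∀ i j : Fin 4, xe i j ![1, 0] = Tv i j := by decide +kernel

theorem cj1 : ∀ i j : Fin 4, i ≠ 0 → j ≠ 0 → i ≠ j → ∀ e : Fin 2 → ZMod 3,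
    Tv j (th i j) * xe i j e = xe i j ![e 0, e 1 - e 0] * Tv j (th i j) := by decide +kernel

theorem cj2 : ∀ i j : Fin 4, i ≠ 0 → j ≠ 0 → i ≠ j → ∀ e : Fin 2 → ZMod 3,
    Tv (th i j) j * xe i j e = xe i j ![e 0 - e 1, e 1] * Tv (th i j) j := by decide +kernel

theorem row_cj : ∀ a b c : Fin 4, a ≠ 0 → b ≠ 0 → a ≠ b → c ≠ 0 →
    Tv 0 c * Tv a b = Tv a b * (Tv 0 c * Tv 0 (if c = a then b else 0)) := by decide +kernel

theorem tv_self (i : Fin 4) : Tv i i = 1 := dif_neg (not_not.2 rfl)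

theorem al1 : Function.Surjective fun e : Fin 2 → ZMod 3 => ![e 0, e 1 - e 0] := by decide

theorem al2 : Function.Surjective fun e : Fin 2 → ZMod 3 => ![e 0 - e 1, e 1] := by decide

theorem du1 : ∀ χ e : Fin 2 → ZMod 3, ![χ 0 + χ 1, χ 1] ⬝ᵥ ![e 0, e 1 - e 0] = χ ⬝ᵥ e := by decide

theorem du2 : ∀ χ e : Fin 2 → ZMod 3, ![χ 0, χ 0 + χ 1] ⬝ᵥ ![e 0 - e 1, e 1] = χ ⬝ᵥ e := by decide

variable {π : G0 →* M56 (ZMod 2)} {φ : SL(4, ZMod 3) →* G0}

theorem mem_row {v : Fin 56 → K} :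
    v ∈ Fix π (rowS φ) ↔ ∀ c, act π (φ (Tv 0 c)) v = v := by
  rw [mem_Fix]
  constructor
  · intro h c
    fin_cases c
    · simp [tv_self]
    · exact h _ (by simp [rowS])
    · exact h _ (by simp [rowS])
    · exact h _ (by simp [rowS])
  · rintro h g (rfl | rfl | rfl) <;> exact h _

theorem inv_tv {a b : Fin 4} (ha : a ≠ 0) (hb : b ≠ 0) (hab : a ≠ b) :
    Inv π (φ (Tv a b)) (Fix π (rowS φ)) := by
  intro v hv
  rw [mem_row] at hv ⊢
  intro c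
  by_cases hc : c = 0
  · simp [hc, tv_self]
  · rw [← Module.End.mul_apply, ← map_mul, ← map_mul, row_cj a b c ha hb hab hc]
    simp only [map_mul, Module.End.mul_apply, hv]

theorem inv_mul {g h : G0} {W : Submodule K (Fin 56 → K)} (hg : Inv π g W) (hh : Inv π h W) :
    Inv π (g * h) W := fun v hv => by
  rw [map_mul, Module.End.mul_apply]
  exact hg _ (hh v hv)

theorem inv_pow {g : G0} {W : Submodule K (Fin 56 → K)} (hg : Inv π g W) (n : ℕ) :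
    Inv π (g ^ n) W := by
  induction n with
  | zero => intro v hv; simpa using hv
  | succ n ih => rw [pow_succ]; exact inv_mul ih hg

theorem exists_root : ∃ ζ : Kˣ, IsPrimitiveRoot ζ 3 := by
  have : NeZero ((3 : ℕ) : K) := ⟨fun h => by
    have := (CharP.cast_eq_zero_iff K 2 3).1 h
    omega⟩
  obtain ⟨z, hz⟩ := HasEnoughRootsOfUnity.exists_primitiveRoot K 3
  exact ⟨(hz.isUnit (by decide)).unit, IsPrimitiveRoot.coe_units_iff.1 (by simpa using hz)⟩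

theorem l43b (wt : WtStmt) (kit : KitStmt) : L43bStmt := by
  intro π φ h4 i j hi hj
  by_cases hij : i = j
  · intro v _
    rw [mem_eig, hij, tv_self]
    simp
  obtain ⟨ζ, hζ⟩ := exists_root
  obtain ⟨k0, ki, kj⟩ := th_ne i j hi hj hij
  let x : Multiplicative (Fin 2 → ZMod 3) →* G0 :=
    φ.comp (MonoidHom.mk' (fun e => xe i j e.toAdd) fun e e' => xe_add i j hi hj hij _ _)
  have hx : ∀ e, x (ofAdd e) = φ (xe i j e) := fun _ => rfl
  have hinv : ∀ e, Inv π (x e) (Fix π (rowS φ)) := fun e => by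
    change Inv π (φ (xe i j e.toAdd)) _
    rw [xe, map_mul, map_pow, map_pow]
    exact inv_mul (inv_pow (inv_tv hi hj hij) _) (inv_pow (inv_tv hi k0 ki) _)
  have hs := wt (Fin 56) π 2 3 ζ x _ hζ hinv ∅ fun _ => 0
  rw [show (⨅ e ∈ (∅ : Finset (Fin 2 → ZMod 3)), eig π (x (ofAdd e))
      ((ζ ^ ((fun _ => 0 : (Fin 2 → ZMod 3) → ZMod 3) e).val : Kˣ) : K)) = ⊤ by simp, inf_top_eq, h4,
    Finset.filter_true_of_mem (by simp)] at hs
  have k := (kit (Fin 56) π).2.2.2.2.2 2 3 ζ x (Fix π (rowS φ))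
  have h0 := nine (fun χ => finrank K (Fix π (rowS φ) ⊓ wsp π ζ x χ : Submodule K _))
    (fun χ => k _ _ χ _ (inv_tv hj k0 kj) al1 (fun e => by
      rw [hx, hx, mul_inv_eq_iff_eq_mul, ← map_mul, ← map_mul, cj1 i j hi hj hij]) (du1 χ))
    (fun χ => k _ _ χ _ (inv_tv k0 hj kj.symm) al2 (fun e => by
      rw [hx, hx, mul_inv_eq_iff_eq_mul, ← map_mul, ← map_mul, cj2 i j hi hj hij]) (du2 χ))
    hs.symm
  have he := Submodule.eq_of_le_of_finrank_eq (inf_le_left (b := wsp π ζ x ![0, 0]))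
    (h0.trans h4.symm)
  intro v hv
  rw [← he] at hv
  have := (Submodule.mem_iInf _).1 hv.2 ![1, 0]
  rw [hx, xe_one] at this
  simpa using this

end Cfsg.Agent.H69.E72L43b
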