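import Cfsg.Agent.H50.E83Defs

/-! Two commuting quaternion actions force the dimension to be divisible by four. -/

set_option autoImplicit false

namespace Cfsg.Agent.H69.E83Div4

open Module Cfsg.Agent.H50.E83

theorem half {F W : Type*} [Field F] [AddCommGroup W] [Module F W] [FiniteDimensional F W]
    (two : (2 : F) ≠ 0) {i : F} (hi : i * i = -1) {I J : End F W} (hI : ∀ w, I (I w) = -w)
    (hJ : ∀ w, J (J w) = -w) (h : ∀ w, I (J (I (J w))) = -w) :
    finrank F W = 2 * finrank F (I.eigenspace i) := by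
  have ac : ∀ w, I (J w) = -J (I w) := fun w => by
    have := congrArg I (h (J w))
    rw [hI, hJ w, map_neg, map_neg, neg_neg, map_neg] at this
    rw [this, neg_neg]
  have i0 : i ≠ 0 := fun e => by simp [e] at hi
  let φ : (I.eigenspace i × I.eigenspace i) →ₗ[F] W :=
    (I.eigenspace i).subtype.coprod (J ∘ₗ (I.eigenspace i).subtype)
  have h1 : Function.Injective φ := by
    rw [injective_iff_map_eq_zero]
    rintro ⟨⟨u, hu⟩, ⟨v, hv⟩⟩ e
    change u + J v = 0 at e
    have hu' := End.mem_eigenspace_iff.1 hu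
    have hv' := End.mem_eigenspace_iff.1 hv
    have e1 := congrArg I e
    rw [map_add, hu', ac, hv', map_smul, map_zero, eq_neg_of_add_eq_zero_right e] at e1
    have e2 : u = 0 := (smul_eq_zero.1 (show (2 * i) • u = 0 by rw [← e1]; module)).resolve_left
      (mul_ne_zero two i0)
    have e3 := congrArg J e
    rw [e2, zero_add, hJ, map_zero, neg_eq_zero] at e3
    exact Prod.ext (Subtype.ext e2) (Subtype.ext e3)
  have h2 : Function.Surjective φ := fun w => by
    refine ⟨(⟨(2 : F)⁻¹ • (w - i • I w), End.mem_eigenspace_iff.2 ?_⟩,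
      ⟨(2 : F)⁻¹ • -J (w + i • I w), End.mem_eigenspace_iff.2 ?_⟩), ?_⟩
    · rw [map_smul, map_sub, map_smul, hI, smul_comm i, smul_sub i, smul_smul i, hi]
      module
    · rw [map_smul, map_neg, ac, map_add I, map_smul, hI, smul_comm i, smul_neg i (J _),
        ← map_smul J i, smul_add i, smul_smul i, hi]
      simp only [map_add, map_smul, map_neg]
      module
    · change (2 : F)⁻¹ • (w - i • I w) + J ((2 : F)⁻¹ • -J (w + i • I w)) = w
      rw [map_smul, map_neg, hJ, neg_neg, ← smul_add, sub_add_add_cancel, ← two_smul F,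
        inv_smul_smul₀ two]
  rw [← (LinearEquiv.ofBijective φ ⟨h1, h2⟩).finrank_eq, finrank_prod, two_mul]

theorem div4 : Div4Stmt := by
  intro W _ _ _ I J I' J' h1 h2 h3 h4 h5 h6 c1 c2 _ _
  have two : (2 : K) ≠ 0 := fun h =>
    absurd ((CharP.cast_eq_zero_iff K 3 2).1 (by exact_mod_cast h)) (by decide)
  obtain ⟨i, hi⟩ := IsAlgClosed.exists_eq_mul_self (-1 : K)
  have m1 := End.mapsTo_genEigenspace_of_comm c1 i 1
  have m2 := End.mapsTo_genEigenspace_of_comm c2 i 1
  have e1 := half two hi.symm (LinearMap.congr_fun h1) (LinearMap.congr_fun h2)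
    (LinearMap.congr_fun h3)
  have e2 := half two hi.symm (I := I'.restrict m1) (J := J'.restrict m2)
    (fun w => Subtype.ext (LinearMap.congr_fun h4 w.1))
    (fun w => Subtype.ext (LinearMap.congr_fun h5 w.1))
    (fun w => Subtype.ext (LinearMap.congr_fun h6 w.1))
  exact ⟨_, e1.trans ((congrArg (2 * ·) e2).trans (mul_assoc 2 2 _).symm)⟩

end Cfsg.Agent.H69.E83Div4
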