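import Mathlib
import Cfsg.Agent.H69.FisE1
import Cfsg.Agent.H41.Transfer
import Cfsg.Agent.H41.Exist
import Cfsg.Agent.H99.FiO8
import Cfsg.Agent.H84.FiConv
import Cfsg.Agent.H50.Models

/-!
# The tower `Tw 1`, `Tw 2`, `Tw 3` consists of the types `M(22)`, `M(23)`, `M(24)`
-/

set_option autoImplicit false

namespace Cfsg.Agent.H69.FisE

open Cfsg Cfsg.Agent.H50
open scoped H28

universe u

section
variable {G : Type*} [Group G] {E : Set G}

/-- conjugation by a point -/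
def cp (h : H50.FS E) (x : E) : Equiv.Perm E :=
  Function.Involutive.toPerm (fun y => ⟨x * y * x, h.conj _ x.2 _ y.2⟩)
    fun _ => Subtype.ext (iconj_iconj (h.sq _ x.2))

theorem cp_apply (h : H50.FS E) (x y : E) : (cp h x y : G) = x * y * x := rfl

theorem cp_fix (h : H50.FS E) {x y : E} : cp h x y = y ↔ Commute (x : G) y := by
  rw [Subtype.ext_iff, cp_apply, commute_iff_conj_eq (h.sq _ x.2)]

/-- the Fischer space of a primitive class -/
def fsOf (h : RP E) : H41.FS E where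
  T := cp h.fs
  sq x := Equiv.ext fun y => Subtype.ext (iconj_iconj (h.fs.sq _ x.2))
  conj x y := Equiv.ext fun z => Subtype.ext (by
    simp only [Equiv.Perm.mul_apply, cp_apply, mul_assoc])
  self x := (cp_fix h.fs).2 (Commute.refl _)
  three x y := by
    by_cases c : Commute (x : G) y
    · exact Or.inl ((cp_fix h.fs).2 c)
    · exact Or.inr (Subtype.ext (h.fs.br _ x.2 _ y.2 c))
  inj x y e := Subtype.ext (h.th _ x.2 _ y.2 fun z hz => by
    rw [← cp_fix h.fs (x := x) (y := ⟨z, hz⟩), ← cp_fix h.fs (x := y) (y := ⟨z, hz⟩), e])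

theorem fsOf_nb (h : RP E) {x y : E} : y ∈ (fsOf h).nb x ↔ (y : G) ∈ Dx E x :=
  ⟨fun c => ⟨y.2, fun e => c.1 (Subtype.ext e), (cp_fix h.fs).1 c.2⟩,
    fun c => ⟨fun e => c.2.1 (congrArg Subtype.val e), (cp_fix h.fs).2 c.2.2⟩⟩

/-- `E` is a copy of the space `F` -/
def Iso {X : Type*} (F : H41.FS X) (E : Set G) : Prop :=
  ∃ ψ : X → G, Function.Injective ψ ∧ Set.range ψ = E ∧ ∀ p q, ψ (F.T p q) = ψ p * ψ q * ψ p

variable {X : Type*} {F : H41.FS X}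

theorem Iso.ncard (h : Iso F E) : E.ncard = Nat.card X := by
  obtain ⟨ψ, h1, rfl, -⟩ := h
  exact Set.ncard_range_of_injective h1

theorem loc_of (h : RP E) (hI : ∀ d ∈ E, Iso F (Dx E d)) : F.Loc (fsOf h) := fun d => by
  obtain ⟨ψ, h1, h2, h3⟩ := hI d d.2
  have hm : ∀ p, ψ p ∈ Dx E d := fun p => h2 ▸ ⟨p, rfl⟩
  refine ⟨fun p => ⟨ψ p, (hm p).1⟩, H41.FS.Emb.chart ⟨fun p q e => h1 (congrArg Subtype.val e),
    fun p q => Subtype.ext (h3 p q)⟩ (Set.ext fun y => ?_)⟩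
  rw [fsOf_nb, ← h2]
  exact ⟨by rintro ⟨p, rfl⟩; exact ⟨p, rfl⟩, fun ⟨p, hp⟩ => ⟨p, Subtype.ext hp⟩⟩

theorem conn_of (h : RP E) : (fsOf h).Conn := by
  rintro W ⟨w, hw⟩ hW x
  have key : ∀ b, CConn E w b → ∀ hb : b ∈ E, (⟨b, hb⟩ : E) ∈ W := fun b c => by
    induction c with
    | refl => exact fun _ => hw
    | tail _ c ih =>
      rename_i a b _
      intro hb
      by_cases e : b = a
      · subst e; exact ih hb
      · exact hW _ (ih c.1) ((fsOf_nb h).2 ⟨hb, e, c.2.2⟩)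
  exact key x (h.cconn _ w.2 _ x.2) x.2

theorem iso_of (h : RP E) (hΦ : ∃ Φ, F.Emb (fsOf h) Φ ∧ Function.Surjective Φ) : Iso F E := by
  obtain ⟨Φ, h1, h2⟩ := hΦ
  refine ⟨fun p => Φ p, Subtype.val_injective.comp h1.inj, Set.ext fun y => ⟨?_, fun hy => ?_⟩,
    fun p q => congrArg Subtype.val (h1.map p q)⟩
  · rintro ⟨p, rfl⟩; exact (Φ p).2
  · obtain ⟨p, hp⟩ := h2 ⟨y, hy⟩
    exact ⟨p, congrArg Subtype.val hp⟩

theorem tt_of (h : H50.FS E) (ht : Subgroup.closure E = ⊤) : H41.TT E :=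
  ⟨h.sq, fun a ha b hb => or_iff_not_imp_left.2 (h.br a ha b hb),
    fun g d hd => h.conj_closure (ht ▸ Subgroup.mem_top g) d hd, ht⟩

theorem Iso.model (hI : Iso F E) (h : H50.FS E) (ht : Subgroup.closure E = ⊤) (hZ : Subgroup.center G = ⊥) :
    ∃ e : F.grp ≃* G, E = Set.range fun p => e (F.t p) := by
  obtain ⟨ψ, h1, h2, h3⟩ := hI
  have hm : ∀ p, ψ p ∈ E := fun p => h2 ▸ ⟨p, rfl⟩
  obtain ⟨e, he⟩ := (tt_of h ht).model hZ (F := F) (Φ := fun p => ⟨ψ p, hm p, h.ne_one _ (hm p)⟩)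
    ⟨fun p q e => h1 (congrArg Subtype.val e), fun p q => Subtype.ext (by
      change ψ _ = ψ p * ψ q * (ψ p)⁻¹
      rw [h3, inv_eq_of_mul_self (h.sq _ (hm p))])⟩ (fun y => by
      obtain ⟨p, hp⟩ : (y : G) ∈ Set.range ψ := h2 ▸ y.2.1
      exact ⟨p, Subtype.ext hp⟩)
  exact ⟨e, Set.ext fun y => (and_iff_left_of_imp (h.ne_one y)).symm.trans (he y)⟩

theorem isU_sub {n : ℕ} (h : IsU E n) : IsU (sub E) n :=
  let ⟨V, i1, i2, i3, B, h1, h2, _, hp⟩ := h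
  let ⟨q, _, hq⟩ := hp.sub
  ⟨V, i1, i2, i3, B, h1, h2, q, hq⟩

variable [Finite G]

theorem iso21_top (h : RP E) (hU : IsU E 6) (ht : Subgroup.closure E = ⊤) : Iso H41.L21.F E := by
  obtain ⟨e0, -⟩ := H84.isU_quot_equiv hU h.fs ht (by norm_num)
  have hT : H41.TT ((QuotientGroup.mk' (Subgroup.center G)) '' E) := by
    refine ⟨?_, ?_, ?_, ?_⟩
    · rintro _ ⟨x, hx, rfl⟩
      rw [← map_mul, h.fs.sq x hx, map_one]
    · rintro _ ⟨x, hx, rfl⟩ _ ⟨y, hy, rfl⟩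
      simp only [← map_mul]
      exact ((tt_of h.fs ht).three x hx y hy).imp (congrArg _) (congrArg _)
    · rintro g _ ⟨x, hx, rfl⟩
      obtain ⟨g, rfl⟩ := QuotientGroup.mk'_surjective _ g
      exact ⟨g * x * g⁻¹, (tt_of h.fs ht).conj g x hx, by simp only [map_mul, map_inv]⟩
    · rw [← MonoidHom.map_closure, ht, Subgroup.map_top_of_surjective _ (QuotientGroup.mk'_surjective _)]
  obtain ⟨e, he⟩ := H41.model21 hT H28.card_K4 e0
  choose x hx hx' using fun p => ((he _).mpr ⟨p, rfl⟩).1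
  have inj : ∀ a ∈ E, ∀ b ∈ E, QuotientGroup.mk' (Subgroup.center G) a = QuotientGroup.mk' (Subgroup.center G) b →
      a = b := fun a ha b hb e => by
    obtain ⟨z, hz, rfl⟩ := (QuotientGroup.mk'_eq_mk' _).1 e
    refine h.th _ ha _ hb fun w _ => ?_
    have hz' : Commute z w := (Subgroup.mem_center_iff.1 hz w).symm
    exact ⟨fun c => c.mul_left hz', fun c => by simpa using c.mul_left hz'.inv_left⟩
  refine ⟨x, fun p q c => H41.L21.F.inj (congrArg Subtype.val (e.injective ((hx' p).symm.trans (c ▸ hx' q)))),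
    Set.ext fun y => ⟨?_, fun hy => ?_⟩, fun p q => inj _ (hx _) _ (h.fs.conj _ (hx p) _ (hx q)) ?_⟩
  · rintro ⟨p, rfl⟩; exact hx p
  · obtain ⟨p, hp⟩ := (he _).mp ⟨⟨y, hy, rfl⟩, fun c => by
      obtain ⟨w, -, hw⟩ := h.exists_not_commute' hy
      exact hw (Subgroup.mem_center_iff.1 ((QuotientGroup.eq_one_iff _).1 c) w).symm⟩
    exact ⟨p, inj _ (hx p) _ hy ((hx' p).trans hp)⟩
  · rw [map_mul, map_mul, hx', hx', hx', ← map_mul, ← map_mul]
    exact congrArg e (Subtype.ext (H41.L21.F.conj p q))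

theorem iso21 (h : Tw 0 E) : Iso H41.L21.F E := by
  obtain ⟨ψ, h1, h2, h3⟩ := iso21_top h.1.sub (isU_sub h.2) (closure_sub E)
  refine ⟨fun p => ψ p, Subtype.val_injective.comp h1, Set.ext fun y => ⟨?_, fun hy => ?_⟩,
    fun p q => congrArg Subtype.val (h3 p q)⟩
  · rintro ⟨p, rfl⟩
    exact (h2 ▸ ⟨p, rfl⟩ : ψ p ∈ sub E)
  · obtain ⟨p, hp⟩ : (⟨y, Subgroup.subset_closure hy⟩ : Subgroup.closure E) ∈ Set.range ψ := h2 ▸ hy
    exact ⟨p, congrArg Subtype.val hp⟩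

theorem iso22 (h : Tw 1 E) : Iso H41.L22.F E :=
  let ⟨a, ha, _⟩ := h.1.two
  iso_of h.1 (H41.Amb.up22 (loc_of h.1 fun d hd => iso21 (h.2 d hd)) (conn_of h.1) ⟨a, ha⟩)

theorem iso23 (h : Tw 2 E) : Iso H41.L23.F E :=
  let ⟨a, ha, _⟩ := h.1.two
  iso_of h.1 (H41.Amb.up23 (loc_of h.1 fun d hd => iso22 (h.2 d hd)) (conn_of h.1) ⟨a, ha⟩)

theorem iso24 (h : Tw 3 E) : Iso H41.L24.F E := by
  obtain ⟨a, ha, -⟩ := h.1.two
  have hL := loc_of h.1 fun d hd => iso23 (h.2 d hd)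
  obtain ⟨φ, hφ⟩ := hL ⟨a, ha⟩
  have hd : φ 0 ∈ (fsOf h.1).nb ⟨a, ha⟩ := hφ.mem trivial
  obtain ⟨c, hc, hdc⟩ := H41.FS.loc_nt H41.L23.lm hL hd
  exact iso_of h.1 (up24' hL (conn_of h.1) (H41.FS.nb_comm.mp hd) hc hdc)

theorem ncard_tw0 (h : Tw 0 E) : E.ncard = 693 := by simpa using (iso21 h).ncard

theorem ncard_tw1 (h : Tw 1 E) : E.ncard = 3510 := by simpa using (iso22 h).ncard

theorem ncard_tw2 (h : Tw 2 E) : E.ncard = 31671 := by simpa using (iso23 h).ncard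

theorem ncard_tw3 (h : Tw 3 E) : E.ncard = 306936 := by simpa using (iso24 h).ncard

end

theorem tw : TwStmt.{u} := fun _ _ _ _ ht hZ =>
  ⟨fun h => by
    obtain ⟨e, rfl⟩ := (iso22 h).model h.1.fs ht hZ
    exact H41.type22_of H99.a22 e,
  fun h => by
    obtain ⟨e, rfl⟩ := (iso23 h).model h.1.fs ht hZ
    exact H41.type23_of H99.a22 H99.a23 e,
  fun h => by
    obtain ⟨e, rfl⟩ := (iso24 h).model h.1.fs ht hZ
    exact H41.type24_of H99.a22 H99.a23 H99.a24 e⟩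

end Cfsg.Agent.H69.FisE
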