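import Cfsg.Agent.H98.GbL

/-! Project GB (S4536), piece BLK: unions of `Cl`-classes of Green's characters are unions of
blocks. -/

set_option autoImplicit false
open Cfsg Finset

namespace Cfsg.Agent.H69.GbBlk

open Cfsg.Agent.H98.GB

universe u

theorem sm_eq_zero {F : Type u} [Field F] [Fintype F] [DecidableEq F] (C : Ctx F) (hL : C.Lab)
    (Λ : C.Lb) (Γ : C.Φ) (hΓ : ¬ C.Reg Γ) : C.sm Λ Γ = 0 := by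
  unfold Ctx.sm
  refine Finset.sum_eq_zero fun φ hφ => ?_
  exact absurd ((Finset.mem_filter.1 hφ).2 ▸ hL.reg_lp φ) hΓ

theorem blk (hO : OSIStmt.{u}) (hC : COMPLStmt.{u}) (hS : BLKSStmt.{u}) (hB : BLKCStmt.{u})
    (hL : LABStmt.{u}) : BLKStmt.{u} := by
  intro F _ _ _ C n hn
  have h1 : ∀ Cs : Set C.Lb,
      (∀ Λ ∈ Cs, ∀ Λ', C.IsLab n Λ → C.IsLab n Λ' → C.Cl Λ Λ' → Λ' ∈ Cs) →
      H17.LamClosed C.M (C.XC n Cs) := by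
    intro Cs hCs
    refine (hO _ C.p C.M C.hM _).2 ?_
    rintro χ ⟨Λ, hΛ, hl, hχ⟩ ψ hψ
    obtain ⟨Λ', hl', hψ'⟩ := hC F C n hn ψ
    have hn' : ¬ C.Cl Λ Λ' := fun h => hψ ⟨Λ', hCs Λ hΛ Λ' hl hl' h, hl', hψ'⟩
    rw [hχ, hψ']
    unfold Ctx.Cl at hn'
    push Not at hn'
    obtain ⟨Γ, hΓ, h⟩ := hn'
    by_cases hs : C.sm Λ Γ = C.sm Λ' Γ
    · exact hB F C n hn Λ Λ' hl hl' Γ hΓ (h hs)
    · exact hS F C n hn Λ Λ' hl hl' Γ hs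
  refine ⟨h1, fun Λ0 => h1 _ ?_, fun Γ => h1 _ ?_⟩
  · intro Λ hΛ Λ' _ _ h Γ hΓ
    exact ⟨(hΛ Γ hΓ).1.trans (h Γ hΓ).1, (hΛ Γ hΓ).2.trans (h Γ hΓ).2⟩
  · intro Λ hΛ Λ' hl hl' h
    have hLab := hL F C
    rw [hLab.sup_iff Λ Γ hl.1] at hΛ
    rw [hLab.sup_iff Λ' Γ hl'.1]
    intro Γ' hΓ'
    by_cases hr : C.Reg Γ'
    · rw [← (h Γ' hr).1]; exact hΛ Γ' hΓ'
    · exact sm_eq_zero C hLab Λ' Γ' hr

end Cfsg.Agent.H69.GbBlk
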