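import Mathlib

/-! Elements of order three with one Jordan block of size three: linear algebra over `𝔽₃`. -/

set_option autoImplicit false
set_option linter.unusedSectionVars false

namespace Cfsg.Agent.H69.J3

open Module Subgroup

abbrev F3 := ZMod 3

variable {S : Type*} [Group S] {E : Type*} [AddCommGroup E] [Module F3 E]
  (ρ : Representation F3 S E)

theorem mul_app (g h : S) (v : E) : ρ (g * h) v = ρ g (ρ h v) := by rw [map_mul]; rfl

theorem one_app (v : E) : ρ 1 v = v := by rw [map_one]; rfl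

theorem cj_app (g a : S) (v : E) : ρ (g * a * g⁻¹) (ρ g v) = ρ g (ρ a v) := by
  rw [← mul_app, inv_mul_cancel_right, mul_app]

theorem three (v : E) : v + v + v = 0 := by
  have : (3 : F3) • v = 0 := by rw [show (3 : F3) = 0 from rfl, zero_smul]
  rw [← this, show (3 : F3) = 1 + 1 + 1 from rfl, add_smul, add_smul, one_smul]

/-- `[E, g]` -/
def Dm (g : S) : Submodule F3 E := LinearMap.range (ρ g - 1)

theorem mem_Dm (g : S) (v : E) : ρ g v - v ∈ Dm ρ g := ⟨v, rfl⟩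

/-- the elements acting trivially on `E / V` -/
def Sub (V : Submodule F3 E) : Subgroup S where
  carrier := {g | ∀ v, ρ g v - v ∈ V}
  one_mem' v := by simp
  mul_mem' {g h} hg hh v := by
    rw [mul_app, ← sub_add_sub_cancel _ (ρ h v)]; exact V.add_mem (hg _) (hh _)
  inv_mem' {g} hg v := by
    have := V.neg_mem (hg (ρ g⁻¹ v))
    rwa [← mul_app, mul_inv_cancel, one_app, neg_sub] at this

/-- the pointwise stabiliser -/
def Fix (V : Submodule F3 E) : Subgroup S where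
  carrier := {g | ∀ v ∈ V, ρ g v = v}
  one_mem' v _ := one_app ρ v
  mul_mem' {g h} hg hh v hv := by rw [mul_app, hh v hv, hg v hv]
  inv_mem' {g} hg v hv := by
    conv_lhs => rw [← hg v hv, ← mul_app, inv_mul_cancel, one_app]

variable {ρ}

theorem sub_of_le {g : S} {V : Submodule F3 E} (h : Dm ρ g ≤ V) : g ∈ Sub ρ V :=
  fun v => h (mem_Dm ρ g v)

theorem sub_mono {V W : Submodule F3 E} (h : V ≤ W) : Sub ρ V ≤ Sub ρ W := fun _ hg v => h (hg v)

theorem sub_inv {g : S} {V : Submodule F3 E} (h : g ∈ Sub ρ V) {v : E} (hv : v ∈ V) :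
    ρ g v ∈ V := by simpa using V.add_mem (h v) hv

theorem sub_cj {g x : S} {V : Submodule F3 E} (h : g ∈ Sub ρ V) (hx : ∀ v ∈ V, ρ x v ∈ V) :
    x * g * x⁻¹ ∈ Sub ρ V := fun v => by
  have := hx _ (h (ρ x⁻¹ v))
  rwa [map_sub, ← cj_app, ← mul_app ρ x, mul_inv_cancel, one_app] at this

theorem unip (hρ : Function.Injective ρ) {g : S} {V : Submodule F3 E} (h : g ∈ Sub ρ V)
    (h' : g ∈ Fix ρ V) : g ^ 3 = 1 := hρ (LinearMap.ext fun v => by
  have e := h' _ (h v)
  rw [map_sub, sub_eq_iff_eq_add] at e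
  rw [one_app, pow_succ, pow_two, mul_app, mul_app, e, map_add, h' _ (h v), e,
    ← sub_eq_zero]
  convert three (ρ g v - v) using 1
  abel)

theorem finrank_cj [Finite E] (x g : S) : finrank F3 (Dm ρ (x * g * x⁻¹)) ≤ finrank F3 (Dm ρ g) := by
  refine le_trans (Submodule.finrank_mono ?_) (Submodule.finrank_map_le (ρ x) _)
  rintro _ ⟨v, rfl⟩
  refine ⟨_, mem_Dm ρ g (ρ x⁻¹ v), ?_⟩
  rw [map_sub, ← cj_app, ← mul_app ρ x, mul_inv_cancel, one_app]; rfl

theorem eq_one_of_cube [Finite S] {K : Subgroup S} (hK : (Nat.card K).Coprime 3) {g : S}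
    (hg : g ∈ K) (h : g ^ 3 = 1) : g = 1 :=
  orderOf_eq_one_iff.1 (Nat.eq_one_of_dvd_coprimes hK (K.orderOf_dvd_natCard hg)
    (orderOf_dvd_of_pow_eq_one h))

theorem card_dvd [Finite S] [Finite E] (hρ : Function.Injective ρ) {V : Submodule F3 E}
    {K : Subgroup S} (h : K ≤ Sub ρ V) (hK : (Nat.card K).Coprime 3) :
    Nat.card K ∣ ∏ i : Fin (finrank F3 V), (3 ^ finrank F3 V - 3 ^ (i : ℕ)) := by
  let σ := Representation.subrepresentation (ρ.comp K.subtype) V
    fun g v hv => sub_inv (h g.2) hv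
  let φ : K →* Matrix (Fin (finrank F3 V)) (Fin (finrank F3 V)) F3 :=
    (LinearMap.toMatrixAlgEquiv (Module.finBasis F3 V)).toMulEquiv.toMonoidHom.comp σ
  have hφ : Function.Injective φ.toHomUnits := (injective_iff_map_eq_one _).2 fun x e => by
    have e' : σ x = 1 := (LinearMap.toMatrixAlgEquiv (Module.finBasis F3 V)).injective
      ((congrArg Units.val e).trans (map_one _).symm)
    exact Subtype.ext (eq_one_of_cube hK x.2 (unip hρ (h x.2) fun v hv =>
      congrArg Subtype.val (LinearMap.congr_fun e' ⟨v, hv⟩)))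
  have h2 := Matrix.card_GL_field (𝔽 := F3) (finrank F3 V)
  rw [ZMod.card] at h2
  exact h2 ▸ card_dvd_of_injective _ hφ

theorem card_dvd4 [Finite S] [Finite E] (hρ : Function.Injective ρ) {V : Submodule F3 E}
    {K : Subgroup S} (h : K ≤ Sub ρ V) (hK : (Nat.card K).Coprime 3) (hV : finrank F3 V ≤ 4) :
    Nat.card K ∣ 2 ^ 9 * 5 * 13 := by
  refine (hK.pow_right 6).dvd_of_dvd_mul_left ((card_dvd hρ h hK).trans ?_)
  generalize finrank F3 V = n at *
  interval_cases n <;> decide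

theorem card_dvd5 [Finite S] [Finite E] (hρ : Function.Injective ρ) {V : Submodule F3 E}
    {K : Subgroup S} (h : K ≤ Sub ρ V) (hK : (Nat.card K).Coprime 3) (hV : finrank F3 V ≤ 5) :
    Nat.card K ∣ 2 ^ 10 * 5 * 11 ^ 2 * 13 := by
  refine (hK.pow_right 10).dvd_of_dvd_mul_left ((card_dvd hρ h hK).trans ?_)
  generalize finrank F3 V = n at *
  interval_cases n <;> decide

/-! ### Weight vectors -/

variable (ρ) in
/-- weight vectors -/
def Wv (A : Subgroup S) (v : E) : Prop := ∀ a ∈ A, ∃ c : F3, ρ a v = c • v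

variable (ρ) in
/-- different weights -/
def Sep (A : Subgroup S) (v w : E) : Prop :=
  ∃ a ∈ A, ∃ c d : F3, c ≠ d ∧ ρ a v = c • v ∧ ρ a w = d • w

variable {A : Subgroup S} {g : S} {u v w : E}

theorem Wv.smul (h : Wv ρ A v) (c : F3) : Wv ρ A (c • v) := fun a ha =>
  (h a ha).imp fun d e => by rw [map_smul, e, smul_comm]

theorem Wv.cj (h : Wv ρ A v) (hg : g ∈ normalizer (A : Set S)) : Wv ρ A (ρ g v) := fun a ha => by
  obtain ⟨c, e⟩ := h _ ((mem_normalizer_iff''.1 hg a).1 ha)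
  exact ⟨c, by rw [← map_smul, ← e, ← mul_app, ← mul_app]; congr 2; group⟩

theorem Sep.symm (h : Sep ρ A v w) : Sep ρ A w v :=
  let ⟨a, ha, c, d, n, e, f⟩ := h; ⟨a, ha, d, c, n.symm, f, e⟩

theorem Sep.smul (h : Sep ρ A v w) (c d : F3) : Sep ρ A (c • v) (d • w) :=
  let ⟨a, ha, x, y, n, e, f⟩ := h
  ⟨a, ha, x, y, n, by rw [map_smul, e, smul_comm], by rw [map_smul, f, smul_comm]⟩

theorem Sep.cj (h : Sep ρ A v w) (hg : g ∈ normalizer (A : Set S)) :
    Sep ρ A (ρ g v) (ρ g w) :=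
  let ⟨a, ha, x, y, n, e, f⟩ := h
  ⟨_, (mem_normalizer_iff.1 hg a).1 ha, x, y, n, by rw [cj_app, e, map_smul],
    by rw [cj_app, f, map_smul]⟩

theorem Sep.trans (h : Sep ρ A v w) (hu : Wv ρ A u) (n : ¬ Sep ρ A u v) : Sep ρ A u w := by
  obtain ⟨a, ha, x, y, m, e, f⟩ := h
  obtain ⟨c, hc⟩ := hu a ha
  by_cases k : c = x
  · exact ⟨a, ha, c, y, k ▸ m, hc, f⟩
  · exact absurd ⟨a, ha, c, x, k, hc, e⟩ n

theorem not_sep (h : v ≠ 0) : ¬ Sep ρ A v v := fun ⟨_, _, _, _, m, e, f⟩ =>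
  m (smul_left_injective F3 h (e.symm.trans f))

theorem indep {ι : Type*} (s : Finset ι) : ∀ (x : E) (y : ι → E),
    (∀ i ∈ s, Wv ρ A (y i) ∧ Sep ρ A x (y i)) → x = ∑ i ∈ s, y i → x = 0 := by
  classical
  induction s using Finset.induction_on with
  | empty => intro x y _ h; simpa using h
  | insert j s hj ih =>
    intro x y hy h
    obtain ⟨a, ha, c, d, n, e, e'⟩ := (hy j (Finset.mem_insert_self _ _)).2
    choose! k hk using fun i (hi : i ∈ s) => (hy i (Finset.mem_insert_of_mem hi)).1 a ha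
    have h1 := ih ((c - d) • x) (fun i => (k i - d) • y i) (fun i hi =>
      ⟨(hy i (Finset.mem_insert_of_mem hi)).1.smul _,
        (hy i (Finset.mem_insert_of_mem hi)).2.smul _ _⟩) (by
        rw [sub_smul, ← e]
        conv_lhs => rw [h]
        rw [Finset.sum_insert hj, map_add, smul_add, e', map_sum,
          Finset.smul_sum, add_sub_add_left_eq_sub, ← Finset.sum_sub_distrib]
        exact Finset.sum_congr rfl fun i hi => by rw [hk i hi, sub_smul])
    exact (smul_eq_zero.1 h1).resolve_left (sub_ne_zero.2 n)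

theorem indep4 {x y₁ y₂ y₃ y₄ : E} (h₁ : Wv ρ A y₁ ∧ Sep ρ A x y₁) (h₂ : Wv ρ A y₂ ∧ Sep ρ A x y₂)
    (h₃ : Wv ρ A y₃ ∧ Sep ρ A x y₃) (h₄ : Wv ρ A y₄ ∧ Sep ρ A x y₄) (h : x = y₁ + y₂ + y₃ + y₄) :
    x = 0 :=
  indep Finset.univ x ![y₁, y₂, y₃, y₄] (fun i _ => by fin_cases i <;> assumption)
    (by simpa [Fin.sum_univ_four] using h)

theorem span_wv [Finite S] (h2 : ∀ a ∈ A, a * a = 1) {U P : Submodule F3 E}
    (hU : ∀ a ∈ A, ∀ v ∈ U, ρ a v ∈ U) (hP : ∀ w ∈ U, Wv ρ A w → w ∈ P) : U ≤ P := by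
  classical
  have cm : ∀ a ∈ A, ∀ b ∈ A, a * b = b * a := fun a ha b hb => by
    rw [← inv_eq_of_mul_eq_one_right (h2 _ (A.mul_mem ha hb)), mul_inv_rev,
      inv_eq_of_mul_eq_one_right (h2 a ha), inv_eq_of_mul_eq_one_right (h2 b hb)]
  have key : ∀ s : Finset S, ∀ w ∈ U, (∀ a ∈ A, a ∉ s → ∃ c : F3, ρ a w = c • w) → w ∈ P := by
    intro s
    induction s using Finset.induction_on with
    | empty => exact fun w hw h => hP w hw fun a ha => h a ha (by simp)
    | insert j s hj ih =>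
      intro w hw h
      by_cases jA : j ∈ A
      swap
      · exact ih w hw fun a ha n => h a ha (by
          rw [Finset.mem_insert, not_or]; exact ⟨fun e => jA (e ▸ ha), n⟩)
      have k : ∀ c : F3, c * c = 1 → w + c • ρ j w ∈ P := fun c cc =>
        ih _ (U.add_mem hw (U.smul_mem _ (hU j jA w hw))) fun a ha n => by
          by_cases e : a = j
          · refine ⟨c, ?_⟩
            rw [e, map_add, map_smul, ← mul_app, h2 j jA, one_app, smul_add, smul_smul, cc,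
              one_smul, add_comm]
          · obtain ⟨d, hd⟩ := h a ha (by rw [Finset.mem_insert, not_or]; exact ⟨e, n⟩)
            exact ⟨d, by rw [map_add, map_smul, ← mul_app, cm a ha j jA, mul_app, hd, map_smul,
              smul_add, smul_comm]⟩
      have := P.neg_mem (P.add_mem (k 1 rfl) (k (-1) rfl))
      convert this using 1
      rw [one_smul, neg_one_smul, eq_neg_iff_add_eq_zero, ← three w]
      abel
  have := Fintype.ofFinite S
  exact fun w hw => key Finset.univ w hw fun a _ n => absurd (Finset.mem_univ a) n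

variable (ρ) in
/-- the three weight vectors moved by `b` -/
structure Fr (A : Subgroup S) (b : S) (v : E) : Prop where
  b3 : b ^ 3 = 1
  nb : b ∈ normalizer (A : Set S)
  ne : v ≠ 0
  wv : Wv ρ A v
  sep : Sep ρ A v (ρ b v)
  dim : finrank F3 (Dm ρ b) ≤ 2

theorem exists_fr [Finite S] (hρ : Function.Injective ρ) (h2 : ∀ a ∈ A, a * a = 1) {b : S}
    (b3 : b ^ 3 = 1) (nb : b ∈ normalizer (A : Set S)) (hc : ¬ ∀ a ∈ A, a * b = b * a)
    (dim : finrank F3 (Dm ρ b) ≤ 2) : ∃ v, Fr ρ A b v := by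
  by_contra! k
  refine hc fun a ha => hρ (LinearMap.ext fun v => sub_eq_zero.1 ?_)
  refine span_wv (ρ := ρ) h2 (U := ⊤) (P := LinearMap.ker (ρ (a * b) - ρ (b * a))) (by simp)
    (fun w _ hw => ?_) (Submodule.mem_top (x := v))
  by_cases w0 : w = 0
  · simp [w0]
  obtain ⟨c, hc⟩ := hw a ha
  obtain ⟨d, hd⟩ := hw.cj nb a ha
  have : c = d := by
    by_contra n
    exact k w ⟨b3, nb, w0, hw, ⟨a, ha, c, d, n, hc, hd⟩, dim⟩
  rw [LinearMap.mem_ker, LinearMap.sub_apply, mul_app, mul_app, hd, hc, map_smul, this, sub_self]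

namespace Fr

variable {b : S} (h : Fr ρ A b v)
include h

theorem bbb (w : E) : ρ b (ρ b (ρ b w)) = w := by
  rw [← mul_app, ← mul_app, ← pow_two, ← pow_succ, h.b3, one_app]

theorem next : Fr ρ A b (ρ b v) :=
  ⟨h.b3, h.nb, fun e => h.ne (by rw [← h.bbb v, e, map_zero, map_zero]), h.wv.cj h.nb,
    h.sep.cj h.nb, h.dim⟩

theorem sep' : Sep ρ A v (ρ b (ρ b v)) := by
  simpa only [h.bbb] using h.next.next.sep.symm

theorem moved : ρ b v ≠ v := fun e => not_sep h.ne (e ▸ h.sep)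

theorem zero {x y z : F3} (e : x • v + y • ρ b v + z • ρ b (ρ b v) = 0) : x = 0 :=
  (smul_eq_zero.1 (indep4 ⟨h.next.wv.smul (-y), h.sep.smul _ _⟩
    ⟨h.next.next.wv.smul (-z), h.sep'.smul _ _⟩ ⟨h.next.wv.smul 0, h.sep.smul _ _⟩
    ⟨h.next.wv.smul 0, h.sep.smul _ _⟩ (by
      rw [← sub_eq_zero, ← e]; module))).resolve_right h.ne

theorem dm [Finite E] {d : E} (hd : d ∈ Dm ρ b) :
    ∃ x y : F3, d = x • (ρ b v - v) + y • (ρ b (ρ b v) - ρ b v) := by
  have li : LinearIndependent F3 ![ρ b v - v, ρ b (ρ b v) - ρ b v] :=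
    LinearIndependent.pair_iff.2 fun x y e => by
      have e1 : -x = 0 := h.zero (y := x - y) (z := y) (by rw [← e]; module)
      have e2 : y = 0 := h.next.next.zero (y := -x) (z := x - y) (by
        rw [h.bbb, ← e]; module)
      exact ⟨neg_eq_zero.1 e1, e2⟩
  have : Submodule.span F3 (Set.range ![ρ b v - v, ρ b (ρ b v) - ρ b v]) = Dm ρ b :=
    Submodule.eq_of_le_of_finrank_le (Submodule.span_le.2 (by
      rintro _ ⟨i, rfl⟩; fin_cases i <;> exact mem_Dm ρ b _))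
      (by rw [finrank_span_eq_card li]; exact h.dim)
  rw [← this, Matrix.range_cons, Matrix.range_cons, Matrix.range_empty, Set.union_empty,
    Set.singleton_union, Submodule.mem_span_pair] at hd
  obtain ⟨x, y, e⟩ := hd
  exact ⟨x, y, e.symm⟩

theorem line [Finite E] (hw : Wv ρ A w) (n : ¬ Sep ρ A w v) : ∃ c : F3, w = c • v := by
  obtain ⟨x, y, e⟩ := h.dm (mem_Dm ρ b w)
  have k : ∀ z, Sep ρ A v z → Sep ρ A (w - x • v) z := by
    rintro z ⟨a, ha, c, d, m, e1, e2⟩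
    obtain ⟨c', e3⟩ := hw a ha
    obtain rfl : c' = c := by by_contra l; exact n ⟨a, ha, c', c, l, e3, e1⟩
    exact ⟨a, ha, c', d, m, by rw [map_sub, map_smul, e3, e1, smul_sub, smul_comm], e2⟩
  have s1 : Sep ρ A v (ρ b w) := (h.sep.symm.trans (hw.cj h.nb) fun l => n (by
    simpa only [h.bbb] using (l.cj h.nb).cj h.nb)).symm
  have s2 := fun c => by simpa using (k _ h.sep).smul 1 c
  have s3 := fun c => by simpa using (k _ h.sep').smul 1 c
  exact ⟨x, sub_eq_zero.1 (indep4 ⟨hw.cj h.nb, k _ s1⟩ ⟨h.next.wv.smul (y - x), s2 _⟩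
    ⟨h.next.next.wv.smul (-y), s3 _⟩ ⟨h.next.wv.smul 0, s2 _⟩ (by
      rw [sub_eq_iff_eq_add.1 e]; module))⟩

theorem fixd [Finite E] (hw : Wv ρ A w) (s1 : Sep ρ A w v) (s2 : Sep ρ A w (ρ b v))
    (s3 : Sep ρ A w (ρ b (ρ b v))) : ρ b w = w := by
  obtain ⟨x, y, e⟩ := h.dm (mem_Dm ρ b w)
  have t1 : Sep ρ A v (ρ b w) := by simpa only [h.bbb] using (s3.cj h.nb).symm
  have e1 : x • v = 0 := indep4 ⟨(hw.cj h.nb).smul (-1), t1.smul _ _⟩ ⟨hw.smul 1, s1.symm.smul _ _⟩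
    ⟨h.next.wv.smul (x - y), h.sep.smul _ _⟩ ⟨h.next.next.wv.smul y, h.sep'.smul _ _⟩ (by
      rw [sub_eq_iff_eq_add.1 e]; module)
  have e2 : y • ρ b (ρ b v) = 0 := indep4 ⟨(hw.cj h.nb).smul 1, (s2.cj h.nb).symm.smul _ _⟩
    ⟨hw.smul (-1), s3.symm.smul _ _⟩ ⟨h.wv.smul x, h.sep'.symm.smul _ _⟩
    ⟨h.next.wv.smul (y - x), h.next.sep.symm.smul _ _⟩ (by
      rw [sub_eq_iff_eq_add.1 e]; module)
  rw [(smul_eq_zero.1 e1).resolve_right h.ne, (smul_eq_zero.1 e2).resolve_right h.next.next.ne]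
    at e
  simpa [sub_eq_zero] using e

theorem cases [Finite E] (hw : Wv ρ A w) : (∃ c : F3, w = c • v) ∨ (∃ c : F3, w = c • ρ b v) ∨
    (∃ c : F3, w = c • ρ b (ρ b v)) ∨ ρ b w = w := by
  by_cases s1 : Sep ρ A w v
  · by_cases s2 : Sep ρ A w (ρ b v)
    · by_cases s3 : Sep ρ A w (ρ b (ρ b v))
      · exact Or.inr (Or.inr (Or.inr (h.fixd hw s1 s2 s3)))
      · exact Or.inr (Or.inr (Or.inl (h.next.next.line hw s3)))
    · exact Or.inr (Or.inl (h.next.line hw s2))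
  · exact Or.inl (h.line hw s1)

theorem dm_le [Finite E] {U : Submodule F3 E} (hb : ∀ u ∈ U, ρ b u ∈ U) (hv : v ∈ U) :
    Dm ρ b ≤ U := fun d hd => by
  obtain ⟨x, y, rfl⟩ := h.dm hd
  exact U.add_mem (U.smul_mem _ (U.sub_mem (hb _ hv) hv))
    (U.smul_mem _ (U.sub_mem (hb _ (hb _ hv)) (hb _ hv)))

theorem cent [Finite E] (hg : ∀ a ∈ A, a * g = g * a) : ∃ c : F3, c * c = 1 ∧ ρ g v = c • v := by
  obtain ⟨c, hc⟩ := h.line (w := ρ g v) (fun a ha => (h.wv a ha).imp fun c e => by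
    rw [← mul_app, hg a ha, mul_app, e, map_smul]) (by
      rintro ⟨a, ha, c, d, n, e1, e2⟩
      rw [← mul_app, hg a ha, mul_app, e2, map_smul] at e1
      refine n (smul_left_injective F3 (fun e => h.ne ?_) e1.symm)
      rw [← one_app ρ v, ← inv_mul_cancel g, mul_app, e, map_zero])
  refine ⟨c, (by decide : ∀ c : F3, c ≠ 0 → c * c = 1) c fun e => h.ne ?_, hc⟩
  rw [← one_app ρ v, ← inv_mul_cancel g, mul_app, hc, e, zero_smul, map_zero]

end Fr

end Cfsg.Agent.H69.J3
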