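import Cfsg.Agent.H69.J3A
import Cfsg.Agent.H4.CoprimeAction
import Cfsg.Agent.H3.Primitive
import Cfsg.Agent.H3.Fitting
import Cfsg.Agent.H1.Card
import Cfsg.Agent.H71.PRel

/-! Elements of order three with one Jordan block of size three: the commutator is a 2-group. -/

set_option autoImplicit false
set_option linter.unusedSectionVars false

namespace Cfsg.Agent.H69.J3

open Module Subgroup
open scoped commutatorElement

section Grp

variable {G : Type*} [Group G] [Finite G]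

theorem pgrp {p : ℕ} {z : G} (hz : z ^ p = 1) : IsPGroup p (zpowers z) := by
  rintro ⟨_, k, rfl⟩
  exact ⟨1, Subtype.ext (by
    change (z ^ k) ^ p ^ 1 = 1
    rw [pow_one, ← zpow_natCast, ← zpow_mul, mul_comm, zpow_mul, zpow_natCast, hz, one_zpow])⟩

theorem cent_of_cnt {p : ℕ} (hp : p.Prime) {y : G} (hy : y ^ p = 1) {K : Subgroup G}
    (n : y ∈ normalizer (K : Set G))
    (h : ∀ d, d ∣ Nat.card K → Nat.card K ≡ d [MOD p] → d = Nat.card K) :
    ∀ k ∈ K, y * k = k * y := fun k hk => by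
  have := Fact.mk hp
  have e := eq_of_le_of_card_ge (inf_le_left (a := K) (b := centralizer (zpowers y : Set G)))
    (h _ (card_dvd_of_le inf_le_left)
      (H3.card_modEq_card_inf_centralizer (pgrp hy) (zpowers_le.2 n))).ge
  exact (e.ge hk).2 y (mem_zpowers y)

theorem mem_zp {p : ℕ} (hp : p.Prime) (h : ¬ p ^ 2 ∣ Nat.card G) {x y : G} (c : x * y = y * x)
    (hx : x ^ p = 1) (x1 : x ≠ 1) (hy : y ^ p = 1) : y ∈ zpowers x := by
  have := Fact.mk hp
  by_contra m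
  obtain ⟨n, hn⟩ := IsPGroup.iff_card.1 (IsPGroup.to_sup_of_normal_left' (pgrp hx) (pgrp hy)
    ((zpowers_le.2 (by
      rintro _ ⟨k, rfl⟩
      exact (Commute.zpow_left c k).eq)).trans (centralizer_le_normalizer _)))
  have lt : zpowers x < zpowers x ⊔ zpowers y := left_lt_sup.2 fun e => m (e (mem_zpowers y))
  have l2 : Nat.card (zpowers x) < p ^ n := hn ▸ Set.ncard_lt_ncard lt (Set.toFinite _)
  rw [Nat.card_zpowers, orderOf_eq_prime hx x1] at l2
  refine h (dvd_trans ?_ (card_subgroup_dvd_card (zpowers x ⊔ zpowers y)))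
  rw [hn]
  refine pow_dvd_pow p ?_
  by_contra! k
  interval_cases n
  · exact absurd l2 (by simpa using hp.pos.ne')
  · simp at l2

theorem ppow {p n j : ℕ} (hp : p.Prime) (h : p ^ n ∣ 2 ^ 10 * 5 * 11 ^ 2 * 13) (hj : j ≤ n)
    (e : p ^ n ≡ p ^ j [MOD 13]) : j = n := by
  rcases Nat.eq_zero_or_pos n with rfl | n0
  · omega
  have k : ∀ m, ¬ p ^ (m + 1) ∣ 2 ^ 10 * 5 * 11 ^ 2 * 13 → n ≤ m := fun m hm => by
    by_contra! c
    exact hm ((pow_dvd_pow p c).trans h)
  have d := (dvd_pow_self p n0.ne').trans h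
  simp only [hp.dvd_mul] at d
  rcases d with ((d | d) | d) | d
  · obtain rfl := (Nat.prime_dvd_prime_iff_eq hp Nat.prime_two).1 (hp.dvd_of_dvd_pow d)
    have := k 10 (by decide)
    interval_cases n <;> interval_cases j <;> first | rfl | exact absurd e (by decide)
  · obtain rfl := (Nat.prime_dvd_prime_iff_eq hp Nat.prime_five).1 d
    have := k 1 (by decide)
    interval_cases n; interval_cases j <;> first | rfl | exact absurd e (by decide)
  · obtain rfl := (Nat.prime_dvd_prime_iff_eq hp (by norm_num)).1 (hp.dvd_of_dvd_pow d)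
    have := k 2 (by decide)
    interval_cases n <;> interval_cases j <;> first | rfl | exact absurd e (by decide)
  · obtain rfl := (Nat.prime_dvd_prime_iff_eq hp (by norm_num)).1 d
    have := k 1 (by decide)
    interval_cases n; interval_cases j <;> first | rfl | exact absurd e (by decide)

theorem normal13 [Group.IsSolvable G] (h : Nat.card G ∣ 2 ^ 10 * 5 * 11 ^ 2 * 13) {y : G}
    (hy : y ^ 13 = 1) (y1 : y ≠ 1) (g : G) : g * y * g⁻¹ ∈ zpowers y := by
  have := H3.fitting_normal G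
  have c : y ∈ centralizer (fittingSubgroup G : Set G) := by
    rw [← zpowers_le, le_centralizer_iff, H3.fitting_eq_iSup_pCore, iSup_le_iff]
    rintro ⟨p, hp⟩
    have := Fact.mk hp
    rw [← le_centralizer_iff, zpowers_le]
    refine fun k hk => (cent_of_cnt (by norm_num) hy (le_normalizer_of_normal (mem_top y)) ?_ k hk).symm
    obtain ⟨n, hn⟩ := H3.exists_card_pCore (p := p) (G := G)
    rw [hn]
    intro d hd e
    obtain ⟨j, hj, rfl⟩ := (Nat.dvd_prime_pow hp).1 hd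
    rw [ppow hp (hn ▸ (card_subgroup_dvd_card _).trans h) hj e]
  exact mem_zp (by norm_num) (fun k => absurd (k.trans h) (by decide))
    (c _ (Normal.conj_mem inferInstance _ (H3.centralizer_fitting_le G c) g)).symm hy y1
    (by rw [conj_pow, hy]; simp)

end Grp

variable {S : Type*} [Group S] [Finite S] {E : Type*} [AddCommGroup E] [Module F3 E] [Finite E]

/-- The situation. -/
structure Ctx (ρ : Representation F3 S E) (R Q : Subgroup S) (b : S) (v : E) : Prop where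
  inj : Function.Injective ρ
  sol : Group.IsSolvable S
  cop : (Nat.card R).Coprime 3
  nR : b ∈ normalizer (R : Set S)
  gen : ∀ H : Subgroup S, (∀ r ∈ R, r * b * r⁻¹ ∈ H) → R ≤ H
  QR : Q ≤ R
  Q2 : ∀ q ∈ Q, q * q = 1
  Q4 : Nat.card Q = 4
  Qc : ∀ q ∈ Q, ∃ x ∈ Q, q = ⁅x, b⁆
  fr : Fr ρ Q b v

namespace Ctx

variable {ρ : Representation F3 S E} {R Q : Subgroup S} {b : S} {v : E} (h : Ctx ρ R Q b v)
  {U : Submodule F3 E}
include h

theorem cR {r : S} (hr : r ∈ R) : b * r * b⁻¹ ∈ R := (mem_normalizer_iff.1 h.nR r).1 hr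

theorem cR' {r : S} (hr : r ∈ R) : b⁻¹ * r * b ∈ R := (mem_normalizer_iff''.1 h.nR r).1 hr

theorem one {r : S} (hr : r ∈ R) (h1 : r ∈ Sub ρ U) (h2 : r ∈ Fix ρ U) : r = 1 :=
  eq_one_of_cube h.cop hr (unip h.inj h1 h2)

theorem le_fix (hR : ∀ r ∈ R, ∀ u ∈ U, ρ r u ∈ U) (hb : b ∈ Fix ρ U) : R ≤ Fix ρ U :=
  h.gen _ fun r hr u hu => by
    rw [mul_app, mul_app, hb _ (hR _ (R.inv_mem hr) u hu), ← mul_app, mul_inv_cancel, one_app]

theorem le_sub (hR : ∀ r ∈ R, ∀ u ∈ U, ρ r u ∈ U) (hb : Dm ρ b ≤ U) : R ≤ Sub ρ U :=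
  h.gen _ fun r hr => sub_cj (sub_of_le hb) (hR r hr)

theorem dm_le (hR : ∀ r ∈ R, ∀ u ∈ U, ρ r u ∈ U) (hb : ∀ u ∈ U, ρ b u ∈ U) (n : b ∉ Fix ρ U) :
    Dm ρ b ≤ U := by
  by_contra c
  refine n fun u hu => sub_eq_zero.1 (show u ∈ LinearMap.ker (ρ b - 1) from
    span_wv (ρ := ρ) h.Q2 (fun a ha => hR a (h.QR ha)) (fun w hw hw' => ?_) hu)
  have k : ∀ x, Fr ρ Q b x → ∀ c : F3, w = c • x → w ∈ LinearMap.ker (ρ b - 1) := fun x f d e => by
    by_cases d0 : d = 0
    · rw [e, d0, zero_smul]; exact zero_mem _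
    · exact absurd (f.dm_le hb ((U.smul_mem_iff d0).1 (e ▸ hw))) c
  rcases h.fr.cases hw' with ⟨d, e⟩ | ⟨d, e⟩ | ⟨d, e⟩ | e
  exacts [k _ h.fr d e, k _ h.fr.next d e, k _ h.fr.next.next d e, sub_eq_zero.2 e]

theorem wt_one {w : E} (hw : Wv ρ Q w) (e : ρ b w = w) {q : S} (hq : q ∈ Q) : ρ q w = w := by
  obtain ⟨x, hx, rfl⟩ := h.Qc q hq
  obtain ⟨c, hc⟩ := hw _ (Q.inv_mem hx)
  have e' : ρ b⁻¹ w = w := by
    conv_lhs => rw [← e, ← mul_app, inv_mul_cancel, one_app]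
  rw [commutatorElement_def, mul_app, mul_app, mul_app, e', hc, map_smul, e, ← hc, ← mul_app,
    mul_inv_cancel, one_app]

theorem Q_sub (hv : v ∈ U) (hb : ∀ u ∈ U, ρ b u ∈ U) : Q ≤ Sub ρ U := fun q hq x =>
  show x ∈ U.comap (ρ q - 1) from span_wv (ρ := ρ) h.Q2 (U := ⊤) (by simp) (fun w _ hw => by
    obtain ⟨c, hc⟩ := hw q hq
    change ρ q w - w ∈ U
    rcases h.fr.cases hw with ⟨d, e⟩ | ⟨d, e⟩ | ⟨d, e⟩ | e
    · rw [hc, e]; exact U.sub_mem (U.smul_mem _ (U.smul_mem _ hv)) (U.smul_mem _ hv)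
    · rw [hc, e]; exact U.sub_mem (U.smul_mem _ (U.smul_mem _ (hb _ hv))) (U.smul_mem _ (hb _ hv))
    · rw [hc, e]
      exact U.sub_mem (U.smul_mem _ (U.smul_mem _ (hb _ (hb _ hv)))) (U.smul_mem _ (hb _ (hb _ hv)))
    · rw [h.wt_one hw e hq, sub_self]; exact U.zero_mem) (Submodule.mem_top (x := x))

theorem b_fix (hU : Q ≤ Fix ρ U) : b ∈ Fix ρ U := fun u hu => by
  have k : ∀ x, Fr ρ Q b x → ∀ c : F3, u = c • x → ρ b u = u := fun x f d e => by
    obtain ⟨a, ha, c, c', n, e1, e2⟩ := f.sep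
    by_cases d0 : d = 0
    · rw [e, d0, zero_smul, map_zero]
    have fx : ∀ q ∈ Q, ρ q x = x := fun q hq => smul_right_injective E d0 (by
      simp only [← map_smul, ← e]; exact hU hq u hu)
    have fx' : ∀ q ∈ Q, ρ q (ρ b x) = ρ b x := fun q hq => by
      conv_rhs => rw [← fx _ ((mem_normalizer_iff''.1 f.nb q).1 hq), ← mul_app]
      rw [← mul_app]; congr 2; group
    rw [fx a ha] at e1
    rw [fx' a ha] at e2
    exact absurd ((smul_left_injective F3 f.ne (e1.symm.trans (one_smul _ _).symm)).trans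
      (smul_left_injective F3 f.next.ne (e2.symm.trans (one_smul _ _).symm)).symm) n
  rcases h.fr.cases (w := u) (fun a ha => ⟨1, by rw [one_smul, hU ha u hu]⟩) with
    ⟨d, e⟩ | ⟨d, e⟩ | ⟨d, e⟩ | e
  exacts [k _ h.fr d e, k _ h.fr.next d e, k _ h.fr.next.next d e, e]

theorem cen1 {z : S} (hz : z ∈ R) (c1 : ∀ r ∈ R, r * z = z * r) (c2 : b * z = z * b)
    (e : ρ z v = v) : z = 1 := by
  have k : ∀ g, g * z = z * g → ∀ u ∈ LinearMap.ker (ρ z - 1), ρ g u ∈ LinearMap.ker (ρ z - 1) :=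
    fun g hg u hu => sub_eq_zero.2 (by
      rw [← mul_app, ← hg, mul_app, show ρ z u = u from sub_eq_zero.1 hu]; rfl)
  exact h.one hz (h.le_sub (fun r hr => k r (c1 r hr)) (h.fr.dm_le (k b c2) (sub_eq_zero.2 e)) hz)
    fun u hu => sub_eq_zero.1 hu

theorem cen2 {z z' : S} (hz : z ∈ R) (c1 : ∀ r ∈ R, r * z = z * r) (c2 : b * z = z * b)
    (hz' : z' ∈ R) (c1' : ∀ r ∈ R, r * z' = z' * r) (c2' : b * z' = z' * b) (n : z ≠ 1)
    (n' : z' ≠ 1) : z * z' = 1 := by
  obtain ⟨c, cc, e⟩ := h.fr.cent fun a ha => c1 a (h.QR ha)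
  obtain ⟨c', cc', e'⟩ := h.fr.cent fun a ha => c1' a (h.QR ha)
  refine h.cen1 (R.mul_mem hz hz') (fun r hr => Commute.mul_right (c1 r hr) (c1' r hr))
    (Commute.mul_right c2 c2') ?_
  rw [mul_app, e', map_smul, e, smul_smul, (by decide : ∀ c c' : F3, c * c = 1 → c' * c' = 1 →
    c ≠ 1 → c' ≠ 1 → c' * c = 1) c c' cc cc' (fun k => n (h.cen1 hz c1 c2 (by rw [e, k, one_smul])))
    (fun k => n' (h.cen1 hz' c1' c2' (by rw [e', k, one_smul]))), one_smul]

theorem sq_fix {y : S} (hy : ∀ a ∈ Q, a * y = y * a) : y * y ∈ Fix ρ (Dm ρ b) := fun d hd => by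
  have k : ∀ x, Fr ρ Q b x → ρ (y * y) x = x := fun x f => by
    obtain ⟨c, cc, e⟩ := f.cent hy
    rw [mul_app, e, map_smul, e, smul_smul, cc, one_smul]
  obtain ⟨s, t, rfl⟩ := h.fr.dm hd
  simp only [map_add, map_smul, map_sub, k _ h.fr, k _ h.fr.next, k _ h.fr.next.next]

theorem no13 {y x : S} (hy : y ∈ R) (y13 : y ^ 13 = 1) (nb : b * y * b⁻¹ ∈ zpowers y)
    (hs : y ∈ Sub ρ (Dm ρ b ⊔ Dm ρ (x * b * x⁻¹))) : b * y = y * b := by
  by_cases y1 : y = 1
  · simp [y1]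
  have := h.sol
  let W := Submodule.span F3 {v, ρ b v, ρ b (ρ b v)}
  have vW : v ∈ W := Submodule.subset_span (by simp)
  have bW : ∀ u ∈ W, ρ b u ∈ W := fun u hu => (Submodule.span_le (p := W.comap (ρ b))).2 (by
    rintro _ (rfl | rfl | rfl) <;> refine Submodule.subset_span ?_ <;> simp [h.fr.bbb]) hu
  have fW : finrank F3 W ≤ 3 := by
    classical
    exact (finrank_span_le_card _).trans (by
      simpa only [Set.toFinset_insert, Set.toFinset_singleton] using Finset.card_le_three)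
  let K := R ⊓ Sub ρ (W ⊔ Dm ρ (x * b * x⁻¹))
  have cK := card_dvd5 h.inj (K := K) inf_le_right (H3.coprime_card_of_le inf_le_left h.cop)
    ((Submodule.finrank_add_le_finrank_add_finrank _ _).trans
      (add_le_add fW ((finrank_cj x b).trans h.fr.dim)))
  have yK : y ∈ K := ⟨hy, sub_mono (sup_le_sup_right (h.fr.dm_le bW vW) _) hs⟩
  have nm : ∀ g, g * y * g⁻¹ ∈ zpowers y → g ∈ normalizer (zpowers y : Set S) := fun g hg =>
    mem_normalizer_fintype (by
      rintro _ ⟨k, rfl⟩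
      rw [← conj_zpow]; exact zpow_mem hg k)
  have cQ : ∀ a ∈ Q, a ∈ centralizer (zpowers y : Set S) := fun a ha => by
    obtain ⟨q, hq, rfl⟩ := h.Qc a ha
    obtain ⟨k, hk⟩ := normal13 cK (y := ⟨y, yK⟩) (Subtype.ext y13)
      (fun e => y1 (congrArg Subtype.val e))
      ⟨q, h.QR hq, sub_mono le_sup_left (h.Q_sub vW bW hq)⟩
    exact H71.comm_norm_le_cent_of_cyclic inferInstance (commutator_mem_commutator
      (nm q ⟨k, congrArg Subtype.val hk⟩) (nm b nb))
  have sq : ∀ u ∈ zpowers y, u * u ∈ Fix ρ (Dm ρ b) := fun u hu =>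
    h.sq_fix fun a ha => (cQ a ha u hu).symm
  have od : ∀ u ∈ zpowers y, u = (u * u) ^ 7 := fun u hu => by
    rw [← pow_two, ← pow_mul, show 2 * 7 = 13 + 1 from rfl, pow_succ, show u ^ 13 = 1 from
      orderOf_dvd_iff_pow_eq_one.1 ((orderOf_dvd_of_mem_zpowers hu).trans
        (orderOf_dvd_of_pow_eq_one y13)), one_mul]
  have fx : zpowers y ≤ Fix ρ (Dm ρ b) := fun u hu => od u hu ▸ pow_mem (sq u hu) 7
  have m : y * (b * y * b⁻¹)⁻¹ ∈ zpowers y := mul_mem (mem_zpowers y) (inv_mem nb)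
  have := h.one (zpowers_le.2 hy m) (U := Dm ρ b) (by
    rw [show y * (b * y * b⁻¹)⁻¹ = y * b * y⁻¹ * b⁻¹ by group]
    exact mul_mem (sub_cj (sub_of_le le_rfl) fun u hu => by
      rw [fx (mem_zpowers y) u hu]; exact hu) (inv_mem (sub_of_le le_rfl))) (fx m)
  exact mul_inv_eq_iff_eq_mul.1 (mul_inv_eq_one.1 this).symm

theorem odd_cent {X : Subgroup S} {q : ℕ} (hq : q.Prime) (q2 : q ≠ 2) (hX : IsPGroup q X)
    (le : X ≤ R) (nX : b ∈ normalizer (X : Set S)) {x : S} (hx : x ∈ X) : b * x = x * b := by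
  have := Fact.mk hq
  let V := Dm ρ b ⊔ Dm ρ (x * b * x⁻¹)
  let Y := X ⊓ Sub ρ V
  have bV : b ∈ Sub ρ V := sub_of_le le_sup_left
  have y0 : x * b * x⁻¹ * b⁻¹ ∈ Y := ⟨by
    rw [mul_assoc, mul_assoc, ← mul_assoc b]
    exact X.mul_mem hx ((mem_normalizer_iff.1 nX _).1 (X.inv_mem hx)),
    (Sub ρ V).mul_mem (sub_of_le le_sup_right) (inv_mem bV)⟩
  have nY : b ∈ normalizer (Y : Set S) := mem_normalizer_fintype fun y hy =>
    ⟨(mem_normalizer_iff.1 nX _).1 hy.1, (Sub ρ V).mul_mem (mul_mem bV hy.2) (inv_mem bV)⟩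
  have cY := card_dvd4 h.inj (K := Y) inf_le_right
    (H3.coprime_card_of_le (inf_le_left.trans le) h.cop)
    ((Submodule.finrank_add_le_finrank_add_finrank _ _).trans
      (add_le_add h.fr.dim ((finrank_cj x b).trans h.fr.dim)))
  have key : b * (x * b * x⁻¹ * b⁻¹) = (x * b * x⁻¹ * b⁻¹) * b := by
    obtain ⟨n, hn⟩ := IsPGroup.iff_card.1 (hX.to_le (inf_le_left : Y ≤ X))
    have d : Nat.card Y ∣ 5 * 13 := Nat.Coprime.dvd_of_dvd_mul_left (by
      rw [hn]; exact Nat.coprime_pow_primes _ _ hq Nat.prime_two q2) (mul_assoc _ 5 13 ▸ cY)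
    have d' : Nat.card Y = 1 ∨ Nat.card Y = 5 ∨ Nat.card Y = 13 := by
      obtain e | e | e | e := (by decide : ∀ m ∈ Nat.divisors 65, m = 1 ∨ m = 5 ∨ m = 13 ∨ m = 65)
        _ (Nat.mem_divisors.2 ⟨d, by decide⟩)
      exacts [Or.inl e, Or.inr (Or.inl e), Or.inr (Or.inr e), by
        rw [hn] at e
        have e5 := (Nat.prime_dvd_prime_iff_eq Nat.prime_five hq).1
          (Nat.prime_five.dvd_of_dvd_pow (e ▸ by decide : 5 ∣ q ^ n))
        have p13 : Nat.Prime 13 := by norm_num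
        have := (Nat.prime_dvd_prime_iff_eq p13 hq).1
          (p13.dvd_of_dvd_pow (e ▸ by decide : 13 ∣ q ^ n))
        omega]
    rcases d' with e | e | e
    · exact cent_of_cnt Nat.prime_three h.fr.b3 nY (by rw [e]; simp) _ y0
    · refine cent_of_cnt Nat.prime_three h.fr.b3 nY ?_ _ y0
      rw [e]
      exact fun d hd k => ((Nat.dvd_prime Nat.prime_five).1 hd).resolve_left
        fun l => absurd (l ▸ k) (by decide)
    · by_cases y1 : x * b * x⁻¹ * b⁻¹ = 1
      · simp [y1]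
      have p : ∀ y ∈ Y, y ^ 13 = 1 := fun y hy => e ▸ H4.pow_card_eq_one_of_mem hy
      have := Fact.mk (show Nat.Prime 13 by norm_num)
      refine h.no13 (le y0.1) (p _ y0) ?_ y0.2
      rw [eq_of_le_of_card_ge (zpowers_le.2 y0) (by
        rw [e, Nat.card_zpowers, orderOf_eq_prime (p _ y0) y1])]
      exact (mem_normalizer_iff.1 nY _).1 y0
  have c : Commute (x * b * x⁻¹ * b⁻¹) b := key.symm
  have e := c.mul_pow 3
  rw [inv_mul_cancel_right, conj_pow, h.fr.b3, mul_one, mul_one, mul_inv_cancel] at e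
  have := eq_one_of_cube h.cop (le y0.1) e.symm
  rw [mul_inv_eq_one, mul_inv_eq_iff_eq_mul] at this
  exact this.symm

theorem two : IsPGroup 2 R := by
  have := h.sol
  have := Fact.mk Nat.prime_three
  have cB : Nat.card (zpowers b) ∣ 3 := by
    rw [Nat.card_zpowers]; exact orderOf_dvd_of_pow_eq_one h.fr.b3
  have syl := H4.exists_invariant_sylow (zpowers_le.2 h.nR) (h.cop.symm.coprime_dvd_left cB)
    (Or.inr inferInstance)
  obtain ⟨T, hT⟩ := syl 2
  have cop : (T : Subgroup R).index.Coprime ((centralizer {b}).subgroupOf R).index := by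
    refine Nat.coprime_of_dvd fun q hq d1 d2 => ?_
    have := Fact.mk hq
    obtain ⟨X, hX⟩ := syl q
    refine X.not_dvd_index (d2.trans (index_dvd_of_le fun x hx => mem_centralizer_singleton_iff.2
      (h.odd_cent hq ?_ (X.2.map R.subtype) (map_subtype_le _) (hX (mem_zpowers b))
        ⟨x, hx, rfl⟩).symm))
    rintro rfl
    exact T.not_dvd_index d1
  have le : R ≤ zpowers b ⊔ (T : Subgroup R).map R.subtype := h.gen _ fun r hr => by
    obtain ⟨t, ht, c, hc, e⟩ := H1.factorization_of_coprime_index cop ⟨r, hr⟩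
    have e' : r = t * c := congrArg Subtype.val e
    have tm : (t : S) ∈ zpowers b ⊔ (T : Subgroup R).map R.subtype := mem_sup_right ⟨t, ht, rfl⟩
    rw [e', show (t * c : S) * b * (t * c : S)⁻¹ = t * (c * b * (c : S)⁻¹) * (t : S)⁻¹ by group,
      show (c : S) * b = b * c from mem_centralizer_singleton_iff.1 hc, mul_inv_cancel_right]
    exact mul_mem (mul_mem tm (mem_sup_left (mem_zpowers b))) (inv_mem tm)
  obtain ⟨n, hn⟩ := IsPGroup.iff_card.1 (T.2.map R.subtype)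
  have d := h.cop.dvd_of_dvd_mul_left (((card_dvd_of_le le).trans
    (H3.card_sup_dvd_of_le_normalizer hT)).trans (Nat.mul_dvd_mul_right cB _))
  obtain ⟨k, -, hk⟩ := (Nat.dvd_prime_pow Nat.prime_two).1 (hn ▸ d)
  exact IsPGroup.of_card hk

end Ctx

end Cfsg.Agent.H69.J3
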