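import Cfsg.Agent.H69.J3B
import Cfsg.Agent.H54.Comm
import Cfsg.Agent.H49.XSDual

/-! Elements of order three with one Jordan block of size three: the abelian normal subgroup and
the action on its weights. -/

set_option autoImplicit false
set_option linter.unusedSectionVars false

namespace Cfsg.Agent.H69.J3

open Module Subgroup
open scoped commutatorElement

variable {S : Type*} [Group S] [Finite S]

theorem cube_mem {R H : Subgroup S} (h2 : IsPGroup 2 R) {z : S} (hz : z ∈ R) (h : z ^ 3 ∈ H) :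
    z ∈ H := by
  obtain ⟨k, hk⟩ := h2 ⟨z, hz⟩
  obtain ⟨m, e⟩ := exists_pow_eq_self_of_coprime (x := z) (n := 3)
    (Nat.Coprime.coprime_dvd_right (orderOf_dvd_of_pow_eq_one (congrArg Subtype.val hk))
      (Nat.Coprime.pow_right k (by decide)))
  exact e ▸ H.pow_mem h m

theorem perm_cases {α : Type*} [MulAction S α] {R : Subgroup S} (h2 : IsPGroup 2 R) {b : S}
    (b3 : b ^ 3 = 1) (nR : b ∈ normalizer (R : Set S)) {p : α} (hp : b • p ≠ p)
    (fx : ∀ r ∈ R, r • p = p ∨ r • p = b • p ∨ r • p = b • b • p ∨ b • r • p = r • p) :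
    (∀ r ∈ R, r • p = p) ∨ ∃ r₀ ∈ R, Function.Injective ![r₀ • p, p, b • p, b • b • p] ∧
      ∀ r ∈ R, ∀ i, ∃ j, r • ![r₀ • p, p, b • p, b • b • p] i = ![r₀ • p, p, b • p, b • b • p] j := by
  have := Fact.mk Nat.prime_two
  have c1 : ∀ r ∈ R, b * r * b⁻¹ ∈ R := fun r => (mem_normalizer_iff.1 nR r).1
  have c2 : ∀ r ∈ R, b⁻¹ * r * b ∈ R := fun r => (mem_normalizer_iff''.1 nR r).1
  have bbb : ∀ x : α, b • b • b • x = x := fun x => by
    rw [← mul_smul, ← mul_smul, ← pow_two, ← pow_succ, b3, one_smul]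
  have n1 : b • b • p ≠ b • p := fun e => hp (smul_left_cancel b e)
  have n2 : b • b • p ≠ p := fun e => hp (by rw [← e, bbb, e])
  let O := MulAction.orbit R p
  have mO : ∀ x, x ∈ O ↔ ∃ r ∈ R, r • p = x := fun x =>
    ⟨fun ⟨r, e⟩ => ⟨r, r.2, e⟩, fun ⟨r, hr, e⟩ => ⟨⟨r, hr⟩, e⟩⟩
  have RO : ∀ r ∈ R, ∀ x ∈ O, r • x ∈ O := fun r hr x hx => by
    obtain ⟨s, hs, rfl⟩ := (mO x).1 hx
    exact (mO _).2 ⟨r * s, R.mul_mem hr hs, mul_smul _ _ _⟩
  have pO : p ∈ O := MulAction.mem_orbit_self p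
  have cb : ∀ (r : S) (x : α), b • r • x = (b * r * b⁻¹) • b • x := fun r x => by
    rw [← mul_smul, ← mul_smul, inv_mul_cancel_right]
  by_cases bO : b • p ∈ O
  swap
  · refine Or.inl fun r hr => ?_
    have k : ∀ s ∈ R, s • b • p ∉ O := fun s hs e => bO (by
      simpa using RO _ (R.inv_mem hs) _ e)
    rcases fx r hr with e | e | e | e
    · exact e
    · exact absurd (e ▸ RO r hr p pO) bO
    · exact absurd (by rw [← cb, e, bbb]; exact pO) (k _ (c1 r hr))
    · exact absurd (by rw [← cb, e]; exact RO r hr p pO) (k _ (c1 r hr))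
  have b1 : ∀ x ∈ O, b • x ∈ O := fun x hx => by
    obtain ⟨s, hs, rfl⟩ := (mO x).1 hx
    rw [cb]; exact RO _ (c1 s hs) _ bO
  have b2 : ∀ x ∈ O, b⁻¹ • x ∈ O := fun x hx => by
    rw [inv_smul_eq_iff.2 (bbb x).symm]; exact b1 _ (b1 _ hx)
  have fO : ∀ x ∈ O, b • x ≠ x → x ∈ ({p, b • p, b • b • p} : Set α) := fun x hx n => by
    obtain ⟨s, hs, rfl⟩ := (mO x).1 hx
    rcases fx s hs with e | e | e | e <;> simp_all
  let φ := MulAction.toPermHom R O
  have : Finite O := (Set.finite_range _).to_subtype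
  have : Nontrivial φ.range := by
    obtain ⟨s, hs, e⟩ := (mO _).1 bO
    exact ⟨⟨φ ⟨s, hs⟩, _, rfl⟩, 1, fun k => hp (e.symm.trans
      (congrArg (fun σ : φ.range => ((σ : Equiv.Perm O) ⟨p, pO⟩ : α)) k))⟩
  have := (h2.of_surjective _ φ.rangeRestrict_surjective).center_nontrivial
  obtain ⟨⟨⟨_, ⟨z, zR⟩, rfl⟩, zc⟩, z1⟩ := exists_ne (1 : center φ.range)
  let C : S → Prop := fun z => ∀ r ∈ R, ∀ x ∈ O, z • r • x = r • z • x
  have Cz : C z := fun r hr x hx => congrArg (fun σ : φ.range => ((σ : Equiv.Perm O) ⟨x, hx⟩ : α))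
    (mem_center_iff.1 zc ⟨φ ⟨r, hr⟩, _, rfl⟩).symm
  have semi : ∀ w, C w → ∀ x ∈ O, w • x = x → ∀ y ∈ O, w • y = y := fun w hw x hx e y hy => by
    obtain ⟨s, hs, rfl⟩ := (mO x).1 hx
    obtain ⟨t, ht, rfl⟩ := (mO y).1 hy
    rw [hw s hs p pO] at e
    rw [hw t ht p pO, smul_left_cancel s e]
  have zp : z • p ≠ p := fun e => z1 (Subtype.ext (Subtype.ext (Equiv.ext fun x =>
    Subtype.ext (semi z Cz p pO e x x.2))))
  have Cw : C (z * (b * z⁻¹ * b⁻¹)) := fun r hr x hx => by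
    have e := Cz _ (c2 r hr) _ (RO _ (R.inv_mem zR) _ (b2 x hx))
    rw [smul_inv_smul, ← eq_inv_smul_iff] at e
    simp only [mul_smul, smul_inv_smul] at e ⊢
    rw [← e, smul_inv_smul, Cz r hr _ (b1 _ (RO _ (R.inv_mem zR) _ (b2 x hx)))]
  have sub : O ⊆ {p, b • p, b • b • p} ∪ (z • ·) '' {p, b • p, b • b • p} := fun x hx => by
    by_contra n
    rw [Set.mem_union, not_or] at n
    have e1 : b • x = x := not_not.1 fun k => n.1 (fO x hx k)
    have e2 : b • z⁻¹ • x = z⁻¹ • x := not_not.1 fun k =>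
      n.2 ⟨_, fO _ (RO _ (R.inv_mem zR) _ hx) k, smul_inv_smul _ _⟩
    have k : ∀ y ∈ O, z • b • y = b • z • y := fun y hy => by
      simpa [mul_smul] using semi _ Cw x hx (by
        rw [mul_smul, mul_smul, mul_smul, inv_smul_eq_iff.2 e1.symm, e2, smul_inv_smul]) _
        (b1 _ (RO z zR y hy))
    refine zp (cube_mem (H := MulAction.stabilizer S p) h2 zR ?_)
    rw [MulAction.mem_stabilizer_iff, pow_succ, pow_two, mul_smul, mul_smul]
    rcases fO _ (RO z zR p pO) (fun e => hp (smul_left_cancel z ((k p pO).trans e))) with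
      e | e | e
    · exact absurd e zp
    · rw [e, k p pO, e, k _ bO, k p pO, e, bbb]
    · rw [e, k _ bO, k p pO, e, bbb, k p pO, e, bbb]
  have T3 : ({p, b • p, b • b • p} : Set α).ncard = 3 :=
    Set.ncard_eq_three.2 ⟨_, _, _, hp.symm, n2.symm, n1.symm, rfl⟩
  have TO : ({p, b • p, b • b • p} : Set α) ⊆ O := by
    rintro _ (rfl | rfl | rfl); exacts [pO, bO, b1 _ bO]
  have O4 : O.ncard = 4 := by
    obtain ⟨n, hn⟩ := h2.card_orbit p
    have l1 := T3 ▸ Set.ncard_le_ncard TO (Set.toFinite _)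
    have l2 := (Set.ncard_le_ncard sub (Set.toFinite _)).trans ((Set.ncard_union_le _ _).trans
      (add_le_add le_rfl (Set.ncard_image_le (Set.toFinite _))))
    rw [T3] at l2
    change Nat.card O = _ at hn
    rw [← Nat.card_coe_set_eq, hn] at l1 l2 ⊢
    have : n < 3 := by
      by_contra! k
      have := Nat.pow_le_pow_right (n := 2) (by decide) k
      omega
    interval_cases n <;> omega
  obtain ⟨q, qO, qT⟩ := Set.exists_mem_notMem_of_ncard_lt_ncard (s := {p, b • p, b • b • p})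
    (t := O) (by omega) (Set.toFinite _)
  have eO : insert q {p, b • p, b • b • p} = O :=
    Set.eq_of_subset_of_ncard_le (Set.insert_subset qO TO)
      (by rw [Set.ncard_insert_of_notMem qT, T3, O4]) (Set.toFinite _)
  obtain ⟨r₀, h₀, rfl⟩ := (mO q).1 qO
  simp only [Set.mem_insert_iff, Set.mem_singleton_iff, not_or] at qT
  refine Or.inr ⟨r₀, h₀, fun i j => ?_, fun r hr i => ?_⟩
  · fin_cases i <;> fin_cases j <;> 
      simp [qT, hp, n1, n2, hp.symm, n1.symm, n2.symm, Ne.symm qT.1, Ne.symm qT.2.1, Ne.symm qT.2.2]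
  · have : r • ![r₀ • p, p, b • p, b • b • p] i ∈ O := RO r hr _ (by
      fin_cases i; exacts [qO, pO, bO, b1 _ bO])
    rw [← eO] at this
    rcases this with e | e | e | e
    exacts [⟨0, e⟩, ⟨1, e⟩, ⟨2, e⟩, ⟨3, e⟩]

variable {E : Type*} [AddCommGroup E] [Module F3 E] [Finite E]

namespace Ctx

variable {ρ : Representation F3 S E} {R Q : Subgroup S} {b : S} {v : E} (h : Ctx ρ R Q b v)
include h

theorem Q_nc : ¬ ∀ a ∈ Q, a * b = b * a := fun k => by
  obtain ⟨a, ha, c, d, n, e1, e2⟩ := h.fr.sep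
  rw [← mul_app, k a ha, mul_app, e1, map_smul] at e2
  exact n (smul_left_injective F3 h.fr.next.ne e2)

theorem exists_A : ∃ A ≤ R, (∀ a ∈ A, a * a = 1) ∧ R ≤ normalizer (A : Set S) ∧
    b ∈ normalizer (A : Set S) ∧ ¬ ∀ a ∈ A, a * b = b * a := by
  have := Fact.mk Nat.prime_two
  by_contra! hc
  have cB : Nat.card (zpowers b) ∣ 3 := by
    rw [Nat.card_zpowers]; exact orderOf_dvd_of_pow_eq_one h.fr.b3
  have H : ∀ M ≤ R, M ≤ centralizer (M : Set S) → R ≤ normalizer (M : Set S) →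
      b ∈ normalizer (M : Set S) → ∀ m ∈ M, b * m = m * b ∧ ∀ r ∈ R, r * m = m * r := by
    intro M le ab n1 n2
    have : IsMulCommutative M := ⟨⟨fun x y => Subtype.ext (ab y.2 x x.2)⟩⟩
    let Ω : Subgroup S :=
      { carrier := {a | a ∈ M ∧ a * a = 1}
        one_mem' := ⟨M.one_mem, mul_one 1⟩
        mul_mem' := fun {x y} hx hy => ⟨M.mul_mem hx.1 hy.1, by
          rw [mul_assoc, ← mul_assoc y, ← ab hy.1 x hx.1, mul_assoc, hy.2, mul_one, hx.2]⟩
        inv_mem' := fun {x} hx => ⟨M.inv_mem hx.1, by rw [← mul_inv_rev, hx.2, inv_one]⟩ }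
    have nΩ : normalizer (M : Set S) ≤ normalizer (Ω : Set S) := fun g hg =>
      mem_normalizer_fintype fun a ha =>
        ⟨(mem_normalizer_iff.1 hg a).1 ha.1, by rw [conj_mul, ha.2]; simp⟩
    have k := H4.le_centralizer_of_prime_order (zpowers_le.2 n2)
      ((H3.coprime_card_of_le le h.cop).symm.coprime_dvd_left cB) fun a ha pa => by
        obtain ⟨k, hk⟩ := h.two ⟨a, le ha⟩
        have e := (Nat.prime_dvd_prime_iff_eq pa Nat.prime_two).1 (pa.dvd_of_dvd_pow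
          (orderOf_dvd_of_pow_eq_one (congrArg Subtype.val hk)))
        rintro _ ⟨j, rfl⟩
        exact (Commute.zpow_right (hc Ω (fun x hx => le hx.1) (fun x hx => hx.2) (n1.trans nΩ)
          (nΩ n2) a ⟨ha, by rw [← pow_two, ← e, pow_orderOf_eq_one]⟩) j).symm
    have k' : ∀ m ∈ M, b * m = m * b := fun m hm => k hm b (mem_zpowers b)
    refine fun m hm => ⟨k' m hm, fun r hr => (h.gen (centralizer (M : Set S)) (fun r hr m hm => ?_)
      hr m hm).symm⟩
    have := k' _ ((mem_normalizer_iff''.1 (n1 hr) m).1 hm)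
    calc m * (r * b * r⁻¹) = r * (r⁻¹ * m * r * b) * r⁻¹ := by group
      _ = _ := by rw [← this]; group
  have nI : ∀ {g : S} {X Y : Subgroup S}, g ∈ normalizer (X : Set S) → g ∈ normalizer (Y : Set S) →
      g ∈ normalizer ((X ⊓ centralizer (Y : Set S) : Subgroup S) : Set S) := fun h1 h2 =>
    zpowers_le.1 (H4.le_normalizer_inf (zpowers_le.2 h1)
      (H4.le_normalizer_centralizer (zpowers_le.2 h2)))
  have HZ : ∀ D ≤ R, R ≤ normalizer (D : Set S) → b ∈ normalizer (D : Set S) → ∀ m ∈ D,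
      (∀ y ∈ D, m * y = y * m) → b * m = m * b ∧ ∀ r ∈ R, r * m = m * r := fun D le n1 n2 m hm c =>
    H (D ⊓ centralizer (D : Set S)) (inf_le_left.trans le) (fun x hx y hy => hx.2 y hy.1)
      (fun r hr => nI (n1 hr) (n1 hr)) (nI n2 n2) m ⟨hm, fun y hy => (c y hy).symm⟩
  have : Nontrivial R := by
    rw [← Finite.one_lt_card_iff_nontrivial]
    exact lt_of_lt_of_le (by rw [h.Q4]; decide) (card_le_of_le h.QR)
  have := h.two.center_nontrivial
  obtain ⟨⟨⟨z, zR⟩, zc⟩, z1⟩ := exists_ne (1 : center R)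
  have z2 : ∀ r ∈ R, r * z = z * r := fun r hr =>
    congrArg Subtype.val (mem_center_iff.1 zc ⟨r, hr⟩)
  have z3 := (HZ R le_rfl le_normalizer h.nR z zR fun y hy => (z2 y hy).symm).1
  replace z1 : z ≠ 1 := fun e => z1 (Subtype.ext (Subtype.ext e))
  have zz := h.cen2 zR z2 z3 zR z2 z3 z1 z1
  have cz : ∀ m ∈ R, (b * m = m * b ∧ ∀ r ∈ R, r * m = m * r) → m = 1 ∨ m = z := fun m hm c =>
    or_iff_not_imp_left.2 fun n =>
      mul_left_cancel ((h.cen2 zR z2 z3 hm c.2 c.1 z1 n).trans zz.symm)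
  have mZ : ∀ {x}, x ∈ zpowers z ↔ x = 1 ∨ x = z := H49.mem_zpowers_invol zz
  have cZ : ∀ x ∈ zpowers z, ∀ r ∈ R, r * x = x * r := fun x hx r hr => by
    rcases mZ.1 hx with rfl | rfl
    exacts [by simp, z2 r hr]
  have nZ : ∀ g, g * z = z * g → ∀ x ∈ zpowers z, g * x * g⁻¹ ∈ zpowers z := fun g hg x hx => by
    rcases mZ.1 hx with rfl | rfl
    exacts [by simp, by rwa [hg, mul_inv_cancel_right]]
  let D : Subgroup S :=
    { carrier := {d | d ∈ R ∧ ∀ r ∈ R, ⁅d, r⁆ ∈ zpowers z}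
      one_mem' := ⟨R.one_mem, by simp⟩
      mul_mem' := fun {x y} hx hy => ⟨R.mul_mem hx.1 hy.1, fun r hr => by
        rw [show ⁅x * y, r⁆ = x * ⁅y, r⁆ * x⁻¹ * ⁅x, r⁆ by
          simp only [commutatorElement_def]; group]
        exact mul_mem (nZ x (z2 x hx.1) _ (hy.2 r hr)) (hx.2 r hr)⟩
      inv_mem' := fun {x} hx => ⟨R.inv_mem hx.1, fun r hr => by
        rw [show ⁅x⁻¹, r⁆ = x⁻¹ * ⁅x, r⁆⁻¹ * x⁻¹⁻¹ by simp only [commutatorElement_def]; group]
        exact nZ _ (z2 _ (R.inv_mem hx.1)) _ (inv_mem (hx.2 r hr))⟩ }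
  have nD : ∀ g ∈ normalizer (R : Set S), g * z = z * g → g ∈ normalizer (D : Set S) :=
    fun g hg c => mem_normalizer_fintype fun d hd =>
      ⟨(mem_normalizer_iff.1 hg d).1 hd.1, fun r hr => by
        rw [show ⁅g * d * g⁻¹, r⁆ = g * ⁅d, g⁻¹ * r * g⁆ * g⁻¹ by
          simp only [commutatorElement_def]; group]
        exact nZ g c _ (hd.2 _ ((mem_normalizer_iff''.1 hg r).1 hr))⟩
  have nD1 : R ≤ normalizer (D : Set S) := fun r hr => nD r (le_normalizer hr) (z2 r hr)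
  have zD : z ∈ D := ⟨zR, fun r hr => by
    rw [commutatorElement_eq_one_iff_mul_comm.2 (z2 r hr).symm]; exact one_mem _⟩
  have ceD : ∀ x ∈ D, (∀ y ∈ D, x * y = y * x) → x = 1 ∨ x = z := fun x hx c =>
    cz x hx.1 (HZ D (fun _ k => k.1) nD1 (nD b h.nR z3) x hx c)
  have N : ∀ M ≤ R, R ≤ normalizer (M : Set S) → (∀ x ∈ M, x ∈ D → x ∈ zpowers z) →
      M ≤ zpowers z := fun M le n k => by
    by_contra c
    obtain ⟨x, hx, n', e⟩ := H54.exists_not_mem_commutator_mem_of_isPGroup (h.two.to_le le)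
      h.two n c
    exact n' (k x hx ⟨le hx, fun r hr => e r (mem_sup_left hr)⟩)
  have QZ : ¬ Q ≤ zpowers z := fun k => by
    have := card_le_of_le k
    rw [h.Q4, H49.card_zpowers_invol z1 zz] at this
    omega
  have cj : ∀ r ∈ R, ∀ u ∈ D, r * u * r⁻¹ = u ∨ r * u * r⁻¹ = u * z := fun r hr u hu => by
    rcases mZ.1 (inv_mem (hu.2 r hr)) with e | e <;>
      rw [commutatorElement_inv, commutatorElement_def, mul_inv_eq_iff_eq_mul] at e
    exacts [Or.inl (e.trans (one_mul u)), Or.inr (e.trans (z2 u hu.1).symm)]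
  have xs : H49.XS D z := ⟨zD, z1, zz, fun x hx => z2 x hx.1, ceD, fun x hx y hy =>
    (cj x hx.1 y hy).imp mul_inv_eq_iff_eq_mul.1 fun e => by
      rw [mul_inv_eq_iff_eq_mul.1 e, mul_assoc, ← z2 x hx.1, mul_assoc], by
    by_contra! c
    exact QZ (h.QR.trans (N R le_rfl le_normalizer fun x _ hx => mZ.2 (ceD x hx (c x hx))))⟩
  have RD : R ≤ D := fun r hr => by
    obtain ⟨g, hg, e⟩ := xs.exists_conj_eq_conj le_rfl (cj r hr)
    have := N (R ⊓ centralizer (D : Set S)) inf_le_left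
      (fun r hr => nI (le_normalizer hr) (nD1 hr))
      (fun x hx hx' => mZ.2 (ceD x hx' fun y hy => (hx.2 y hy).symm))
      (show g⁻¹ * r ∈ _ from ⟨R.mul_mem (R.inv_mem hg.1) hr, fun u hu => by
        calc u * (g⁻¹ * r) = g⁻¹ * (g * u * g⁻¹) * r := by group
          _ = _ := by rw [e u hu]; group⟩)
    exact (D.mul_mem_cancel_left (D.inv_mem hg)).1 (zpowers_le.2 zD this)
  have nM : ∀ g, g * z = z * g → (∀ q ∈ Q, g * q * g⁻¹ ∈ Q ⊔ zpowers z) →
      g ∈ normalizer ((Q ⊔ zpowers z : Subgroup S) : Set S) := fun g c k =>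
    mem_normalizer_fintype fun m hm => (sup_le (c := (Q ⊔ zpowers z).comap
      (MulAut.conj g).toMonoidHom) k (fun x hx => mem_sup_right (nZ g c x hx))) hm
  have ab : Q ≤ centralizer (Q : Set S) := fun a ha c hc' => by
    rw [← inv_eq_of_mul_eq_one_right (h.Q2 _ (Q.mul_mem hc' ha)), mul_inv_rev,
      inv_eq_of_mul_eq_one_right (h.Q2 a ha), inv_eq_of_mul_eq_one_right (h.Q2 c hc')]
  have le : Q ⊔ zpowers z ≤ R := sup_le h.QR (zpowers_le.2 zR)
  have zc' : zpowers z ≤ centralizer ((Q ⊔ zpowers z : Subgroup S) : Set S) :=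
    fun x hx y hy => cZ x hx y (le hy)
  refine h.Q_nc fun a ha => (H (Q ⊔ zpowers z) le (sup_le (le_centralizer_iff.1 (sup_le ab
    fun x hx y hy => cZ x hx y (h.QR hy))) zc') (fun r hr => nM r (z2 r hr) fun q hq => ?_)
    (nM b z3 fun q hq => mem_sup_left ((mem_normalizer_iff.1 h.fr.nb q).1 hq)) a
    (mem_sup_left ha)).1.symm
  rcases cj r hr q (RD (h.QR hq)) with e | e <;> rw [e]
  exacts [mem_sup_left hq, mul_mem (mem_sup_left hq) (mem_sup_right (mem_zpowers z))]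

end Ctx

end Cfsg.Agent.H69.J3
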