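import Cfsg.Agent.H69.J3C

/-! Elements of order three with one Jordan block of size three: the monomial action. -/

set_option autoImplicit false
set_option linter.unusedSectionVars false

namespace Cfsg.Agent.H69.J3

open Module Subgroup Equiv

variable {S : Type*} [Group S] [Finite S] {E : Type*} [AddCommGroup E] [Module F3 E] [Finite E]
  {ρ : Representation F3 S E} {ι : Type} [Fintype ι] [DecidableEq ι] {w : ι → E}

theorem card_rel {A : Subgroup S} {D : Type*} (T : S → D → Prop) (h1 : ∀ a ∈ A, ∃ d, T a d)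
    (h2 : ∀ d, ∃ a ∈ A, T a d) (h3 : ∀ a ∈ A, ∀ a' ∈ A, ∀ d, T a d → T a' d → a = a')
    (h4 : ∀ a d d', T a d → T a d' → d = d') : Nat.card A = Nat.card D := by
  choose f hf using h1
  refine Nat.card_congr (Equiv.ofBijective (fun a : A => f a a.2) ⟨fun a a' e =>
    Subtype.ext (h3 _ a.2 _ a'.2 _ (hf a a.2) (by rw [show f a a.2 = _ from e]; exact hf _ _)),
    fun d => ?_⟩)
  obtain ⟨a, ha, e⟩ := h2 d
  exact ⟨⟨a, ha⟩, h4 _ _ _ (hf a ha) e⟩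

variable (ρ w) in
/-- monomial action -/
def Mo (g : S) (e : ι → F3ˣ) (σ : Perm ι) : Prop := ∀ i, ρ g (w i) = (e i : F3) • w (σ i)

variable (w) in
/-- different lines -/
def Li : Prop := (∀ i, w i ≠ 0) ∧ Function.Injective fun i => F3 ∙ w i

variable {g k : S} {e e' : ι → F3ˣ} {σ σ' : Perm ι}

theorem Mo.one : Mo ρ w 1 1 1 := fun i => by simp

theorem Mo.mul (h : Mo ρ w g e σ) (h' : Mo ρ w k e' σ') :
    Mo ρ w (g * k) (fun i => e' i * e (σ' i)) (σ * σ') := fun i => by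
  rw [mul_app, h', map_smul, h, smul_smul]; rfl

theorem Mo.inv (h : Mo ρ w g e σ) : Mo ρ w g⁻¹ (fun i => e (σ⁻¹ i)) σ⁻¹ := fun i => by
  have k := congrArg (ρ g⁻¹) (h (σ⁻¹ i))
  rw [← mul_app, inv_mul_cancel, one_app, map_smul, show σ (σ⁻¹ i) = i by simp] at k
  rw [k, smul_smul, ← Units.val_mul, (by decide : ∀ c : F3ˣ, c * c = 1), Units.val_one, one_smul]

theorem Mo.pow (h : Mo ρ w g e σ) (n : ℕ) : ∃ e', Mo ρ w (g ^ n) e' (σ ^ n) := by
  induction n with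
  | zero => exact ⟨1, by simpa using Mo.one⟩
  | succ n ih => exact ⟨_, by rw [pow_succ, pow_succ]; exact ih.choose_spec.mul h⟩

theorem Mo.congr (h : Mo ρ w g e σ) (h1 : ∀ i, e' i = e i) (h2 : σ' = σ) : Mo ρ w g e' σ' := by
  rw [funext h1, h2]; exact h

theorem Mo.uniq (l : Li w) (h : Mo ρ w g e σ) (h' : Mo ρ w g e' σ') : e = e' ∧ σ = σ' := by
  have k : ∀ i, σ i = σ' i := fun i => l.2 (by
    simp only [← Submodule.span_singleton_smul_eq (e i).isUnit (w (σ i)), ← h i, h' i,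
      Submodule.span_singleton_smul_eq (e' i).isUnit])
  exact ⟨funext fun i => Units.ext (smul_left_injective F3 (l.1 (σ i))
    ((h i).symm.trans ((h' i).trans (by rw [k])))), Equiv.ext k⟩

theorem map_line (g : S) (x : E) : (F3 ∙ x).map (ρ g) = F3 ∙ ρ g x := by
  rw [Submodule.map_span, Set.image_singleton]

theorem mo_of_fun (f : ι → ι) (h : ∀ i, F3 ∙ ρ g (w i) = F3 ∙ w (f i)) :
    ∃ e : ι → F3ˣ, ∀ i, ρ g (w i) = (e i : F3) • w (f i) := by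
  choose e he using fun i => Submodule.span_singleton_eq_span_singleton.1 (h i).symm
  exact ⟨e, fun i => (he i).symm⟩

theorem mo_of_lines (l : Li w) (h : ∀ i, ∃ j, F3 ∙ ρ g (w i) = F3 ∙ w j) :
    ∃ e σ, Mo ρ w g e σ := by
  choose f hf using h
  obtain ⟨e, he⟩ := mo_of_fun f hf
  refine ⟨e, Equiv.ofBijective f (Function.Injective.bijective_of_finite fun i j k => l.2 ?_), he⟩
  have := congrArg (Submodule.map (ρ g⁻¹)) ((hf i).trans (k ▸ (hf j).symm))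
  simpa only [map_line, ← mul_app, inv_mul_cancel, one_app] using this

theorem Fr.line_ne {A : Subgroup S} {b : S} {x : E} (f : Fr ρ A b x) : F3 ∙ ρ b x ≠ F3 ∙ x :=
  fun e => by
    obtain ⟨c, hc⟩ := Submodule.span_singleton_eq_span_singleton.1 e.symm
    exact not_sep f.next.ne (by simpa only [one_smul, ← Units.smul_def, hc] using f.sep.smul c 1)

/-- the Klein four group -/
def τ : Fin 4 → Perm (Fin 4) := ![1, swap 0 1 * swap 2 3, swap 0 2 * swap 1 3, swap 0 3 * swap 1 2]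

/-- the three-cycle -/
def β : Perm (Fin 4) := swap 1 2 * swap 2 3

theorem t1 : ∀ (e e' : Fin 4 → F3ˣ) (t t' : Fin 4), ∏ i, e i = 1 → ∏ i, e' i = 1 →
    (∀ i, e' i * e (τ t' i) = e i * e' (τ t i)) ∨
      ∀ i, e' i * e (τ t' i) = -1 * (e i * e' (τ t i)) := by decide +kernel

theorem t2 : ∀ σ : Perm (Fin 4),
    ((σ * β * σ * β⁻¹) ^ 3 = 1 → σ * β * σ * β⁻¹ = 1) → ∃ t, σ = τ t := by decide +kernel

set_option synthInstance.maxSize 1000 in
theorem t3 : ∀ e₀ e : Fin 4 → F3ˣ, ∏ i, e₀ i = 1 → ∏ i, e i = 1 → e₀ 1 ≠ e₀ 2 →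
    ∃ j j' : Fin 3, ∃ s s' : Fin 4, ∀ i,
      e i = e₀ ((τ s * β ^ (j : ℕ))⁻¹ i) * e₀ ((τ s' * β ^ (j' : ℕ))⁻¹ i) := by decide +kernel

theorem t4 : ∀ (e : Fin 4 → F3ˣ) (t : Fin 4), ∏ i, e i = 1 → (∀ (e' : Fin 4 → F3ˣ) (t' : Fin 4),
    ∏ i, e' i = 1 → (fun i => e' i * e (τ t' i)) = fun i => e i * e' (τ t i)) →
      t = 0 ∧ (e = 1 ∨ e = -1) := by decide +kernel

theorem t5 : ∀ t t', τ t * τ t' = τ t' * τ t := by decide +kernel

theorem t6 : ∀ t t', τ t 1 = 0 → t' = 0 ∨ τ t' = τ t ∨ τ t' = β * τ t * β⁻¹ ∨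
    τ t' = β * (β * τ t * β⁻¹) * β⁻¹ := by decide +kernel

theorem t7 : ∀ t t', τ t = τ t' → t = t' := by decide +kernel

namespace Ctx

variable {R Q : Subgroup S} {b : S} {v : E} (h : Ctx ρ R Q b v)
include h

theorem even {γ : Perm ι} (hb : Mo ρ w b 1 γ) (hR : ∀ r ∈ R, ∃ e σ, Mo ρ w r e σ) :
    ∀ r ∈ R, ∃ e σ, Mo ρ w r e σ ∧ ∏ i, e i = 1 :=
  h.gen
    { carrier := {g | ∃ e σ, Mo ρ w g e σ ∧ ∏ i, e i = 1}
      one_mem' := ⟨1, 1, Mo.one, by simp⟩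
      mul_mem' := fun ⟨e, σ, h1, h2⟩ ⟨e', σ', h3, h4⟩ => ⟨_, _, h1.mul h3, by
        rw [Finset.prod_mul_distrib, h4, Equiv.prod_comp σ' e, h2, one_mul]⟩
      inv_mem' := fun ⟨e, σ, h1, h2⟩ => ⟨_, _, h1.inv, by rw [Equiv.prod_comp σ⁻¹ e, h2]⟩ }
    fun r hr => by
      obtain ⟨e, σ, k⟩ := hR r hr
      refine ⟨_, _, (k.mul hb).mul k.inv, ?_⟩
      rw [Finset.prod_mul_distrib, Equiv.prod_comp σ⁻¹ e,
        Equiv.prod_comp σ⁻¹ fun i => (1 : ι → F3ˣ) i * e (γ i)]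
      simp only [Pi.one_apply, one_mul]
      rw [Equiv.prod_comp γ e, (by decide : ∀ c : F3ˣ, c * c = 1)]

theorem mo_inj {γ : Perm ι} (hb : Mo ρ w b 1 γ) (n : ∃ i, ρ b (w i) ≠ w i)
    (hR : ∀ r ∈ R, ∃ e σ, Mo ρ w r e σ) {r s : S} (hr : r ∈ R) (hs : s ∈ R)
    (h1 : Mo ρ w r e σ) (h2 : Mo ρ w s e σ) : r = s := by
  have st : ∀ {g e σ}, Mo ρ w g e σ → ∀ u ∈ Submodule.span F3 (Set.range w),
      ρ g u ∈ Submodule.span F3 (Set.range w) := fun {g e σ} k u hu =>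
    (Submodule.span_le (p := (Submodule.span F3 (Set.range w)).comap (ρ g))).2 (by
      rintro _ ⟨i, rfl⟩
      change ρ g (w i) ∈ Submodule.span F3 (Set.range w)
      rw [k i]; exact Submodule.smul_mem _ _ (Submodule.subset_span ⟨_, rfl⟩)) hu
  have sR := fun r hr => st (hR r hr).choose_spec.choose_spec
  have m := R.mul_mem (R.inv_mem hs) hr
  refine (inv_mul_eq_one.1 (h.one m (h.le_sub sR (h.dm_le sR (st hb) fun k => ?_) m)
    fun u hu => sub_eq_zero.1 (show u ∈ LinearMap.ker (ρ (s⁻¹ * r) - 1) from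
      Submodule.span_le.2 ?_ hu))).symm
  · obtain ⟨i, hi⟩ := n
    exact hi (k _ (Submodule.subset_span ⟨i, rfl⟩))
  · rintro _ ⟨i, rfl⟩
    exact sub_eq_zero.2 (by rw [mul_app, h1, ← h2, ← mul_app, inv_mul_cancel, one_app]; rfl)

theorem case3 {A : Subgroup S} {x : E} (f : Fr ρ A b x) (hx : ∀ r ∈ R, F3 ∙ ρ r x = F3 ∙ x) :
    R = Q := by
  let w : Fin 3 → E := ![x, ρ b x, ρ b (ρ b x)]
  have hb : Mo ρ w b 1 (finRotate 3) := fun i => by
    fin_cases i <;> simp [w, h.fr.bbb]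
  have k : ∀ y, (∀ r ∈ R, F3 ∙ ρ r y = F3 ∙ y) → ∀ r ∈ R, F3 ∙ ρ r (ρ b y) = F3 ∙ ρ b y :=
    fun y hy r hr => by
      rw [← map_line b, ← hy _ (h.cR' hr), map_line, ← mul_app, ← mul_app]
      congr 3; group
  have hR : ∀ r ∈ R, ∃ e, Mo ρ w r e 1 := fun r hr => mo_of_fun id fun i => by
    fin_cases i
    exacts [hx r hr, k _ hx r hr, k _ (k _ hx) r hr]
  have hR' : ∀ r ∈ R, ∃ e σ, Mo ρ w r e σ := fun r hr => ⟨_, _, (hR r hr).choose_spec⟩
  have n1 := f.line_ne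
  have n2 := f.next.line_ne
  have n3 := f.next.next.line_ne
  rw [f.bbb] at n3
  have l : Li w := ⟨fun i => by fin_cases i; exacts [f.ne, f.next.ne, f.next.next.ne], fun i j => by
    fin_cases i <;> fin_cases j <;> simp [w, n1, n2, n3, n1.symm, n2.symm, n3.symm]⟩
  choose F G hF hG using h.even hb hR'
  refine (eq_of_le_of_card_ge h.QR ?_).symm
  rw [h.Q4, ← show Nat.card {e : Fin 3 → F3ˣ // ∏ i, e i = 1} = 4 by
    rw [Nat.card_eq_fintype_card]; decide +kernel]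
  refine Nat.card_le_card_of_injective (fun r : R => ⟨F r r.2, hG r r.2⟩) fun r s k =>
    Subtype.ext (h.mo_inj hb ⟨0, f.moved⟩ hR' r.2 s.2 (hF r r.2) ((hF s s.2).congr
      (congrFun (congrArg Subtype.val k)) ?_))
  exact ((hF r r.2).uniq l (hR r r.2).choose_spec).2.trans
    ((hF s s.2).uniq l (hR s s.2).choose_spec).2.symm

theorem case4 {w : Fin 4 → E} (l : Li w) (hb : Mo ρ w b 1 β) (hR : ∀ r ∈ R, ∃ e σ, Mo ρ w r e σ)
    {r₀ : S} (h₀ : r₀ ∈ R) (e₀ : ρ r₀ (w 1) = w 0) {a : S} (ha : a ∈ R) {c : Fin 4 → F3ˣ}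
    (hc : Mo ρ w a c 1) (n : c 1 ≠ c 2) : IsExtraspecial 2 R ∧ Nat.card R = 32 ∧
      ∃ A ≤ R, IsElementaryAbelian 2 A ∧ Nat.card A = 8 := by
  have inj : ∀ {r s e σ}, r ∈ R → s ∈ R → Mo ρ w r e σ → Mo ρ w s e σ → r = s :=
    h.mo_inj hb ⟨1, fun k => absurd (l.2 (show F3 ∙ w 2 = F3 ∙ w 1 by
      rw [← k, hb 1]; simp [β]; rfl)) (by decide)⟩ hR
  have dat : ∀ r ∈ R, ∃ e t, Mo ρ w r e (τ t) ∧ ∏ i, e i = 1 := fun r hr => by
    obtain ⟨e, σ, k1, k2⟩ := h.even hb hR r hr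
    obtain ⟨t, rfl⟩ := t2 σ fun k => by
      have m := ((k1.mul hb).mul k1).mul hb.inv
      have mR : r * b * r * b⁻¹ ∈ R := by
        rw [mul_assoc, mul_assoc, ← mul_assoc b]; exact R.mul_mem hr (h.cR hr)
      obtain ⟨_, m3⟩ := m.pow 3
      obtain ⟨j, hj⟩ := (mem_powers_iff_mem_zpowers).2 (cube_mem h.two mR (mem_zpowers _))
      obtain ⟨_, mj⟩ := m3.pow j
      simp only at hj
      rw [hj, k, one_pow] at mj
      exact (m.uniq l mj).2
    exact ⟨e, t, k1, k2⟩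
  have ev : ∀ {r e σ}, r ∈ R → Mo ρ w r e σ → ∏ i, e i = 1 := fun {r e σ} hr k => by
    obtain ⟨e', t, k1, k2⟩ := dat r hr
    rw [(k.uniq l k1).1, k2]
  have tr : ∀ t, ∃ r ∈ R, ∃ e, Mo ρ w r e (τ t) := fun t => by
    obtain ⟨e, s, k, -⟩ := dat r₀ h₀
    have s1 : τ s 1 = 0 := l.2 (show F3 ∙ w (τ s 1) = F3 ∙ w 0 by
      rw [← e₀, k 1, Submodule.span_singleton_smul_eq (e 1).isUnit])
    rcases t6 s t s1 with rfl | e | e | e
    exacts [⟨1, R.one_mem, _, Mo.one⟩, ⟨_, h₀, _, e ▸ k⟩,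
      ⟨_, h.cR h₀, _, e ▸ (hb.mul k).mul hb.inv⟩,
      ⟨_, h.cR (h.cR h₀), _, e ▸ (hb.mul ((hb.mul k).mul hb.inv)).mul hb.inv⟩]
  have cj : ∀ (s : Fin 4) (j : ℕ), ∃ r ∈ R, Mo ρ w r (fun i => c ((τ s * β ^ j)⁻¹ i)) 1 :=
    fun s j => by
      obtain ⟨r, hr, e, k⟩ := tr s
      obtain ⟨e', k'⟩ := hb.pow j
      refine ⟨r * b ^ j * a * (r * b ^ j)⁻¹, (mem_normalizer_iff.1 (mul_mem (le_normalizer hr)
        (pow_mem h.nR j)) a).1 ha, (((k.mul k').mul hc).mul (k.mul k').inv).congr (fun i => ?_)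
        (by simp)⟩
      exact (by decide : ∀ x y : F3ˣ, y = x * (y * x)) _ _
  have di : ∀ e : Fin 4 → F3ˣ, ∏ i, e i = 1 → ∃ r ∈ R, Mo ρ w r e 1 := fun e he => by
    obtain ⟨j, j', s, s', k⟩ := t3 c e (ev ha hc) he n
    obtain ⟨r, hr, m⟩ := cj s j
    obtain ⟨r', hr', m'⟩ := cj s' j'
    exact ⟨_, R.mul_mem hr' hr, (m'.mul m).congr k (by simp)⟩
  have su : ∀ (e : Fin 4 → F3ˣ) t, ∏ i, e i = 1 → ∃ r ∈ R, Mo ρ w r e (τ t) := fun e t he => by
    obtain ⟨r, hr, e', k⟩ := tr t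
    obtain ⟨s, hs, m⟩ := di (e * e') (by
      simp only [Pi.mul_apply, Finset.prod_mul_distrib, he, ev hr k, one_mul])
    exact ⟨_, R.mul_mem hr hs, (k.mul m).congr
      (fun i => (by decide : ∀ x y : F3ˣ, x = x * y * y) _ _) (by simp)⟩
  obtain ⟨z, zR, hz⟩ := di (-1) (by decide)
  have xs : H49.XS R z := by
    refine ⟨zR, fun k => absurd ((k ▸ hz).uniq l Mo.one).1 (by decide),
      inj (R.mul_mem zR zR) R.one_mem (hz.mul hz) (Mo.one.congr (by decide) (by simp)),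
      fun x hx => ?_, fun x hx k => ?_, fun x hx y hy => ?_, ?_⟩
    · obtain ⟨e, t, m, -⟩ := dat x hx
      exact inj (R.mul_mem hx zR) (R.mul_mem zR hx) (m.mul hz)
        ((hz.mul m).congr (fun i => mul_comm _ _) (by simp))
    · obtain ⟨e, t, m, he⟩ := dat x hx
      obtain ⟨rfl, rfl | rfl⟩ := t4 e t he fun e' t' he' => by
        obtain ⟨y, hy, m'⟩ := su e' t' he'
        exact ((m.mul m').uniq l (k y hy ▸ m'.mul m)).1
      exacts [Or.inl (inj hx R.one_mem m Mo.one), Or.inr (inj hx zR m hz)]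
    · obtain ⟨e, t, m, he⟩ := dat x hx
      obtain ⟨e', t', m', he'⟩ := dat y hy
      exact (t1 e e' t t' he he').imp
        (fun k => inj (R.mul_mem hx hy) (R.mul_mem hy hx) (m.mul m') ((m'.mul m).congr k (t5 _ _)))
        fun k => inj (R.mul_mem hx hy) (R.mul_mem (R.mul_mem hy hx) zR) (m.mul m')
          (((m'.mul m).mul hz).congr k (by rw [mul_one, t5]))
    · obtain ⟨x, hx, m⟩ := su 1 1 (by decide)
      obtain ⟨y, hy, m'⟩ := su ![1, -1, 1, -1] 0 (by decide)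
      exact ⟨x, hx, y, hy, fun k => absurd ((m.mul m').uniq l (k ▸ m'.mul m)).1 (by decide)⟩
  let A : Subgroup S :=
    { carrier := {r | r ∈ R ∧ ∃ e, Mo ρ w r e 1}
      one_mem' := ⟨R.one_mem, _, Mo.one⟩
      mul_mem' := fun ⟨k, _, m⟩ ⟨k', _, m'⟩ => ⟨R.mul_mem k k', _, m.mul m'⟩
      inv_mem' := fun ⟨k, _, m⟩ => ⟨R.inv_mem k, _, m.inv⟩ }
  refine ⟨xs.isExtraspecial, (card_rel (D := {x : (Fin 4 → F3ˣ) × Fin 4 // ∏ i, x.1 i = 1})
    (fun r d => Mo ρ w r d.1.1 (τ d.1.2))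
    (fun r hr => let ⟨e, t, m, he⟩ := dat r hr; ⟨⟨(e, t), he⟩, m⟩) (fun d => su _ _ d.2)
    (fun _ k _ k' _ => inj k k') fun _ _ _ m m' => Subtype.ext
      (Prod.ext (m.uniq l m').1 (t7 _ _ (m.uniq l m').2))).trans (by
        rw [Nat.card_eq_fintype_card]; decide +kernel),
    A, fun _ k => k.1,
    ⟨⟨⟨fun ⟨x, hx, _, m⟩ ⟨y, hy, _, m'⟩ => Subtype.ext (inj (R.mul_mem hx hy) (R.mul_mem hy hx)
      (m.mul m') ((m'.mul m).congr (fun i => mul_comm _ _) rfl))⟩⟩, fun x ⟨hx, e, m⟩ => ?_⟩,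
    (card_rel (A := A) (D := {x : Fin 4 → F3ˣ // ∏ i, x i = 1}) (fun r d => Mo ρ w r d.1 1)
      (fun r ⟨hr, e, m⟩ => ⟨⟨e, ev hr m⟩, m⟩)
      (fun d => let ⟨r, hr, m⟩ := di _ d.2; ⟨r, ⟨hr, _, m⟩, m⟩)
      (fun _ k _ k' _ => inj k.1 k'.1) fun _ _ _ m m' => Subtype.ext (m.uniq l m').1).trans (by
        rw [Nat.card_eq_fintype_card]; decide +kernel)⟩
  rw [pow_two]
  exact inj (R.mul_mem hx hx) R.one_mem (m.mul m)
    (Mo.one.congr (fun i => (by decide : ∀ c : F3ˣ, c * c = 1) _) rfl)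

theorem grp : (IsElementaryAbelian 2 R ∧ Nat.card R = 4) ∨ (IsExtraspecial 2 R ∧
    Nat.card R = 32 ∧ ∃ A ≤ R, IsElementaryAbelian 2 A ∧ Nat.card A = 8) := by
  obtain ⟨A, AR, A2, n1, n2, nc⟩ := h.exists_A
  obtain ⟨x, f⟩ := exists_fr h.inj A2 h.fr.b3 n2 nc h.fr.dim
  let _ : MulAction S (Submodule F3 E) :=
    { smul := fun g U => U.map (ρ g)
      one_smul := fun U => by
        change U.map (ρ 1) = U
        rw [map_one]; exact Submodule.map_id U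
      mul_smul := fun g k U => by
        change U.map (ρ (g * k)) = (U.map (ρ k)).map (ρ g)
        rw [map_mul, ← Submodule.map_comp]; rfl }
  have sm : ∀ (g : S) (y : E), g • (F3 ∙ y) = F3 ∙ ρ g y := map_line
  have nz : ∀ g : S, ρ g x ≠ 0 := fun g e => f.ne (by
    rw [← one_app ρ x, ← inv_mul_cancel g, mul_app, e, map_zero])
  have k : ∀ (g : S) (y : E), (∃ c : F3, ρ g x = c • y) → F3 ∙ ρ g x = F3 ∙ y :=
    fun g y ⟨c, e⟩ => by
      rw [e, Submodule.span_singleton_smul_eq (IsUnit.mk0 c fun l => nz g (by rw [e, l, zero_smul]))]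
  rcases perm_cases h.two h.fr.b3 h.nR (p := F3 ∙ x) (by rw [sm]; exact f.line_ne)
    (fun r hr => by
      simp only [sm]
      exact (f.cases (f.wv.cj (n1 hr))).imp (k _ _) (Or.imp (k _ _) (Or.imp (k _ _)
        fun e => by rw [e]))) with e | ⟨r₀, h₀, l, e⟩
  · rw [h.case3 f fun r hr => (sm r x).symm.trans (e r hr)]
    refine Or.inl ⟨⟨⟨⟨fun a c => Subtype.ext ?_⟩⟩, fun a ha => by rw [pow_two, h.Q2 a ha]⟩, h.Q4⟩
    change a.1 * c.1 = c.1 * a.1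
    rw [← inv_eq_of_mul_eq_one_right (h.Q2 _ (Q.mul_mem a.2 c.2)), mul_inv_rev,
      inv_eq_of_mul_eq_one_right (h.Q2 _ a.2), inv_eq_of_mul_eq_one_right (h.Q2 _ c.2)]
  let w : Fin 4 → E := ![ρ r₀ x, x, ρ b x, ρ b (ρ b x)]
  have ew : ![r₀ • (F3 ∙ x), F3 ∙ x, b • (F3 ∙ x), b • b • (F3 ∙ x)] = fun i => F3 ∙ w i :=
    funext fun i => by fin_cases i <;> simp [w, sm]
  rw [ew] at l e
  have li : Li w :=
    ⟨fun i => by fin_cases i; exacts [nz _, f.ne, f.next.ne, f.next.next.ne], l⟩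
  have wv : ∀ i, Wv ρ A (w i) := fun i => by
    fin_cases i; exacts [f.wv.cj (n1 h₀), f.wv, f.next.wv, f.next.next.wv]
  have b0 : ρ b (ρ r₀ x) = ρ r₀ x := by
    rcases f.cases (wv 0) with e | e | e | e
    exacts [absurd (l (a₁ := 0) (a₂ := 1) (k _ _ e)) (by decide),
      absurd (l (a₁ := 0) (a₂ := 2) (k _ _ e)) (by decide),
      absurd (l (a₁ := 0) (a₂ := 3) (k _ _ e)) (by decide), e]
  obtain ⟨a, ha, c, d, n, e1, e2⟩ := f.sep
  obtain ⟨u, hu⟩ := mo_of_fun (ρ := ρ) (w := w) (g := a) id fun i => by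
    obtain ⟨c, e⟩ := wv i a ha
    rw [e, Submodule.span_singleton_smul_eq (IsUnit.mk0 c fun l => li.1 i ?_), id]
    rw [← one_app ρ (w i), ← inv_mul_cancel a, mul_app, e, l, zero_smul, map_zero]
  refine Or.inr (h.case4 li (fun i => ?_) (fun r hr => mo_of_lines li fun i => by
    simpa only [sm] using e r hr i) h₀ rfl (AR ha) hu fun l => n ?_)
  · fin_cases i
    exacts [b0.trans (one_smul _ _).symm, (one_smul _ _).symm, (one_smul _ _).symm,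
      (f.bbb x).trans (one_smul _ _).symm]
  · exact (smul_left_injective F3 f.ne (e1.symm.trans (hu 1))).trans (l ▸
      (smul_left_injective F3 f.next.ne (e2.symm.trans (hu 2))).symm)

theorem mod : ∃ F₀ F₁ : Submodule F3 E, F₀ ⊓ F₁ = ⊥ ∧ F₀ ⊔ F₁ = ⊤ ∧
    (∀ r ∈ R, ∀ v ∈ F₁, ρ r v = v) ∧ (∀ r ∈ R ⊔ zpowers b, ∀ v ∈ F₀, ρ r v ∈ F₀) ∧
    (∀ r ∈ R ⊔ zpowers b, (∀ v ∈ F₀, ρ r v = v) → r = 1) ∧
    ∀ N : Submodule F3 E, N ≤ F₀ → (∀ r ∈ R ⊔ zpowers b, ∀ v ∈ N, ρ r v ∈ N) → N = ⊥ ∨ N = F₀ := by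
  have := Fintype.ofFinite R
  let F₀ := Submodule.span F3 {x | ∃ r ∈ R, ∃ u, x = ρ r u - u}
  let F₁ := (Representation.invariants (ρ.comp R.subtype) : Submodule F3 E)
  let T : End F3 E := ∑ r : R, ρ r
  have Ta : ∀ u, T u = ∑ r : R, ρ r u := fun u => LinearMap.sum_apply _ _ _
  have c0 : (Fintype.card R : F3) ≠ 0 := fun e => absurd (Nat.Coprime.eq_one_of_dvd h.cop.symm
    (Nat.card_eq_fintype_card (α := R) ▸ (ZMod.natCast_eq_zero_iff _ 3).1 e)) (by decide)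
  have f1 : R ≤ Fix ρ F₁ := fun r hr u hu => hu ⟨r, hr⟩
  have bot : F₀ ⊓ F₁ = ⊥ := eq_bot_iff.2 fun u hu => by
    have k : T u = 0 := (Submodule.span_le (p := LinearMap.ker T)).2 (by
      rintro _ ⟨r, hr, x, rfl⟩
      change T _ = 0
      rw [map_sub, Ta, Ta, sub_eq_zero, ← Equiv.sum_comp (Equiv.mulRight (⟨r, hr⟩ : R)) fun s : R => ρ s x]
      exact Finset.sum_congr rfl fun s _ => (mul_app ρ _ _ _).symm) hu.1
    rw [Ta, Finset.sum_congr rfl fun r _ => f1 r.2 u hu.2, Finset.sum_const, Finset.card_univ,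
      ← Nat.cast_smul_eq_nsmul F3] at k
    exact (smul_eq_zero.1 k).resolve_left c0
  have top : F₀ ⊔ F₁ = ⊤ := eq_top_iff.2 fun u _ => by
    rw [← Submodule.smul_mem_iff _ c0, show (Fintype.card R : F3) • u =
      -(∑ r : R, (ρ r u - u)) + T u by
        rw [Ta, Finset.sum_sub_distrib, Finset.sum_const, Finset.card_univ,
          Nat.cast_smul_eq_nsmul]; abel]
    refine Submodule.add_mem_sup (neg_mem (sum_mem fun r _ =>
      Submodule.subset_span ⟨r, r.2, u, rfl⟩)) fun s => ?_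
    change ρ s (T u) = T u
    rw [Ta, map_sum, ← Equiv.sum_comp (Equiv.mulLeft s) fun r : R => ρ r u]
    exact Finset.sum_congr rfl fun r _ => (mul_app ρ _ _ _).symm
  have nG : R ⊔ zpowers b ≤ normalizer (R : Set S) := sup_le le_normalizer (zpowers_le.2 h.nR)
  refine ⟨F₀, F₁, bot, top, f1, fun g hg u hu => (Submodule.span_le (p := F₀.comap (ρ g))).2 ?_ hu,
    fun g hg k => h.inj (LinearMap.ext fun u => ?_), fun N le k => or_iff_not_imp_left.2 fun n => ?_⟩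
  · rintro _ ⟨r, hr, x, rfl⟩
    exact Submodule.subset_span ⟨_, (mem_normalizer_iff.1 (nG hg) r).1 hr, ρ g x, by
      rw [map_sub, cj_app]⟩
  · obtain ⟨x, hx, y, hy, rfl⟩ := Submodule.mem_sup.1 (top.ge (Submodule.mem_top (x := u)))
    rw [map_add, k x hx, sup_le f1 (zpowers_le.2 (h.b_fix (h.QR.trans f1))) hg y hy, one_app]
  · have k1 := fun r hr => k r (mem_sup_left hr)
    refine le_antisymm le (Submodule.span_le.2 ?_)
    rintro _ ⟨r, hr, x, rfl⟩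
    exact h.le_sub k1 (h.dm_le k1 (k b (mem_sup_right (mem_zpowers b))) fun c =>
      n (eq_bot_iff.2 fun u hu => bot.le ⟨le hu, fun s => h.le_fix k1 c s.2 u hu⟩)) hr x

end Ctx

end Cfsg.Agent.H69.J3
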