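import Cfsg.Agent.H9.KCDefs
import Cfsg.Agent.H2.QF
import Cfsg.Agent.H57.SpecCH

/-!
Two facts for the class equation search (project KC): centralizers of `2`-elements of `L₃(4)`,
and an element of order `12` in `U₃(3)`.
-/

set_option autoImplicit false

namespace Cfsg.Agent.H69.KcF2

open Cfsg.Agent.H9.KC

universe u

/-- The Heisenberg group. -/
@[ext] structure Hz (F : Type*) where
  /-- first coordinate -/
  a : F
  /-- second coordinate -/
  b : F
  /-- central coordinate -/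
  c : F

namespace Hz

variable {F : Type*} [Field F]

instance : Mul (Hz F) := ⟨fun x y => ⟨x.a + y.a, x.b + y.b, x.c + y.c + x.a * y.b⟩⟩
instance : One (Hz F) := ⟨⟨0, 0, 0⟩⟩
instance : Inv (Hz F) := ⟨fun x => ⟨-x.a, -x.b, x.a * x.b - x.c⟩⟩

theorem mul_def (x y : Hz F) : x * y = ⟨x.a + y.a, x.b + y.b, x.c + y.c + x.a * y.b⟩ := rfl
theorem one_def : (1 : Hz F) = ⟨0, 0, 0⟩ := rfl
theorem inv_def (x : Hz F) : x⁻¹ = ⟨-x.a, -x.b, x.a * x.b - x.c⟩ := rfl

instance : Group (Hz F) := Group.ofLeftAxioms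
  (fun x y z => by ext <;> simp only [mul_def] <;> ring) (fun x => by ext <;> simp [mul_def, one_def])
  fun x => by ext <;> simp [mul_def, one_def, inv_def]

/-- The central elements. -/
def z (c : F) : Hz F := ⟨0, 0, c⟩

theorem qd [CharP F 2] :
    H2.QD (fun v : F × F => v.1 * v.2) (fun x : Hz F => (x.a, x.b)) z where
  add _ _ := rfl
  zadd c d := by simp [z, mul_def]
  zinj := fun _ _ e => congrArg Hz.c e
  cen c x := by
    show z c * x = x * z c
    simp [z, mul_def, add_comm]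
  ker x := ⟨fun e => ⟨x.c, Hz.ext (congrArg (·.1) e).symm (congrArg (·.2) e).symm rfl⟩,
    by rintro ⟨a, rfl⟩; rfl⟩
  surj v := ⟨⟨v.1, v.2, 0⟩, rfl⟩
  sq x := by simp [mul_def, z, CharTwo.add_self_eq_zero]

theorem mem_cent (u y : Hz F) :
    y ∈ Subgroup.centralizer ({u} : Set (Hz F)) ↔ y.a * u.b = u.a * y.b := by
  rw [Subgroup.mem_centralizer_singleton_iff, Hz.ext_iff]
  simp only [mul_def]
  constructor
  · rintro ⟨-, -, h⟩
    linear_combination h
  · intro h
    exact ⟨add_comm _ _, add_comm _ _, by linear_combination h⟩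

theorem card_cent [Fintype F] (hF : Fintype.card F = 4) (u : Hz F) :
    Nat.card (Subgroup.centralizer ({u} : Set (Hz F))) = 16 ∨
      Nat.card (Subgroup.centralizer ({u} : Set (Hz F))) = 64 := by
  have h2 : Nat.card (F × F) = 16 := by simp [hF]
  have h3 : Nat.card (F × F × F) = 64 := by simp [hF]
  by_cases ha : u.a = 0
  · by_cases hb : u.b = 0
    · refine Or.inr (h3 ▸ Nat.card_congr ⟨fun y => (y.1.a, y.1.b, y.1.c),
        fun v => ⟨⟨v.1, v.2.1, v.2.2⟩, (mem_cent _ _).2 (by simp [ha, hb])⟩, fun _ => rfl,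
        fun _ => rfl⟩)
    · refine Or.inl (h2 ▸ Nat.card_congr ⟨fun y => (y.1.b, y.1.c),
        fun v => ⟨⟨0, v.1, v.2⟩, (mem_cent _ _).2 (by simp [ha])⟩, fun y => ?_, fun _ => rfl⟩)
      have := (mem_cent _ _).1 y.2
      rw [ha, zero_mul, mul_eq_zero] at this
      exact Subtype.ext (Hz.ext (this.resolve_right hb).symm rfl rfl)
  · refine Or.inl (h2 ▸ Nat.card_congr ⟨fun y => (y.1.a, y.1.c),
      fun v => ⟨⟨v.1, v.1 * u.b / u.a, v.2⟩, (mem_cent _ _).2 (by field_simp)⟩, fun y => ?_,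
      fun _ => rfl⟩)
    have := (mem_cent _ _).1 y.2
    refine Subtype.ext (Hz.ext rfl ?_ rfl)
    show y.1.a * u.b / u.a = y.1.b
    rw [this]
    field_simp

end Hz

theorem card_cent_equiv {A B : Type*} [Group A] [Group B] (e : A ≃* B) (x : A) :
    Nat.card (Subgroup.centralizer ({e x} : Set B)) =
      Nat.card (Subgroup.centralizer ({x} : Set A)) := by
  refine (Nat.card_congr (e.toEquiv.subtypeEquiv fun a => ?_)).symm
  rw [Subgroup.mem_centralizer_singleton_iff, Subgroup.mem_centralizer_singleton_iff]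
  show _ ↔ e a * e x = e x * e a
  rw [← map_mul, ← map_mul, e.injective.eq_iff]

theorem of_sylow {G : Type*} [Group G] [Finite G]
    (h : ∀ (S : Sylow 2 G) (u : S), Nat.card (Subgroup.centralizer ({u} : Set S)) = 16 ∨
      Nat.card (Subgroup.centralizer ({u} : Set S)) = 64) (x : G) (n : ℕ) (hx : x ^ 2 ^ n = 1) :
    16 ∣ Nat.card (Subgroup.centralizer ({x} : Set G)) ∧
      (32 ∣ Nat.card (Subgroup.centralizer ({x} : Set G)) →
        64 ∣ Nat.card (Subgroup.centralizer ({x} : Set G))) := by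
  have : Fact (Nat.Prime 2) := ⟨Nat.prime_two⟩
  set C := Subgroup.centralizer ({x} : Set G) with hC
  have xC : x ∈ C := Subgroup.mem_centralizer_singleton_iff.2 rfl
  have hp : IsPGroup 2 (Subgroup.zpowers (⟨x, xC⟩ : C)) := by
    rintro ⟨_, k, rfl⟩
    refine ⟨n, Subtype.ext (Subtype.ext ?_)⟩
    simp only [Subgroup.coe_pow, Subgroup.coe_zpow, OneMemClass.coe_one]
    rw [← zpow_natCast, ← zpow_mul, mul_comm, zpow_mul, zpow_natCast, hx, one_zpow]
  obtain ⟨T, hT⟩ := hp.exists_le_sylow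
  obtain ⟨S, hS⟩ := (T.isPGroup'.map C.subtype).exists_le_sylow
  have xS : x ∈ (S : Subgroup G) := hS ⟨⟨x, xC⟩, hT (Subgroup.mem_zpowers _), rfl⟩
  have e : Nat.card (Subgroup.centralizer ({(⟨x, xS⟩ : S)} : Set S)) =
      Nat.card ((S : Subgroup G) ⊓ C : Subgroup G) := by
    refine Nat.card_congr ⟨fun y => ⟨y.1.1, y.1.2, Subgroup.mem_centralizer_singleton_iff.2
      (congrArg Subtype.val (Subgroup.mem_centralizer_singleton_iff.1 y.2))⟩,
      fun y => ⟨⟨y.1, y.2.1⟩, Subgroup.mem_centralizer_singleton_iff.2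
        (Subtype.ext (Subgroup.mem_centralizer_singleton_iff.1 y.2.2))⟩, fun _ => rfl, fun _ => rfl⟩
  have d1 : Nat.card ((S : Subgroup G) ⊓ C : Subgroup G) ∣ Nat.card C :=
    Subgroup.card_dvd_of_le inf_le_right
  have d2 : Nat.card (T : Subgroup C) ∣ Nat.card ((S : Subgroup G) ⊓ C : Subgroup G) := by
    rw [← Subgroup.card_map_of_injective (K := (T : Subgroup C)) C.subtype_injective]
    exact Subgroup.card_dvd_of_le (le_inf hS (Subgroup.map_subtype_le _))
  rcases h S ⟨x, xS⟩ with h | h <;> rw [h] at e <;> rw [← e] at d1 d2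
  · refine ⟨d1, fun h32 => absurd ((T.pow_dvd_card_of_pow_dvd_card (n := 5) h32).trans d2) ?_⟩
    norm_num
  · exact ⟨Dvd.dvd.trans (by norm_num) d1, fun _ => d1⟩

theorem fl34 : FL34Stmt.{u} := by
  rintro G _ ⟨F, _, _, hF, ⟨e⟩⟩ x n hx
  have : CharP F 2 := by
    obtain ⟨p, hp⟩ := CharP.exists F
    obtain ⟨k, hk, h⟩ := FiniteField.card F p
    have : p ∣ 2 ^ 2 := by
      rw [show 2 ^ 2 = 4 from rfl, ← hF, h]
      exact dvd_pow_self p k.ne_zero
    rwa [← (Nat.prime_dvd_prime_iff_eq hk Nat.prime_two).1 (hk.dvd_of_dvd_pow this)]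
  rw [← card_cent_equiv e]
  refine of_sylow (fun S u => ?_) (e x) n (by rw [← map_pow, hx, map_one])
  obtain ⟨f⟩ := (Hz.qd (F := F)).equiv_psl3 S
  obtain ⟨v, rfl⟩ := f.surjective u
  have := card_cent_equiv f v
  exact this ▸ Hz.card_cent hF v

theorem fu33 : FU33Stmt.{u} := by
  rintro G _ ⟨F, _, _, hF, ⟨e⟩⟩
  have h : 12 ∈ H57.spec (Cfsg.PSU 3 F 3) := by
    rw [H57.spec_psu3_of_card hF]
    simp
  obtain ⟨x, hx⟩ := h
  exact ⟨e.symm x, (e.symm.orderOf_eq x).trans hx⟩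

end Cfsg.Agent.H69.KcF2
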