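import Cfsg.Agent.H46.L40Defs

/-! L40-FR2: the frame of case II. -/

set_option autoImplicit false
set_option linter.unusedSectionVars false

namespace Cfsg.Agent.H69.L40Fr2

open Subgroup Cfsg.Agent.H83 Cfsg.Agent.H40.L3 Cfsg.Agent.H46.L40

universe u

theorem me (x y : S3) (i j : Fin 3) :
    (x * y).1 i j = x.1 i 0 * y.1 0 j + x.1 i 1 * y.1 1 j + x.1 i 2 * y.1 2 j := by
  change (x.1 * y.1) i j = _
  rw [Matrix.mul_apply, Fin.sum_univ_three]

theorem ent {x y x' y' : S3} (h : x * y = x' * y') (i j : Fin 3) :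
    x.1 i 0 * y.1 0 j + x.1 i 1 * y.1 1 j + x.1 i 2 * y.1 2 j =
      x'.1 i 0 * y'.1 0 j + x'.1 i 1 * y'.1 1 j + x'.1 i 2 * y'.1 2 j := by
  rw [← me, ← me, h]

theorem ext9 {x y : S3} (h : x.1 0 0 = y.1 0 0 ∧ x.1 0 1 = y.1 0 1 ∧ x.1 0 2 = y.1 0 2 ∧
    x.1 1 0 = y.1 1 0 ∧ x.1 1 1 = y.1 1 1 ∧ x.1 1 2 = y.1 1 2 ∧
    x.1 2 0 = y.1 2 0 ∧ x.1 2 1 = y.1 2 1 ∧ x.1 2 2 = y.1 2 2) : x = y := by
  obtain ⟨h1, h2, h3, h4, h5, h6, h7, h8, h9⟩ := h
  apply Subtype.ext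
  ext i j
  fin_cases i <;> fin_cases j <;> assumption

theorem two_eq : ∀ x : ZMod 3, (x * 2 = x ∨ 2 * x = x ∨ x = x * 2 ∨ x = 2 * x) → x = 0 := by decide

theorem cen (m : S3) (h1 : m * w0 = w0 * m) (h2 : m * a0 = a0 * m) : m = 1 ∨ m = z0 := by
  have hd := m.2
  rw [Matrix.det_fin_three] at hd
  have a01 : m.1 0 1 = 0 := two_eq _ (by
    have := ent h2 0 1; simp [a0] at this; simp [this])
  have a02 : m.1 0 2 = 0 := two_eq _ (by
    have := ent h2 0 2; simp [a0] at this; simp [this])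
  have a10 : m.1 1 0 = 0 := two_eq _ (by
    have := ent h2 1 0; simp [a0] at this; simp [← this])
  have a20 : m.1 2 0 = 0 := two_eq _ (by
    have := ent h2 2 0; simp [a0] at this; simp [← this])
  have a11 : m.1 0 0 = m.1 1 1 := by
    simpa [w0] using ent h1 0 1
  have a12 : m.1 0 2 = m.1 1 2 := by
    simpa [w0] using ent h1 0 2
  have a21 : m.1 2 0 = m.1 2 1 := by
    simpa [w0] using ent h1 2 1
  have key : ∀ a i : ZMod 3, a * a * i = 1 → i = 1 ∧ (a = 1 ∨ a = 2) := by decide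
  rw [← a11, ← a12, ← a21, a01, a02, a10, a20] at hd
  obtain ⟨k1, k2 | k2⟩ := key (m.1 0 0) (m.1 2 2) (by simpa using hd)
  · left
    apply ext9
    rw [← a11, ← a12, ← a21, a01, a02, a10, a20, k1, k2]
    decide
  · right
    apply ext9
    rw [← a11, ← a12, ← a21, a01, a02, a10, a20, k1, k2]
    decide

theorem ctr (m : S3) (h : ∀ x, m * x = x * m) : m = 1 := by
  rcases cen m (h _) (h _) with e | e
  · exact e
  · exact absurd (h r0) (by rw [e]; decide +kernel)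

theorem tr_mul (x y : S3) : tr (x * y) = tr x * tr y := by
  apply Subtype.ext
  change ((x * y)⁻¹ : S3).1.transpose = (x⁻¹ : S3).1.transpose * (y⁻¹ : S3).1.transpose
  rw [mul_inv_rev, ← Matrix.transpose_mul]
  rfl

theorem tr_one : tr 1 = 1 := by decide +kernel

theorem tr_self (x : S3) : Matrix.SpecialLinearGroup.transpose x * tr x = 1 := by
  apply Subtype.ext
  have := congrArg Subtype.val (inv_mul_cancel x)
  change (x.1).transpose * ((x⁻¹ : S3).1).transpose = 1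
  rw [← Matrix.transpose_mul]
  change (x⁻¹ : S3).1 * x.1 = 1 at this
  rw [this, Matrix.transpose_one]

theorem tr_tr (x : S3) : tr (tr x) = x := by
  have h : (tr x)⁻¹ = Matrix.SpecialLinearGroup.transpose x :=
    inv_eq_of_mul_eq_one_left (tr_self x)
  rw [tr, h]
  rfl

/-- the inverse transpose as an automorphism -/
def trE : S3 ≃* S3 where
  toFun := tr
  invFun := tr
  left_inv := tr_tr
  right_inv := tr_tr
  map_mul' := tr_mul

theorem tr_inv (x : S3) : tr x⁻¹ = (tr x)⁻¹ := map_inv trE x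

/-- `a z` -/
def az : S3 := ⟨!![2, 0, 0; 0, 1, 0; 0, 0, 2], by decide⟩

theorem mono (n : S3) (h1 : n * z0 = a0 * n) (h2 : n * a0 = a0 * z0 * n) : tr n = n := by
  have hd := n.2
  rw [Matrix.det_fin_three] at hd
  have e : a0 * z0 = az := by decide +kernel
  rw [e] at h2
  have a00 : n.1 0 0 = 0 := two_eq _ (by
    have := ent h1 0 0; simp [a0, z0] at this; simp [this])
  have a01 : n.1 0 1 = 0 := two_eq _ (by
    have := ent h1 0 1; simp [a0, z0] at this; simp [this])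
  have a12 : n.1 1 2 = 0 := two_eq _ (by
    have := ent h1 1 2; simp [a0, z0] at this; simp [← this])
  have a22 : n.1 2 2 = 0 := two_eq _ (by
    have := ent h1 2 2; simp [a0, z0] at this; simp [← this])
  have a11 : n.1 1 1 = 0 := two_eq _ (by
    have := ent h2 1 1; simp [a0, az] at this; simp [this])
  have a20 : n.1 2 0 = 0 := two_eq _ (by
    have := ent h2 2 0; simp [a0, az] at this; simp [← this])
  have key : ∀ a b c : ZMod 3, a * b * c = 1 → a * a = 1 ∧ b * b = 1 ∧ c * c = 1 := by decide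
  rw [a00, a01, a12, a22, a11, a20] at hd
  obtain ⟨k1, k2, k3⟩ := key (n.1 0 2) (n.1 1 0) (n.1 2 1) (by simpa using hd)
  have : Matrix.SpecialLinearGroup.transpose n * n = 1 := by
    apply ext9
    simp only [me]
    simp [Matrix.SpecialLinearGroup.transpose, a00, a01, a12, a22, a11, a20, k1, k2, k3]
  exact mul_left_cancel ((tr_self n).trans this.symm)

theorem fx : tr w0 = w0 ∧ tr a0 = a0 ∧ tr z0 = z0 ∧ z0 * q0 = q0 * z0 ∧ q0 ≠ q0 * z0 ∧ z0 ≠ a0 := by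
  decide +kernel

theorem rel (o : Bool) : (M.W * M.W : M o) = .Z ∧ (M.Q * M.Q : M o) = .Z ∧ (M.A * M.A : M o) = 1 ∧
    (M.Q * M.A * (M.Q * M.A) : M o) = .W ∧ (M.A * (M.Q * M.A) * M.A : M o) = (M.Q * M.A) ^ 3 ∧
    (M.Z : M o) ≠ 1 ∧ (M.Z * M.Z : M o) = 1 ∧ (M.Q * M.A * M.T : M o) = M.T * (M.Q * M.A) ∧
    (M.Q * M.T : M o) = M.T * M.Q ∧ (M.Q * M.A * M.Q⁻¹ * M.A * M.Z : M o) = .W ∧
    (M.Gm * M.T : M o) = M.T * M.Gm ∧ (M.Gm * M.W * M.Gm⁻¹ : M o) = .W ∧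
    (M.Gm * M.A * M.Gm⁻¹ : M o) = .A ∧ (M.Gm * M.Q * M.Gm⁻¹ : M o) = M.Q * M.Z := by
  cases o <;> decide +kernel

section
variable {G : Type u} [Group G] (f : Fr G)

theorem nrm (c : G) (hc : c * f.t = f.t * c) (x : G) (hx : x ∈ f.φ.range) :
    c * x * c⁻¹ ∈ f.φ.range := by
  obtain ⟨x, rfl⟩ := hx
  obtain ⟨m, h | h⟩ := f.aut c hc
  · exact ⟨_, (h x).symm⟩
  · exact ⟨_, (h x).symm⟩

theorem cjcj {H : Type*} [Group H] (m n x : H) :
    m * (n * x * n⁻¹) * m⁻¹ = m * n * x * (m * n)⁻¹ := by group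

theorem sq_inn (c : G) (hc : c * f.t = f.t * c) :
    ∃ m, ∀ x, c * c * f.φ x * (c * c)⁻¹ = f.φ (m * x * m⁻¹) := by
  have e : ∀ x, c * c * f.φ x * (c * c)⁻¹ = c * (c * f.φ x * c⁻¹) * c⁻¹ := fun x => by group
  obtain ⟨m, h | h⟩ := f.aut c hc
  · exact ⟨m * m, fun x => by rw [e, h, h, cjcj]⟩
  · exact ⟨m * tr m, fun x => by rw [e, h, h, tr_mul, tr_mul, tr_tr, tr_inv, cjcj]⟩

theorem sq_mem (c : G) (hc : c * f.t = f.t * c) (k : ℕ) (hk : c ^ 2 ^ k = 1) (m : S3)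
    (h : ∀ x, c * f.φ x * c⁻¹ = f.φ (m * x * m⁻¹)) : c * c ∈ f.φ.range := by
  obtain ⟨d, hd⟩ : ∃ d, d = (f.φ m)⁻¹ * c := ⟨_, rfl⟩
  have ec : c = f.φ m * d := by rw [hd]; group
  have dc : ∀ x, f.φ x * d = d * f.φ x := fun x => by
    have := h x
    rw [map_mul, map_mul, map_inv, ec] at this
    calc f.φ x * d = (f.φ m)⁻¹ * (f.φ m * f.φ x * (f.φ m)⁻¹) * f.φ m * d := by group
      _ = d * f.φ x := by rw [← this]; group
  have dt : d * f.t = f.t * d := by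
    rw [hd, mul_assoc, hc, ← mul_assoc, ← mul_assoc, ← map_inv, f.tL]
  have cm : Commute (f.φ m) d := dc m
  have h1 : f.φ (m ^ 2 ^ k) * d ^ 2 ^ k = 1 := by rw [map_pow, ← cm.mul_pow, ← ec, hk]
  have h2 : m ^ 2 ^ k = 1 := ctr _ fun x => f.inj (by
    have h3 : Commute (f.φ x) (d ^ 2 ^ k) := (show Commute (f.φ x) d from dc x).pow_right _
    rw [map_mul, map_mul, eq_inv_of_mul_eq_one_left h1]
    exact h3.inv_right.symm.eq)
  rw [h2, map_one, one_mul] at h1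
  have h3 : d ∈ zpowers f.t := f.sylK.mem_of_norm
    (mem_centralizer_iff.2 (by rintro _ ⟨x, rfl⟩; exact dc x)) h1
    (centralizer_le_normalizer _ (mem_centralizer_iff.2 (by
      rintro _ ⟨j, rfl⟩
      exact ((show Commute d f.t from dt).zpow_right j).symm.eq)))
  have h4 : d * d = 1 := by
    have := orderOf_dvd_of_mem_zpowers h3
    rw [f.t2, orderOf_dvd_iff_pow_eq_one, pow_two] at this
    exact this
  refine ⟨m * m, ?_⟩
  rw [map_mul, ec]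
  calc f.φ m * f.φ m = f.φ m * f.φ m * (d * d) := by rw [h4, mul_one]
    _ = f.φ m * (f.φ m * d) * d := by group
    _ = f.φ m * (d * f.φ m) * d := by rw [dc m]
    _ = f.φ m * d * (f.φ m * d) := by group

/-- change of coordinates in a frame -/
def tw (au : AutS) (ψ : S3 ≃* S3) : Fr G where
  X := f.X
  t := f.t
  φ := f.φ.comp ψ.toMonoidHom
  inj := f.inj.comp ψ.injective
  Xn := f.Xn
  Xs := f.Xs
  Xa := f.Xa
  Xc := f.Xc
  cov := f.cov
  LX := fun _ => f.LX _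
  t2 := f.t2
  tL := fun _ => f.tL _
  sylK := by
    have : (f.φ.comp ψ.toMonoidHom).range = f.φ.range := by
      ext x
      exact ⟨fun ⟨y, h⟩ => ⟨ψ y, h⟩, fun ⟨y, h⟩ => ⟨ψ.symm y, by simpa using h⟩⟩
    rw [this]
    exact f.sylK
  aut := by
    intro c hc
    have key : ∀ σ : S3 ≃* S3, (∀ x, c * f.φ x * c⁻¹ = f.φ (σ x)) →
        ∃ m, (∀ x, c * f.φ (ψ x) * c⁻¹ = f.φ (ψ (m * x * m⁻¹))) ∨
          (∀ x, c * f.φ (ψ x) * c⁻¹ = f.φ (ψ (m * tr x * m⁻¹))) := by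
      intro σ hσ
      obtain ⟨n, h | h⟩ := au (ψ.trans (σ.trans ψ.symm))
      · exact ⟨n, Or.inl fun x => by rw [hσ, ← h x]; simp⟩
      · exact ⟨n, Or.inr fun x => by rw [hσ, ← h x]; simp⟩
    obtain ⟨m, h | h⟩ := f.aut c hc
    · exact key (MulAut.conj m) h
    · exact key (trE.trans (MulAut.conj m)) h

theorem gtr {o : Bool} (D : D2 G o) (iT : D.ι .T = f.t) (iZ : D.ι .Z = f.φ z0)
    (iW : D.ι .W = f.φ w0) (iQ : D.ι .Q = f.φ q0) (iA : D.ι .A = f.φ a0) :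
    (∀ x, D.ι .Gm * f.φ x * (D.ι .Gm)⁻¹ = f.φ (tr x)) ∨
      (o = true ∧ ∀ x, D.ι .Gm * f.φ x * (D.ι .Gm)⁻¹ = f.φ (z0 * tr x * z0⁻¹)) := by
  obtain ⟨-, -, -, -, -, -, -, -, -, -, r1, r2, r3, r4⟩ := rel o
  obtain ⟨x1, x2, x3, x4, x5, x6⟩ := fx
  have gt : D.ι .Gm * f.t = f.t * D.ι .Gm := by rw [← iT, ← map_mul, ← map_mul, r1]
  have gw : D.ι .Gm * f.φ w0 * (D.ι .Gm)⁻¹ = f.φ w0 := by
    rw [← iW, ← map_inv, ← map_mul, ← map_mul, r2]
  have ga : D.ι .Gm * f.φ a0 * (D.ι .Gm)⁻¹ = f.φ a0 := by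
    rw [← iA, ← map_inv, ← map_mul, ← map_mul, r3]
  have gq : D.ι .Gm * f.φ q0 * (D.ι .Gm)⁻¹ = f.φ (q0 * z0) := by
    rw [map_mul, ← iQ, ← iZ, ← map_inv, ← map_mul, ← map_mul, r4, map_mul]
  obtain ⟨m, h | h⟩ := f.aut _ gt
  · exfalso
    have h1 := f.inj ((h w0).symm.trans gw)
    have h2 := f.inj ((h a0).symm.trans ga)
    have h3 := f.inj ((h q0).symm.trans gq)
    rcases cen m (mul_inv_eq_iff_eq_mul.1 h1) (mul_inv_eq_iff_eq_mul.1 h2) with e | e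
    · rw [e, one_mul, inv_one, mul_one] at h3; exact x5 h3
    · rw [e, x4, mul_inv_cancel_right] at h3; exact x5 h3
  have h1 := f.inj ((h w0).symm.trans gw)
  have h2 := f.inj ((h a0).symm.trans ga)
  rw [x1] at h1
  rw [x2] at h2
  rcases cen m (mul_inv_eq_iff_eq_mul.1 h1) (mul_inv_eq_iff_eq_mul.1 h2) with e | e
  · left
    intro x
    rw [h, e, one_mul, inv_one, mul_one]
  subst e
  cases o
  swap
  · exact Or.inr ⟨rfl, h⟩
  exfalso
  have rg := D.ρg rfl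
  have rz := D.ρz
  have ra := D.ρa
  rw [iZ, iA] at rz
  rw [map_mul, iZ, iA, ← map_mul] at ra
  have cm : ∀ y, D.ι .Gm * (D.ρ * y * D.ρ⁻¹) * (D.ι .Gm)⁻¹ =
      D.ρ * (D.ι .Gm * y * (D.ι .Gm)⁻¹) * D.ρ⁻¹ := fun y => by
    calc D.ι .Gm * (D.ρ * y * D.ρ⁻¹) * (D.ι .Gm)⁻¹ = D.ι .Gm * D.ρ * y * (D.ι .Gm * D.ρ)⁻¹ := by group
      _ = _ := by rw [← rg]; group
  have fin : ∀ n : S3, n * z0 * n⁻¹ = a0 → n * a0 * n⁻¹ = a0 * z0 →
      (∀ x, z0 * (tr n * x * (tr n)⁻¹) * z0⁻¹ = n * (z0 * x * z0⁻¹) * n⁻¹) → False := by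
    intro n n1 n2 n3
    have e := mono n (mul_inv_eq_iff_eq_mul.1 n1) (mul_inv_eq_iff_eq_mul.1 n2)
    rw [e] at n3
    have h3 : (n * z0)⁻¹ * (z0 * n) = 1 := ctr _ fun x => by
      calc (n * z0)⁻¹ * (z0 * n) * x = (n * z0)⁻¹ * (z0 * (n * x * n⁻¹) * z0⁻¹) * (z0 * n) := by group
        _ = _ := by rw [n3]; group
    rw [inv_mul_eq_one.1 h3, mul_inv_cancel_right] at n1
    exact x6 n1
  obtain ⟨n, k | k⟩ := f.aut D.ρ (iT ▸ D.ρt)
  · refine fin n (f.inj ((k z0).symm.trans rz)) (f.inj ((k a0).symm.trans ra)) fun x => f.inj ?_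
    have := cm (f.φ (tr x))
    rwa [k, h, h, k, tr_mul, tr_mul, tr_inv, tr_tr] at this
  · refine fin n (x3 ▸ f.inj ((k z0).symm.trans rz)) (by simpa only [x2] using f.inj ((k a0).symm.trans ra))
      fun x => f.inj ?_
    have := cm (f.φ x)
    rwa [k, h, h, k, tr_mul, tr_mul, tr_mul, tr_mul, tr_inv, tr_inv, tr_tr, x3] at this

end

theorem fr2 : Fr2S.{u} := by
  intro tie au G _ _ f o D iT
  obtain ⟨r1, r2, r3, r4, r5, r6, r7, r8, -, r10, -⟩ := rel o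
  have yt : D.ι (.Q * .A) * f.t = f.t * D.ι (.Q * .A) := by rw [← iT, ← map_mul, ← map_mul, r8]
  have qt : D.ι .Q * f.t = f.t * D.ι .Q := by
    rw [← iT, ← map_mul, ← map_mul, (rel o).2.2.2.2.2.2.2.2.1]
  obtain ⟨m, hm⟩ := sq_inn f _ yt
  rw [← map_mul, r4] at hm
  have wt : D.ι .W * f.t = f.t * D.ι .W := by
    rw [← r4, map_mul, mul_assoc, yt, ← mul_assoc, yt, mul_assoc]
  have hz : D.ι .Z ∈ f.φ.range := by
    have := sq_mem f _ wt 2 (by
      rw [← map_pow, show (2 : ℕ) ^ 2 = 2 + 2 by norm_num, pow_add, pow_two, r1, r7, map_one]) m hm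
    rwa [← map_mul, r1] at this
  have ha : D.ι .A ∈ f.φ.range := D.ρz ▸ nrm f _ (iT ▸ D.ρt) _ hz
  have hw : D.ι .W ∈ f.φ.range := by
    rw [← r10, map_mul, map_mul, map_mul, map_mul, map_inv]
    exact mul_mem (mul_mem (nrm f _ qt _ ha) ha) hz
  have hq : D.ι .Q ∈ f.φ.range := by
    have := nrm f _ (iT ▸ D.κt) _ hw
    rcases D.κw with e | e
    · rwa [e] at this
    · rw [e, map_mul] at this
      exact (mul_mem_cancel_right hz).1 this
  obtain ⟨w, hw⟩ := hw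
  obtain ⟨q, hq⟩ := hq
  obtain ⟨a, ha⟩ := ha
  obtain ⟨ψ, p1, p2, p3⟩ := tie w q a
    (fun h => r6 (D.inj (by rw [← r1, map_mul, ← hw, ← map_mul, h, map_one, map_one])))
    (f.inj (by simp only [map_mul, hw, map_one]; simp only [← map_mul, r1, r7, map_one]))
    (f.inj (by simp only [map_mul, hw, hq]; simp only [← map_mul, r1, r2]))
    (f.inj (by simp only [map_mul, ha, map_one]; simp only [← map_mul, r3, map_one]))
    (f.inj (by simp only [map_mul, hw, hq, ha]; simp only [← map_mul, r4]))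
    (f.inj (by simp only [map_mul, map_pow, hq, ha]; simp only [← map_mul, ← map_pow, r5]))
  have iW : D.ι .W = (tw f au ψ).φ w0 := by rw [← hw, ← p1]; rfl
  have iQ : D.ι .Q = (tw f au ψ).φ q0 := by rw [← hq, ← p2]; rfl
  have iA : D.ι .A = (tw f au ψ).φ a0 := by rw [← ha, ← p3]; rfl
  have iZ : D.ι .Z = (tw f au ψ).φ z0 := by rw [← r1, ← chk.1, map_mul, map_mul, iW]
  exact ⟨{ tw f au ψ with
    D := D, iT := iT, iZ := iZ, iW := iW, iQ := iQ, iA := iA,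
    gtr := gtr (tw f au ψ) D iT iZ iW iQ iA }, rfl⟩

end Cfsg.Agent.H69.L40Fr2
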