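import Cfsg.Agent.H50.L81Defs
import Cfsg.Agent.H67.E83Tr4

/-! Project L81 (S5921), piece Y4: eigenvalue multiplicities of elements of order dividing four. -/

set_option autoImplicit false
set_option maxRecDepth 100000

namespace Cfsg.Agent.H69.L81Y4

open Equiv Cfsg.Lie Cfsg.Agent.H37 Cfsg.Agent.H40 Cfsg.Agent.H34 Cfsg.Agent.H29 Finset
open Cfsg.Agent.H50.E83 Cfsg.Agent.H50.L81 Cfsg.Agent.H67.E83Tr4

theorem dec40 : ∀ z : ZMod 40, ∑ k ∈ range 10, (if z - ((4 * k : ℕ) : ZMod 40) = 0 then 1 else 0) =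
    if ZMod.castHom (by decide : 4 ∣ 40) (ZMod 4) z = 0 then 1 else 0 := by
  decide +kernel

theorem one_sum (x : ℤ) (e : ℕ) :
    ∑ k ∈ range 10, (if ((x - ((4 * k + e : ℕ) : ℤ) : ℤ) : ZMod 40) = 0 then 1 else 0) =
      if ((x - (e : ℤ) : ℤ) : ZMod 4) = 0 then 1 else 0 := by
  have h := dec40 ((x - (e : ℤ) : ℤ) : ZMod 40)
  rw [map_intCast] at h
  rw [← h]
  refine sum_congr rfl fun k _ => ?_
  congr 2
  push_cast
  ring

theorem sum_z0 {Φ : Type} [Fintype Φ] (f : Φ → ℤ) (e : ℕ) :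
    ∑ k ∈ range 10, z0 40 (fun r => f r - ((4 * k + e : ℕ) : ℤ)) = z0 4 fun r => f r - e := by
  unfold z0
  rw [sum_comm]
  exact sum_congr rfl fun r _ => one_sum (f r) e

theorem sum_cnt (f : Rt → ℤ) (e : ℕ) (he : e < 4) :
    ∑ k ∈ range 10, cnt 40 f (4 * k + e) = cnt 4 f e := by
  unfold cnt
  rw [sum_add_distrib, sum_z0]
  have : ∑ k ∈ range 10, (if 4 * k + e = 0 then 8 else 0) = if e = 0 then 8 else 0 := by
    interval_cases e <;> decide
  rw [this]

theorem tab4 : ∀ a ∈ pts, ∃ i < 10, ∀ e < 4, cnt 4 (lab a) e = pat4 i e := by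
  intro a ha
  simp only [pts, List.mem_cons, List.not_mem_nil, or_false] at ha
  rcases ha with rfl | rfl | rfl | rfl | rfl | rfl | rfl | rfl | rfl | rfl <;> decide +kernel

theorem y4 : Y4Stmt := by
  intro f hf
  obtain ⟨u, hu, a, ha, -, hr⟩ := hf.alc tabOKE8 (s := 4) (by decide) (by decide) _ thE8 alc4
  have e : ∀ r, (f (u r) : ZMod 4) = lab a r := fun r => by
    rw [← hr.vN_eq (hf.comp hu) r]
    simp only [vN, rc_eq C8 tabOKE8]
    rfl
  obtain ⟨i, hi, h⟩ := tab4 a (of_decide_eq_true ha)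
  refine ⟨i, hi, fun k hk => ?_⟩
  rw [sum_cnt f k hk, ← h k hk, cnt, cnt, z0_congr (s := 4) (f := fun r => f r - k)
    (g := fun r => lab a r - k) u fun r => by simp [e]]

end Cfsg.Agent.H69.L81Y4
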