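import Mathlib

/-! The tensor cube of the natural module of `S₃ = SL₂(2)`: explicit model. -/

set_option autoImplicit false
set_option synthInstance.maxSize 8192
set_option synthInstance.maxHeartbeats 400000

namespace Cfsg.Agent.H69.O8

open Equiv

abbrev F2 := ZMod 2
abbrev P2 := F2 × F2
abbrev T2 := P2 × P2
abbrev V0 := T2 × T2
abbrev S3 := Perm (Fin 3)
abbrev L3 := S3 × S3 × S3
abbrev I3 := Fin 3 × Fin 3 × Fin 3

/-- the three non-zero vectors -/
def vec : Fin 3 → P2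
  | 0 => (1, 0)
  | 1 => (0, 1)
  | 2 => (1, 1)

/-- action of a permutation of the three non-zero vectors on the outer tensor factor -/
def ac {X : Type*} [AddCommGroup X] [Module F2 X] (σ : S3) : X × X →ₗ[F2] X × X where
  toFun x := ((vec (σ 0)).1 • x.1 + (vec (σ 1)).1 • x.2, (vec (σ 0)).2 • x.1 + (vec (σ 1)).2 • x.2)
  map_add' x y := by ext <;> simp [smul_add] <;> abel
  map_smul' c x := by ext <;> simp [smul_add, smul_comm c]

/-- action on `2 ⊗ 2` -/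
def act2 (σ τ : S3) : T2 →ₗ[F2] T2 := ac σ ∘ₗ (ac τ).prodMap (ac τ)

/-- action on `2 ⊗ 2 ⊗ 2` -/
def act (l : L3) : V0 →ₗ[F2] V0 := ac l.1 ∘ₗ (act2 l.2.1 l.2.2).prodMap (act2 l.2.1 l.2.2)

/-- `v ⊗ x` -/
def tn {X : Type*} [AddCommGroup X] [Module F2 X] (v : P2) : X →ₗ[F2] X × X where
  toFun x := (v.1 • x, v.2 • x)
  map_add' x y := by ext <;> simp [smul_add]
  map_smul' c x := by ext <;> simp [smul_comm c]

/-- pure tensors -/
def pt (b : I3) : V0 := tn (vec b.1) (tn (vec b.2.1) (vec b.2.2))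

/-- action on indices -/
def ai (l : L3) (b : I3) : I3 := (l.1 b.1, l.2.1 b.2.1, l.2.2 b.2.2)

/-- symmetric form on `2 ⊗ 2` -/
def β2 (X Y : T2) : F2 := X.1.1 * Y.2.2 + X.1.2 * Y.2.1 + X.2.1 * Y.1.2 + X.2.2 * Y.1.1

/-- the quadratic form -/
def q0 (v : V0) : F2 := β2 v.1 v.2

/-- its polar form -/
def B0 (u v : V0) : F2 := β2 u.1 v.2 + β2 u.2 v.1

/-- determinant on `2 ⊗ 2` -/
def dt (X : T2) : F2 := X.1.1 * X.2.2 + X.1.2 * X.2.1

/-- the transposition fixing `i` -/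
def tr : Fin 3 → S3
  | 0 => swap 1 2
  | 1 => swap 0 2
  | 2 => swap 0 1

theorem vec_perm : ∀ (σ : S3) (i : Fin 3),
    vec (σ i) = (vec i).1 • vec (σ 0) + (vec i).2 • vec (σ 1) := by decide +kernel

section
variable {X : Type*} [AddCommGroup X] [Module F2 X]

theorem tn_apply (v : P2) (x : X) : tn v x = (v.1 • x, v.2 • x) := rfl

theorem ac_apply (σ : S3) (x : X × X) : ac σ x =
    ((vec (σ 0)).1 • x.1 + (vec (σ 1)).1 • x.2, (vec (σ 0)).2 • x.1 + (vec (σ 1)).2 • x.2) := rfl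

theorem ac_tn (σ : S3) (i : Fin 3) (x : X) : ac σ (tn (vec i) x) = tn (vec (σ i)) x := by
  rw [vec_perm σ i]
  ext <;> simp [ac_apply, tn_apply, add_smul, smul_smul, mul_comm]

theorem prodMap_tn (f : X →ₗ[F2] X) (v : P2) (x : X) : f.prodMap f (tn v x) = tn v (f x) := by
  ext <;> simp [tn_apply]

theorem ac_one (x : X × X) : ac 1 x = x := by ext <;> simp [ac_apply, vec]

theorem ac_tr0 (x : X × X) : ac (tr 0) x = (x.1 + x.2, x.2) := by
  have a : tr 0 0 = 0 := by decide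
  have b : tr 0 1 = 2 := by decide
  ext <;> simp [ac_apply, a, b, vec]

theorem ac_tr2 (x : X × X) : ac (tr 2) x = (x.2, x.1) := by
  have a : tr 2 0 = 1 := by decide
  have b : tr 2 1 = 0 := by decide
  ext <;> simp [ac_apply, a, b, vec]

theorem tn_add (u v : P2) (x : X) : tn (u + v) x = tn u x + tn v x := by
  ext <;> simp [tn_apply, add_smul]

theorem tn_vec0 (x : X) : tn (vec 0) x = (x, 0) := by ext <;> simp [tn_apply, vec]

theorem tn_vec1 (x : X) : tn (vec 1) x = (0, x) := by ext <;> simp [tn_apply, vec]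

theorem tn_vec2 (x : X) : tn (vec 2) x = (x, x) := by ext <;> simp [tn_apply, vec]

end

theorem ac_vec : ∀ (σ : S3) (i : Fin 3), ac σ (vec i) = vec (σ i) := by decide +kernel

theorem act_apply (l : L3) (v : V0) :
    act l v = ac l.1 (act2 l.2.1 l.2.2 v.1, act2 l.2.1 l.2.2 v.2) := rfl

theorem act2_apply (σ τ : S3) (x : T2) : act2 σ τ x = ac σ (ac τ x.1, ac τ x.2) := rfl

theorem act2_one (x : T2) : act2 1 1 x = x := by simp [act2_apply, ac_one]

theorem act_tn (l : L3) (i : Fin 3) (x : T2) :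
    act l (tn (vec i) x) = tn (vec (l.1 i)) (act2 l.2.1 l.2.2 x) := by
  rw [act, LinearMap.comp_apply, prodMap_tn, ac_tn]

theorem act_pt (l : L3) (b : I3) : act l (pt b) = pt (ai l b) := by
  rw [pt, act_tn, act2, LinearMap.comp_apply, prodMap_tn, ac_tn, ac_vec]; rfl

theorem pt_inj : ∀ b c, pt b = pt c → b = c := by decide +kernel

theorem pt_ne : ∀ b, pt b ≠ 0 := by decide +kernel

theorem q0_pt : ∀ b, q0 (pt b) = 0 := by decide +kernel

theorem B0_pt : ∀ b c, B0 (pt b) (pt c) =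
    if b.1 = c.1 ∨ b.2.1 = c.2.1 ∨ b.2.2 = c.2.2 then 0 else 1 := by decide +kernel

theorem tr_fix : ∀ i, tr i i = i := by decide

theorem tr_sq : ∀ i, tr i * tr i = 1 := by decide

theorem tr_ne : ∀ i, tr i ≠ 1 := by decide

theorem eq_tr : ∀ (σ : S3) (i : Fin 3), σ i = i → σ = 1 ∨ σ = tr i := by decide +kernel

theorem tr_move : ∀ i j : Fin 3, j ≠ i → tr i j ≠ j := by decide

theorem tr_ncomm : ∀ i j : Fin 3, j ≠ i → tr i * tr j ≠ tr j * tr i := by decide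

theorem vec_tr : ∀ i j : Fin 3, j ≠ i → vec (tr i j) + vec j = vec i := by decide

theorem exists_perm : ∀ i j : Fin 3, ∃ σ : S3, σ i = j := by decide +kernel

theorem invol_fix : ∀ σ : S3, σ * σ = 1 → ∃ i, σ i = i := by decide +kernel

theorem comm_fix : ∀ (σ τ : S3) (i : Fin 3), σ ≠ 1 → σ i = i → τ * τ = 1 → σ * τ = τ * σ →
    τ i = i := by decide +kernel

theorem prod_fix : ∀ σ : S3, ∃ τ τ' : S3, ∃ i j, τ i = i ∧ τ' j = j ∧ σ = τ * τ' := by
  decide +kernel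

/-- explicit forms of the three commuting transvection-type elements -/
def R1 (v : V0) : V0 := (v.1 + v.2, v.2)

/-- second factor -/
def R2 (v : V0) : V0 := ((v.1.1 + v.1.2, v.1.2), (v.2.1 + v.2.2, v.2.2))

/-- third factor -/
def R3 (v : V0) : V0 := (((v.1.1.1 + v.1.1.2, v.1.1.2), (v.1.2.1 + v.1.2.2, v.1.2.2)),
  ((v.2.1.1 + v.2.1.2, v.2.1.2), (v.2.2.1 + v.2.2.2, v.2.2.2)))

theorem act_R1 (v : V0) : act (tr 0, 1, 1) v = R1 v := by
  simp [act_apply, act2_one, ac_tr0, R1]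

theorem act_R2 (v : V0) : act (1, tr 0, 1) v = R2 v := by
  simp [act_apply, act2_apply, ac_one, ac_tr0, R2]

theorem act_R3 (v : V0) : act (1, 1, tr 0) v = R3 v := by
  simp [act_apply, act2_apply, ac_one, ac_tr0, R3]

theorem fix_R : ∀ v, R1 v = v → R2 v = v → R3 v = v → v = 0 ∨ v = pt (0, 0, 0) := by
  decide +kernel

theorem N_eq : ∀ a : V0, a.2.2.2 = 1 →
    (a + R1 a + R2 (a + R1 a)) + R3 (a + R1 a + R2 (a + R1 a)) = pt (0, 0, 0) := by
  decide +kernel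

theorem exists_coord {v : V0} (h : v ≠ 0) : ∃ l : L3, (act l v).2.2.2 = 1 := by
  by_contra hh
  push Not at hh
  have z2 : ∀ a : F2, a ≠ 1 → a = 0 := by decide
  have a1 := z2 _ (hh (1, 1, 1))
  have a2 := z2 _ (hh (1, 1, tr 2))
  have a3 := z2 _ (hh (1, tr 2, 1))
  have a4 := z2 _ (hh (1, tr 2, tr 2))
  have a5 := z2 _ (hh (tr 2, 1, 1))
  have a6 := z2 _ (hh (tr 2, 1, tr 2))
  have a7 := z2 _ (hh (tr 2, tr 2, 1))
  have a8 := z2 _ (hh (tr 2, tr 2, tr 2))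
  simp only [act_apply, act2_apply, ac_one, ac_tr2] at a1 a2 a3 a4 a5 a6 a7 a8
  exact h (by ext <;> assumption)

theorem free_aux : ∀ v : V0, (R1 v = v → ∃ u, R1 u + u = v) ∧ (R2 v = v → ∃ u, R2 u + u = v) ∧
    (R3 v = v → ∃ u, R3 u + u = v) ∧ (R1 (R2 v) = v → ∃ u, R1 (R2 u) + u = v) ∧
    (R1 (R3 v) = v → ∃ u, R1 (R3 u) + u = v) ∧ (R2 (R3 v) = v → ∃ u, R2 (R3 u) + u = v) ∧
    (R1 (R2 (R3 v)) = v → ∃ u, R1 (R2 (R3 u)) + u = v) := by decide +kernel

theorem free {l : L3} (h0 : ai l (0, 0, 0) = (0, 0, 0)) (h1 : l ≠ 1) {v : V0} (hv : act l v = v) :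
    ∃ u, act l u + u = v := by
  obtain ⟨a, b, c⟩ := l
  obtain ⟨f1, f2, f3, f4, f5, f6, f7⟩ := free_aux v
  rcases eq_tr a 0 (congrArg Prod.fst h0) with rfl | rfl <;>
    rcases eq_tr b 0 (congrArg (fun t => t.2.1) h0) with rfl | rfl <;>
    rcases eq_tr c 0 (congrArg (fun t => t.2.2) h0) with rfl | rfl
  · exact absurd rfl h1
  · simp only [act_R3] at hv ⊢; exact f3 hv
  · simp only [act_R2] at hv ⊢; exact f2 hv
  · have e : ∀ v, act (1, tr 0, tr 0) v = R2 (R3 v) := fun v => by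
      simp [act_apply, act2_apply, ac_one, ac_tr0, R2, R3]
    simp only [e] at hv ⊢; exact f6 hv
  · simp only [act_R1] at hv ⊢; exact f1 hv
  · have e : ∀ v, act (tr 0, 1, tr 0) v = R1 (R3 v) := fun v => by
      simp [act_apply, act2_apply, ac_one, ac_tr0, R1, R3]
    simp only [e] at hv ⊢; exact f5 hv
  · have e : ∀ v, act (tr 0, tr 0, 1) v = R1 (R2 v) := fun v => by
      simp [act_apply, act2_apply, ac_one, ac_tr0, R1, R2]
    simp only [e] at hv ⊢; exact f4 hv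
  · have e : ∀ v, act (tr 0, tr 0, tr 0) v = R1 (R2 (R3 v)) := fun v => by
      simp [act_apply, act2_apply, ac_tr0, R1, R2, R3]
    simp only [e] at hv ⊢; exact f7 hv

/-- the space `U` attached to `pt (0,0,0)` -/
def U0 : Submodule F2 V0 where
  carrier := {v | v.1.2.2 = 0 ∧ v.2.1.2 = 0 ∧ v.2.2.1 = 0 ∧ v.2.2.2 = 0}
  zero_mem' := ⟨rfl, rfl, rfl, rfl⟩
  add_mem' := fun {a b} ha hb => by
    obtain ⟨a1, a2, a3, a4⟩ := ha
    obtain ⟨b1, b2, b3, b4⟩ := hb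
    simp [a1, a2, a3, a4, b1, b2, b3, b4]
  smul_mem' := fun c a ha => by
    obtain ⟨a1, a2, a3, a4⟩ := ha
    simp [a1, a2, a3, a4]

theorem mem_U0 {v : V0} : v ∈ U0 ↔ v.1.2.2 = 0 ∧ v.2.1.2 = 0 ∧ v.2.2.1 = 0 ∧ v.2.2.2 = 0 := Iff.rfl

theorem U0_eq {v : V0} (h : v ∈ U0) : v = v.1.1.1 • pt (0, 0, 0) + v.1.1.2 • pt (0, 0, 1) +
    v.1.2.1 • pt (0, 1, 0) + v.2.1.1 • pt (1, 0, 0) := by
  obtain ⟨a1, a2, a3, a4⟩ := h
  ext <;> simp [pt, tn_apply, vec, a1, a2, a3, a4]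

theorem basis_eq (v : V0) : v = v.1.1.1 • pt (0, 0, 0) + v.1.1.2 • pt (0, 0, 1) +
    v.1.2.1 • pt (0, 1, 0) + v.1.2.2 • pt (0, 1, 1) + v.2.1.1 • pt (1, 0, 0) +
    v.2.1.2 • pt (1, 0, 1) + v.2.2.1 • pt (1, 1, 0) + v.2.2.2 • pt (1, 1, 1) := by
  ext <;> simp [pt, tn_apply, vec]

theorem pt_sum1 : ∀ j k, pt (2, j, k) = pt (0, j, k) + pt (1, j, k) := by decide +kernel
theorem pt_sum2 : ∀ j k, pt (j, 2, k) = pt (j, 0, k) + pt (j, 1, k) := by decide +kernel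
theorem pt_sum3 : ∀ j k, pt (j, k, 2) = pt (j, k, 0) + pt (j, k, 1) := by decide +kernel

theorem dt_pure : ∀ X : T2, X ≠ 0 → (dt X = 0 ↔ ∃ j k, (X, 0) = pt (0, j, k)) := by
  decide +kernel

theorem dt_add (X Y : T2) : dt (X + Y) = dt X + dt Y + β2 X Y := by
  simp only [dt, β2, Prod.fst_add, Prod.snd_add]; ring

theorem q0_add (u v : V0) : q0 (u + v) = q0 u + q0 v + B0 u v := by
  simp only [q0, B0, β2, Prod.fst_add, Prod.snd_add]; ring

theorem B0_add (u v w : V0) : B0 (u + v) w = B0 u w + B0 v w := by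
  simp only [B0, β2, Prod.fst_add, Prod.snd_add]; ring

theorem B0_symm (u v : V0) : B0 u v = B0 v u := by
  simp only [B0, β2]; ring

theorem B0_smul (c : F2) (u w : V0) : B0 (c • u) w = c * B0 u w := by
  simp only [B0, β2, Prod.smul_fst, Prod.smul_snd, smul_eq_mul]; ring

theorem B0_tn (i : Fin 3) (X Y : T2) : B0 (tn (vec i) X) (tn (vec i) Y) = 0 := by
  have : (2 : F2) = 0 := rfl
  simp only [B0, β2, tn_apply, Prod.smul_fst, Prod.smul_snd, smul_eq_mul]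
  linear_combination ((vec i).1 * (vec i).2 * (X.1.1 * Y.2.2 + X.1.2 * Y.2.1 + X.2.1 * Y.1.2 +
    X.2.2 * Y.1.1)) * this

theorem q0_tn (i : Fin 3) (X : T2) : q0 (tn (vec i) X) = 0 := by
  have : (2 : F2) = 0 := rfl
  simp only [q0, β2, tn_apply, Prod.smul_fst, Prod.smul_snd, smul_eq_mul]
  linear_combination ((vec i).1 * (vec i).2 * (X.1.1 * X.2.2 + X.1.2 * X.2.1)) * this

theorem tn_inf {i j : Fin 3} (h : j ≠ i) {X Y : T2} (e : tn (vec i) X = tn (vec j) Y) : X = 0 := by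
  have e1 := congrArg Prod.fst e
  have e2 := congrArg Prod.snd e
  fin_cases i <;> fin_cases j <;> simp_all [tn_apply, vec]

theorem card_V0 : Nat.card V0 = 256 := by simp

theorem card_T2 : Nat.card T2 = 16 := by simp

theorem tn_injective (i : Fin 3) : Function.Injective (tn (X := T2) (vec i)) := by
  intro X Y e
  have e1 := congrArg Prod.fst e
  have e2 := congrArg Prod.snd e
  fin_cases i <;> simp_all [tn_apply, vec]

theorem card_L3 : Nat.card L3 = 216 := by simp; rfl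

theorem card_stab (b : I3) : Nat.card {l : L3 // ai l b = b} = 8 := by
  have : ∀ i : Fin 3, Nat.card {σ : S3 // σ i = i} = 2 := by
    intro i; rw [Nat.card_eq_fintype_card]; revert i; decide +kernel
  rw [Nat.card_congr (β := {σ : S3 // σ b.1 = b.1} × {σ : S3 // σ b.2.1 = b.2.1} ×
      {σ : S3 // σ b.2.2 = b.2.2})
    ⟨fun l => (⟨l.1.1, congrArg Prod.fst l.2⟩, ⟨l.1.2.1, congrArg (fun t => t.2.1) l.2⟩,
        ⟨l.1.2.2, congrArg (fun t => t.2.2) l.2⟩),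
      fun t => ⟨(t.1.1, t.2.1.1, t.2.2.1), Prod.ext t.1.2 (Prod.ext t.2.1.2 t.2.2.2)⟩,
      fun _ => rfl, fun _ => rfl⟩, Nat.card_prod, Nat.card_prod, this, this, this]

/-- the six-dimensional space -/
abbrev X6 := F2 × F2 × T2

/-- its quadratic form -/
def q6 (x : X6) : F2 := x.1 * x.2.1 + dt x.2.2

/-- its polar form -/
def b6 (x y : X6) : F2 := x.1 * y.2.1 + x.2.1 * y.1 + β2 x.2.2 y.2.2

theorem q6_add (x y : X6) : q6 (x + y) = q6 x + q6 y + b6 x y := by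
  simp only [q6, b6, dt_add, Prod.fst_add, Prod.snd_add]; ring

theorem b6_symm (x y : X6) : b6 x y = b6 y x := by
  simp only [b6, β2]; ring

theorem b6_zero (x : X6) : b6 0 x = 0 := by simp [b6, β2]

theorem b6_add (x y w : X6) : b6 x (y + w) = b6 x y + b6 x w := by
  simp only [b6, β2, Prod.fst_add, Prod.snd_add]; ring

theorem q6_zero : q6 0 = 0 := by simp [q6, dt]

theorem six_conn : ∀ a b : X6, q6 a = 0 → q6 b = 0 →
    ∃ c : X6, c ≠ 0 ∧ q6 c = 0 ∧ b6 a c = 0 ∧ b6 c b = 0 := by decide +kernel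

theorem six_nondeg : ∀ e : X6, e ≠ 0 → ∃ v : X6, v ≠ 0 ∧ q6 v = 0 ∧ b6 v e = 1 := by
  decide +kernel

theorem card_six : Nat.card {v : X6 // v ≠ 0 ∧ q6 v = 0} = 35 := by
  rw [Nat.card_eq_fintype_card]; decide +kernel

end Cfsg.Agent.H69.O8
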