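import Cfsg.Agent.H69.XN3
import Cfsg.Agent.H69.O8m

/-! `C(z)/Q ≅ S₃³`: the module `Q/⟨z⟩` is the tensor cube. -/

set_option autoImplicit false

namespace Cfsg.Agent.H69.O8

open Subgroup Cfsg.Agent.H49 Cfsg.Agent.H69.XV Equiv

universe u

variable {G : Type u} [Group G]

/-- transport of coordinates along a linear equivalence -/
def vmap {Q : Subgroup G} {z : G} {V V' : Type*} [AddCommGroup V] [Module (ZMod 2) V]
    [AddCommGroup V'] [Module (ZMod 2) V'] (d : VD Q z V) (e : V' ≃ₗ[ZMod 2] V) : VD Q z V' where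
  lx := d.lx
  p x := e.symm (d.p x)
  B := d.B.compl₁₂ e.toLinearMap e.toLinearMap
  q v := d.q (e v)
  ρ c := e.symm.toLinearMap ∘ₗ d.ρ c ∘ₗ e.toLinearMap
  p_mul hx hy := by rw [d.p_mul hx hy, map_add]
  p_surj v := by
    obtain ⟨x, hx, h⟩ := d.p_surj (e v)
    exact ⟨x, hx, by rw [h, e.symm_apply_apply]⟩
  p_eq_zero hx := by rw [← d.p_eq_zero hx, e.symm.map_eq_zero_iff]
  B_p hx hy := by simp [d.B_p hx hy]
  q_p hx := by simp [d.q_p hx]
  ρ_p hc hx := by simp [d.ρ_p hc hx]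

theorem lin_ext {X : Type*} [AddCommGroup X] [Module F2 X] {f g : V0 →ₗ[F2] X}
    (h : ∀ c, f (pt c) = g (pt c)) : f = g := by
  refine LinearMap.ext fun v => ?_
  rw [basis_eq v]
  simp only [map_add, map_smul, h]

/-- the polar form as a bilinear map -/
def B0L : V0 →ₗ[F2] V0 →ₗ[F2] F2 :=
  LinearMap.mk₂ F2 B0 B0_add B0_smul
    (fun u v w => by rw [B0_symm, B0_add, B0_symm v, B0_symm w])
    (fun c u v => by rw [B0_symm, B0_smul, B0_symm v]; rfl)

theorem ai_mul (l l' : L3) (b : I3) : ai (l * l') b = ai l (ai l' b) := rfl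

theorem ai_one (b : I3) : ai 1 b = b := rfl

theorem ai_inv {l : L3} {b c : I3} (h : ai l b = c) : ai l⁻¹ c = b := by
  rw [← h, ← ai_mul, inv_mul_cancel, ai_one]

theorem exists_ai (b c : I3) : ∃ l, ai l b = c := by
  obtain ⟨x, hx⟩ := exists_perm b.1 c.1
  obtain ⟨y, hy⟩ := exists_perm b.2.1 c.2.1
  obtain ⟨w, hw⟩ := exists_perm b.2.2 c.2.2
  exact ⟨(x, y, w), Prod.ext hx (Prod.ext hy hw)⟩

theorem common_fix (X : Set S3) (h2 : ∀ τ ∈ X, τ * τ = 1) (hc : ∀ σ ∈ X, ∀ τ ∈ X, σ * τ = τ * σ) :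
    ∃ i, ∀ τ ∈ X, τ i = i := by
  by_cases h : ∃ σ ∈ X, σ ≠ 1
  · obtain ⟨σ, hσ, n⟩ := h
    obtain ⟨i, hi⟩ := invol_fix σ (h2 σ hσ)
    exact ⟨i, fun τ hτ => comm_fix σ τ i n hi (h2 τ hτ) (hc σ hσ τ hτ)⟩
  · push Not at h
    exact ⟨0, fun τ hτ => by rw [h τ hτ]; rfl⟩

theorem stab [Finite G] {z s : G} {π : G → L3} (hy : Hy z π) (h : NP z s) :
    ∃ b, (∀ r ∈ O2C s, r * z = z * r → ai (π r) b = b) ∧
      (∀ l, ai l b = b → ∃ r ∈ O2C s, r * z = z * r ∧ π r = l) ∧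
      Nat.card ↥(O2C z ⊓ O2C s) = 32 := by
  have sq : ∀ r ∈ O2C s, r * z = z * r → π r * π r = 1 := fun r hr rz => by
    rw [← hy.mul rz rz]; exact hy.Q_one (h.R_sq hr)
  have ab : ∀ x ∈ O2C s, x * z = z * x → ∀ y ∈ O2C s, y * z = z * y → π x * π y = π y * π x := by
    intro x hx xz y hy' yz
    rw [← hy.mul xz yz, ← hy.mul yz xz, hy.eq_iff (VD.cmul xz yz) (VD.cmul yz xz)]
    have := h.lxS.toXS.commutator_mem hx hy'
    rw [show x * y * (y * x)⁻¹ = x * y * x⁻¹ * y⁻¹ by group]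
    exact (zpowers_le.2 h.mem) this
  have key : ∀ f : L3 →* S3, ∃ i, ∀ r ∈ O2C s, r * z = z * r → f (π r) i = i := by
    intro f
    obtain ⟨i, hi⟩ := common_fix {τ | ∃ r ∈ O2C s, r * z = z * r ∧ f (π r) = τ} (by
      rintro _ ⟨r, hr, rz, rfl⟩; rw [← map_mul, sq r hr rz, map_one]) (by
      rintro _ ⟨r, hr, rz, rfl⟩ _ ⟨r', hr', rz', rfl⟩
      rw [← map_mul, ab r hr rz r' hr' rz', map_mul])
    exact ⟨i, fun r hr rz => hi _ ⟨r, hr, rz, rfl⟩⟩
  obtain ⟨i, hi⟩ := key (MonoidHom.fst _ _)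
  obtain ⟨j, hj⟩ := key ((MonoidHom.fst _ _).comp (MonoidHom.snd _ _))
  obtain ⟨k, hk⟩ := key ((MonoidHom.snd _ _).comp (MonoidHom.snd _ _))
  have fb : ∀ r ∈ O2C s, r * z = z * r → ai (π r) (i, j, k) = (i, j, k) := fun r hr rz =>
    Prod.ext (hi r hr rz) (Prod.ext (hj r hr rz) (hk r hr rz))
  let F : ↥(O2C s ⊓ centralizer {z}) → {l : L3 // ai l (i, j, k) = (i, j, k)} := fun r =>
    ⟨π r, fb r r.2.1 (mem_centralizer_singleton_iff.1 r.2.2)⟩
  have a1 := card_le_mul_of_fibre (A := O2C s ⊓ centralizer {z}) (K := O2C z)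
    (β := Set.range F) (fun r => ⟨F r, r, rfl⟩) fun x y e => by
      have e' : π x = π y := congrArg (fun t => t.1.1) e
      have xz := mem_centralizer_singleton_iff.1 x.2.2
      have yz := mem_centralizer_singleton_iff.1 y.2.2
      rw [← hy.ker (VD.cmul (VD.cinv yz) xz), hy.mul (VD.cinv yz) xz, hy.inv yz, e', inv_mul_cancel]
  obtain ⟨d⟩ := exists_VD h.lx
  rw [h.card_R, h.E_inf_R] at a1
  have a2 := h.card_E d
  have a3 := h.card_U_le d
  have a4 := card_stab (i, j, k)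
  have a5 : Nat.card (Set.range F) ≤ 8 := by
    rw [← a4]; exact Nat.card_le_card_of_injective _ Subtype.val_injective
  refine ⟨(i, j, k), fb, fun l hl => ?_, by nlinarith⟩
  have : Set.range F = Set.univ := Set.eq_of_subset_of_ncard_le (Set.subset_univ _) (by
    rw [Set.ncard_univ, a4]
    show _ ≤ Nat.card (Set.range F)
    nlinarith) (Set.toFinite _)
  obtain ⟨r, hr⟩ : (⟨l, hl⟩ : {l : L3 // ai l (i, j, k) = (i, j, k)}) ∈ Set.range F := by
    rw [this]; trivial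
  exact ⟨r, r.2.1, mem_centralizer_singleton_iff.1 r.2.2, congrArg Subtype.val hr⟩

/-- tensor cube coordinates -/
structure TC (z : G) (π : G → L3) (d : VD (O2C z) z V0) : Prop where
  hy : Hy z π
  surj : ∀ l, ∃ c, c * z = z * c ∧ π c = l
  ρ : ∀ {c : G}, c * z = z * c → ∀ v, d.ρ c v = act (π c) v
  B : ∀ u v, d.B u v = B0 u v
  q : ∀ v, d.q v = q0 v
  ex : ∃ s, NP z s

/-- the 3-cycle -/
def cyc : S3 := swap 0 1 * swap 1 2

theorem cyc_spec : ∀ i : Fin 3, ∃ σ : S3, σ i = 0 ∧ σ (cyc i) = 1 ∧ σ (cyc (cyc i)) = 2 := by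
  decide +kernel

theorem two_trans : ∀ i j : Fin 3, i ≠ j → ∃ σ : S3, σ 0 = i ∧ σ 1 = j := by decide +kernel

theorem pt_com1 : ∀ c : I3, ∃ c', pt (ai (tr c.1, 1, 1) c') + pt c' = pt c := by decide +kernel
theorem pt_com2 : ∀ c : I3, ∃ c', pt (ai (1, tr c.2.1, 1) c') + pt c' = pt c := by decide +kernel
theorem pt_com3 : ∀ c : I3, ∃ c', pt (ai (1, 1, tr c.2.2) c') + pt c' = pt c := by decide +kernel

theorem exists_TC [Finite G] {z s : G} {π : G → L3} (hy : Hy z π)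
    (surj : ∀ l, ∃ c, c * z = z * c ∧ π c = l) (h : NP z s) :
    ∃ d : VD (O2C z) z V0, TC z π d := by
  obtain ⟨d⟩ := exists_VD h.lx
  have := d.finite
  obtain ⟨b, hb1, hb2, hb3⟩ := stab hy h
  have h8 : 8 ≤ Nat.card (d.sm (O2C s)) := by have := h.card_E d; omega
  have ex : ∀ c, ∃ g, g * z = z * g ∧ ai (π g) b = c := fun c => by
    obtain ⟨l, hl⟩ := exists_ai b c
    obtain ⟨g, gz, e⟩ := surj l
    exact ⟨g, gz, by rw [e, hl]⟩
  choose g gz gb using ex
  let f : I3 → _ := fun c => d.ρ (g c) (d.p s)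
  have Kf : ∀ x, x * z = z * x → d.ρ x (d.p s) = f (ai (π x) b) := by
    intro x xz
    set c := ai (π x) b with hc
    have yz := VD.cmul (VD.cinv (gz c)) xz
    obtain ⟨r, hr, rz, e⟩ := hb2 (π ((g c)⁻¹ * x)) (by
      rw [hy.mul (VD.cinv (gz c)) xz, hy.inv (gz c), ai_mul, ← hc, ai_inv (gb c)])
    have := hy.ρ_eq d rz yz e (d.p s)
    rw [h.ρ_ps d hr rz, d.ρ_mul (VD.cinv (gz c)) xz] at this
    show _ = d.ρ (g c) (d.p s)
    conv_rhs => rw [this]
    rw [d.ρ_ρ_inv (gz c)]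
  have Kρ : ∀ x, x * z = z * x → ∀ c, d.ρ x (f c) = f (ai (π x) c) := by
    intro x xz c
    show d.ρ x (d.ρ (g c) (d.p s)) = _
    rw [← d.ρ_mul xz (gz c), Kf _ (VD.cmul xz (gz c)), hy.mul xz (gz c), ai_mul, gb]
  have rel : ∀ α l : L3, α ^ 3 = 1 → α ≠ 1 → (∀ x : L3, x * α * x⁻¹ = α ∨ x * α * x⁻¹ = α⁻¹) →
      f (ai l (ai α (ai α b))) = f (ai l b) + f (ai l (ai α b)) := by
    intro α l h3 h1 hn
    obtain ⟨a, az, rfl⟩ := surj α
    obtain ⟨x, xz, rfl⟩ := surj l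
    have := (h.N1 d hy h8 az h3 h1 fun r _ _ => hn _).1
    rw [XV.add_eq_zero, Kf a az, Kρ a az] at this
    have e := congrArg (d.ρ x) this
    rw [map_add, Kf x xz, Kρ x xz, Kρ x xz] at e
    exact e.symm
  have c3 : cyc ^ 3 = 1 := by decide
  have c1 : cyc ≠ 1 := by decide
  have rel1 : ∀ j k, f (2, j, k) = f (0, j, k) + f (1, j, k) := by
    intro j k
    obtain ⟨σ, s0, s1, s2⟩ := cyc_spec b.1
    obtain ⟨y, hy'⟩ := exists_perm b.2.1 j
    obtain ⟨w, hw⟩ := exists_perm b.2.2 k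
    have := rel (cyc, 1, 1) (σ, y, w) (by ext1 <;> simp [c3]) (by simp [Prod.ext_iff, c1]) fun x => by
      rcases perm3_norm x.1 cyc c3 with e | e
      · exact Or.inl (Prod.ext e (Prod.ext (by simp) (by simp)))
      · exact Or.inr (Prod.ext e (Prod.ext (by simp) (by simp)))
    simpa [ai, s0, s1, s2, hy', hw] using this
  have rel2 : ∀ j k, f (j, 2, k) = f (j, 0, k) + f (j, 1, k) := by
    intro j k
    obtain ⟨σ, s0, s1, s2⟩ := cyc_spec b.2.1
    obtain ⟨y, hy'⟩ := exists_perm b.1 j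
    obtain ⟨w, hw⟩ := exists_perm b.2.2 k
    have := rel (1, cyc, 1) (y, σ, w) (by ext1 <;> simp [c3]) (by simp [Prod.ext_iff, c1]) fun x => by
      rcases perm3_norm x.2.1 cyc c3 with e | e
      · exact Or.inl (Prod.ext (by simp) (Prod.ext e (by simp)))
      · exact Or.inr (Prod.ext (by simp) (Prod.ext e (by simp)))
    simpa [ai, s0, s1, s2, hy', hw] using this
  have rel3 : ∀ j k, f (j, k, 2) = f (j, k, 0) + f (j, k, 1) := by
    intro j k
    obtain ⟨σ, s0, s1, s2⟩ := cyc_spec b.2.2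
    obtain ⟨y, hy'⟩ := exists_perm b.1 j
    obtain ⟨w, hw⟩ := exists_perm b.2.1 k
    have := rel (1, 1, cyc) (y, w, σ) (by ext1 <;> simp [c3]) (by simp [Prod.ext_iff, c1]) fun x => by
      rcases perm3_norm x.2.2 cyc c3 with e | e
      · exact Or.inl (Prod.ext (by simp) (Prod.ext (by simp) e))
      · exact Or.inr (Prod.ext (by simp) (Prod.ext (by simp) e))
    simpa [ai, s0, s1, s2, hy', hw] using this
  let φ : V0 →ₗ[F2] Vq h.lx.toXS :=
    { toFun := fun v => v.1.1.1 • f (0, 0, 0) + v.1.1.2 • f (0, 0, 1) +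
        v.1.2.1 • f (0, 1, 0) + v.1.2.2 • f (0, 1, 1) + v.2.1.1 • f (1, 0, 0) +
        v.2.1.2 • f (1, 0, 1) + v.2.2.1 • f (1, 1, 0) + v.2.2.2 • f (1, 1, 1)
      map_add' := fun u v => by simp only [Prod.fst_add, Prod.snd_add, add_smul]; abel
      map_smul' := fun c v => by
        simp only [Prod.smul_fst, Prod.smul_snd, smul_eq_mul, mul_smul, smul_add, RingHom.id_apply] }
  have A : ∀ i j k : Fin 3, i ≠ 2 → j ≠ 2 → k ≠ 2 → φ (pt (i, j, k)) = f (i, j, k) := by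
    intro i j k hi hj hk
    fin_cases i <;> fin_cases j <;> fin_cases k <;>
      first | exact absurd rfl hi | exact absurd rfl hj | exact absurd rfl hk |
        simp [φ, pt, tn_apply, vec]
  have A1 : ∀ i j k : Fin 3, i ≠ 2 → j ≠ 2 → φ (pt (i, j, k)) = f (i, j, k) := by
    intro i j k hi hj
    by_cases hk : k = 2
    · rw [hk, pt_sum3, map_add, rel3, A i j 0 hi hj (by decide), A i j 1 hi hj (by decide)]
    · exact A i j k hi hj hk
  have A2 : ∀ i j k : Fin 3, i ≠ 2 → φ (pt (i, j, k)) = f (i, j, k) := by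
    intro i j k hi
    by_cases hj : j = 2
    · rw [hj, pt_sum2, map_add, rel2, A1 i 0 k hi (by decide), A1 i 1 k hi (by decide)]
    · exact A1 i j k hi hj
  have A3 : ∀ c, φ (pt c) = f c := by
    rintro ⟨i, j, k⟩
    by_cases hi : i = 2
    · rw [hi, pt_sum1, map_add, rel1, A2 0 j k (by decide), A2 1 j k (by decide)]
    · exact A2 i j k hi
  have eqv : ∀ x, x * z = z * x → ∀ v, φ (act (π x) v) = d.ρ x (φ v) := by
    intro x xz v
    have : φ ∘ₗ act (π x) = d.ρ x ∘ₗ φ := lin_ext fun c => by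
      simp only [LinearMap.comp_apply, act_pt, A3, Kρ x xz]
    exact LinearMap.congr_fun this v
  have inj : Function.Injective φ := by
    rw [injective_iff_map_eq_zero]
    intro v hv
    by_contra n
    have k0 : ∀ l u, φ u = 0 → φ (act l u) = 0 := fun l u hu => by
      obtain ⟨x, xz, rfl⟩ := surj l
      rw [eqv x xz, hu, map_zero]
    obtain ⟨l, hl⟩ := exists_coord n
    have e := congrArg φ (N_eq _ hl)
    have a0 := k0 l v hv
    have a1 : φ (act l v + R1 (act l v)) = 0 := by rw [map_add, a0, ← act_R1, k0 _ _ a0, add_zero]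
    have a2 : φ (act l v + R1 (act l v) + R2 (act l v + R1 (act l v))) = 0 := by
      rw [map_add, a1, ← act_R2, k0 _ _ a1, add_zero]
    rw [map_add, a2, ← act_R3, k0 _ _ a2, add_zero, A3] at e
    exact h.ps_ne d (d.ρ_inj (gz _) (e.symm.trans (map_zero _).symm))
  let e : V0 ≃ₗ[F2] Vq h.lx.toXS := LinearEquiv.ofBijective φ
    ((Nat.bijective_iff_injective_and_card φ).2 ⟨inj, by rw [card_V0, hy.card_V d]⟩)
  let d0 := vmap d e
  have hρ : ∀ {c : G}, c * z = z * c → ∀ v, d0.ρ c v = act (π c) v := fun {c} cz v => by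
    show e.symm (d.ρ c (φ v)) = _
    rw [← eqv c cz]; exact e.symm_apply_apply _
  have z0 : ∀ c c' : I3, c.1 = c'.1 ∨ c.2.1 = c'.2.1 ∨ c.2.2 = c'.2.2 → d0.B (pt c) (pt c') = 0 := by
    have key : ∀ (l : L3) (c c' : I3), (∃ c'', pt (ai l c'') + pt c'' = pt c) → ai l c' = c' →
        d0.B (pt c) (pt c') = 0 := by
      rintro l c c' ⟨c'', e1⟩ e2
      obtain ⟨r, rz, rfl⟩ := surj l
      refine d0.B_com_fix rz (d0.mem_comS.2 ⟨pt c'', by rw [hρ rz, act_pt, e1]⟩)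
        (d0.mem_fixS.2 (by rw [hρ rz, act_pt, e2]))
    rintro c c' (e | e | e)
    · exact key _ c c' (pt_com1 c) (by simp [ai, e, tr_fix])
    · exact key _ c c' (pt_com2 c) (by simp [ai, e, tr_fix])
    · exact key _ c c' (pt_com3 c) (by simp [ai, e, tr_fix])
  have z1 : d0.B (pt (0, 0, 0)) (pt (1, 1, 1)) = 1 := by
    refine z2_ne fun n => pt_ne (0, 0, 0) (d0.nondeg fun v => ?_)
    rw [basis_eq v]
    simp only [map_add, map_smul, n]
    rw [z0, z0, z0, z0, z0, z0, z0] <;> simp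
  have hB : ∀ u v, d0.B u v = B0 u v := by
    have : d0.B = B0L := lin_ext fun c => lin_ext fun c' => by
      show _ = B0 (pt c) (pt c')
      rw [B0_pt]
      split_ifs with hc
      · exact z0 c c' hc
      · push Not at hc
        obtain ⟨x, x0, x1⟩ := two_trans _ _ hc.1
        obtain ⟨y, y0, y1⟩ := two_trans _ _ hc.2.1
        obtain ⟨w, w0, w1⟩ := two_trans _ _ hc.2.2
        obtain ⟨r, rz, e⟩ := surj (x, y, w)
        rw [← z1, ← d0.B_ρ rz (pt (0, 0, 0)), hρ rz, hρ rz, act_pt, act_pt, e]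
        simp [ai, x0, x1, y0, y1, w0, w1]
    intro u v; rw [this]; rfl
  have hq : ∀ v, d0.q v = q0 v := by
    have ad : ∀ u v, d0.q (u + v) + q0 (u + v) = d0.q u + q0 u + (d0.q v + q0 v) := fun u v => by
      rw [d0.q_add, q0_add, hB]
      linear_combination add_self (B0 u v)
    let δ : V0 →ₗ[F2] F2 :=
      { toFun := fun v => d0.q v + q0 v
        map_add' := ad
        map_smul' := fun c v => lin_of_add (fun v => d0.q v + q0 v) ad c v }
    have : δ = 0 := lin_ext fun c => by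
      show d.q (φ (pt c)) + q0 (pt c) = 0
      rw [A3, q0_pt, add_zero]
      exact (d.q_ρ (gz c) _).trans (h.q_U d (h.ps_mem d))
    intro v
    exact XV.add_eq_zero.1 (LinearMap.congr_fun this v)
  exact ⟨d0, hy, surj, hρ, hB, hq, s, h⟩

end Cfsg.Agent.H69.O8
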