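import Cfsg.Agent.H69.XW
import Cfsg.Agent.H69.O8m

/-! The polar space of type `O₈⁺(2)` built from conjugates of an elementary abelian `2⁶`. -/

set_option autoImplicit false

namespace Cfsg.Agent.H69.O8

open Subgroup Cfsg.Agent.H49 Cfsg.Agent.H69.XV

universe u

variable {G : Type u} [Group G]

/-- coordinates on a point -/
structure EC (z : G) (x : Subgroup G) (co : G → X6) : Prop where
  comm : ∀ {a b : G}, a ∈ x → b ∈ x → a * b = b * a
  mul : ∀ {a b : G}, a ∈ x → b ∈ x → co (a * b) = co a + co b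
  inj : ∀ {a : G}, a ∈ x → co a = 0 → a = 1
  surj : ∀ v, ∃ a ∈ x, co a = v
  q : ∀ {a : G}, a ∈ x → (q6 (co a) = 0 ↔ a = 1 ∨ Cj z a)
  b : ∀ {u a : G}, u ∈ x → Cj z u → a ∈ x → (b6 (co u) (co a) = 0 ↔ a ∈ O2C u)
  cent : centralizer (x : Set G) ≤ x

/-- the local axioms -/
structure Geo (z : G) (P : Subgroup G → Prop) : Prop where
  ne : z ≠ 1
  conj : ∀ {x : Subgroup G} (g : G), P x → P (cj x g)
  ec : ∀ {x : Subgroup G}, P x → ∃ co, EC z x co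
  three : ∀ {u : G} {x : Subgroup G}, Cj z u → P x → u ∈ x → ∃ y y', P y ∧ P y' ∧ u ∈ y ∧ u ∈ y' ∧
    y ≠ x ∧ y' ≠ x ∧ y' ≠ y ∧ ∀ p, P p → u ∈ p → p = x ∨ p = y ∨ p = y'
  inf : ∀ {u v : G} {x y : Subgroup G}, Cj z u → P x → P y → y ≠ x → u ∈ x → u ∈ y → v ∈ x →
    v ∈ y → v = 1 ∨ v = u
  fix : ∀ {u c : G} {x : Subgroup G}, Cj z u → P x → u ∈ x → c ∈ O2C u → cj x c = x
  move : ∀ {u e : G} {x y : Subgroup G}, Cj z u → P x → P y → y ≠ x → u ∈ x → u ∈ y → e ∈ x →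
    e ∉ O2C u → cj y e ≠ y
  ncomm : ∀ {u e e' : G} {x y : Subgroup G}, Cj z u → P x → P y → y ≠ x → u ∈ x → u ∈ y → e ∈ x →
    e ∉ O2C u → e' ∈ y → e' ∉ O2C u → e * e' ≠ e' * e
  plane : ∀ {u v : G} {x y : Subgroup G}, Cj z u → Cj z v → v ∈ O2C u → v ≠ u → P x → P y →
    y ≠ x → u ∈ x → v ∈ x → u ∈ y → ∃ m, Cj z m ∧ Cj z (m * u) ∧ m ∈ O2C u ∧ m ∈ y ∧
      ∃ y₁ y₂, P y₁ ∧ P y₂ ∧ v ∈ y₁ ∧ v ∈ y₂ ∧ y₁ ≠ x ∧ y₂ ≠ x ∧ y₂ ≠ y₁ ∧ m ∈ y₁ ∧ m * u ∈ y₂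
  trans : ∀ {u w w' : G} {x y : Subgroup G}, Cj z u → P x → P y → y ≠ x → u ∈ x → u ∈ y →
    w ∈ y → w' ∈ y → Cj z w → Cj z w' → w ∉ O2C u → w' ∉ O2C u →
      ∃ e ∈ x, e ∈ O2C u ∧ e * w * e⁻¹ = w'

/-- collinearity -/
def Col (z : G) (x y : Subgroup G) : Prop := ∃ w, Cj z w ∧ w ∈ x ∧ w ∈ y

theorem Col.symm {z : G} {x y : Subgroup G} (h : Col z x y) : Col z y x := by
  obtain ⟨w, a, b, c⟩ := h; exact ⟨w, a, c, b⟩

theorem Col.cj {z : G} {x y : Subgroup G} (h : Col z x y) (g : G) : Col z (cj x g) (cj y g) := by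
  obtain ⟨w, a, b, c⟩ := h; exact ⟨_, a.conj g, conj_mem_cj g b, conj_mem_cj g c⟩

theorem col_cj {z : G} {x y : Subgroup G} (g : G) : Col z (cj x g) (cj y g) ↔ Col z x y :=
  ⟨fun h => by simpa only [cj_inv_cj] using h.cj g⁻¹, fun h => h.cj g⟩

theorem cj_inj {x y : Subgroup G} {g : G} (h : cj x g = cj y g) : x = y := by
  rw [← cj_inv_cj x g, h, cj_inv_cj]

open Classical in
/-- the form on points -/
noncomputable def ff (z : G) (x y : Subgroup G) : F2 := if Col z x y then 0 else 1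

theorem ff_eq_zero {z : G} {x y : Subgroup G} : ff z x y = 0 ↔ Col z x y := by
  unfold ff; split_ifs with h <;> simp [h]

theorem ff_eq_one {z : G} {x y : Subgroup G} : ff z x y = 1 ↔ ¬ Col z x y := by
  unfold ff; split_ifs with h <;> simp [h]

theorem ff_symm (z : G) (x y : Subgroup G) : ff z x y = ff z y x := by
  by_cases h : Col z x y
  · rw [ff_eq_zero.2 h, ff_eq_zero.2 h.symm]
  · rw [ff_eq_one.2 h, ff_eq_one.2 fun e => h e.symm]

theorem ff_cj (z : G) (x y : Subgroup G) (g : G) : ff z (cj x g) (cj y g) = ff z x y := by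
  by_cases h : Col z x y
  · rw [ff_eq_zero.2 h, ff_eq_zero.2 (h.cj g)]
  · rw [ff_eq_one.2 h, ff_eq_one.2 fun e => h ((col_cj g).1 e)]

theorem z2_eq {a b : F2} (h : a = 0 ↔ b = 0) : a = b := by
  revert a b; decide

namespace EC

variable {z : G} {x : Subgroup G} {co : G → X6} (h : EC z x co)
include h

theorem one : co 1 = 0 := by
  have := h.mul x.one_mem x.one_mem
  rw [mul_one] at this
  exact left_eq_add.1 this

theorem sq {a : G} (ha : a ∈ x) : a * a = 1 :=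
  h.inj (mul_mem ha ha) (by rw [h.mul ha ha, add_self])

theorem eq {a b : G} (ha : a ∈ x) (hb : b ∈ x) (e : co a = co b) : a = b := by
  have := h.inj (mul_mem ha hb) (by rw [h.mul ha hb, e, add_self])
  rw [← inv_of_sq (h.sq hb)]
  exact eq_inv_of_mul_eq_one_left this

theorem cj_self {a : G} (ha : a ∈ x) : cj x a = x := by
  ext y
  rw [mem_cj]
  constructor
  · intro hy
    have := mul_mem (mul_mem ha hy) (inv_mem ha)
    simpa [mul_assoc] using this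
  · intro hy; exact mul_mem (mul_mem (inv_mem ha) hy) ha

theorem exists_cj {v : X6} (h0 : v ≠ 0) (hq : q6 v = 0) : ∃ a ∈ x, Cj z a ∧ co a = v := by
  obtain ⟨a, ha, rfl⟩ := h.surj v
  exact ⟨a, ha, ((h.q ha).1 hq).resolve_left fun e => h0 (by rw [e, h.one]), rfl⟩

end EC

/-- the eight-dimensional space -/
abbrev X8 := F2 × F2 × X6

/-- its quadratic form -/
def q8 (v : X8) : F2 := v.1 * v.2.1 + q6 v.2.2

/-- its polar form -/
def b8 (u v : X8) : F2 := u.1 * v.2.1 + u.2.1 * v.1 + b6 u.2.2 v.2.2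

namespace Geo

variable {z : G} {P : Subgroup G → Prop} (h : Geo z P)
include h

theorem perp_symm {x : Subgroup G} (hx : P x) {u v : G} (cu : Cj z u) (cv : Cj z v) (hu : u ∈ x)
    (hv : v ∈ x) (e : v ∈ O2C u) : u ∈ O2C v := by
  obtain ⟨co, k⟩ := h.ec hx
  rw [← k.b hv cv hu, b6_symm, k.b hu cu hv]; exact e

theorem self_mem {x : Subgroup G} (hx : P x) {u : G} (cu : Cj z u) (hu : u ∈ x) : u ∈ O2C u := by
  obtain ⟨co, k⟩ := h.ec hx
  rw [← k.b hu cu hu]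
  have := q6_add (co u) (co u)
  rw [add_self, q6_zero, add_self, zero_add] at this
  exact this.symm

theorem col_self {x : Subgroup G} (hx : P x) : Col z x x := by
  obtain ⟨co, k⟩ := h.ec hx
  obtain ⟨a, ha, c, -⟩ := k.exists_cj (v := (1, 0, 0)) (by decide) (by decide)
  exact ⟨a, c, ha, ha⟩

theorem third {u : G} {x y y' p : Subgroup G} (cu : Cj z u) (hx : P x) (hy : P y) (hy' : P y')
    (hp : P p) (ux : u ∈ x) (uy : u ∈ y) (uy' : u ∈ y') (up : u ∈ p) (n1 : y ≠ x) (n2 : y' ≠ x)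
    (n3 : y' ≠ y) : p = x ∨ p = y ∨ p = y' := by
  obtain ⟨a, b, -, -, -, -, -, -, -, t⟩ := h.three cu hx ux
  rcases t y hy uy with e1 | e1 | e1 <;> rcases t y' hy' uy' with e2 | e2 | e2 <;>
    rcases t p hp up with e3 | e3 | e3 <;> simp_all

theorem col_of_perp {u v : G} {x y y' : Subgroup G} (cu : Cj z u) (cv : Cj z v) (e : v ∈ O2C u)
    (hx : P x) (hy : P y) (hy' : P y') (ux : u ∈ x) (vx : v ∈ x) (uy : u ∈ y) (vy : v ∈ y') :
    ∃ m, Cj z m ∧ m ∈ O2C u ∧ m ∈ y ∧ m ∈ y' := by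
  by_cases n : v = u
  · exact ⟨u, cu, n ▸ e, uy, n ▸ vy⟩
  by_cases n1 : y = x
  · exact ⟨v, cv, e, n1 ▸ vx, vy⟩
  by_cases n2 : y' = x
  · exact ⟨u, cu, h.self_mem hx cu ux, uy, n2 ▸ ux⟩
  obtain ⟨m, c1, c2, m1, m2, y₁, y₂, p1, p2, v1, v2, a1, a2, a3, b1, b2⟩ :=
    h.plane cu cv e n hx hy n1 ux vx uy
  rcases h.third cv hx p1 p2 hy' vx v1 v2 vy a1 a2 a3 with e' | e' | e'
  · exact absurd e' n2
  · exact ⟨m, c1, m1, m2, e' ▸ b1⟩
  · exact ⟨m * u, c2, mul_mem m1 (h.self_mem hx cu ux), mul_mem m2 uy, e' ▸ b2⟩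

theorem col_of_perp' {u v : G} {x y y' : Subgroup G} (cu : Cj z u) (cv : Cj z v) (e : v ∈ O2C u)
    (hx : P x) (hy : P y) (hy' : P y') (ux : u ∈ x) (vx : v ∈ x) (uy : u ∈ y) (vy : v ∈ y') :
    Col z y y' := by
  obtain ⟨m, a, -, b, c⟩ := h.col_of_perp cu cv e hx hy hy' ux vx uy vy
  exact ⟨m, a, b, c⟩

theorem not_col {u v : G} {x y y' : Subgroup G} (cu : Cj z u) (cv : Cj z v) (e : v ∉ O2C u)
    (hx : P x) (hy : P y) (hy' : P y') (ux : u ∈ x) (vx : v ∈ x) (uy : u ∈ y) (vy : v ∈ y')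
    (n1 : y ≠ x) (n2 : y' ≠ x) : ¬ Col z y y' := by
  rintro ⟨w, cw, w1, w2⟩
  obtain ⟨co, k⟩ := h.ec hy'
  by_cases hw : w ∈ O2C u
  · obtain ⟨m, cm, m1, m2, m3⟩ := h.col_of_perp cu cw hw hy hx hy' uy w1 ux w2
    rcases h.inf cv hx hy' n2 vx vy m2 m3 with a | a
    · exact cm.ne_one h.ne a
    · exact e (a ▸ m1)
  · exact h.ncomm cu hx hy n1 ux uy vx e w1 hw (k.comm vy w2)

theorem uniq {v : G} {x y y₁ y₂ : Subgroup G} (cv : Cj z v) (hx : P x) (hy : P y) (h1 : P y₁)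
    (h2 : P y₂) (n : ¬ Col z x y) (vx : v ∈ x) (v1 : v ∈ y₁) (v2 : v ∈ y₂) (c1 : Col z y₁ y)
    (c2 : Col z y₂ y) : y₂ = y₁ := by
  by_contra ne
  obtain ⟨w, cw, w1, w2⟩ := c1
  by_cases hw : w ∈ O2C v
  · exact n (h.col_of_perp' cv cw hw h1 hx hy v1 w1 vx w2)
  · refine h.not_col cv cw hw h1 h2 hy v1 w1 v2 w2 ne ?_ c2
    rintro rfl
    exact n ⟨v, cv, vx, v1⟩

theorem step {u v : G} {x y x' : Subgroup G} (cu : Cj z u) (cv : Cj z v) (e : v ∈ O2C u)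
    (hx : P x) (hy : P y) (hx' : P x') (n : ¬ Col z x y) (ux : u ∈ x) (vx : v ∈ x) (ux' : u ∈ x')
    (c : Col z x' y) : ∃ y', P y' ∧ v ∈ y' ∧ Col z y' y := by
  by_cases ne : v = u
  · exact ⟨x', hx', ne ▸ ux', c⟩
  have n1 : x' ≠ x := fun a => n (a ▸ c)
  obtain ⟨w, cw, w1, w2⟩ := c
  have hw : w ∉ O2C u := fun hw => n (h.col_of_perp' cu cw hw hx' hx hy ux' w1 ux w2)
  obtain ⟨m, c1, c2, -, m2, y₁, y₂, p1, p2, v1, v2, -, -, -, b1, b2⟩ :=
    h.plane cu cv e ne hx hx' n1 ux vx ux'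
  by_cases hm : w ∈ O2C m
  · exact ⟨y₁, p1, v1, h.col_of_perp' c1 cw hm hx' p1 hy m2 w1 b1 w2⟩
  · obtain ⟨co, k⟩ := h.ec hx'
    have : w ∈ O2C (m * u) := by
      rw [← k.b (mul_mem m2 ux') c2 w1, k.mul m2 ux', b6_symm, b6_add, b6_symm, b6_symm (co w),
        z2_ne fun a => hm ((k.b m2 c1 w1).1 a), z2_ne fun a => hw ((k.b ux' cu w1).1 a)]
      rfl
    exact ⟨y₂, p2, v2, h.col_of_perp' c2 cw this hx' p2 hy (mul_mem m2 ux') w1 b2 w2⟩

theorem proj {v : G} {x y x' : Subgroup G} (hx : P x) (hy : P y) (hx' : P x') (n : ¬ Col z x y)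
    (c1 : Col z x x') (c2 : Col z x' y) (cv : Cj z v) (vx : v ∈ x) :
    ∃ y', P y' ∧ v ∈ y' ∧ Col z y' y := by
  obtain ⟨u, cu, ux, ux'⟩ := c1
  obtain ⟨co, k⟩ := h.ec hx
  obtain ⟨c, c0, cq, b1, b2⟩ := six_conn (co u) (co v) ((k.q ux).2 (Or.inr cu))
    ((k.q vx).2 (Or.inr cv))
  obtain ⟨m, mx, cm, rfl⟩ := k.exists_cj c0 cq
  obtain ⟨y', p, a, b⟩ := h.step cu cm ((k.b ux cu mx).1 b1) hx hy hx' n ux mx ux' c2
  exact h.step cm cv ((k.b mx cm vx).1 b2) hx hy p n mx vx a b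

theorem swap {v e : G} {x y y' : Subgroup G} (cv : Cj z v) (hx : P x) (hy : P y) (hy' : P y')
    (vx : v ∈ x) (vy : v ∈ y) (vy' : v ∈ y') (n1 : y ≠ x) (n2 : y' ≠ x) (n3 : y' ≠ y) (ex : e ∈ x)
    (he : e ∉ O2C v) : cj y e = y' := by
  obtain ⟨co, k⟩ := h.ec hx
  have m : v ∈ cj y e := by
    have := conj_mem_cj e vy
    rwa [conj_of_comm (k.comm vx ex)] at this
  rcases h.third cv hx hy hy' (h.conj e hy) vx vy vy' m n1 n2 n3 with a | a | a
  · exact absurd (cj_inj (a.trans (k.cj_self ex).symm)) n1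
  · exact absurd a (h.move cv hx hy n1 vx vy ex he)
  · exact a

end Geo

/-- a base pair of opposite points -/
structure Base (z : G) (P : Subgroup G → Prop) (x y : Subgroup G) (co : G → X6) : Prop where
  geo : Geo z P
  px : P x
  py : P y
  ec : EC z x co
  nc : ¬ Col z x y
  mid : ∃ x', P x' ∧ Col z x x' ∧ Col z x' y

theorem Geo.exists_base {z : G} {P : Subgroup G → Prop} (h : Geo z P) {x : Subgroup G}
    (hx : P x) : ∃ y co, Base z P x y co := by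
  obtain ⟨co, k⟩ := h.ec hx
  obtain ⟨u, cu, ux, -⟩ := h.col_self hx
  obtain ⟨x', -, px', -, ux', -, n, -⟩ := h.three cu hx ux
  obtain ⟨co', k'⟩ := h.ec px'
  obtain ⟨v, v0, vq, vb⟩ := six_nondeg (co' u) fun e => cu.ne_one h.ne (k'.inj ux' e)
  obtain ⟨w, wx, cw, rfl⟩ := k'.exists_cj v0 vq
  have hw : w ∉ O2C u := by
    rw [← k'.b ux' cu wx, b6_symm, vb]; decide
  obtain ⟨y, -, py, -, wy, -, n', -⟩ := h.three cw px' wx
  exact ⟨y, co, h, hx, py, k, h.not_col cu cw hw px' hx py ux' wx ux wy n.symm n',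
    x', px', ⟨u, cu, ux, ux'⟩, ⟨w, cw, wx, wy⟩⟩

/-- `v` is the label of the point `p` -/
def Rep (z : G) (P : Subgroup G → Prop) (x y p : Subgroup G) (v : G) : Prop :=
  v ∈ x ∧ ((p = x ∧ v = 1) ∨ (P p ∧ p ≠ x ∧ Cj z v ∧ v ∈ p) ∨ p = cj y v)

namespace Base

variable {z : G} {P : Subgroup G → Prop} {x y : Subgroup G} {co : G → X6} (h : Base z P x y co)
include h

theorem proj {v : G} (cv : Cj z v) (vx : v ∈ x) : ∃ p, P p ∧ v ∈ p ∧ p ≠ x ∧ Col z p y := by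
  obtain ⟨x', a, b, c⟩ := h.mid
  obtain ⟨p, p1, p2, p3⟩ := h.geo.proj h.px h.py a h.nc b c cv vx
  exact ⟨p, p1, p2, fun e => h.nc (e ▸ p3), p3⟩

theorem nc' {e : G} (ex : e ∈ x) : ¬ Col z x (cj y e) := fun c => h.nc (by
  rw [← col_cj e, h.ec.cj_self ex]; exact c)

theorem semireg {e : G} (ex : e ∈ x) (he : cj y e = y) : e = 1 := by
  by_contra n
  obtain ⟨v, v0, vq, vb⟩ := six_nondeg (co e) fun a => n (h.ec.inj ex a)
  obtain ⟨w, wx, cw, rfl⟩ := h.ec.exists_cj v0 vq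
  have hw : e ∉ O2C w := by rw [← h.ec.b wx cw ex, vb]; decide
  obtain ⟨p, p1, p2, p3, p4⟩ := h.proj cw wx
  have m : w ∈ cj p e := by
    have := conj_mem_cj e p2
    rwa [conj_of_comm (h.ec.comm wx ex)] at this
  refine h.geo.move cw h.px p1 p3 wx p2 ex hw
    (h.geo.uniq cw h.px h.py p1 (h.geo.conj e p1) h.nc wx p2 m p4 ?_)
  rw [← he]; exact p4.cj e

theorem nbr_y {p : Subgroup G} (hp : P p) (c : Col z y p) :
    p = y ∨ Col z x p ∨ ∃ v ∈ x, Cj z v ∧ p = cj y v := by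
  obtain ⟨w, cw, wy, wp⟩ := c
  obtain ⟨x', a, b, c⟩ := h.mid
  obtain ⟨y₁, p1, w1, v, cv, v1, vx⟩ := h.geo.proj h.py h.px a (fun e => h.nc e.symm) c.symm b.symm
    cw wy
  by_cases n1 : p = y
  · exact Or.inl n1
  by_cases n2 : p = y₁
  · exact Or.inr (Or.inl ⟨v, cv, vx, n2 ▸ v1⟩)
  have hv : v ∉ O2C w := fun hv =>
    h.nc (h.geo.col_of_perp' cw cv hv p1 h.py h.px w1 v1 wy vx).symm
  have n3 : y ≠ y₁ := fun e => h.nc ⟨v, cv, vx, e ▸ v1⟩
  exact Or.inr (Or.inr ⟨v, vx, cv,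
    (h.geo.swap cw p1 h.py hp w1 wy wp n3 n2 n1 v1 hv).symm⟩)

theorem ff_y {e : G} (ex : e ∈ x) : ff z (cj y e) y = q6 (co e) := by
  apply z2_eq
  rw [ff_eq_zero, h.ec.q ex]
  constructor
  · intro c
    rcases h.nbr_y (h.geo.conj e h.py) c.symm with a | a | ⟨v, vx, cv, a⟩
    · exact Or.inl (h.semireg ex a)
    · exact absurd a (h.nc' ex)
    · right
      have : v⁻¹ * e = 1 := h.semireg (mul_mem (inv_mem vx) ex) (by rw [cj_mul, a, cj_inv_cj])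
      rw [inv_mul_eq_one] at this
      exact this ▸ cv
  · rintro (rfl | ce)
    · rw [cj_one]; exact h.geo.col_self h.py
    · obtain ⟨p, p1, p2, -, w, cw, wp, wy⟩ := h.proj ce ex
      obtain ⟨co', k⟩ := h.geo.ec p1
      refine ⟨w, cw, ?_, wy⟩
      have := conj_mem_cj e wy
      rwa [conj_of_comm (k.comm wp p2)] at this

theorem ff_nbr {p : Subgroup G} {v e : G} (hp : P p) (n : p ≠ x) (cv : Cj z v) (vx : v ∈ x)
    (vp : v ∈ p) (ex : e ∈ x) : ff z (cj p e) y = ff z p y + b6 (co v) (co e) := by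
  by_cases he : e ∈ O2C v
  · rw [h.geo.fix cv hp vp he, (h.ec.b vx cv ex).2 he, add_zero]
  · rw [z2_ne fun a => he ((h.ec.b vx cv ex).1 a)]
    have m : v ∈ cj p e := by
      have := conj_mem_cj e vp
      rwa [conj_of_comm (h.ec.comm vx ex)] at this
    have n1 := h.geo.move cv h.px hp n vx vp ex he
    have n2 : cj p e ≠ x := fun a => n (cj_inj (a.trans (h.ec.cj_self ex).symm))
    have pe := h.geo.conj e hp
    obtain ⟨r, r1, r2, r3, r4⟩ := h.proj cv vx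
    rcases h.geo.third cv h.px hp pe r1 vx vp m r2 n n2 n1 with a | a | a
    · exact absurd a r3
    · subst a
      rw [ff_eq_zero.2 r4, ff_eq_one.2 fun c =>
        n1 (h.geo.uniq cv h.px h.py hp pe h.nc vx vp m r4 c)]; rfl
    · subst a
      rw [ff_eq_zero.2 r4, ff_eq_one.2 fun c =>
        n1 (h.geo.uniq cv h.px h.py pe hp h.nc vx m vp r4 c).symm]; rfl

theorem rep_P {p : Subgroup G} {v : G} (r : Rep z P x y p v) : P p := by
  obtain ⟨-, ⟨rfl, -⟩ | ⟨a, -⟩ | rfl⟩ := r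
  · exact h.px
  · exact a
  · exact h.geo.conj _ h.py

/-- coordinates of a labelled point -/
noncomputable def kap (_h : Base z P x y co) (p : Subgroup G) (v : G) : X8 :=
  (ff z p y, ff z p x, co v)

theorem form {p p' : Subgroup G} {v v' : G} (r : Rep z P x y p v) (r' : Rep z P x y p' v') :
    b8 (h.kap p v) (h.kap p' v') = ff z p p' := by
  have xx := ff_eq_zero.2 (h.geo.col_self h.px)
  have xy := ff_eq_one.2 h.nc
  have sy : ∀ {p p' : Subgroup G} {v v' : G}, b8 (h.kap p v) (h.kap p' v') = ff z p p' →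
      b8 (h.kap p' v') (h.kap p v) = ff z p' p := fun {p p' v v'} e => by
    rw [ff_symm, ← e]; simp only [b8, kap, b6_symm (co v)]; ring
  have c1 : ∀ {p' : Subgroup G} {v' : G}, b8 (h.kap x 1) (h.kap p' v') = ff z x p' := by
    intro p' v'
    simp [b8, kap, xx, xy, h.ec.one, b6_zero, ff_symm z p' x]
  have c2 : ∀ {p : Subgroup G} {v e : G}, P p → p ≠ x → Cj z v → v ∈ x → v ∈ p → e ∈ x →
      b8 (h.kap p v) (h.kap (cj y e) e) = ff z p (cj y e) := by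
    intro p v e hp n cv vx vp ex
    have a := h.ff_nbr hp n cv vx vp ex
    have b : ff z p (cj y e) = ff z (cj p e) y := by
      rw [← ff_cj z p _ e, ← cj_mul, h.ec.sq ex, cj_one]
    simp [b8, kap, ff_eq_zero.2 (show Col z p x from ⟨v, cv, vp, vx⟩),
      ff_eq_one.2 fun c => h.nc' ex (Col.symm c), a, b]
  obtain ⟨vx, ⟨rfl, rfl⟩ | ⟨hp, n, cv, vp⟩ | rfl⟩ := r
  · exact c1
  · obtain ⟨vx', ⟨rfl, rfl⟩ | ⟨hp', n', cv', vp'⟩ | rfl⟩ := r'
    · exact sy c1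
    · simp only [b8, kap, ff_eq_zero.2 (show Col z p x from ⟨v, cv, vp, vx⟩),
        ff_eq_zero.2 (show Col z p' x from ⟨v', cv', vp', vx'⟩), mul_zero, zero_mul, zero_add]
      apply z2_eq
      rw [h.ec.b vx cv vx', ff_eq_zero]
      exact ⟨fun e => h.geo.col_of_perp' cv cv' e h.px hp hp' vx vx' vp vp', fun c => by
        by_contra e; exact h.geo.not_col cv cv' e h.px hp hp' vx vx' vp vp' n n' c⟩
    · exact c2 hp n cv vx vp vx'
  · obtain ⟨vx', ⟨rfl, rfl⟩ | ⟨hp', n', cv', vp'⟩ | rfl⟩ := r'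
    · exact sy c1
    · exact sy (c2 hp' n' cv' vx' vp' vx)
    · have b : ff z (cj y v) (cj y v') = q6 (co v' + co v) := by
        rw [← h.ec.mul vx' vx, ← h.ff_y (mul_mem vx' vx), ← ff_cj z _ _ v', ← cj_mul, ← cj_mul,
          h.ec.sq vx', cj_one]
      simp only [b8, kap, ff_eq_one.2 fun c => h.nc' vx (Col.symm c),
        ff_eq_one.2 fun c => h.nc' vx' (Col.symm c), h.ff_y vx, h.ff_y vx', b, q6_add,
        b6_symm (co v')]
      ring

theorem kap_sing {p : Subgroup G} {v : G} (r : Rep z P x y p v) :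
    h.kap p v ≠ 0 ∧ q8 (h.kap p v) = 0 := by
  obtain ⟨vx, ⟨rfl, rfl⟩ | ⟨hp, n, cv, vp⟩ | rfl⟩ := r
  · refine ⟨fun e => ?_, ?_⟩
    · have : ff z p y = 0 := congrArg Prod.fst e
      exact h.nc (ff_eq_zero.1 this)
    · simp [q8, kap, ff_eq_zero.2 (h.geo.col_self h.px), h.ec.one, q6_zero]
  · refine ⟨fun e => cv.ne_one h.geo.ne (h.ec.inj vx (congrArg (fun t => t.2.2) e)), ?_⟩
    simp [q8, kap, ff_eq_zero.2 (show Col z p x from ⟨v, cv, vp, vx⟩), (h.ec.q vx).2 (Or.inr cv)]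
  · refine ⟨fun e => ?_, ?_⟩
    · have : ff z (cj y v) x = 0 := congrArg (fun t => t.2.1) e
      exact h.nc' vx (ff_eq_zero.1 this).symm
    · simp [q8, kap, ff_eq_one.2 fun c => h.nc' vx (Col.symm c), h.ff_y vx, add_self]

theorem kap_surj {a : X8} (h0 : a ≠ 0) (hq : q8 a = 0) :
    ∃ p v, Rep z P x y p v ∧ h.kap p v = a := by
  obtain ⟨α, β, c⟩ := a
  rcases z2 β with rfl | rfl
  · simp only [q8, mul_zero, zero_add] at hq
    by_cases c0 : c = 0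
    · subst c0
      refine ⟨x, 1, ⟨one_mem _, Or.inl ⟨rfl, rfl⟩⟩, ?_⟩
      have : α = 1 := z2_ne fun e => h0 (by rw [e]; rfl)
      simp [kap, ff_eq_one.2 h.nc, ff_eq_zero.2 (h.geo.col_self h.px), h.ec.one, this]
    · obtain ⟨v, vx, cv, rfl⟩ := h.ec.exists_cj c0 hq
      obtain ⟨p, p1, p2, p3, p4⟩ := h.proj cv vx
      rcases z2 α with rfl | rfl
      · refine ⟨p, v, ⟨vx, Or.inr (Or.inl ⟨p1, p3, cv, p2⟩)⟩, ?_⟩
        simp [kap, ff_eq_zero.2 p4, ff_eq_zero.2 (show Col z p x from ⟨v, cv, p2, vx⟩)]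
      · obtain ⟨a, b, a1, b1, a2, b2, a3, b3, ab, -⟩ := h.geo.three cv h.px vx
        obtain ⟨r, r1, r2, r3, r4⟩ : ∃ r, P r ∧ v ∈ r ∧ r ≠ x ∧ r ≠ p := by
          by_cases e : a = p
          · exact ⟨b, b1, b2, b3, e ▸ ab⟩
          · exact ⟨a, a1, a2, a3, e⟩
        refine ⟨r, v, ⟨vx, Or.inr (Or.inl ⟨r1, r3, cv, r2⟩)⟩, ?_⟩
        simp [kap, ff_eq_one.2 fun c => r4 (h.geo.uniq cv h.px h.py p1 r1 h.nc vx p2 r2 p4 c),
          ff_eq_zero.2 (show Col z r x from ⟨v, cv, r2, vx⟩)]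
  · obtain ⟨e, ex, rfl⟩ := h.ec.surj c
    refine ⟨cj y e, e, ⟨ex, Or.inr (Or.inr rfl)⟩, ?_⟩
    simp only [q8, mul_one] at hq
    simp [kap, ff_eq_one.2 fun c => h.nc' ex (Col.symm c), h.ff_y ex, XV.add_eq_zero.1 hq]

theorem kap_inj {p p' : Subgroup G} {v v' : G} (r : Rep z P x y p v) (r' : Rep z P x y p' v')
    (e : h.kap p v = h.kap p' v') : p = p' := by
  have e1 : ff z p y = ff z p' y := congrArg Prod.fst e
  have e2 : ff z p x = ff z p' x := congrArg (fun t => t.2.1) e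
  obtain rfl : v = v' := h.ec.eq r.1 r'.1 (congrArg (fun t => t.2.2) e)
  have xx := h.geo.col_self h.px
  obtain ⟨vx, ⟨rfl, rfl⟩ | ⟨hp, n, cv, vp⟩ | rfl⟩ := r <;>
    obtain ⟨-, ⟨a, b⟩ | ⟨hp', n', cv', vp'⟩ | a⟩ := r'
  · exact a.symm
  · exact absurd rfl (cv'.ne_one h.geo.ne)
  · rw [ff_eq_zero.2 xx, a] at e2
    exact absurd (ff_eq_zero.1 e2.symm).symm (h.nc' vx)
  · exact absurd b (cv.ne_one h.geo.ne)
  · by_contra ne
    obtain ⟨r, r1, r2, r3, r4⟩ := h.proj cv vx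
    rcases h.geo.third cv h.px hp hp' r1 vx vp vp' r2 n n' (Ne.symm ne) with a | a | a
    · exact r3 a
    · subst a
      rw [ff_eq_zero.2 r4] at e1
      exact ne (h.geo.uniq cv h.px h.py hp hp' h.nc vx vp vp' r4 (ff_eq_zero.1 e1.symm)).symm
    · subst a
      rw [ff_eq_zero.2 r4] at e1
      exact ne (h.geo.uniq cv h.px h.py hp' hp h.nc vx vp' vp r4 (ff_eq_zero.1 e1))
  · rw [ff_eq_zero.2 (show Col z p x from ⟨v, cv, vp, vx⟩), a] at e2
    exact absurd (ff_eq_zero.1 e2.symm).symm (h.nc' vx)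
  · rw [a, ff_eq_zero.2 xx] at e2
    exact absurd (ff_eq_zero.1 e2).symm (h.nc' vx)
  · rw [ff_eq_zero.2 (show Col z p' x from ⟨v, cv', vp', vx⟩)] at e2
    exact absurd (ff_eq_zero.1 e2).symm (h.nc' vx)
  · exact a.symm

theorem rep_of_col {p : Subgroup G} (hp : P p) (c : Col z x p) : ∃ v, Rep z P x y p v := by
  by_cases n : p = x
  · exact ⟨1, one_mem _, Or.inl ⟨n, rfl⟩⟩
  · obtain ⟨v, cv, vx, vp⟩ := c
    exact ⟨v, vx, Or.inr (Or.inl ⟨hp, n, cv, vp⟩)⟩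

theorem rep_cj {p : Subgroup G} {v e : G} (r : Rep z P x y p v) (ex : e ∈ x) :
    ∃ v, Rep z P x y (cj p e) v := by
  have hp := h.geo.conj e (h.rep_P r)
  obtain ⟨vx, ⟨rfl, rfl⟩ | ⟨-, -, cv, vp⟩ | rfl⟩ := r
  · exact h.rep_of_col hp (by rw [h.ec.cj_self ex]; exact h.geo.col_self h.px)
  · refine h.rep_of_col hp ?_
    have := (show Col z x p from ⟨v, cv, vx, vp⟩).cj e
    rwa [h.ec.cj_self ex] at this
  · exact ⟨e * v, mul_mem ex vx, Or.inr (Or.inr (cj_mul _ _ _).symm)⟩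

theorem closed {p p' : Subgroup G} {v : G} (r : Rep z P x y p v) (hp' : P p') (c : Col z p p') :
    ∃ v', Rep z P x y p' v' := by
  have back : ∀ {p' : Subgroup G} {e : G}, e ∈ x → (∃ v', Rep z P x y (cj p' e) v') →
      ∃ v', Rep z P x y p' v' := by
    rintro p' e ex ⟨v', r⟩
    have := h.rep_cj r (inv_mem ex)
    rwa [cj_inv_cj] at this
  have key : ∀ {p p' : Subgroup G} {v : G}, P p → P p' → p ≠ x → Cj z v → v ∈ x → v ∈ p →
      Col z p y → Col z p p' → ∃ v', Rep z P x y p' v' := by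
    rintro p p' v hp hp' n cv vx vp ⟨w, cw, wp, wy⟩ ⟨w', cw', wp', wq⟩
    by_cases c : Col z x p'
    · exact h.rep_of_col hp' c
    have hw : w ∉ O2C v := fun a => h.nc (h.geo.col_of_perp' cv cw a hp h.px h.py vp wp vx wy)
    have hw' : w' ∉ O2C v := fun a => c (h.geo.col_of_perp' cv cw' a hp h.px hp' vp wp' vx wq)
    obtain ⟨e, ex, -, he⟩ := h.geo.trans cv h.px hp n vx vp wp wp' cw cw' hw hw'
    have m : w' ∈ cj y e := he ▸ conj_mem_cj e wy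
    by_cases a : p' = cj y e
    · exact ⟨e, ex, Or.inr (Or.inr a)⟩
    · refine ⟨v * e, mul_mem vx ex, Or.inr (Or.inr ?_)⟩
      rw [cj_mul]
      exact (h.geo.swap cw' hp (h.geo.conj e h.py) hp' wp' m wq
        (fun b => h.nc' ex ⟨v, cv, vx, b ▸ vp⟩) (fun b => c ⟨v, cv, vx, b ▸ vp⟩) a vp
        fun b => hw' (h.geo.perp_symm hp cw' cv wp' vp b)).symm
  obtain ⟨vx, ⟨rfl, rfl⟩ | ⟨hp, n, cv, vp⟩ | rfl⟩ := r
  · exact h.rep_of_col hp' c
  · obtain ⟨r, r1, r2, r3, r4⟩ := h.proj cv vx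
    by_cases a : r = p
    · exact key hp hp' n cv vx vp (a ▸ r4) c
    · obtain ⟨u, u0, uq, ub⟩ := six_nondeg (co v) fun b => cv.ne_one h.geo.ne (h.ec.inj vx b)
      obtain ⟨e, ex, rfl⟩ := h.ec.surj u
      have he : e ∉ O2C v := by rw [← h.ec.b vx cv ex, b6_symm, ub]; decide
      have := h.geo.swap cv h.px hp r1 vx vp r2 n r3 a ex he
      exact back ex (key r1 (h.geo.conj e hp') r3 cv vx r2 r4 (this ▸ c.cj e))
  · refine back (inv_mem vx) ?_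
    have c' := c.cj v⁻¹
    rw [cj_inv_cj] at c'
    rcases h.nbr_y (h.geo.conj _ hp') c' with a | a | ⟨u, ux, -, a⟩
    · exact ⟨1, one_mem _, Or.inr (Or.inr (by rw [a, cj_one]))⟩
    · exact h.rep_of_col (h.geo.conj _ hp') a
    · exact ⟨u, ux, Or.inr (Or.inr a)⟩

theorem stable {g : G} (hg : ∃ v, Rep z P x y (cj x g) v) {p : Subgroup G} {v : G}
    (r : Rep z P x y p v) : ∃ v', Rep z P x y (cj p g) v' := by
  obtain ⟨u, ru⟩ := hg
  have hp := h.geo.conj g (h.rep_P r)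
  obtain ⟨vx, ⟨rfl, rfl⟩ | ⟨-, -, cv, vp⟩ | rfl⟩ := r
  · exact ⟨u, ru⟩
  · exact h.closed ru hp ((show Col z x p from ⟨v, cv, vx, vp⟩).cj g)
  · obtain ⟨x', a, b, c⟩ := h.mid
    have b' := b.cj v
    rw [h.ec.cj_self vx] at b'
    obtain ⟨u', ru'⟩ := h.closed ru (h.geo.conj g (h.geo.conj v a)) (b'.cj g)
    exact h.closed ru' hp ((c.cj v).cj g)

theorem faithful {g : G} (hg : ∀ p v, Rep z P x y p v → cj p g = p) : g = 1 := by
  have gx := hg x 1 ⟨one_mem _, Or.inl ⟨rfl, rfl⟩⟩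
  have gy : ∀ e ∈ x, cj (cj y e) g = cj y e := fun e ex => hg _ e ⟨ex, Or.inr (Or.inr rfl)⟩
  have gy' := gy 1 (one_mem _)
  rw [cj_one] at gy'
  refine h.semireg (h.ec.cent (mem_centralizer_iff.2 fun e ex => ?_)) gy'
  have m : g * e * g⁻¹ ∈ x := gx ▸ conj_mem_cj g ex
  have : e⁻¹ * (g * e * g⁻¹) = 1 := h.semireg (mul_mem (inv_mem ex) m) (by
    rw [cj_mul, cj_mul, cj_mul]
    conv_lhs => rw [← gy', cj_inv_cj, gy e ex, cj_inv_cj])
  rw [inv_mul_eq_one] at this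
  exact comm_of_conj this.symm

end Base

end Cfsg.Agent.H69.O8
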