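import Cfsg.Agent.H69.O8a
import Cfsg.Agent.H69.O8g

/-! `C(z)/Q ≅ S₃³`: the elementary abelian subgroups of order `2⁶`. -/

set_option autoImplicit false

namespace Cfsg.Agent.H69.O8

open Subgroup Cfsg.Agent.H49 Cfsg.Agent.H69.XV Equiv

universe u

variable {G : Type u} [Group G]

theorem pt_W : ∀ i j k, ∃ X : T2, pt (i, j, k) = tn (vec i) X := fun _ j k =>
  ⟨tn (vec j) (vec k), rfl⟩

theorem U_com : pt (ai (1, tr 0, 1) (0, 1, 1)) + pt (0, 1, 1) = pt (0, 0, 1) ∧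
    pt (ai (1, 1, tr 0) (0, 1, 1)) + pt (0, 1, 1) = pt (0, 1, 0) ∧
    pt (ai (1, tr 0, 1) (1, 1, 0)) + pt (1, 1, 0) = pt (1, 0, 0) := by decide +kernel

theorem U_perp : ∀ v : V0, B0 (pt (0, 0, 0)) v = 0 → B0 (pt (0, 0, 1)) v = 0 →
    B0 (pt (0, 1, 0)) v = 0 → B0 (pt (1, 0, 0)) v = 0 →
    v.1.2.2 = 0 ∧ v.2.1.2 = 0 ∧ v.2.2.1 = 0 ∧ v.2.2.2 = 0 := by
  intro v a b c d
  simp [B0, β2, pt, tn_apply, vec] at a b c d
  exact ⟨d, c, b, a⟩

theorem not_pure : ∀ b, pt (0, 1, 1) + pt (0, 0, 0) ≠ pt b := by decide +kernel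

theorem pt_in_W : ∀ b : I3, (pt b).2 = 0 → b.1 = 0 := by decide +kernel

/-- the subspace `vec i ⊗ 2 ⊗ 2` -/
def W (i : Fin 3) : Submodule F2 V0 := LinearMap.range (tn (vec i))

theorem card_W (i : Fin 3) : Nat.card (W i) = 16 := by
  rw [← card_T2]; exact (Nat.card_congr (LinearEquiv.ofInjective _ (tn_injective i)).toEquiv).symm

/-- preimage of `W i` -/
def FF {z : G} (d : VD (O2C z) z V0) (i : Fin 3) : Subgroup G := d.pre (W i)

/-- its centralizer -/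
def EE {z : G} (d : VD (O2C z) z V0) (i : Fin 3) : Subgroup G := centralizer (FF d i : Set G)

namespace TC

variable [Finite G] {z : G} {π : G → L3} {d : VD (O2C z) z V0} (h : TC z π d)
include h

omit [Finite G] in
theorem p_conj {c x : G} (cz : c * z = z * c) (hx : x ∈ O2C z) :
    d.p (c * x * c⁻¹) = act (π c) (d.p x) := by rw [← d.ρ_p cz hx, h.ρ cz]

omit [Finite G] h in
theorem np_conj {c s : G} (cz : c * z = z * c) (hs : NP z s) : NP z (c * s * c⁻¹) := by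
  have k := hs.conj c
  rwa [conj_of_comm cz.symm] at k

theorem pure {s : G} (hs : NP z s) : ∃ b, d.p s = pt b ∧
    (∀ r ∈ O2C s, r * z = z * r → ai (π r) b = b) ∧
    (∀ l, ai l b = b → ∃ r ∈ O2C s, r * z = z * r ∧ π r = l) := by
  obtain ⟨b, h1, h2, -⟩ := stab h.hy hs
  refine ⟨b, ?_, h1, h2⟩
  obtain ⟨l, hl⟩ := exists_ai b (0, 0, 0)
  obtain ⟨c, cz, rfl⟩ := h.surj l
  have key : ∀ l', ai l' (0, 0, 0) = (0, 0, 0) → act l' (d.ρ c (d.p s)) = d.ρ c (d.p s) := by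
    intro l' hl'
    obtain ⟨y, yz, rfl⟩ := h.surj l'
    have xz := VD.cmul (VD.cmul (VD.cinv cz) yz) cz
    obtain ⟨r, hr, rz, e⟩ := h2 (π (c⁻¹ * y * c)) (by
      rw [h.hy.mul (VD.cmul (VD.cinv cz) yz) cz, h.hy.mul (VD.cinv cz) yz, h.hy.inv cz, ai_mul,
        ai_mul, hl, hl', ai_inv hl])
    have := h.hy.ρ_eq d rz xz e (d.p s)
    rw [hs.ρ_ps d hr rz, d.ρ_mul (VD.cmul (VD.cinv cz) yz) cz, d.ρ_mul (VD.cinv cz) yz] at this
    rw [← h.ρ yz]
    conv_rhs => rw [this]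
    rw [d.ρ_ρ_inv cz]
  rcases fix_R (d.ρ c (d.p s)) (by rw [← act_R1, key _ (by decide)])
    (by rw [← act_R2, key _ (by decide)]) (by rw [← act_R3, key _ (by decide)]) with e | e
  · exact absurd (d.ρ_inj cz (e.trans (map_zero _).symm)) (hs.ps_ne d)
  · rw [← d.ρ_inv_ρ cz (d.p s), e, h.ρ (VD.cinv cz), act_pt, h.hy.inv cz, ai_inv hl]

theorem R_fix {s : G} (hs : NP z s) {b : I3} (ps : d.p s = pt b) {r : G} (hr : r ∈ O2C s)
    (rz : r * z = z * r) : ai (π r) b = b := by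
  obtain ⟨b', e, h1, -⟩ := h.pure hs
  rw [pt_inj b b' (ps.symm.trans e)]; exact h1 r hr rz

theorem R_surj {s : G} (hs : NP z s) {b : I3} (ps : d.p s = pt b) {l : L3} (hl : ai l b = b) :
    ∃ r ∈ O2C s, r * z = z * r ∧ π r = l := by
  obtain ⟨b', e, -, h2⟩ := h.pure hs
  rw [pt_inj b b' (ps.symm.trans e)] at hl; exact h2 l hl

theorem card_E0 {s : G} (hs : NP z s) : Nat.card ↥(O2C z ⊓ O2C s) = 32 :=
  (stab h.hy hs).choose_spec.2.2

theorem np_of_pure {x : G} (hx : x ∈ O2C z) {b : I3} (px : d.p x = pt b) : NP z x := by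
  obtain ⟨s, hs⟩ := h.ex
  obtain ⟨b', e, -⟩ := h.pure hs
  obtain ⟨l, hl⟩ := exists_ai b' b
  obtain ⟨c, cz, rfl⟩ := h.surj l
  have k := np_conj cz hs
  have : d.p x = d.p (c * s * c⁻¹) := by rw [h.p_conj cz hs.mem, e, act_pt, hl, px]
  rcases (d.p_eq_iff hx k.mem).1 this with a | a
  · rw [a]; exact k
  · obtain ⟨q, q1, q2⟩ := k.lx.toXS.exists_conj_eq_mul_z k.mem (k.cj.ne_one k.lx.ne) k.ne
    rw [a, ← q2]; exact np_conj (k.lx.cen q q1) k

theorem exists_np (b : I3) : ∃ s, NP z s ∧ d.p s = pt b := by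
  obtain ⟨x, hx, e⟩ := d.p_surj (pt b)
  exact ⟨x, h.np_of_pure hx e, e⟩

theorem cj_iff {x : G} (hx : x ∈ O2C z) : Cj z x ↔ x = z ∨ ∃ b, d.p x = pt b := by
  constructor
  · intro c
    by_cases e : x = z
    · exact Or.inl e
    · obtain ⟨b, a, -⟩ := h.pure ⟨h.hy.lx, h.hy.card, c, hx, e⟩
      exact Or.inr ⟨b, a⟩
  · rintro (rfl | ⟨b, e⟩)
    · exact Cj.refl _
    · exact (h.np_of_pure hx e).cj

theorem U_eq {s : G} (hs : NP z s) (ps : d.p s = pt (0, 0, 0)) : d.sm (O2C s) = U0 := by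
  have key : ∀ (l : L3) (c c' : I3), ai l (0, 0, 0) = (0, 0, 0) → B0 (pt c) (pt (0, 0, 0)) = 0 →
      pt (ai l c) + pt c = pt c' → pt c' ∈ d.sm (O2C s) := by
    intro l c c' h1 h2 h3
    obtain ⟨r, hr, rz, rfl⟩ := h.R_surj hs ps h1
    have := hs.com_U d hr rz (v := pt c) (by rw [ps, h.B, h2])
    rwa [h.ρ rz, act_pt, h3] at this
  have m0 : pt (0, 0, 0) ∈ d.sm (O2C s) := ps ▸ hs.ps_mem d
  have m1 := key _ _ _ (by decide) (by decide) U_com.1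
  have m2 := key _ _ _ (by decide) (by decide) U_com.2.1
  have m3 := key _ _ _ (by decide) (by decide) U_com.2.2
  refine le_antisymm (fun u hu => U_perp u ?_ ?_ ?_ ?_) fun u hu => ?_
  · rw [← h.B]; exact hs.B_U d m0 hu
  · rw [← h.B]; exact hs.B_U d m1 hu
  · rw [← h.B]; exact hs.B_U d m2 hu
  · rw [← h.B]; exact hs.B_U d m3 hu
  · rw [U0_eq hu]
    exact add_mem (add_mem (add_mem (Submodule.smul_mem _ _ m0) (Submodule.smul_mem _ _ m1))
      (Submodule.smul_mem _ _ m2)) (Submodule.smul_mem _ _ m3)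

theorem mem_S {s : G} (hs : NP z s) (ps : d.p s = pt (0, 0, 0)) {x : G} (hx : x ∈ O2C z) :
    x ∈ O2C s ↔ d.p x ∈ U0 := by rw [← hs.mem_U d hx, h.U_eq hs ps]

omit [Finite G] h in
theorem mem_F {i : Fin 3} {x : G} : x ∈ FF d i ↔ x ∈ O2C z ∧ ∃ X, tn (vec i) X = d.p x := Iff.rfl

omit [Finite G] h in
theorem z_F (i : Fin 3) : z ∈ FF d i := d.z_mem_pre _

omit [Finite G] in
theorem F_sq {i : Fin 3} {x : G} (hx : x ∈ FF d i) : x * x = 1 := by
  obtain ⟨h1, X, e⟩ := hx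
  rw [← d.q_eq_zero h1, ← e, h.q, q0_tn]

omit [Finite G] in
theorem F_comm {i : Fin 3} {x y : G} (hx : x ∈ FF d i) (hy : y ∈ FF d i) : x * y = y * x := by
  obtain ⟨h1, X, e⟩ := hx
  obtain ⟨h2, Y, e'⟩ := hy
  rw [← d.B_eq_zero h1 h2, ← e, ← e', h.B, B0_tn]

omit [Finite G] in
theorem F_le (i : Fin 3) : FF d i ≤ EE d i :=
  fun _ hx => mem_centralizer_iff.2 fun _ hy => h.F_comm hy hx

theorem Q_inf_E {i : Fin 3} {x : G} (hx : x ∈ O2C z) (he : x ∈ EE d i) : x ∈ FF d i := by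
  have a := d.card_perp (W i)
  rw [card_W, card_V0] at a
  have : W i = d.perp (W i) := sub_eq_of_card (by
    rintro _ ⟨X, rfl⟩ _ ⟨Y, rfl⟩; rw [h.B, B0_tn]) (by rw [card_W]; omega)
  rw [FF, this, d.pre_perp]
  exact ⟨hx, he⟩

omit [Finite G] h in
theorem E_z {i : Fin 3} {y : G} (hy : y ∈ EE d i) : y * z = z * y :=
  (mem_centralizer_iff.1 hy z (z_F i)).symm

omit [Finite G] in
theorem E_π {i : Fin 3} {y : G} (hy : y ∈ EE d i) : π y = 1 ∨ π y = (tr i, 1, 1) := by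
  have key : ∀ j k, ai (π y) (i, j, k) = (i, j, k) := by
    intro j k
    obtain ⟨x, hx, e⟩ := d.p_surj (pt (i, j, k))
    obtain ⟨X, hX⟩ := pt_W i j k
    have := h.p_conj (E_z hy) hx
    rw [conj_of_comm (mem_centralizer_iff.1 hy x ⟨hx, X, by rw [e, hX]⟩), e, act_pt] at this
    exact (pt_inj _ _ this).symm
  have e2 : (π y).2 = 1 := Prod.ext
    (Equiv.ext fun j => congrArg (fun t => t.2.1) (key j 0))
    (Equiv.ext fun j => congrArg (fun t => t.2.2) (key 0 j))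
  rcases eq_tr (π y).1 i (congrArg Prod.fst (key 0 0)) with e | e
  · exact Or.inl (Prod.ext e e2)
  · exact Or.inr (Prod.ext e e2)

omit [Finite G] in
theorem E_π' {i : Fin 3} {y : G} (hy : y ∈ EE d i) (n : y ∉ O2C z) : π y = (tr i, 1, 1) :=
  (h.E_π hy).resolve_left fun e => n ((h.hy.ker (E_z hy)).1 e)

omit [Finite G] in
theorem conj_F {i : Fin 3} {c x : G} (cz : c * z = z * c) (hx : x ∈ FF d i) :
    c * x * c⁻¹ ∈ FF d ((π c).1 i) := by
  obtain ⟨h1, X, e⟩ := hx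
  exact ⟨d.lx.conj_mem cz h1, _, by rw [h.p_conj cz h1, ← e, act_tn]⟩

omit [Finite G] in
theorem cj_F (i : Fin 3) {c : G} (cz : c * z = z * c) : cj (FF d i) c = FF d ((π c).1 i) := by
  ext x
  rw [mem_cj]
  constructor
  · intro hx
    have := h.conj_F cz hx
    simpa [mul_assoc] using this
  · intro hx
    have := h.conj_F (VD.cinv cz) hx
    rw [h.hy.inv cz] at this
    simpa using this

omit [Finite G] in
theorem cj_E (i : Fin 3) {c : G} (cz : c * z = z * c) : cj (EE d i) c = EE d ((π c).1 i) := by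
  rw [EE, cj_centralizer, h.cj_F i cz, EE]

theorem E_inf {i j : Fin 3} (n : j ≠ i) {y : G} (h1 : y ∈ EE d i) (h2 : y ∈ EE d j) :
    y = 1 ∨ y = z := by
  have q : y ∈ O2C z := by
    by_contra q
    have := congrArg Prod.fst ((h.E_π' h1 q).symm.trans (h.E_π' h2 q))
    exact tr_move i j n (by rw [show tr i = tr j from this, tr_fix])
  obtain ⟨-, X, e⟩ := h.Q_inf_E q h1
  obtain ⟨-, Y, e'⟩ := h.Q_inf_E q h2
  rw [← d.p_eq_zero q, ← e, tn_inf n (e.trans e'.symm), map_zero]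

theorem E_inj {i j : Fin 3} (e : EE d i = EE d j) : i = j := by
  by_contra n
  obtain ⟨s, hs, ps⟩ := h.exists_np (i, 0, 0)
  obtain ⟨X, hX⟩ := pt_W i 0 0
  have m : s ∈ EE d i := h.F_le i ⟨hs.mem, X, by rw [ps, hX]⟩
  rcases h.E_inf (Ne.symm n) m (e ▸ m) with a | a
  · exact hs.cj.ne_one hs.lx.ne a
  · exact hs.ne a

omit h in
theorem exists_swap {s : G} (hs : NP z s) :
    ∃ g ∈ O2C z ⊔ O2C s, g * z * g⁻¹ = s ∧ g * s * g⁻¹ = z := by
  obtain ⟨q, q1, q2⟩ := hs.lx.toXS.exists_conj_eq_mul_z hs.mem (hs.cj.ne_one hs.lx.ne) hs.ne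
  obtain ⟨r, r1, r2⟩ := hs.lxS.toXS.exists_conj_eq_mul_z hs.mem' hs.lx.ne hs.ne.symm
  have qz := conj_of_comm (hs.lx.cen q q1).symm
  have rs := conj_of_comm (hs.lxS.cen r r1).symm
  refine ⟨q * r * q, mul_mem (mul_mem (mem_sup_left q1) (mem_sup_right r1)) (mem_sup_left q1),
    ?_, ?_⟩
  · calc q * r * q * z * (q * r * q)⁻¹ = q * (r * (q * z * q⁻¹) * r⁻¹) * q⁻¹ := by group
      _ = q * (z * s) * q⁻¹ := by rw [qz, r2]
      _ = (q * z * q⁻¹) * (q * s * q⁻¹) := by group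
      _ = s := by rw [qz, q2, hs.sz, ← mul_assoc, hs.lx.zz, one_mul]
  · calc q * r * q * s * (q * r * q)⁻¹ = q * (r * (q * s * q⁻¹) * r⁻¹) * q⁻¹ := by group
      _ = q * ((r * s * r⁻¹) * (r * z * r⁻¹)) * q⁻¹ := by rw [q2]; group
      _ = z := by rw [rs, r2, ← hs.sz, ← mul_assoc s s, hs.ss, one_mul, qz]

omit h in
theorem conj_E0 {s : G} (hs : NP z s) {g : G} (hg : g ∈ O2C z ⊔ O2C s) {x : G} (h1 : x ∈ O2C z)
    (h2 : x ∈ O2C s) : g * x * g⁻¹ = x ∨ g * x * g⁻¹ = z * x ∨ g * x * g⁻¹ = s * x ∨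
      g * x * g⁻¹ = z * s * x := by
  have := hs.pair.commutator_X_E hg (e := x) ⟨h1, h2⟩
  rw [hs.pair.four.mem_closure] at this
  simpa only [mul_inv_eq_iff_eq_mul (b := x), one_mul] using this

omit [Finite G] in
theorem s_F {s : G} (hs : NP z s) (ps : d.p s = pt (0, 0, 0)) : s ∈ FF d 0 :=
  ⟨hs.mem, _, ps.symm⟩

theorem conj_F0 {s : G} (hs : NP z s) (ps : d.p s = pt (0, 0, 0)) {g : G}
    (hg : g ∈ O2C z ⊔ O2C s) {x : G} (h1 : x ∈ FF d 0) (h2 : x ∈ O2C s) :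
    g * x * g⁻¹ ∈ FF d 0 := by
  have a := z_F (d := d) 0
  have b := h.s_F hs ps
  rcases conj_E0 hs hg h1.1 h2 with e | e | e | e <;> rw [e]
  · exact h1
  · exact mul_mem a h1
  · exact mul_mem b h1
  · exact mul_mem (mul_mem a b) h1

theorem Wg {s : G} (hs : NP z s) (ps : d.p s = pt (0, 0, 0)) {g : G} (hg : g ∈ O2C z ⊔ O2C s)
    (gz : g * z * g⁻¹ = s) (gs : g * s * g⁻¹ = z) {f : G} (hf : f ∈ O2C z)
    (pf : d.p f = pt (0, 1, 1)) : g * f * g⁻¹ ∉ O2C z ∧ g * f * g⁻¹ * z = z * (g * f * g⁻¹) ∧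
      π (g * f * g⁻¹) = (tr 0, 1, 1) ∧
      ∀ x ∈ FF d 0, x ∈ O2C s → x * (g * f * g⁻¹) = g * f * g⁻¹ * x := by
  have fF : f ∈ FF d 0 := ⟨hf, _, pf.symm⟩
  have n : g * f * g⁻¹ ∉ O2C z := by
    intro a
    rw [← gs, mem_O2C_conj, h.mem_S hs ps hf, pf] at a
    exact absurd a.1 (by decide)
  have c : ∀ x ∈ FF d 0, x ∈ O2C s → x * (g * f * g⁻¹) = g * f * g⁻¹ * x := by
    intro x h1 h2
    have := conj_comm g (h.F_comm (h.conj_F0 hs ps (inv_mem hg) h1 h2) fF)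
    simpa [mul_assoc] using this
  have wz := (c z (z_F 0) hs.mem').symm
  have wS : g * f * g⁻¹ ∈ O2C s := by rw [← gz]; exact mem_O2C_conj.2 hf
  refine ⟨n, wz, ?_, c⟩
  have key : ∀ j k, pt (0, j, k) ∈ U0 → ai (π (g * f * g⁻¹)) (0, j, k) = (0, j, k) := by
    intro j k hu
    obtain ⟨x, hx, e⟩ := d.p_surj (pt (0, j, k))
    have := h.p_conj wz hx
    rw [conj_of_comm (c x ⟨hx, _, e.symm⟩ ((h.mem_S hs ps hx).2 (e ▸ hu))), e, act_pt] at this
    exact (pt_inj _ _ this).symm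
  have k0 := key 0 0 (mem_U0.2 (by decide))
  have k1 := key 1 0 (mem_U0.2 (by decide))
  have k2 := key 0 1 (mem_U0.2 (by decide))
  have two : ∀ σ : S3, σ 0 = 0 → σ 1 = 1 → σ = 1 := by decide +kernel
  have e2 : (π (g * f * g⁻¹)).2 = 1 := Prod.ext
    (two _ (congrArg (fun t => t.2.1) k0) (congrArg (fun t => t.2.1) k1))
    (two _ (congrArg (fun t => t.2.2) k0) (congrArg (fun t => t.2.2) k2))
  rcases eq_tr _ 0 (congrArg Prod.fst k0) with e | e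
  · exact absurd ((h.hy.ker wz).1 (Prod.ext e e2)) n
  · exact Prod.ext e e2

omit [Finite G] h in
theorem W0_split {X : T2} : tn (vec 0) X ∈ U0 ∨ tn (vec 0) X + pt (0, 1, 1) ∈ U0 := by
  rcases z2 X.2.2 with e | e
  · left; simp [mem_U0, tn_vec0, e]
  · right; simp [mem_U0, pt, tn_apply, vec, e, add_self]

theorem w_mem {s : G} (hs : NP z s) (ps : d.p s = pt (0, 0, 0)) {g : G} (hg : g ∈ O2C z ⊔ O2C s)
    (gz : g * z * g⁻¹ = s) (gs : g * s * g⁻¹ = z) {f : G} (hf : f ∈ O2C z)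
    (pf : d.p f = pt (0, 1, 1)) : g * f * g⁻¹ ∈ EE d 0 := by
  have fF : f ∈ FF d 0 := ⟨hf, _, pf.symm⟩
  obtain ⟨-, wz, πw, c⟩ := h.Wg hs ps hg gz gs hf pf
  obtain ⟨-, wz', πw', -⟩ := h.Wg hs ps (inv_mem hg) (by rw [← gs]; group) (by rw [← gz]; group)
    hf pf
  have a := (d.ρ_fix wz hf).1 (by rw [h.ρ wz, πw, pf, act_pt]; rfl)
  have b := (d.ρ_fix wz' hf).1 (by rw [h.ρ wz', πw', pf, act_pt]; rfl)
  set w := g * f * g⁻¹ with hw
  have wf : f * w = w * f := by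
    rcases a with a | a
    · exact comm_of_conj a
    · rcases b with b | b
      · have := conj_comm g (comm_of_conj b)
        simpa [hw, mul_assoc] using this.symm
      · exfalso
        have b' : f * w * f⁻¹ = w * s := by
          calc f * w * f⁻¹ = g * (g⁻¹ * f * g⁻¹⁻¹ * f * (g⁻¹ * f * g⁻¹⁻¹)⁻¹) * g⁻¹ := by
                rw [hw]; group
            _ = w * (g * z * g⁻¹) := by rw [b, hw]; group
            _ = _ := by rw [gz]
        have fz := hs.lx.cen f hf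
        have e1 : w * f = z * f * w := by rw [← fz, ← a]; group
        have e2 : f * w = w * s * f := by rw [← b']; group
        have fs := h.F_comm (h.s_F hs ps) fF
        have : w * f = w * f * (z * s) := by
          calc w * f = z * (w * s * f) := by rw [e1, mul_assoc, e2]
            _ = w * (z * (s * f)) := by rw [← mul_assoc, ← mul_assoc, ← wz]; group
            _ = _ := by rw [fs, ← mul_assoc z, ← fz]; group
        exact hs.pair.four.zx1 (left_eq_mul.1 this)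
  refine mem_centralizer_iff.2 fun x hx => ?_
  obtain ⟨h1, X, e⟩ := hx
  rcases W0_split (X := X) with u | u
  · exact c x ⟨h1, X, e⟩ ((h.mem_S hs ps h1).2 (e ▸ u))
  · have m := mul_mem (show x ∈ FF d 0 from ⟨h1, X, e⟩) fF
    have := c _ m ((h.mem_S hs ps m.1).2 (by rw [d.p_mul h1 hf, ← e, pf]; exact u))
    have e2 : x * w * f = w * x * f := by rw [mul_assoc, ← wf, ← mul_assoc, this, mul_assoc w]
    exact mul_right_cancel e2

end TC

/-- the data attached to the first point -/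
structure TD (z : G) (π : G → L3) (d : VD (O2C z) z V0) (s g f : G) : Prop where
  tc : TC z π d
  hs : NP z s
  ps : d.p s = pt (0, 0, 0)
  hg : g ∈ O2C z ⊔ O2C s
  gz : g * z * g⁻¹ = s
  gs : g * s * g⁻¹ = z
  hf : f ∈ O2C z
  pf : d.p f = pt (0, 1, 1)

theorem TC.exists_TD [Finite G] {z : G} {π : G → L3} {d : VD (O2C z) z V0} (h : TC z π d) {s : G}
    (hs : NP z s) (ps : d.p s = pt (0, 0, 0)) : ∃ g f, TD z π d s g f := by
  obtain ⟨g, a, b, c⟩ := TC.exists_swap hs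
  obtain ⟨f, hf, pf⟩ := d.p_surj (pt (0, 1, 1))
  exact ⟨g, f, h, hs, ps, a, b, c, hf, pf⟩

namespace TD

variable [Finite G] {z : G} {π : G → L3} {d : VD (O2C z) z V0} {s g f : G} (h : TD z π d s g f)
include h

theorem wE : g * f * g⁻¹ ∈ EE d 0 := h.tc.w_mem h.hs h.ps h.hg h.gz h.gs h.hf h.pf

theorem wQ : g * f * g⁻¹ ∉ O2C z := (h.tc.Wg h.hs h.ps h.hg h.gz h.gs h.hf h.pf).1

theorem cf : Cj z f := (h.tc.np_of_pure h.hf h.pf).cj

theorem cw : Cj z (g * f * g⁻¹) := h.cf.conj g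

theorem ww : g * f * g⁻¹ * (g * f * g⁻¹) = 1 := h.cw.sq h.hs.lx.zz

theorem mul_F {x y : G} (hx : x ∈ EE d 0) (hy : y ∈ EE d 0) (x1 : x ∉ O2C z) (y1 : y ∉ O2C z) :
    x * y ∈ FF d 0 := by
  refine h.tc.Q_inf_E ((h.tc.hy.ker (TC.E_z (mul_mem hx hy))).1 ?_) (mul_mem hx hy)
  rw [h.tc.hy.mul (TC.E_z hx) (TC.E_z hy), h.tc.E_π' hx x1, h.tc.E_π' hy y1]
  exact Prod.ext (tr_sq 0) rfl

theorem split {y : G} (hy : y ∈ EE d 0) : y ∈ FF d 0 ∨ ∃ x ∈ FF d 0, y = x * (g * f * g⁻¹) := by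
  by_cases q : y ∈ O2C z
  · exact Or.inl (h.tc.Q_inf_E q hy)
  · exact Or.inr ⟨_, h.mul_F hy h.wE q h.wQ, by rw [mul_assoc, h.ww, mul_one]⟩

theorem E_comm {x y : G} (hx : x ∈ EE d 0) (hy : y ∈ EE d 0) : x * y = y * x := by
  rcases h.split hx with a | ⟨a, ha, rfl⟩
  · exact mem_centralizer_iff.1 hy x a
  · rcases h.split hy with b | ⟨b, hb, rfl⟩
    · exact (mem_centralizer_iff.1 hx y b).symm
    · have c1 := mem_centralizer_iff.1 h.wE a ha
      have c2 := mem_centralizer_iff.1 h.wE b hb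
      have c3 := h.tc.F_comm ha hb
      generalize g * f * g⁻¹ = w at *
      calc a * w * (b * w) = a * (w * b) * w := by group
        _ = b * (a * w) * w := by rw [← c2, ← mul_assoc a b, c3]; group
        _ = b * (w * a) * w := by rw [c1]
        _ = _ := by group

theorem E_cent : centralizer (EE d 0 : Set G) ≤ EE d 0 :=
  centralizer_le (h.tc.F_le 0)

theorem cj_g : cj (EE d 0) g = EE d 0 := by
  have le : cj (FF d 0) g ≤ EE d 0 := by
    rintro _ ⟨x, ⟨h1, X, e⟩, rfl⟩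
    show g * x * g⁻¹ ∈ _
    rcases TC.W0_split (X := X) with u | u
    · exact h.tc.F_le 0 (h.tc.conj_F0 h.hs h.ps h.hg ⟨h1, X, e⟩ ((h.tc.mem_S h.hs h.ps h1).2 (e ▸ u)))
    · have fF : f ∈ FF d 0 := ⟨h.hf, _, h.pf.symm⟩
      have m := mul_mem (show x ∈ FF d 0 from ⟨h1, X, e⟩) fF
      have := h.tc.F_le 0 (h.tc.conj_F0 h.hs h.ps h.hg m ((h.tc.mem_S h.hs h.ps m.1).2
        (by rw [d.p_mul h1 h.hf, ← e, h.pf]; exact u)))
      have := mul_mem this (inv_mem h.wE)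
      simpa [mul_assoc] using this
  refine (eq_of_le_of_card_ge (fun y hy => ?_) (card_cj _ _).le).symm
  rw [EE, cj_centralizer]
  exact mem_centralizer_iff.2 fun x hx => h.E_comm (le hx) hy

theorem not_cj_wz : ¬ Cj z (g * f * g⁻¹ * z) := by
  intro c
  have : Cj z (f * s) := by
    have := c.conj g⁻¹
    rwa [show g⁻¹ * (g * f * g⁻¹ * z) * g⁻¹⁻¹ = f * (g⁻¹ * z * g) by group,
      show g⁻¹ * z * g = s by rw [← h.gs]; group] at this
  have m := mul_mem h.hf h.hs.mem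
  have e := d.p_mul h.hf h.hs.mem
  rw [h.pf, h.ps] at e
  rcases (h.tc.cj_iff m).1 this with a | ⟨b, a⟩
  · rw [a, d.p_z] at e; exact absurd e (by decide)
  · exact not_pure b (e.symm.trans a)

theorem out {y : G} (hy : y ∈ EE d 0) (n : y ∉ O2C z) :
    ∃ e ∈ O2C z, e * (g * f * g⁻¹) * e⁻¹ = y ∨ e * (g * f * g⁻¹) * e⁻¹ = y * z := by
  obtain ⟨x, hx, rfl⟩ := (h.split hy).resolve_left fun a => n a.1
  have wz := TC.E_z h.wE
  obtain ⟨h1, X, e⟩ := hx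
  obtain ⟨e, he, a⟩ := d.exists_comm wz h1 (d.mem_comS.2 ⟨tn (vec 1) X, by
    rw [h.tc.ρ wz, h.tc.E_π' h.wE h.wQ, act_tn, act2_one, ← tn_add, vec_tr 0 1 (by decide), e]⟩)
  refine ⟨e, he, a.imp id fun a => ?_⟩
  rw [a, mul_assoc x z, ← wz, mul_assoc x]

theorem cj_z_iff {y : G} (hy : y ∈ EE d 0) (n : y ∉ O2C z) : Cj z (y * z) ↔ ¬ Cj z y := by
  obtain ⟨e, he, a⟩ := h.out hy n
  have ez := conj_of_comm (h.hs.lx.cen e he).symm
  have c1 := h.cw.conj e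
  have c2 : ¬ Cj z (e * (g * f * g⁻¹) * e⁻¹ * z) := fun c => h.not_cj_wz (by
    have := c.conj e⁻¹
    rwa [← ez, show e⁻¹ * (e * (g * f * g⁻¹) * e⁻¹ * (e * z * e⁻¹)) * e⁻¹⁻¹ =
      g * f * g⁻¹ * z by group, ez] at this)
  rcases a with a | a <;> rw [a] at c1 c2
  · exact ⟨fun c => absurd c c2, fun c => absurd c1 c⟩
  · rw [mul_assoc, h.hs.lx.zz, mul_one] at c2
    exact ⟨fun _ => c2, fun _ => c1⟩

theorem orbit_F {y : G} (hy : y ∈ FF d 0) (c : Cj z y) :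
    ∃ n, cj (EE d 0) n = EE d 0 ∧ n * z * n⁻¹ = y := by
  rcases (h.tc.cj_iff hy.1).1 c with a | ⟨⟨i, j, k⟩, a⟩
  · exact ⟨1, cj_one _, by rw [a]; group⟩
  · obtain ⟨h1, X, e⟩ := hy
    obtain rfl : i = 0 := pt_in_W (i, j, k) (by rw [← a, ← e, tn_vec0])
    obtain ⟨σ, hσ⟩ := exists_perm 0 j
    obtain ⟨τ, hτ⟩ := exists_perm 0 k
    obtain ⟨c, cz, pc⟩ := h.tc.surj (1, σ, τ)
    have k := TC.np_conj cz h.hs
    have e1 : cj (EE d 0) (c * g) = EE d 0 := by rw [cj_mul, h.cj_g, h.tc.cj_E 0 cz, pc]; rfl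
    have e2 : c * g * z * (c * g)⁻¹ = c * s * c⁻¹ := by rw [← h.gz]; group
    have : d.p y = d.p (c * s * c⁻¹) := by
      rw [h.tc.p_conj cz h.hs.mem, h.ps, act_pt, a, pc]; simp [ai, hσ, hτ]
    rcases (d.p_eq_iff h1 k.mem).1 this with b | b
    · exact ⟨c * g, e1, e2.trans b.symm⟩
    · obtain ⟨q, q1, q2⟩ := k.lx.toXS.exists_conj_eq_mul_z k.mem (k.cj.ne_one k.lx.ne) k.ne
      refine ⟨q * (c * g), ?_, ?_⟩
      · rw [cj_mul, e1, h.tc.cj_E 0 (k.lx.cen q q1), h.tc.hy.Q_one q1]; rfl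
      · rw [b, ← q2, ← e2]; group

theorem orbit {y : G} (hy : y ∈ EE d 0) (c : Cj z y) :
    ∃ n, cj (EE d 0) n = EE d 0 ∧ n * z * n⁻¹ = y := by
  by_cases q : y ∈ O2C z
  · exact h.orbit_F (h.tc.Q_inf_E q hy) c
  · obtain ⟨e, he, a | a⟩ := h.out hy q
    · obtain ⟨n, n1, n2⟩ := h.orbit_F ⟨h.hf, _, h.pf.symm⟩ h.cf
      refine ⟨e * (g * n), ?_, ?_⟩
      · rw [cj_mul, cj_mul, n1, h.cj_g, h.tc.cj_E 0 (h.hs.lx.cen e he), h.tc.hy.Q_one he]; rfl
      · rw [← a, ← n2]; group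
    · exact absurd c ((h.cj_z_iff hy q).1 (a ▸ h.cw.conj e))

theorem pts {k : G} (hz : z ∈ cj (EE d 0) k) : ∃ i, cj (EE d 0) k = EE d i := by
  obtain ⟨n, n1, n2⟩ := h.orbit (mem_cj.1 hz) ⟨k⁻¹, by group⟩
  have cz : k * n * z = z * (k * n) := by
    calc k * n * z = k * (n * z * n⁻¹) * n := by group
      _ = _ := by rw [n2]; group
  exact ⟨_, by rw [← h.tc.cj_E 0 cz, cj_mul, n1]⟩

end TD

end Cfsg.Agent.H69.O8
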