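import Cfsg.Agent.H69.O8b

/-! `C(z)/Q ≅ S₃³`: verification of the local axioms of the polar space. -/

set_option autoImplicit false

namespace Cfsg.Agent.H69.O8

open Subgroup Cfsg.Agent.H49 Cfsg.Agent.H69.XV Equiv

universe u

variable {G : Type u} [Group G]

theorem cj_mem {x : Subgroup G} {k a : G} : k * a * k⁻¹ ∈ cj x k ↔ a ∈ x := by
  rw [mem_cj]; simp [mul_assoc]

theorem cj_conj {z k a : G} : Cj z (k * a * k⁻¹) ↔ Cj z a :=
  ⟨fun c => by simpa [mul_assoc] using c.conj k⁻¹, fun c => c.conj k⟩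

theorem conj_eq {k a b : G} : k * a * k⁻¹ = k * b * k⁻¹ ↔ a = b := by simp

theorem cj_eq {x y : Subgroup G} {k : G} : cj x k = cj y k ↔ x = y := ⟨cj_inj, fun e => e ▸ rfl⟩

theorem ex_conj (k a : G) : ∃ b, a = k * b * k⁻¹ := ⟨k⁻¹ * a * k, by group⟩

theorem ex_cj (k : G) (x : Subgroup G) : ∃ y, x = cj y k := ⟨_, (cj_cj_inv x k).symm⟩

theorem conj_mul' (k a b : G) : k * a * k⁻¹ * (k * b * k⁻¹) = k * (a * b) * k⁻¹ := by group

theorem cj_cj (x : Subgroup G) (k a : G) : cj (cj x k) (k * a * k⁻¹) = cj (cj x a) k := by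
  rw [← cj_mul, ← cj_mul]; simp

theorem EC.conj {z : G} {x : Subgroup G} {co : G → X6} (h : EC z x co) (k : G) :
    EC z (cj x k) fun a => co (k⁻¹ * a * k) where
  comm {a b} ha hb := by
    obtain ⟨a, rfl⟩ := ex_conj k a
    obtain ⟨b, rfl⟩ := ex_conj k b
    rw [conj_mul', conj_mul', h.comm (cj_mem.1 ha) (cj_mem.1 hb)]
  mul {a b} ha hb := by
    rw [← h.mul (mem_cj.1 ha) (mem_cj.1 hb)]; congr 1; group
  inj {a} ha e := by
    have := h.inj (mem_cj.1 ha) e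
    simpa [mul_assoc, inv_mul_eq_one] using this
  surj v := by
    obtain ⟨a, ha, e⟩ := h.surj v
    exact ⟨_, cj_mem.2 ha, by simpa [mul_assoc] using e⟩
  q {a} ha := by
    obtain ⟨a, rfl⟩ := ex_conj k a
    rw [cj_conj, show k⁻¹ * (k * a * k⁻¹) * k = a by group, h.q (cj_mem.1 ha)]
    simp
  b {u a} hu cu ha := by
    obtain ⟨a, rfl⟩ := ex_conj k a
    obtain ⟨u, rfl⟩ := ex_conj k u
    rw [mem_O2C_conj, ← h.b (cj_mem.1 hu) (cj_conj.1 cu) (cj_mem.1 ha)]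
    simp [mul_assoc]
  cent := by rw [← cj_centralizer]; exact cj_mono h.cent k

/-- singular elements -/
def Sg (z a : G) : Prop := a = 1 ∨ Cj z a

theorem sg_conj {z k a : G} : Sg z (k * a * k⁻¹) ↔ Sg z a := by
  simp only [Sg, cj_conj]; simp

open Classical in
/-- indicator of the complement -/
noncomputable def ind (A : Subgroup G) (a : G) : F2 := if a ∈ A then 0 else 1

theorem ind_eq_zero {A : Subgroup G} {a : G} : ind A a = 0 ↔ a ∈ A := by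
  unfold ind; split_ifs with h <;> simp [h]

theorem ind_eq_one {A : Subgroup G} {a : G} (h : a ∉ A) : ind A a = 1 := by simp [ind, h]

theorem ind_mul {A : Subgroup G} {a b : G} (h : a ∉ A → b ∉ A → a * b ∈ A) :
    ind A (a * b) = ind A a + ind A b := by
  by_cases ha : a ∈ A <;> by_cases hb : b ∈ A
  · rw [ind_eq_zero.2 ha, ind_eq_zero.2 hb, ind_eq_zero.2 (mul_mem ha hb)]; rfl
  · rw [ind_eq_zero.2 ha, ind_eq_one hb, ind_eq_one fun c => hb ((mul_mem_cancel_left ha).1 c)]; rfl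
  · rw [ind_eq_zero.2 hb, ind_eq_one ha, ind_eq_one fun c => ha ((mul_mem_cancel_right hb).1 c)]; rfl
  · rw [ind_eq_one ha, ind_eq_one hb, ind_eq_zero.2 (h ha hb)]; rfl

open Classical in
/-- coordinates -/
noncomputable def coE {z : G} (d : VD (O2C z) z V0) (w a : G) : X6 :=
  (ind (O2C w) a, ind (O2C z) a, (d.p (if a ∈ O2C z then a else a * w)).1)

namespace TD

variable [Finite G] {z : G} {π : G → L3} {d : VD (O2C z) z V0} {s g f : G} (h : TD z π d s g f)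
include h

theorem sg_F {a : G} (ha : a ∈ FF d 0) : Sg z a ↔ dt (d.p a).1 = 0 := by
  obtain ⟨h1, X, e⟩ := ha
  rw [tn_vec0] at e
  rw [Sg, h.tc.cj_iff h1, ← or_assoc, ← d.p_eq_zero h1, ← e]
  by_cases h0 : X = 0
  · simp [h0, dt]
  · rw [dt_pure X h0]
    constructor
    · rintro (a | ⟨⟨i, j, k⟩, a⟩)
      · exact absurd (congrArg Prod.fst a) h0
      · obtain rfl : i = 0 := pt_in_W (i, j, k) (by rw [← a])
        exact ⟨j, k, a⟩
    · rintro ⟨j, k, a⟩; exact Or.inr ⟨_, a⟩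

theorem sg_z {a : G} (ha : a ∈ EE d 0) : (Sg z (a * z) ↔ Sg z a) ↔ a ∈ O2C z := by
  by_cases q : a ∈ O2C z
  · have m := h.tc.Q_inf_E q ha
    rw [h.sg_F m, h.sg_F (mul_mem m (TC.z_F 0)), d.p_mul_z q]
    simp [q]
  · have n1 : a ≠ 1 := fun e => q (e ▸ one_mem _)
    have n2 : a * z ≠ 1 := fun e => q ((mul_mem_cancel_right h.hs.lx.mem).1 (e ▸ one_mem _))
    simp only [Sg, n1, n2, false_or, h.cj_z_iff ha q, q]
    tauto

theorem sg_mul {u a : G} (hu : u ∈ EE d 0) (cu : Cj z u) (ha : a ∈ EE d 0) :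
    (Sg z (a * u) ↔ Sg z a) ↔ a ∈ O2C u := by
  obtain ⟨n, n1, rfl⟩ := h.orbit hu cu
  obtain ⟨a, rfl⟩ := ex_conj n a
  rw [← n1, cj_mem] at ha
  rw [conj_mul', sg_conj, sg_conj, mem_O2C_conj, h.sg_z ha]

theorem idx {u a b : G} (hu : u ∈ EE d 0) (cu : Cj z u) (ha : a ∈ EE d 0) (hb : b ∈ EE d 0)
    (na : a ∉ O2C u) (nb : b ∉ O2C u) : a * b ∈ O2C u := by
  obtain ⟨n, n1, rfl⟩ := h.orbit hu cu
  obtain ⟨a, rfl⟩ := ex_conj n a
  obtain ⟨b, rfl⟩ := ex_conj n b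
  rw [← n1, cj_mem] at ha hb
  rw [mem_O2C_conj] at na nb
  rw [conj_mul', mem_O2C_conj]
  exact (h.mul_F ha hb na nb).1

theorem w_mem_O2C : g * f * g⁻¹ ∈ O2C (g * f * g⁻¹) :=
  mem_O2C_conj.2 (h.tc.np_of_pure h.hf h.pf).lxS.mem

theorem z_not : z ∉ O2C (g * f * g⁻¹) := by
  intro c
  obtain ⟨k, hk⟩ := h.cw
  have lx := h.hs.lx.cj k
  have cd := card_cj (O2C z) k
  rw [cj_O2C, hk] at lx cd
  exact h.wQ (NP.mem' ⟨lx, cd.trans h.hs.card, h.cw.symm, c, fun e => h.wQ (e ▸ h.hs.lx.mem)⟩)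

theorem co_mul {a b : G} (ha : a ∈ EE d 0) (hb : b ∈ EE d 0) :
    coE d (g * f * g⁻¹) (a * b) = coE d (g * f * g⁻¹) a + coE d (g * f * g⁻¹) b := by
  refine Prod.ext (ind_mul (h.idx h.wE h.cw ha hb)) (Prod.ext
    (ind_mul fun x y => (h.mul_F ha hb x y).1) ?_)
  have wQ := h.wQ
  have ww := h.ww
  have c1 := h.E_comm hb h.wE
  have m1 := fun n => (h.mul_F ha h.wE n wQ).1
  have m2 := fun n => (h.mul_F hb h.wE n wQ).1
  have m3 := fun x y => (h.mul_F ha hb x y).1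
  generalize g * f * g⁻¹ = w at *
  simp only [coE, Prod.snd_add]
  rw [← Prod.fst_add]
  congr 1
  by_cases qa : a ∈ O2C z <;> by_cases qb : b ∈ O2C z
  · rw [if_pos qa, if_pos qb, if_pos (mul_mem qa qb), d.p_mul qa qb]
  · rw [if_pos qa, if_neg qb, if_neg fun c => qb ((mul_mem_cancel_left qa).1 c),
      ← d.p_mul qa (m2 qb), mul_assoc]
  · rw [if_neg qa, if_pos qb, if_neg fun c => qa ((mul_mem_cancel_right qb).1 c),
      ← d.p_mul (m1 qa) qb, mul_assoc, mul_assoc, c1]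
  · rw [if_neg qa, if_neg qb, if_pos (m3 qa qb), ← d.p_mul (m1 qa) (m2 qb), c1, mul_assoc a,
      ← mul_assoc w, ww, one_mul]

theorem co_q {a : G} (ha : a ∈ EE d 0) : q6 (coE d (g * f * g⁻¹) a) = 0 ↔ Sg z a := by
  by_cases q : a ∈ O2C z
  · rw [h.sg_F (h.tc.Q_inf_E q ha)]
    simp [q6, coE, q, ind_eq_zero.2 q]
  · have m := h.mul_F ha h.wE q h.wQ
    have k := h.sg_mul h.wE h.cw ha
    rw [h.sg_F m] at k
    simp only [q6, coE, q, ind_eq_one q, if_false, mul_one]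
    by_cases r : a ∈ O2C (g * f * g⁻¹)
    · rw [ind_eq_zero.2 r, zero_add]; exact k.2 r
    · rw [ind_eq_one r]
      rcases z2 (dt (d.p (a * (g * f * g⁻¹))).1) with e | e <;> rw [e] at k ⊢
      · simp only [true_iff] at k; rw [k]; simp [r]
      · have : ¬ (1 : F2) = 0 := by decide
        simp only [this, false_iff, r, iff_false, not_not] at k
        simp [k]; rfl

theorem ec : EC z (EE d 0) (coE d (g * f * g⁻¹)) where
  comm := h.E_comm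
  mul := h.co_mul
  inj {a} ha e := by
    have e1 := ind_eq_zero.1 (congrArg Prod.fst e)
    have e2 := ind_eq_zero.1 (congrArg (fun t => t.2.1) e)
    have e3 := congrArg (fun t => t.2.2) e
    simp only [coE, e2, if_true] at e3
    obtain ⟨-, X, hX⟩ := h.tc.Q_inf_E e2 ha
    rw [tn_vec0] at hX
    rw [← hX] at e3
    rcases (d.p_eq_zero e2).1 (by rw [← hX, show X = 0 from e3]; rfl) with b | b
    · exact b
    · exact absurd (b ▸ e1) h.z_not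
  surj v := by
    obtain ⟨α, β, X⟩ := v
    have zE := h.tc.F_le 0 (TC.z_F 0)
    have cz : coE d (g * f * g⁻¹) z = (1, 0, 0) := by
      simp [coE, h.hs.lx.mem, ind_eq_one h.z_not, ind_eq_zero.2 h.hs.lx.mem, d.p_z]
    have cw : coE d (g * f * g⁻¹) (g * f * g⁻¹) = (0, 1, 0) := by
      simp only [coE, h.wQ, ind_eq_one h.wQ, ind_eq_zero.2 h.w_mem_O2C, if_false, h.ww, d.p_one]
      rfl
    obtain ⟨x, hx, e⟩ := d.p_surj (X, 0)
    have xE := h.tc.F_le 0 (show x ∈ FF d 0 from ⟨hx, X, by rw [e, tn_vec0]⟩)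
    have cx : coE d (g * f * g⁻¹) x = (ind (O2C (g * f * g⁻¹)) x, 0, X) := by
      simp [coE, hx, ind_eq_zero.2 hx, e]
    have s1 : ∃ a ∈ EE d 0, coE d (g * f * g⁻¹) a = (α, 0, X) := by
      by_cases n : ind (O2C (g * f * g⁻¹)) x = α
      · exact ⟨x, xE, by rw [cx, n]⟩
      · refine ⟨x * z, mul_mem xE zE, ?_⟩
        rw [h.co_mul xE zE, cx, cz]
        have : ∀ a b : F2, ¬ a = b → a + 1 = b := by decide
        simp [this _ _ n]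
    obtain ⟨a, ha, e⟩ := s1
    rcases z2 β with rfl | rfl
    · exact ⟨a, ha, e⟩
    · exact ⟨_, mul_mem ha h.wE, by rw [h.co_mul ha h.wE, e, cw]; simp⟩
  q := h.co_q
  b {u a} hu cu ha := by
    rw [← h.sg_mul hu cu ha, ← h.co_q ha, ← h.co_q (mul_mem ha hu), h.co_mul ha hu, q6_add,
      (h.co_q hu).2 (Or.inr cu), b6_symm]
    generalize q6 _ = x
    generalize b6 _ _ = y
    revert x y; decide
  cent := h.E_cent

end TD

/-- the points -/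
def PP {z : G} (d : VD (O2C z) z V0) (x : Subgroup G) : Prop := ∃ k, x = cj (EE d 0) k

theorem PP.conj {z : G} {d : VD (O2C z) z V0} {x : Subgroup G} (k : G) (h : PP d x) :
    PP d (cj x k) := by
  obtain ⟨a, rfl⟩ := h; exact ⟨k * a, (cj_mul _ _ _).symm⟩

theorem pp_cj {z : G} {d : VD (O2C z) z V0} {x : Subgroup G} {k : G} : PP d (cj x k) ↔ PP d x :=
  ⟨fun h => by simpa only [cj_inv_cj] using h.conj k⁻¹, fun h => h.conj k⟩

/-- the plane property -/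
def Pl (z : G) (P : Subgroup G → Prop) (u v : G) (x y : Subgroup G) : Prop :=
  ∃ m, Cj z m ∧ Cj z (m * u) ∧ m ∈ O2C u ∧ m ∈ y ∧
    ∃ y₁ y₂, P y₁ ∧ P y₂ ∧ v ∈ y₁ ∧ v ∈ y₂ ∧ y₁ ≠ x ∧ y₂ ≠ x ∧ y₂ ≠ y₁ ∧ m ∈ y₁ ∧ m * u ∈ y₂

theorem Pl.conj {z : G} {d : VD (O2C z) z V0} {u v : G} {x y : Subgroup G}
    (h : Pl z (PP d) u v x y) (k : G) :
    Pl z (PP d) (k * u * k⁻¹) (k * v * k⁻¹) (cj x k) (cj y k) := by
  obtain ⟨m, a1, a2, a3, a4, y₁, y₂, b1, b2, b3, b4, b5, b6, b7, b8, b9⟩ := h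
  refine ⟨k * m * k⁻¹, a1.conj k, ?_, mem_O2C_conj.2 a3, cj_mem.2 a4, cj y₁ k, cj y₂ k, b1.conj k,
    b2.conj k, cj_mem.2 b3, cj_mem.2 b4, fun e => b5 (cj_inj e), fun e => b6 (cj_inj e),
    fun e => b7 (cj_inj e), cj_mem.2 b8, ?_⟩
  · rw [conj_mul']; exact a2.conj k
  · rw [conj_mul']; exact cj_mem.2 b9

theorem third_ex : ∀ i : Fin 3, ∃ j k : Fin 3, j ≠ i ∧ k ≠ i ∧ k ≠ j ∧ ∀ l, l = i ∨ l = j ∨ l = k := by
  decide

theorem pt_plane : ∀ j : Fin 3, j ≠ 0 → pt (j, 0, 0) + pt (0, 0, 0) = pt (tr 0 j, 0, 0) ∧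
    tr 0 j ≠ 0 ∧ (pt (j, 0, 0)).1.2.2 = 0 ∧ (pt (j, 0, 0)).2.1.2 = 0 ∧ (pt (j, 0, 0)).2.2.1 = 0 ∧
    (pt (j, 0, 0)).2.2.2 = 0 := by decide +kernel

theorem pt_in_W' : ∀ (b : I3) (i : Fin 3) (X : T2), tn (vec i) X = pt b → b.1 = i := by
  intro b i X e
  by_contra n
  obtain ⟨Y, hY⟩ := pt_W b.1 b.2.1 b.2.2
  exact pt_ne b (by rw [← e, tn_inf n (e.trans hY), map_zero])

namespace TC

variable [Finite G] {z : G} {π : G → L3} {d : VD (O2C z) z V0} (h : TC z π d)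
include h

theorem td : ∃ s g f, TD z π d s g f := by
  obtain ⟨s, hs, ps⟩ := h.exists_np (0, 0, 0)
  obtain ⟨g, f, k⟩ := h.exists_TD hs ps
  exact ⟨s, g, f, k⟩

omit [Finite G] in
theorem pp (i : Fin 3) : PP d (EE d i) := by
  obtain ⟨σ, hσ⟩ := exists_perm 0 i
  obtain ⟨c, cz, pc⟩ := h.surj (σ, 1, 1)
  exact ⟨c, by rw [h.cj_E 0 cz, pc, hσ]⟩

omit [Finite G] in
theorem z_E (i : Fin 3) : z ∈ EE d i := h.F_le i (z_F i)

theorem pts {x : Subgroup G} (hx : PP d x) (hz : z ∈ x) : ∃ i, x = EE d i := by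
  obtain ⟨k, rfl⟩ := hx
  obtain ⟨s, g, f, t⟩ := h.td
  exact t.pts hz

theorem ec {x : Subgroup G} (hx : PP d x) : ∃ co, EC z x co := by
  obtain ⟨k, rfl⟩ := hx
  obtain ⟨s, g, f, t⟩ := h.td
  exact ⟨_, t.ec.conj k⟩

theorem plane0 {v : G} (hv : NP z v) (pv : d.p v = pt (0, 0, 0)) {j : Fin 3} (hj : j ≠ 0) :
    Pl z (PP d) z v (EE d 0) (EE d j) := by
  obtain ⟨g, f, t⟩ := h.exists_TD hv pv
  obtain ⟨m, hm, pm⟩ := h.exists_np (j, 0, 0)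
  have mF : ∀ {x : G} {k : Fin 3}, x ∈ O2C z → d.p x = pt (k, 0, 0) → x ∈ EE d k :=
    fun hx e => h.F_le _ ⟨hx, _, e.symm⟩
  have mS := (h.mem_S hv pv hm.mem).2 (by rw [pm]; exact mem_U0.2 (pt_plane j hj).2.2)
  have key : ∃ k, k ≠ 0 ∧ g⁻¹ * m * g ∈ O2C z ∧ d.p (g⁻¹ * m * g) = pt (k, 0, 0) := by
    have z1 := hv.lx.mem
    have e1 : d.p (z * m) = pt (j, 0, 0) := by rw [d.p_mul z1 hm.mem, d.p_z, zero_add, pm]
    have := conj_E0 hv (inv_mem t.hg) hm.mem mS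
    rw [inv_inv] at this
    rcases this with e | e | e | e <;> rw [e]
    · exact ⟨j, hj, hm.mem, pm⟩
    · exact ⟨j, hj, mul_mem z1 hm.mem, e1⟩
    · exact ⟨_, (pt_plane j hj).2.1, mul_mem hv.mem hm.mem, by
        rw [d.p_mul hv.mem hm.mem, pm, pv, add_comm, (pt_plane j hj).1]⟩
    · exact ⟨_, (pt_plane j hj).2.1, mul_mem (mul_mem z1 hv.mem) hm.mem, by
        rw [d.p_mul (mul_mem z1 hv.mem) hm.mem, d.p_mul z1 hv.mem, d.p_z, zero_add, pm, pv,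
          add_comm, (pt_plane j hj).1]⟩
  obtain ⟨k, k0, k1, k2⟩ := key
  have ne : ∀ {a b : Fin 3}, a ≠ b → cj (EE d a) g ≠ cj (EE d b) g :=
    fun n e => n (h.E_inj (cj_inj e))
  have vm : ∀ a, v ∈ cj (EE d a) g := fun a => t.gz ▸ cj_mem.2 (h.z_E a)
  refine ⟨m, hm.cj, (h.cj_iff (mul_mem hm.mem hv.lx.mem)).2 (Or.inr ⟨_, (d.p_mul_z hm.mem).trans pm⟩),
    hm.mem, mF hm.mem pm, cj (EE d k) g, cj (EE d (tr 0 k)) g, (h.pp _).conj g, (h.pp _).conj g,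
    vm _, vm _, ?_, ?_, ne (tr_move 0 k k0), mem_cj.2 (mF k1 k2), mem_cj.2 ?_⟩
  · rw [← t.cj_g]; exact ne k0
  · rw [← t.cj_g]; exact ne (pt_plane k k0).2.1
  · rw [show g⁻¹ * (m * z) * g = g⁻¹ * m * g * v by rw [← t.gs]; group]
    exact mF (mul_mem k1 hv.mem) (by rw [d.p_mul k1 hv.mem, k2, pv, (pt_plane k k0).1])

theorem plane1 {v : G} (hv : NP z v) {i j : Fin 3} (hj : j ≠ i) (vi : v ∈ EE d i) :
    Pl z (PP d) z v (EE d i) (EE d j) := by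
  obtain ⟨b, pv, -⟩ := h.pure hv
  obtain ⟨-, X, e⟩ := h.Q_inf_E hv.mem vi
  obtain rfl := pt_in_W' b i X (e.trans pv)
  obtain ⟨l, hl⟩ := exists_ai b (0, 0, 0)
  obtain ⟨c, cz, rfl⟩ := h.surj l
  have e0 : (π c).1 b.1 = 0 := congrArg Prod.fst hl
  have := (h.plane0 (np_conj cz hv) (by rw [h.p_conj cz hv.mem, pv, act_pt, hl])
    (j := (π c).1 j) (fun a => hj ((π c).1.injective (a.trans e0.symm)))).conj c⁻¹
  rw [← e0, ← h.cj_E _ cz, ← h.cj_E _ cz, cj_inv_cj, cj_inv_cj,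
    conj_of_comm (VD.cinv cz).symm] at this
  simpa [mul_assoc] using this

theorem trans0 {i j : Fin 3} (n : j ≠ i) {w w' : G} (hw : w ∈ EE d j) (hw' : w' ∈ EE d j)
    (cw' : Cj z w') (cw : Cj z w) (nw : w ∉ O2C z) (nw' : w' ∉ O2C z) :
    ∃ e ∈ EE d i, e ∈ O2C z ∧ e * w * e⁻¹ = w' := by
  have wz := E_z hw
  have m := mul_mem hw' (inv_mem hw)
  have mq : w' * w⁻¹ ∈ O2C z := (h.hy.ker (E_z m)).1 (by
    rw [h.hy.mul (E_z hw') (VD.cinv wz), h.hy.inv wz, h.E_π' hw nw, h.E_π' hw' nw', mul_inv_cancel])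
  obtain ⟨-, Y, e⟩ := h.Q_inf_E mq m
  obtain ⟨x, hx, px⟩ := d.p_surj (tn (vec i) Y)
  refine ⟨x, h.F_le i ⟨hx, Y, px.symm⟩, hx, ?_⟩
  have := d.p_comm' wz hx
  rw [h.ρ wz, h.E_π' hw nw, px, act_tn, act2_one, ← tn_add, vec_tr j i n.symm, e] at this
  rcases (d.p_eq_iff (d.comm_mem wz hx) mq).1 this with a | a
  · exact mul_right_cancel a
  · exfalso
    have e1 : x * w * x⁻¹ = w' * z := by
      calc x * w * x⁻¹ = x * w * x⁻¹ * w⁻¹ * w := by group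
        _ = w' * (w⁻¹ * (z * w)) := by rw [a]; group
        _ = _ := by rw [← wz]; group
    obtain ⟨co, k⟩ := h.ec (h.pp j)
    have zE := h.z_E j
    have q1 := (k.q (mul_mem hw' zE)).2 (Or.inr (e1 ▸ cw.conj x))
    rw [k.mul hw' zE, q6_add, (k.q hw').2 (Or.inr cw'), (k.q zE).2 (Or.inr (Cj.refl z)), b6_symm,
      zero_add, zero_add] at q1
    exact nw' ((k.b zE (Cj.refl z) hw').1 q1)

theorem geo : Geo z (PP d) where
  ne := h.hy.lx.ne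
  conj := PP.conj
  ec := h.ec
  three := by
    rintro _ x ⟨k, rfl⟩ hx ux
    obtain ⟨x, rfl⟩ := ex_cj k x
    obtain ⟨i, rfl⟩ := h.pts (pp_cj.1 hx) (cj_mem.1 ux)
    obtain ⟨a, b, n1, n2, n3, t⟩ := third_ex i
    refine ⟨cj (EE d a) k, cj (EE d b) k, (h.pp _).conj k, (h.pp _).conj k, cj_mem.2 (h.z_E _),
      cj_mem.2 (h.z_E _), fun e => n1 (h.E_inj (cj_inj e)), fun e => n2 (h.E_inj (cj_inj e)),
      fun e => n3 (h.E_inj (cj_inj e)), fun p hp up => ?_⟩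
    obtain ⟨p, rfl⟩ := ex_cj k p
    obtain ⟨l, rfl⟩ := h.pts (pp_cj.1 hp) (cj_mem.1 up)
    rcases t l with rfl | rfl | rfl <;> simp
  inf := by
    rintro _ v x y ⟨k, rfl⟩ hx hy n ux uy vx vy
    obtain ⟨x, rfl⟩ := ex_cj k x
    obtain ⟨y, rfl⟩ := ex_cj k y
    obtain ⟨v, rfl⟩ := ex_conj k v
    obtain ⟨i, rfl⟩ := h.pts (pp_cj.1 hx) (cj_mem.1 ux)
    obtain ⟨j, rfl⟩ := h.pts (pp_cj.1 hy) (cj_mem.1 uy)
    rcases h.E_inf (fun e => n (by rw [e])) (cj_mem.1 vx) (cj_mem.1 vy) with rfl | rfl <;> simp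
  fix := by
    rintro _ c x ⟨k, rfl⟩ hx ux hc
    obtain ⟨x, rfl⟩ := ex_cj k x
    obtain ⟨c, rfl⟩ := ex_conj k c
    obtain ⟨i, rfl⟩ := h.pts (pp_cj.1 hx) (cj_mem.1 ux)
    rw [mem_O2C_conj] at hc
    rw [cj_cj, h.cj_E i (h.hy.lx.cen c hc), h.hy.Q_one hc]; rfl
  move := by
    rintro _ e x y ⟨k, rfl⟩ hx hy n ux uy ex he
    obtain ⟨x, rfl⟩ := ex_cj k x
    obtain ⟨y, rfl⟩ := ex_cj k y
    obtain ⟨e, rfl⟩ := ex_conj k e
    obtain ⟨i, rfl⟩ := h.pts (pp_cj.1 hx) (cj_mem.1 ux)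
    obtain ⟨j, rfl⟩ := h.pts (pp_cj.1 hy) (cj_mem.1 uy)
    rw [mem_O2C_conj] at he
    rw [cj_mem] at ex
    rw [cj_cj, h.cj_E j (E_z ex), h.E_π' ex he]
    exact fun a => tr_move i j (fun e => n (by rw [e])) (h.E_inj (cj_inj a))
  ncomm := by
    rintro _ e e' x y ⟨k, rfl⟩ hx hy n ux uy ex he ey he' c
    obtain ⟨x, rfl⟩ := ex_cj k x
    obtain ⟨y, rfl⟩ := ex_cj k y
    obtain ⟨e, rfl⟩ := ex_conj k e
    obtain ⟨e', rfl⟩ := ex_conj k e'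
    obtain ⟨i, rfl⟩ := h.pts (pp_cj.1 hx) (cj_mem.1 ux)
    obtain ⟨j, rfl⟩ := h.pts (pp_cj.1 hy) (cj_mem.1 uy)
    rw [mem_O2C_conj] at he he'
    rw [cj_mem] at ex ey
    rw [conj_mul', conj_mul', conj_eq] at c
    have := congrArg π c
    rw [h.hy.mul (E_z ex) (E_z ey), h.hy.mul (E_z ey) (E_z ex), h.E_π' ex he, h.E_π' ey he'] at this
    exact tr_ncomm i j (fun e => n (by rw [e])) (congrArg Prod.fst this)
  plane := by
    rintro _ v x y ⟨k, rfl⟩ cv hv nv hx hy n ux vx uy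
    obtain ⟨x, rfl⟩ := ex_cj k x
    obtain ⟨y, rfl⟩ := ex_cj k y
    obtain ⟨v, rfl⟩ := ex_conj k v
    obtain ⟨i, rfl⟩ := h.pts (pp_cj.1 hx) (cj_mem.1 ux)
    obtain ⟨j, rfl⟩ := h.pts (pp_cj.1 hy) (cj_mem.1 uy)
    exact (h.plane1 ⟨h.hy.lx, h.hy.card, cj_conj.1 cv, mem_O2C_conj.1 hv, fun e => nv (by rw [e])⟩
      (fun e => n (by rw [e])) (cj_mem.1 vx)).conj k
  trans := by
    rintro _ w w' x y ⟨k, rfl⟩ hx hy n ux uy wy wy' cw cw' nw nw'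
    obtain ⟨x, rfl⟩ := ex_cj k x
    obtain ⟨y, rfl⟩ := ex_cj k y
    obtain ⟨w, rfl⟩ := ex_conj k w
    obtain ⟨w', rfl⟩ := ex_conj k w'
    obtain ⟨i, rfl⟩ := h.pts (pp_cj.1 hx) (cj_mem.1 ux)
    obtain ⟨j, rfl⟩ := h.pts (pp_cj.1 hy) (cj_mem.1 uy)
    rw [mem_O2C_conj] at nw nw'
    obtain ⟨e, e1, e2, e3⟩ := h.trans0 (fun e => n (by rw [e])) (cj_mem.1 wy) (cj_mem.1 wy')
      (cj_conj.1 cw') (cj_conj.1 cw) nw nw'
    exact ⟨_, cj_mem.2 e1, mem_O2C_conj.2 e2, by rw [← e3]; group⟩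

end TC

end Cfsg.Agent.H69.O8
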