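import Cfsg.Agent.H69.O8g
import Cfsg.Agent.H30.OrthMatrix

/-! The group acting on the polar space embeds in `O₈⁺(2)`. -/

set_option autoImplicit false

namespace Cfsg.Agent.H69.O8

open Subgroup Cfsg.Agent.H49 Cfsg.Agent.H69.XV Matrix

universe u

variable {G : Type u} [Group G]

theorem card_eq_of_fibre {A B : Subgroup G} (hle : B ≤ A) {β : Type*} (f : A → β)
    (hs : Function.Surjective f) (h : ∀ x y : A, f x = f y ↔ (x : G)⁻¹ * y ∈ B) :
    Nat.card A = Nat.card β * Nat.card B := by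
  rw [card_eq_card_quotient_mul_card_subgroup (B.subgroupOf A),
    Nat.card_congr (subgroupOfEquivOfLe hle).toEquiv]
  congr 1
  refine Nat.card_congr (Equiv.ofBijective (Quotient.lift f fun x y e =>
    (h x y).2 (QuotientGroup.leftRel_apply (s := B.subgroupOf A).1 e)) ⟨?_, fun b => ?_⟩)
  · rintro ⟨x⟩ ⟨y⟩ e
    exact QuotientGroup.eq.2 ((h x y).1 e)
  · obtain ⟨x, rfl⟩ := hs b
    exact ⟨(x : A ⧸ B.subgroupOf A), rfl⟩

/-- the standard space -/
abbrev W8 := Fin 4 ⊕ Fin 4 → F2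

/-- the standard form -/
abbrev Q8 : W8 → F2 := quadFormPlus 4 F2

/-- its polar form -/
def B8 : W8 →ₗ[F2] W8 →ₗ[F2] F2 :=
  LinearMap.mk₂ F2 (fun u v => ∑ i : Fin 4, (u (.inl i) * v (.inr i) + u (.inr i) * v (.inl i)))
    (fun u u' v => by simp only [Pi.add_apply, ← Finset.sum_add_distrib]; congr; ext; ring)
    (fun c u v => by simp only [Pi.smul_apply, smul_eq_mul, Finset.mul_sum]; congr; ext; ring)
    (fun u v v' => by simp only [Pi.add_apply, ← Finset.sum_add_distrib]; congr; ext; ring)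
    (fun c u v => by simp only [Pi.smul_apply, smul_eq_mul, Finset.mul_sum]; congr; ext; ring)

theorem B8_apply (u v : W8) :
    B8 u v = ∑ i : Fin 4, (u (.inl i) * v (.inr i) + u (.inr i) * v (.inl i)) := rfl

theorem Q8_add (u v : W8) : Q8 (u + v) = Q8 u + Q8 v + B8 u v := by
  simp only [quadFormPlus, B8_apply, Pi.add_apply, ← Finset.sum_add_distrib]; congr; ext; ring

theorem B8_nondeg {u : W8} (h : ∀ j, B8 u (Pi.single j 1) = 0) : u = 0 := by
  ext (i | i)
  · simpa [B8_apply, Pi.single_apply] using h (.inr i)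
  · simpa [B8_apply, Pi.single_apply] using h (.inl i)

theorem Q8_single (j : Fin 4 ⊕ Fin 4) : Q8 (Pi.single j 1) = 0 := by
  rcases j with i | i <;> simp [quadFormPlus, Pi.single_apply]

theorem exists_iso (f : Fin 4 ⊕ Fin 4 → W8) (h1 : ∀ j, Q8 (f j) = 0)
    (h2 : ∀ i j, B8 (f i) (f j) = B8 (Pi.single i 1) (Pi.single j 1)) :
    ∃ g : isometryGroup F2 Q8, ∀ a b, (∀ j, B8 b (f j) = B8 a (Pi.single j 1)) →
      (g.1 : Matrix _ _ F2) *ᵥ a = b := by
  let L : W8 →ₗ[F2] W8 := (Pi.basisFun F2 _).constr F2 f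
  have hL : ∀ j, L (Pi.single j 1) = f j := fun j => by
    rw [← Pi.basisFun_apply]; exact Module.Basis.constr_basis _ _ _ _
  have hB : ∀ u v, B8 (L u) (L v) = B8 u v := by
    have : B8.compl₁₂ L L = B8 := by
      refine (Pi.basisFun F2 _).ext fun i => (Pi.basisFun F2 _).ext fun j => ?_
      simp only [LinearMap.compl₁₂_apply, Pi.basisFun_apply, hL, h2]
    exact fun u v => LinearMap.congr_fun₂ this u v
  have inj : Function.Injective L := (injective_iff_map_eq_zero L).2 fun u hu =>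
    B8_nondeg fun j => by rw [← hB, hu]; simp
  have hQ : ∀ v, Q8 (L v) = Q8 v := by
    have ad : ∀ a b, Q8 (L (a + b)) + Q8 (a + b) = Q8 (L a) + Q8 a + (Q8 (L b) + Q8 b) := by
      intro a b
      rw [map_add, Q8_add, Q8_add, hB]
      generalize B8 a b = t
      linear_combination add_self t
    let D : W8 →ₗ[F2] F2 := ⟨⟨fun v => Q8 (L v) + Q8 v, ad⟩, lin_of_add _ ad⟩
    have : D = 0 := (Pi.basisFun F2 _).ext fun j => by
      show Q8 (L _) + Q8 _ = 0
      rw [Pi.basisFun_apply, hL, h1, Q8_single, add_zero]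
    exact fun v => XV.add_eq_zero.1 (LinearMap.congr_fun this v)
  let e := LinearEquiv.ofInjectiveEndo L inj
  refine ⟨⟨(H30.glEquiv _ F2).symm e, H30.mem_isometryGroup.2 fun v => ?_⟩, fun a b h => ?_⟩
  · rw [H30.glEquiv_symm_mulVec]; exact hQ v
  · show ((H30.glEquiv _ F2).symm e : GL _ F2).1 *ᵥ a = b
    rw [H30.glEquiv_symm_mulVec]
    obtain ⟨c, rfl⟩ := e.surjective b
    congr 1
    refine (XV.add_eq_zero.1 (B8_nondeg fun j => ?_)).symm
    rw [map_add, LinearMap.add_apply, ← h j, ← hL, ← hB c]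
    exact add_self _

/-- coordinates -/
def emb (v : X8) : W8 :=
  Sum.elim ![v.1, v.2.2.1, v.2.2.2.2.1.1, v.2.2.2.2.1.2] ![v.2.1, v.2.2.2.1, v.2.2.2.2.2.2, v.2.2.2.2.2.1]

theorem Q8_emb (v : X8) : Q8 (emb v) = q8 v := by
  simp [quadFormPlus, emb, Fin.sum_univ_four, q8, q6, dt]; ring

theorem B8_emb (u v : X8) : B8 (emb u) (emb v) = b8 u v := by
  simp [B8_apply, emb, Fin.sum_univ_four, b8, b6, β2]; ring

theorem emb_inj {u v : X8} (h : emb u = emb v) : u = v := by
  have a := fun i => congrFun h (.inl i)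
  have b := fun i => congrFun h (.inr i)
  exact Prod.ext (a 0) (Prod.ext (b 0) (Prod.ext (a 1) (Prod.ext (b 1)
    (Prod.ext (Prod.ext (a 2) (a 3)) (Prod.ext (b 3) (b 2))))))

theorem emb_surj (w : W8) : ∃ v, emb v = w :=
  ⟨(w (.inl 0), w (.inr 0), w (.inl 1), w (.inr 1), (w (.inl 2), w (.inl 3)), w (.inr 3), w (.inr 2)),
    by ext (i | i) <;> fin_cases i <;> rfl⟩

theorem emb_zero : emb 0 = 0 := by ext (i | i) <;> fin_cases i <;> rfl

set_option synthInstance.maxSize 8192 in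
theorem card_eight : Nat.card {v : X8 // v ≠ 0 ∧ q8 v = 0} = 135 := by
  rw [Nat.card_eq_fintype_card]; decide +kernel

namespace Base

variable {z : G} {P : Subgroup G → Prop} {x y : Subgroup G} {co : G → X6} (h : Base z P x y co)
include h

/-- the stabilizer of the labelled points -/
def G0 [Finite G] : Subgroup G where
  carrier := {g | ∃ v, Rep z P x y (cj x g) v}
  one_mem' := ⟨1, one_mem _, Or.inl ⟨cj_one _, rfl⟩⟩
  mul_mem' := by
    rintro a b ha ⟨v, hb⟩
    show ∃ v, Rep z P x y (cj x (a * b)) v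
    rw [cj_mul]; exact h.stable ha hb
  inv_mem' := by
    intro a ha
    have : ∀ n : ℕ, ∃ v, Rep z P x y (cj x (a ^ n)) v := by
      intro n
      induction n with
      | zero => exact ⟨1, one_mem _, Or.inl ⟨by rw [pow_zero, cj_one], rfl⟩⟩
      | succ n ih => obtain ⟨v, r⟩ := ih; rw [pow_succ', cj_mul]; exact h.stable ha r
    obtain ⟨n, hn⟩ := mem_powers_iff_mem_zpowers.2 (inv_mem (mem_zpowers a))
    exact hn ▸ this n

theorem basis (j : Fin 4 ⊕ Fin 4) : ∃ p v, Rep z P x y p v ∧ emb (h.kap p v) = Pi.single j 1 := by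
  obtain ⟨a, ha⟩ := emb_surj (Pi.single j 1)
  obtain ⟨p, v, r, e⟩ := h.kap_surj (a := a) (fun e => by
    rw [e, emb_zero] at ha; simpa using congrFun ha j) (by rw [← Q8_emb, ha, Q8_single])
  exact ⟨p, v, r, e ▸ ha⟩

theorem kap_eq {p : Subgroup G} {v v' : G} (r : Rep z P x y p v) (r' : Rep z P x y p v') :
    h.kap p v = h.kap p v' := by
  refine emb_inj (XV.add_eq_zero.1 (B8_nondeg fun j => ?_))
  obtain ⟨q, u, s, e⟩ := h.basis j
  rw [map_add, LinearMap.add_apply, ← e, B8_emb, B8_emb, h.form r s, h.form r' s, add_self]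

variable [Finite G]

theorem mem_G0 {g : G} : g ∈ h.G0 ↔ ∃ v, Rep z P x y (cj x g) v := Iff.rfl

theorem exists_mat (g : h.G0) : ∃ M : isometryGroup F2 Q8, ∀ p v v', Rep z P x y p v →
    Rep z P x y (cj p g) v' → (M.1 : Matrix _ _ F2) *ᵥ emb (h.kap p v) = emb (h.kap (cj p g) v') := by
  choose p v r e using h.basis
  choose v' r' using fun j => h.stable g.2 (r j)
  obtain ⟨M, hM⟩ := exists_iso (fun j => emb (h.kap (cj (p j) g) (v' j)))
    (fun j => by rw [Q8_emb, (h.kap_sing (r' j)).2])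
    fun i j => by rw [← e, ← e, B8_emb, B8_emb, h.form (r i) (r j), h.form (r' i) (r' j), ff_cj]
  exact ⟨M, fun q u u' s s' => hM _ _ fun j => by
    rw [← e, B8_emb, B8_emb, h.form s (r j), h.form s' (r' j), ff_cj]⟩

omit [Finite G] in
theorem mat_ext {M N : isometryGroup F2 Q8} (e : ∀ p v, Rep z P x y p v →
    M.1.1 *ᵥ emb (h.kap p v) = N.1.1 *ᵥ emb (h.kap p v)) : M = N := by
  refine Subtype.ext (Units.ext (Matrix.ext fun i j => ?_))
  obtain ⟨p, v, r, a⟩ := h.basis j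
  have := congrFun (e p v r) i
  simpa [a] using this

theorem exists_hom : ∃ φ : h.G0 →* isometryGroup F2 Q8, Function.Injective φ := by
  choose M hM using h.exists_mat
  refine ⟨MonoidHom.mk' M fun a b => h.mat_ext fun p v r => ?_,
    (injective_iff_map_eq_one _).2 fun a ha => Subtype.ext (h.faithful fun p v r => ?_)⟩
  · obtain ⟨v₁, r₁⟩ := h.stable b.2 r
    obtain ⟨v₂, r₂⟩ := h.stable a.2 r₁
    rw [hM (a * b) p v v₂ r (by rwa [Subgroup.coe_mul, cj_mul]), Subgroup.coe_mul, Subgroup.coe_mul,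
      Units.val_mul, ← Matrix.mulVec_mulVec, hM b p v v₁ r r₁, hM a _ v₁ v₂ r₁ r₂, cj_mul]
  · obtain ⟨v₁, r₁⟩ := h.stable a.2 r
    have := hM a p v v₁ r r₁
    rw [show M a = 1 from ha] at this
    exact (h.kap_inj r r₁ (emb_inj (by simpa using this))).symm

theorem norm_le : normalizer (x : Set G) ≤ h.G0 := fun _ hg =>
  ⟨1, one_mem _, Or.inl ⟨cj_eq_iff.2 hg, rfl⟩⟩

theorem card_G0 (hP : ∀ p, P p → ∃ k, p = cj x k) :
    Nat.card h.G0 = 135 * Nat.card (normalizer (x : Set G)) := by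
  choose v r using fun g : h.G0 => h.mem_G0.1 g.2
  rw [← card_eight]
  refine card_eq_of_fibre h.norm_le (fun g => ⟨h.kap _ (v g), h.kap_sing (r g)⟩) ?_ fun a b => ?_
  · rintro ⟨a, a0, aq⟩
    obtain ⟨p, u, s, rfl⟩ := h.kap_surj a0 aq
    obtain ⟨k, rfl⟩ := hP p (h.rep_P s)
    exact ⟨⟨k, u, s⟩, Subtype.ext (h.kap_eq (r _) s)⟩
  · rw [← cj_eq_iff, cj_mul, Subtype.ext_iff]
    constructor
    · intro e
      rw [← h.kap_inj (r a) (r b) e, cj_inv_cj]
    · intro e
      have e' : cj x b = cj x a := by rw [← cj_cj_inv (cj x b) a, e]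
      have s := r b
      show h.kap _ _ = h.kap _ _
      rw [e'] at s ⊢
      exact h.kap_eq (r a) s

omit [Finite G] in
theorem unique {p : Subgroup G} {v f : G} (r : Rep z P x y p v) (fx : f ∈ x) (fp : f ∈ p)
    (f1 : f ≠ 1) (nf : ¬ Cj z f) : p = x := by
  obtain ⟨vx, ⟨a, -⟩ | ⟨hp, n, cv, vp⟩ | rfl⟩ := r
  · exact a
  · rcases h.geo.inf cv h.px hp n vx vp fx fp with a | a
    · exact absurd a f1
    · exact absurd (a ▸ cv) nf
  · obtain ⟨co', k⟩ := h.geo.ec h.py
    rw [mem_cj, mul_assoc, h.ec.comm fx vx, inv_mul_cancel_left] at fp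
    exact absurd (h.semireg fx (k.cj_self fp)) f1

end Base

end Cfsg.Agent.H69.O8
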