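import Cfsg.Agent.H69.O8c
import Cfsg.Agent.H69.O8d
import Cfsg.Agent.H69.Dih
import Cfsg.Agent.H86.ZD1

/-! `C(z)/Q ≅ S₃³`: the subgroup generated by the centralizers controls fusion. -/

set_option autoImplicit false
set_option synthInstance.maxSize 8192

namespace Cfsg.Agent.H69.O8

open Subgroup Cfsg.Agent.H49 Cfsg.Agent.H69.XV Equiv

universe u

variable {G : Type u} [Group G]

theorem two_fix : ∀ σ : S3, σ 0 = 0 → σ 1 = 1 → σ = 1 := by decide +kernel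

theorem pt_sum_W : ∀ b c, (pt b + pt c).2 = 0 → dt (pt b + pt c).1 ≠ 0 → b.1 = 0 := by
  decide +kernel

theorem act2_fix : ∀ (τ : S3) (X : T2), τ ≠ 1 → act2 τ 1 X = X ∨ act2 1 τ X = X → dt X = 0 := by
  decide +kernel

theorem six_odd : ∀ e : X6, q6 e ≠ 0 →
    Odd (Finset.univ.filter fun v : X6 => v ≠ 0 ∧ q6 v = 0 ∧ b6 v e = 0).card := by decide +kernel

theorem six_perp : ∀ a b : X6, ∃ c : X6, c ≠ 0 ∧ q6 c = 0 ∧ b6 c a = 0 ∧ b6 c b = 0 := by
  decide +kernel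

theorem six_three {a b c : X6} (h1 : q6 a = 1) (h2 : q6 b = 1) (h3 : q6 c = 1)
    (h4 : q6 (a + b) = 1) (h5 : q6 (a + c) = 1) (h6 : q6 (b + c) = 1) : q6 (a + (b + c)) = 0 := by
  rw [q6_add] at h4 h5
  rw [q6_add, b6_add, h6]
  rw [h1] at *
  rw [h2] at h4
  rw [h3] at h5
  generalize b6 a b = x at *
  generalize b6 a c = y at *
  revert x y; decide

/-- the subgroup generated by the centralizers of the conjugates of `z` in `Q` -/
def KK (z : G) : Subgroup G := closure {c | ∃ s ∈ O2C z, Cj z s ∧ c * s = s * c}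

theorem fix_of_invol {z a w : G} {V : Type*} [AddCommGroup V] [Module (ZMod 2) V]
    (d : VD (O2C z) z V) (ha : a ∈ O2C z) (wz : w * z = z * w) (ww : w * w = 1)
    (h : a * w * (a * w) = 1) : d.ρ w (d.p a) = d.p a := by
  rw [d.ρ_p wz ha, ← d.p_inv ha]
  congr 1
  rw [inv_of_sq ww, eq_inv_iff_mul_eq_one]
  calc w * a * w * a = a⁻¹ * (a * w * (a * w)) * (w⁻¹ * w) * a := by group
    _ = 1 := by rw [h]; group

namespace TC

variable [Finite G] {z : G} {π : G → L3} {d : VD (O2C z) z V0} (h : TC z π d)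
include h

omit [Finite G] in
theorem C_le {c : G} (cz : c * z = z * c) : c ∈ KK z :=
  subset_closure ⟨z, h.hy.lx.mem, Cj.refl z, cz⟩

theorem into_R {s : G} (hs : NP z s) (ps : d.p s = pt (0, 0, 0)) {y : G} (yz : y * z = z * y)
    (yy : y * y = 1) (n : y ∉ O2C z) : ∃ c, c * z = z * c ∧ c * y * c⁻¹ ∈ O2C s := by
  have l2 : π y * π y = 1 := by rw [← h.hy.mul yz yz, yy, h.hy.one]
  obtain ⟨i, hi⟩ := invol_fix _ (congrArg Prod.fst l2)
  obtain ⟨j, hj⟩ := invol_fix _ (congrArg (fun t => t.2.1) l2)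
  obtain ⟨k, hk⟩ := invol_fix _ (congrArg (fun t => t.2.2) l2)
  have hb : ai (π y) (i, j, k) = (i, j, k) := Prod.ext hi (Prod.ext hj hk)
  obtain ⟨l, hl⟩ := exists_ai (i, j, k) (0, 0, 0)
  obtain ⟨c, cz, rfl⟩ := h.surj l
  have y'z := VD.cmul (VD.cmul cz yz) (VD.cinv cz)
  have hy' : ai (π (c * y * c⁻¹)) (0, 0, 0) = (0, 0, 0) := by
    rw [h.hy.conj cz yz, ai_mul, ai_mul, ai_inv hl, hb, hl]
  have n' : c * y * c⁻¹ ∉ O2C z := fun a => n (by
    simpa [mul_assoc] using h.hy.lx.conj_mem (VD.cinv cz) a)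
  have yy' : c * y * c⁻¹ * (c * y * c⁻¹) = 1 := by rw [conj_mul', yy]; group
  suffices ∃ e ∈ O2C z, e * (c * y * c⁻¹) * e⁻¹ ∈ O2C s by
    obtain ⟨e, he, a⟩ := this
    exact ⟨e * c, VD.cmul (h.hy.lx.cen e he) cz, by simpa [mul_assoc] using a⟩
  generalize c * y * c⁻¹ = y' at *
  obtain ⟨ρ, hρ, ρz, ρρ, e⟩ : ∃ ρ ∈ O2C s, ρ * z = z * ρ ∧ ρ * ρ = 1 ∧ π ρ = π y' := by
    obtain ⟨r, hr, rz, e⟩ := h.R_surj hs ps hy'
    by_cases rr : r * r = 1
    · exact ⟨r, hr, rz, rr, e⟩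
    have rq : r ∉ O2C z := fun a => n' ((h.hy.ker y'z).1 (e ▸ h.hy.Q_one a))
    have := mt (hs.mem_of_cent_E (h.card_E0 hs) hr) rq
    push Not at this
    obtain ⟨x, x1, x2, x3⟩ := this
    have xz := hs.lx.cen x x1
    refine ⟨r * x, mul_mem hr x2, VD.cmul rz xz, ?_, by rw [h.hy.mul rz xz, h.hy.Q_one x1, mul_one, e]⟩
    rw [← sF_eq_zero, sF_mul hs.lxS.toXS hr x2, z2_ne (mt sF_eq_zero.1 rr),
      sF_eq_zero.2 (hs.pair.E_sq ⟨x1, x2⟩), z2_ne (mt cF_eq_zero.1 (Ne.symm x3))]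
    rfl
  have aq := (h.hy.eq_iff y'z ρz).1 e.symm
  have fx := fix_of_invol d aq ρz ρρ (by rwa [inv_mul_cancel_right])
  rw [h.ρ ρz, e] at fx
  obtain ⟨u, hu⟩ := free hy' (fun a => n' ((h.hy.ker y'z).1 a)) fx
  obtain ⟨e, he, a⟩ := d.exists_comm ρz aq (d.mem_comS.2 ⟨u, by rw [h.ρ ρz, e, hu]⟩)
  have ez := hs.lx.cen e he
  refine ⟨e⁻¹, inv_mem he, ?_⟩
  rcases a with a | a
  · rw [inv_mul_cancel_right] at a
    rw [← a]; simpa [mul_assoc] using hρ
  · rw [mul_assoc _ z, ← ρz, ← mul_assoc, inv_mul_cancel_right] at a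
    have : y' = e * (ρ * z) * e⁻¹ := by
      calc y' = y' * z * z := by rw [mul_assoc, hs.lx.zz, mul_one]
        _ = e * ρ * (e⁻¹ * z) := by rw [← a]; group
        _ = _ := by rw [VD.cinv ez]; group
    rw [this]; simpa [mul_assoc] using mul_mem hρ hs.mem'

end TC

namespace TD

variable [Finite G] {z : G} {π : G → L3} {d : VD (O2C z) z V0} {s g f : G} (h : TD z π d s g f)
include h

omit [Finite G] in
theorem back {y : G} (hy : y ∈ O2C s) : g⁻¹ * y * g ∈ O2C z := by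
  rw [← h.gz, ← cj_O2C] at hy; exact mem_cj.1 hy

theorem pi_R {y : G} (hy : y ∈ O2C s) (yz : y * z = z * y) (cy : Cj z y) :
    (π y).2 = 1 ∨ ((π y).1 = 1 ∧ (π y).2.2 = 1) ∨ ((π y).1 = 1 ∧ (π y).2.1 = 1) := by
  have q := h.back hy
  have gz' : g⁻¹ * z * g = s := by rw [← h.gs]; group
  have fs : g⁻¹ * y * g * s = s * (g⁻¹ * y * g) := by
    rw [← gz']; simpa using conj_comm g⁻¹ yz
  rcases (h.tc.cj_iff q).1 (by simpa using cy.conj g⁻¹) with a | ⟨b, pb⟩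
  · have : y = s := by rw [← h.gz, ← a]; group
    rw [this, h.tc.hy.Q_one h.hs.mem]; exact Or.inl rfl
  have k0 := h.tc.R_fix h.hs h.ps hy yz
  have b0 : B0 (pt b) (pt (0, 0, 0)) = 0 := by
    rw [← pb, ← h.ps, ← h.tc.B, d.B_eq_zero q h.hs.mem, fs]
  have key : ∀ c, pt c ∈ U0 → B0 (pt b) (pt c) = 0 → ai (π y) c = c := by
    intro c hc bc
    obtain ⟨x, hx, e⟩ := d.p_surj (pt c)
    have c1 : g⁻¹ * y * g * x = x * (g⁻¹ * y * g) := by
      rw [← d.B_eq_zero q hx, h.tc.B, pb, e, bc]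
    have c2 := h.hs.lx.cen _ q
    have c3 : g⁻¹ * x * g * (g⁻¹ * y * g) = g⁻¹ * y * g * (g⁻¹ * x * g) := by
      have := TC.conj_E0 h.hs (inv_mem h.hg) hx ((h.tc.mem_S h.hs h.ps hx).2 (e ▸ hc))
      rw [inv_inv] at this
      generalize g⁻¹ * y * g = t at *
      rcases this with a | a | a | a <;> rw [a]
      · exact c1.symm
      · exact (Commute.mul_right c2 c1).symm
      · exact (Commute.mul_right fs c1).symm
      · exact (Commute.mul_right (Commute.mul_right c2 fs) c1).symm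
    have c4 : x * y = y * x := by simpa [mul_assoc] using conj_comm g c3
    have := h.tc.p_conj yz hx
    rw [conj_of_comm c4, e, act_pt] at this
    exact (pt_inj _ _ this).symm
  have t1 : B0 (pt b) (pt (1, 0, 0)) = 0 → (π y).1 = 1 := fun a => two_fix _
    (congrArg Prod.fst k0) (congrArg Prod.fst (key _ (mem_U0.2 (by decide)) a))
  have t2 : B0 (pt b) (pt (0, 1, 0)) = 0 → (π y).2.1 = 1 := fun a => two_fix _
    (congrArg (fun t => t.2.1) k0) (congrArg (fun t => t.2.1) (key _ (mem_U0.2 (by decide)) a))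
  have t3 : B0 (pt b) (pt (0, 0, 1)) = 0 → (π y).2.2 = 1 := fun a => two_fix _
    (congrArg (fun t => t.2.2) k0) (congrArg (fun t => t.2.2) (key _ (mem_U0.2 (by decide)) a))
  simp only [B0_pt, ite_eq_left_iff, one_ne_zero, imp_false, not_not] at b0 t1 t2 t3
  rcases b0 with a | a | a
  · exact Or.inl (Prod.ext (t2 (by simp [a])) (t3 (by simp [a])))
  · exact Or.inr (Or.inl ⟨t1 (by simp [a]), t3 (by simp [a])⟩)
  · exact Or.inr (Or.inr ⟨t1 (by simp [a]), t2 (by simp [a])⟩)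

theorem mem_E {y : G} (yz : y * z = z * y) (yy : y * y = 1) (e : π y = (tr 0, 1, 1)) :
    y ∈ EE d 0 := by
  have wz := TC.E_z h.wE
  have pw := h.tc.E_π' h.wE h.wQ
  have aq := (h.tc.hy.eq_iff yz wz).1 (e.trans pw.symm)
  have fx := fix_of_invol d aq wz h.ww (by rwa [inv_mul_cancel_right])
  rw [h.tc.ρ wz, pw, act_R1] at fx
  have f2 : (d.p (y * (g * f * g⁻¹)⁻¹)).2 = 0 := by
    have := congrArg Prod.fst fx
    exact add_eq_left.1 this
  have := mul_mem (h.tc.F_le 0 ⟨aq, _, by rw [tn_vec0]; exact Prod.ext rfl f2.symm⟩) h.wE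
  rwa [inv_mul_cancel_right] at this

end TD

theorem X_le_KK [Finite G] {z s : G} (hs : NP z s) : O2C z ⊔ O2C s ≤ KK z :=
  sup_le (fun x hx => subset_closure ⟨z, hs.lx.mem, Cj.refl z, hs.lx.cen x hx⟩)
    fun x hx => subset_closure ⟨s, hs.mem, hs.cj, hs.lxS.cen x hx⟩

namespace TC

variable [Finite G] {z : G} {π : G → L3} {d : VD (O2C z) z V0} (h : TC z π d)
include h

theorem pi_cj {y : G} (yz : y * z = z * y) (cy : Cj z y) :
    (π y).2 = 1 ∨ ((π y).1 = 1 ∧ (π y).2.2 = 1) ∨ ((π y).1 = 1 ∧ (π y).2.1 = 1) := by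
  by_cases q : y ∈ O2C z
  · rw [h.hy.Q_one q]; exact Or.inl rfl
  obtain ⟨s, g, f, t⟩ := h.td
  obtain ⟨c, cz, m⟩ := h.into_R t.hs t.ps yz (cy.sq h.hy.lx.zz) q
  have := t.pi_R m (VD.cmul (VD.cmul cz yz) (VD.cinv cz)) (cy.conj c)
  rw [h.hy.conj cz yz] at this
  simpa only [Prod.snd_mul, Prod.fst_mul, Prod.snd_inv, Prod.fst_inv, conj_eq_one_iff] using this

theorem fus_Q {y : G} (q : y ∈ O2C z) (cy : Cj z y) : ∃ k ∈ KK z, k * z * k⁻¹ = y := by
  by_cases e : y = z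
  · exact ⟨1, one_mem _, by rw [e]; group⟩
  · have hs : NP z y := ⟨h.hy.lx, h.hy.card, cy, q, e⟩
    obtain ⟨k, k1, k2, -⟩ := exists_swap hs
    exact ⟨k, X_le_KK hs k1, k2⟩

theorem fus_C {y : G} (yz : y * z = z * y) (cy : Cj z y) : ∃ k ∈ KK z, k * z * k⁻¹ = y := by
  by_cases q : y ∈ O2C z
  · exact h.fus_Q q cy
  obtain ⟨s, g, f, t⟩ := h.td
  obtain ⟨c, cz, m⟩ := h.into_R t.hs t.ps yz (cy.sq h.hy.lx.zz) q
  obtain ⟨k, k1, k2⟩ := h.fus_Q (t.back m) (by simpa using (cy.conj c).conj g⁻¹)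
  refine ⟨c⁻¹ * g * k, mul_mem (mul_mem (inv_mem (h.C_le cz)) (X_le_KK t.hs t.hg)) k1, ?_⟩
  calc _ = c⁻¹ * g * (k * z * k⁻¹) * g⁻¹ * c := by group
    _ = _ := by rw [k2]; group

omit [Finite G] in
theorem mem_KK {n k : G} (hk : k ∈ KK z) (e : k * z * k⁻¹ = n * z * n⁻¹) : n ∈ KK z := by
  have : k⁻¹ * n * z = z * (k⁻¹ * n) := by
    calc _ = k⁻¹ * (n * z * n⁻¹) * n := by group
      _ = _ := by rw [← e]; group
  exact (mul_mem_cancel_left (inv_mem hk)).1 (h.C_le this)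

theorem pts_K {p : Subgroup G} (hp : PP d p) {k : G} (hk : k ∈ KK z) (m : k * z * k⁻¹ ∈ p) :
    ∃ k ∈ KK z, p = cj (EE d 0) k := by
  obtain ⟨p, rfl⟩ := ex_cj k p
  obtain ⟨i, rfl⟩ := h.pts (pp_cj.1 hp) (cj_mem.1 m)
  obtain ⟨σ, hσ⟩ := exists_perm 0 i
  obtain ⟨c, cz, pc⟩ := h.surj (σ, 1, 1)
  exact ⟨k * c, mul_mem hk (h.C_le cz), by rw [cj_mul, h.cj_E 0 cz, pc, hσ]⟩

theorem col_K {p k : _} (hp : PP d p) (hk : k ∈ KK z) (c : Col z (cj (EE d 0) k) p) :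
    ∃ k ∈ KK z, p = cj (EE d 0) k := by
  obtain ⟨w, cw, w1, w2⟩ := c
  obtain ⟨w, rfl⟩ := ex_conj k w
  obtain ⟨k', k1, rfl⟩ := h.fus_C (E_z (cj_mem.1 w1)) (cj_conj.1 cw)
  exact h.pts_K hp (mul_mem hk k1) (by simpa [mul_assoc] using w2)

theorem G0_eq {y : Subgroup G} {co : G → X6} (b : Base z (PP d) (EE d 0) y co) : b.G0 = KK z := by
  have cG : ∀ c, c * z = z * c → c ∈ b.G0 := fun c cz => by
    rw [b.mem_G0, h.cj_E 0 cz]
    exact b.rep_of_col (h.pp _) ⟨z, Cj.refl z, h.z_E _, h.z_E _⟩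
  refine le_antisymm ?_ ((closure_le _).2 ?_)
  · rintro n ⟨v, r⟩
    have : ∃ k ∈ KK z, cj (EE d 0) n = cj (EE d 0) k := by
      obtain ⟨vx, ⟨a, -⟩ | ⟨hp, -, cv, vp⟩ | a⟩ := r
      · exact ⟨1, one_mem _, by rw [a, cj_one]⟩
      · exact h.col_K hp (one_mem _) ⟨v, cv, by rwa [cj_one], vp⟩
      · obtain ⟨x', a1, a2, a3⟩ := b.mid
        obtain ⟨k, k1, rfl⟩ := h.col_K a1 (one_mem _) (by rwa [cj_one])
        obtain ⟨k', k2, rfl⟩ := h.col_K b.py k1 a3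
        exact ⟨v * k', mul_mem (h.C_le (E_z vx)) k2, by rw [a, cj_mul]⟩
    obtain ⟨k, k1, e⟩ := this
    have m : k⁻¹ * (n * z * n⁻¹) * k ∈ EE d 0 := mem_cj.1 (e ▸ cj_mem.2 (h.z_E 0))
    obtain ⟨k', k2, e'⟩ := h.fus_C (E_z m) (by simpa using ((Cj.refl z).conj n).conj k⁻¹)
    refine h.mem_KK (mul_mem k1 k2) ?_
    calc _ = k * (k' * z * k'⁻¹) * k⁻¹ := by group
      _ = _ := by rw [e']; group
  · rintro c ⟨s, q, cs, e⟩
    obtain ⟨n, n1, rfl⟩ : ∃ n ∈ b.G0, n * z * n⁻¹ = s := by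
      rcases (h.cj_iff q).1 cs with a | ⟨c, a⟩
      · exact ⟨1, one_mem _, by rw [a]; group⟩
      · obtain ⟨l, hl⟩ := exists_ai c (0, 0, 0)
        obtain ⟨k, kz, rfl⟩ := h.surj l
        obtain ⟨s', g, f, t⟩ := h.td
        obtain ⟨n, n1, n2⟩ := t.orbit_F (y := k * s * k⁻¹) ⟨h.hy.lx.conj_mem kz q, _, by
          rw [h.p_conj kz q, a, act_pt, hl]; rfl⟩ (cs.conj k)
        refine ⟨k⁻¹ * n, mul_mem (inv_mem (cG k kz)) (b.norm_le (cj_eq_iff.1 n1)), ?_⟩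
        calc _ = k⁻¹ * (n * z * n⁻¹) * k := by group
          _ = _ := by rw [n2]; group
    have := cG (n⁻¹ * c * n) (by
      calc _ = n⁻¹ * (c * (n * z * n⁻¹)) * n := by group
        _ = _ := by rw [e]; group)
    exact (mul_mem_cancel_left (inv_mem n1)).1 ((mul_mem_cancel_right n1).1 this)

omit [Finite G] in
theorem card_C : Nat.card (centralizer ({z} : Set G)) = 110592 := by
  have := card_eq_of_fibre h.hy.lx.le_centralizer (fun c => π c)
    (fun l => by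
      obtain ⟨c, cz, e⟩ := h.surj l
      exact ⟨⟨c, mem_centralizer_singleton_iff.2 cz⟩, e⟩) fun a b => by
      have az := mem_centralizer_singleton_iff.1 a.2
      have bz := mem_centralizer_singleton_iff.1 b.2
      rw [← h.hy.ker (VD.cmul (VD.cinv az) bz), h.hy.mul (VD.cinv az) bz, h.hy.inv az,
        inv_mul_eq_one]
  rw [this, card_L3, h.hy.card]

theorem card_N : Nat.card (normalizer (EE d 0 : Set G)) = 35 * 36864 := by
  have a := card_eq_of_fibre (A := centralizer {z})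
    (B := normalizer (EE d 0 : Set G) ⊓ centralizer {z}) inf_le_right (fun c => (π c).1 0)
    (fun i => by
      obtain ⟨σ, hσ⟩ := exists_perm 0 i
      obtain ⟨c, cz, e⟩ := h.surj (σ, 1, 1)
      exact ⟨⟨c, mem_centralizer_singleton_iff.2 cz⟩, by simp [e, hσ]⟩) fun a b => by
      have az := mem_centralizer_singleton_iff.1 a.2
      have bz := mem_centralizer_singleton_iff.1 b.2
      rw [mem_inf, and_iff_left (mul_mem (inv_mem a.2) b.2), ← cj_eq_iff, cj_mul, h.cj_E 0 bz]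
      constructor
      · intro e; rw [← e, ← h.cj_E 0 az, cj_inv_cj]
      · intro e; exact h.E_inj (by rw [← h.cj_E 0 az, ← e, cj_cj_inv])
  obtain ⟨s, g, f, t⟩ := h.td
  have k := t.ec
  have m : ∀ n : normalizer (EE d 0 : Set G), n * z * (n : G)⁻¹ ∈ EE d 0 :=
    fun n => conj_mem_of_mem_normalizer n.2 (h.z_E 0)
  have b := card_eq_of_fibre (A := normalizer (EE d 0 : Set G))
    (B := normalizer (EE d 0 : Set G) ⊓ centralizer {z}) inf_le_left
    (β := {v : X6 // v ≠ 0 ∧ q6 v = 0})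
    (fun n => ⟨_, fun e => ((Cj.refl z).conj n).ne_one h.hy.lx.ne (k.inj (m n) e),
      (k.q (m n)).2 (Or.inr ((Cj.refl z).conj n))⟩)
    (by
      rintro ⟨v, v0, vq⟩
      obtain ⟨a, ha, ca, rfl⟩ := k.exists_cj v0 vq
      obtain ⟨n, n1, rfl⟩ := t.orbit ha ca
      exact ⟨⟨n, cj_eq_iff.1 n1⟩, rfl⟩) fun a b => by
      rw [mem_inf, and_iff_right (mul_mem (inv_mem a.2) b.2), mem_centralizer_singleton_iff,
        Subtype.ext_iff]
      constructor
      · intro e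
        have := k.eq (m a) (m b) e
        calc _ = (a : G)⁻¹ * (b * z * (b : G)⁻¹) * b := by group
          _ = _ := by rw [← this]; group
      · intro e
        refine congrArg (coE d _) ?_
        calc (a : G) * z * (a : G)⁻¹ = a * (z * ((a : G)⁻¹ * b)) * (b : G)⁻¹ := by group
          _ = _ := by rw [← e]; group
  rw [h.card_C, Nat.card_eq_fintype_card, Fintype.card_fin] at a
  rw [b, card_six]; omega

theorem card_KK : Nat.card (KK z) = 174182400 := by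
  obtain ⟨y, co, b⟩ := h.geo.exists_base (h.pp 0)
  rw [← h.G0_eq b, b.card_G0 fun _ a => a, h.card_N]

theorem fus_K {y : G} (hy : y ∈ KK z) (cy : Cj z y) : ∃ k ∈ KK z, k * z * k⁻¹ = y := by
  have le : centralizer {z} ≤ KK z := fun c hc => h.C_le (mem_centralizer_singleton_iff.1 hc)
  have a := card_eq_card_quotient_mul_card_subgroup ((centralizer {z}).subgroupOf (KK z))
  rw [h.card_KK, Nat.card_congr (subgroupOfEquivOfLe le).toEquiv, h.card_C] at a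
  obtain ⟨x, hx⟩ := exists_fixed_of_odd (X := KK z ⧸ (centralizer {z}).subgroupOf (KK z))
    (by rw [show Nat.card _ = 1575 by omega]; decide) (MulAction.toPerm (⟨y, hy⟩ : KK z)) (by
      rw [← MulAction.toPermHom_apply, ← map_mul, ← map_one (MulAction.toPermHom (KK z) _)]
      congr 1; exact Subtype.ext (cy.sq h.hy.lx.zz))
  obtain ⟨k, rfl⟩ := QuotientGroup.mk_surjective x
  have := smul_mk_eq_iff.1 hx
  obtain ⟨k', k1, k2⟩ := h.fus_C (y := (k : G)⁻¹ * y * k) (mem_centralizer_singleton_iff.1 this)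
    (by simpa using cy.conj (k : G)⁻¹)
  refine ⟨k * k', mul_mem k.2 k1, ?_⟩
  calc _ = k * (k' * z * k'⁻¹) * (k : G)⁻¹ := by group
    _ = _ := by rw [k2]; group

theorem hU {a g : G} (ca : Cj z a) (ha : a ∈ KK z) (hg : g * a * g⁻¹ ∈ KK z) : g ∈ KK z := by
  obtain ⟨k, k1, rfl⟩ := h.fus_K ha ca
  obtain ⟨k', k2, e⟩ := h.fus_K hg (ca.conj g)
  exact (mul_mem_cancel_right k1).1 (h.mem_KK k2 (by rw [e]; group))

end TC

end Cfsg.Agent.H69.O8
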