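import Cfsg.Agent.H71.P3Defs

/-! No irreducible elements supported on hyperbolic lines. -/

set_option autoImplicit false

namespace Cfsg.Agent.H69.P3Ni

open Cfsg.Agent.H71.P3 Cfsg.Agent.H27 Module Submodule
open scoped Pointwise MatrixGroups

variable {F V : Type} [Field F] [AddCommGroup V] [Module F V]

theorem supp [Finite V] {S : Sp F V} {g : V ≃ₗ[F] V} (hg : g ∈ S.G) {T : Submodule F V}
    (h : S.Supp T g) (v : V) : g v - v ∈ T := by
  rw [← S.B.orthogonal_orthogonal S.nd S.alt.isRefl T]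
  intro s hs
  have e : g s = s := h s fun t ht => S.alt.isRefl _ _ (hs t ht)
  change S.B s (g v - v) = 0
  rw [map_sub, ← hg s v, e, sub_self]

theorem supp_mono {S : Sp F V} {g : V ≃ₗ[F] V} {T T' : Submodule F V} (h : S.Supp T g)
    (hT : T ≤ T') : S.Supp T' g := fun v hv => h v fun s hs => hv s (hT hs)

/-- the elements of `K` supported on `T` -/
def SK (S : Sp F V) (K : Subgroup (V ≃ₗ[F] V)) (T : Submodule F V) : Subgroup (V ≃ₗ[F] V) where
  carrier := {g | g ∈ K ∧ S.Supp T g}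
  one_mem' := ⟨one_mem _, fun _ _ => rfl⟩
  mul_mem' := fun hg hh => ⟨mul_mem hg.1 hh.1, fun v hv => by
    rw [LinearEquiv.mul_apply, hh.2 v hv, hg.2 v hv]⟩
  inv_mem' := fun {g} hg => ⟨inv_mem hg.1, fun v hv => g.symm_apply_eq.2 (hg.2 v hv).symm⟩

theorem onto [Finite V] {S : Sp F V} {g : V ≃ₗ[F] V} (hg : g ∈ S.G) {l : Submodule F V}
    (h : S.Irr l g) {y : V} (hy : y ∈ l) : ∃ x, g x - x = y := by
  have h1 : Function.Injective fun x : l => (⟨g x - x, supp hg h.1 x⟩ : l) := fun a b e => by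
    by_contra hab
    refine h.2 (a - b) (sub_mem a.2 b.2) (fun e => hab (Subtype.ext (sub_eq_zero.1 e))) 1 ?_
    have e1 : g a - a = g b - b := congrArg Subtype.val e
    rw [map_sub, one_smul, sub_eq_sub_iff_sub_eq_sub, e1]
  obtain ⟨x, hx⟩ := Finite.injective_iff_surjective.1 h1 ⟨y, hy⟩
  exact ⟨x, congrArg Subtype.val hx⟩

theorem ni (neg : NegStmt) (rho : RhoStmt) (mj : MjStmt) (meet : MeetStmt) (spr : SprStmt) :
    NiStmt := by
  intro F V _ _ _ _ _ S K hK pt nq nj l0 hl0 g0 hg0 hi0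
  refine spr S K hK pt (fun l => S.Hyp l ∧ ∃ g ∈ K, S.Irr l g) ⟨l0, hl0, g0, hg0, hi0⟩
    (fun l h => h.1) ?_ ?_ ?_
  · rintro g hg l ⟨h1, h, hh, h2⟩
    refine ⟨h1.smul (hK hg), g * h * g⁻¹, mul_mem (mul_mem hg hh) (inv_mem hg),
      h2.1.conj (hK hg), ?_⟩
    rintro _ ⟨v, hv, rfl⟩ v0 c e
    refine h2.2 v hv (fun e => v0 (by rw [e, map_zero])) c (g.injective ?_)
    rw [map_smul]
    exact (congrArg (fun x => g (h x)) (g.symm_apply_apply v)).symm.trans e
  swap
  · rintro l ⟨-, g, hg, h⟩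
    exact ⟨g, hg, h.1, fun v hv e => by_contra fun v0 => h.2 v hv v0 1 (by rw [e, one_smul])⟩
  rintro l m ⟨hl, g, hg, gi⟩ ⟨hm, h, hh, hi⟩ hlm
  by_contra hne
  obtain ⟨z, u, w, z0, uw, zu, zw, rfl, rfl⟩ := meet S l m hl hm hlm hne
  set T := span F {z, u, w} with hT
  have mz : z ∈ T := subset_span (by simp)
  have mu : u ∈ T := subset_span (by simp)
  have mw : w ∈ T := subset_span (by simp)
  have gH : g ∈ SK S K T := ⟨hg, supp_mono gi.1 (span_le.2 (by
    rintro _ (rfl | rfl)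
    exacts [mu, mw]))⟩
  have hH : h ∈ SK S K T := ⟨hh, supp_mono hi.1 (span_le.2 (by
    rintro _ (rfl | rfl)
    exacts [mu, add_mem mw mz]))⟩
  obtain ⟨ρ, hρ⟩ := rho S (SK S K T) (fun _ hk => hK hk.1) z u w uw zu zw fun _ hk => hk.2
  have mj' := fun k : SK S K T => mj S K hK nq z u w z0 uw zu zw k k.2.1 k.2.2
  rcases (neg F S.odd ρ.range).2 with ⟨k, hk⟩ | hp | ⟨a, a0, ha⟩
  · obtain ⟨l, h1, h2⟩ := (mj' k).2 (by simpa [hk, Matrix.neg_mulVec] using hρ k ![1, 0])
      (by simpa [hk, Matrix.neg_mulVec] using hρ k ![0, 1])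
    exact nj l h1 k k.2.1 h2
  · have inj : Function.Injective ρ := (injective_iff_map_eq_one ρ).2 fun k hk =>
      Subtype.ext ((mj' k).1 (by simpa [hk] using hρ k ![1, 0]) (by simpa [hk] using hρ k ![0, 1]))
    have := Sp.finite_aut (F := F) (V := V)
    have := Fintype.ofFinite (SK S K T)
    rw [← Nat.card_congr (MonoidHom.ofInjective inj).toEquiv, ← ringChar.spec,
      Nat.card_eq_fintype_card] at hp
    let P : V → V := fun v => ∑ k : SK S K T, k.1 v
    have P1 : ∀ k ∈ SK S K T, ∀ x, P (k x - x) = 0 := fun k hk x => by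
      simp only [P, map_sub, Finset.sum_sub_distrib, sub_eq_zero]
      exact Fintype.sum_equiv (Equiv.mulRight (⟨k, hk⟩ : SK S K T)) _ _ fun _ => rfl
    obtain ⟨x, hx⟩ := onto (hK hg) gi (y := w) (subset_span (by simp))
    obtain ⟨y, hy⟩ := onto (hK hh) hi (y := w + z) (subset_span (by simp))
    have e1 := P1 g gH x
    have e2 := P1 h hH y
    rw [hx] at e1
    rw [hy] at e2
    have fz : ∀ k : SK S K T, k.1 z = z := fun k => k.2.2 z fun s hs => by
      have : T ≤ LinearMap.ker (S.B z) := span_le.2 (by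
        rintro _ (rfl | rfl | rfl)
        exacts [S.alt _, zu, zw])
      exact this hs
    simp only [P, map_add, Finset.sum_add_distrib, fz, Finset.sum_const, Finset.card_univ] at e1 e2
    rw [e1, zero_add, ← Nat.cast_smul_eq_nsmul F] at e2
    exact z0 ((smul_eq_zero.1 e2).resolve_left hp)
  · obtain ⟨c, hc⟩ := ha _ ⟨⟨g, gH⟩, rfl⟩
    have h1 := hρ ⟨g, gH⟩ a
    have wu : S.B w u = -1 := by rw [← S.alt.neg_eq, uw]
    have key : ∀ s t e : F, s • u + t • w = e • z → s = 0 ∧ t = 0 := fun s t e h => by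
      have e1 := congrArg (S.B · w) h
      have e2 := congrArg (S.B · u) h
      simp only [map_add, map_smul, LinearMap.add_apply, LinearMap.smul_apply, uw, wu, zu, zw,
        S.alt u, S.alt w, smul_eq_mul] at e1 e2
      exact ⟨by simpa using e1, by simpa using e2⟩
    have yl : a 0 • u + a 1 • w ∈ span F {u, w} := mem_span_pair.2 ⟨_, _, rfl⟩
    refine gi.2 _ yl (fun e => a0 ?_) c ?_
    · obtain ⟨e1, e2⟩ := key _ _ 0 (e.trans (zero_smul F z).symm)
      ext i
      fin_cases i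
      exacts [e1, e2]
    · rw [hc, Pi.smul_apply, Pi.smul_apply, smul_assoc, smul_assoc, ← smul_add] at h1
      obtain ⟨e, he⟩ := mem_span_singleton.1 h1
      have h2 : g (a 0 • u + a 1 • w) - c • (a 0 • u + a 1 • w) ∈ span F {u, w} :=
        sub_mem ((sub_mem_iff_left _ yl).1 (supp (hK hg) gi.1 _)) (smul_mem _ _ yl)
      obtain ⟨s, t, hst⟩ := mem_span_pair.1 h2
      obtain ⟨rfl, rfl⟩ := key s t e (hst.trans he.symm)
      rw [← sub_eq_zero, ← hst, zero_smul, zero_smul, add_zero]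

end Cfsg.Agent.H69.P3Ni
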