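import Cfsg.Agent.H58.Q4Defs

/-!
# Identification by orders
-/

set_option autoImplicit false

namespace Cfsg.Agent.H58.Q4.H69

open Subgroup Equiv Function

universe u

variable {G Ω : Type u} [Group G] [Finite G] [MulAction G Ω] [Finite Ω] {K : Set Ω → Subgroup G}

theorem card_G (ord : OrdStmt.{u}) (h : Fb K) {F : Set Ω} (hF : F.ncard = 4) :
    Nat.card G = (Nat.card Ω).descFactorial 4 * Nat.card (St G F) := by
  have := ord G Ω ⊤ Set.univ (fun _ _ _ _ => trivial) h.tr F (Set.subset_univ _) hF ∅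
    (Set.empty_subset _)
  rwa [show St G (∅ : Set Ω) = ⊤ from eq_top_iff.2 fun g _ => mem_St.2 fun _ h => h.elim,
    top_inf_eq, top_inf_eq, card_top, Set.ncard_univ, Set.ncard_empty] at this

omit [Finite G] in
theorem exists_hom (h : Fb K) {n : ℕ} (hn : Nat.card Ω = n) :
    ∃ f : G →* Perm (Fin n), Injective f := by
  have : Injective (MulAction.toPermHom G Ω) :=
    (injective_iff_map_eq_one _).2 fun g hg => h.faith g fun x => DFunLike.congr_fun hg x
  exact ⟨(Finite.equivFinOfCardEq hn).permCongrHom.toMonoidHom.comp (MulAction.toPermHom G Ω),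
    (Finite.equivFinOfCardEq hn).permCongrHom.injective.comp this⟩

omit [Finite Ω] in
theorem card_six (h : Fb K) {F : Set Ω} (hF : F.ncard = 4) (h6 : Nat.card (St G F) ∣ 6) :
    Nat.card (St G F) = 6 := by
  have f := h.fr F hF
  have h1 := card_dvd_of_le f.le
  have h2 : Nat.card (K F) ≠ 1 := fun e => f.ne_bot (card_eq_one.1 e)
  have h3 : Nat.card (K F) ≠ Nat.card (St G F) := fun e =>
    f.ne_top (eq_of_le_of_card_ge f.le e.ge)
  generalize Nat.card (K F) = a at h1 h2 h3
  generalize Nat.card (St G F) = b at h1 h3 h6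
  have := Nat.le_of_dvd (by norm_num) h6
  have := Nat.le_of_dvd (by norm_num) (h1.trans h6)
  interval_cases a <;> interval_cases b <;> simp_all

theorem id (ord : OrdStmt.{u}) : IdStmt.{u} := by
  intro G Ω _ _ _ _ K h
  have dv : ∀ {n}, Nat.card Ω = n → ∀ F : Set Ω, F.ncard = 4 →
      n.descFactorial 4 * Nat.card (St G F) ∣ n.factorial := fun hn F hF => by
    obtain ⟨f, hf⟩ := exists_hom h hn
    have := card_dvd_of_injective f hf
    rwa [card_G ord h hF, hn, Nat.card_perm, Nat.card_fin] at this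
  refine ⟨fun hn => ?_, fun ⟨hn, h8⟩ => ?_, fun F hF => ?_⟩
  · obtain ⟨F, -, hF⟩ := Set.exists_subset_card_eq (s := (Set.univ : Set Ω)) (n := 4)
      (by rw [Set.ncard_univ, hn]; norm_num)
    obtain ⟨f, hf⟩ := exists_hom h hn
    have h6 := card_six h hF (Nat.dvd_of_mul_dvd_mul_left (k := 840) (by norm_num) (dv hn F hF))
    refine ⟨MulEquiv.ofBijective f ((Nat.bijective_iff_injective_and_card f).2 ⟨hf, ?_⟩)⟩
    rw [card_G ord h hF, h6, hn, Nat.card_perm, Nat.card_fin]
    rfl
  · obtain ⟨F, -, hF⟩ := Set.exists_subset_card_eq (s := (Set.univ : Set Ω)) (n := 4)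
      (by rw [Set.ncard_univ, hn]; norm_num)
    obtain ⟨f, hf⟩ := exists_hom h hn
    have h1 := f.range.index_mul_card
    rw [← Nat.card_congr (MonoidHom.ofInjective hf).toEquiv, card_G ord h hF, h8 F hF, hn,
      Nat.card_perm, Nat.card_fin, show Nat.descFactorial 8 4 = 1680 from rfl,
      show Nat.factorial 8 = 40320 from rfl] at h1
    exact ⟨(MonoidHom.ofInjective hf).trans (MulEquiv.subgroupCongr
      (Perm.eq_alternatingGroup_of_index_eq_two (by omega)))⟩
  · by_contra! hn
    have h4 : 4 ≤ Nat.card Ω := hF ▸ F.ncard_le_card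
    have h1 := dv rfl F hF
    have h2 : Nat.card (St G F) ∣ 2 := by
      interval_cases Nat.card Ω
      · exact (Nat.dvd_of_mul_dvd_mul_left (k := 24) (n := 1) (by norm_num) h1).trans (by norm_num)
      · exact (Nat.dvd_of_mul_dvd_mul_left (k := 120) (n := 1) (by norm_num) h1).trans (by norm_num)
      · exact Nat.dvd_of_mul_dvd_mul_left (k := 360) (by norm_num) h1
    rw [card_six h hF (h2.trans (by norm_num))] at h2
    norm_num at h2

end Cfsg.Agent.H58.Q4.H69
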