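import Cfsg.Agent.H79.R3Defs

/-! Reducible point stabilisers and the number of points. -/

set_option autoImplicit false

namespace Cfsg.Agent.H69.R3Red

open Cfsg.Agent.H79.R3 Module MulAction
open scoped Pointwise MatrixGroups

universe u w

theorem card_fixed {G H X Y : Type*} [Group G] [Group H] [MulAction G X] [MulAction H Y]
    [IsPretransitive G X] (φ : G →* H) {x : X} {y : Y} (h1 : ∀ y', ∃ g, φ g • y = y')
    (h2 : ∀ g, g • x = x ↔ φ g • y = y) (g : G) :
    Nat.card (fixedBy X g) = Nat.card (fixedBy Y (φ g)) := by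
  choose s hs using fun x' => exists_smul_eq G x x'
  have key : ∀ a b : G, a • x = b • x ↔ φ a • y = φ b • y := fun a b => by
    rw [← inv_smul_eq_iff, ← mul_smul, h2, map_mul, map_inv, mul_smul, inv_smul_eq_iff]
  have hb : Function.Bijective fun x' => φ (s x') • y :=
    ⟨fun a b e => by rw [← hs a, ← hs b]; exact (key _ _).2 e, fun y' => by
      obtain ⟨k, rfl⟩ := h1 y'
      exact ⟨k • x, (key _ _).1 (hs _)⟩⟩
  refine Nat.card_congr ((Equiv.ofBijective _ hb).subtypeEquiv fun a => ?_)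
  change g • a = a ↔ φ g • φ (s a) • y = φ (s a) • y
  rw [← mul_smul, ← map_mul, ← key, mul_smul, hs]

theorem exists_move {F V : Type u} [Field F] [AddCommGroup V] [Module F V] {W : Submodule F V}
    (h0 : W ≠ ⊥) (h1 : W ≠ ⊤) : ∃ g : V ≃ₗ[F] V, g • W ≠ W := by
  obtain ⟨w, hw, w0⟩ := (Submodule.ne_bot_iff W).1 h0
  obtain ⟨v, hv⟩ : ∃ v, v ∉ W := by
    by_contra h
    push Not at h
    exact h1 (Submodule.eq_top_iff'.2 h)
  obtain ⟨f, f1, f2⟩ := Submodule.exists_dual_map_eq_bot_of_notMem (p := F ∙ v) (x := w)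
    (fun h => by
      obtain ⟨c, rfl⟩ := Submodule.mem_span_singleton.1 h
      exact hv ((W.smul_mem_iff fun e => w0 (by rw [e, zero_smul])).1 hw)) inferInstance
  have f3 : f v = 0 :=
    (Submodule.mem_bot F).1 (f2 ▸ Submodule.mem_map_of_mem (Submodule.mem_span_singleton_self v))
  refine ⟨LinearEquiv.transvection f3, fun e => hv ?_⟩
  have h2 : w + f w • v ∈ W := e ▸ (smul_mem_smul (g := LinearEquiv.transvection f3)).2 hw
  exact (W.smul_mem_iff f1).1 ((W.add_mem_iff_right hw).1 h2)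

theorem red (flg : FlgStmt.{u}) : RedStmt.{u, w} := by
  intro n F _ _ X _ _ _ x hn hc ⟨W, h0, h1, hW⟩
  have hj : dm W ≤ n := (Submodule.finrank_le W).trans (by simp)
  obtain ⟨A, B, D, ⟨-, -, hA, hB, -⟩, hP, tr⟩ := flg n F 0 0 (dm W) hn le_rfl (Nat.zero_le _) hj
  obtain rfl := Submodule.finrank_eq_zero.1 hA
  obtain rfl := Submodule.finrank_eq_zero.1 hB
  simp only [smul_bot, true_and] at hP
  have tr' : ∀ D', dm D' = dm W → ∃ g, slin n F g • D = D' := fun D' h =>
    (tr ⊥ ⊥ D' ⟨le_rfl, bot_le, hA, hA, h⟩).imp fun _ e => e.2.2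
  obtain ⟨g0, e0⟩ := tr' W rfl
  have hD : dm D = dm W := e0 ▸ (dm_smul _ D).symm
  have hK : stabilizer (Matrix.SpecialLinearGroup (Fin n) F) x = (stabilizer _ W).comap (slin n F) := by
    refine ((hc.le_iff.1 fun g hg => hW _ ⟨g, hg, rfl⟩).resolve_left fun e => ?_).symm
    obtain ⟨k, hk⟩ := exists_move h0 h1
    obtain ⟨g, hg⟩ := tr' (k • W) (dm_smul k W)
    have h2 : slin n F (g * g0⁻¹) • W = W := e.ge (Subgroup.mem_top (g * g0⁻¹))
    rw [map_mul, map_inv, mul_smul, inv_smul_eq_iff.2 e0.symm, hg] at h2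
    exact hk h2
  refine ⟨dm W, hj, funext fun g => congrArg Nat.cast (card_fixed Matrix.SpecialLinearGroup.toGL
    (x := x) (y := (Matrix.SpecialLinearGroup.toGL g0 : GL (Fin n) F ⧸ _)) (fun y => ?_)
    (fun g => ?_) g)⟩
  · obtain ⟨h, rfl⟩ := QuotientGroup.mk_surjective y
    obtain ⟨g, hg⟩ := tr' (lin n F h • D) ((dm_smul _ D).trans hD)
    refine ⟨g * g0⁻¹, QuotientGroup.eq.2 ((hP _).2 ?_)⟩
    beta_reduce
    rw [smul_eq_mul, ← map_mul, inv_mul_cancel_right, map_mul, map_inv, mul_smul, inv_smul_eq_iff]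
    exact hg.symm
  · rw [← mem_stabilizer_iff, hK, Quotient.smul_mk, eq_comm, QuotientGroup.eq, hP, smul_eq_mul,
      map_mul, map_mul, map_inv, mul_smul, mul_smul, inv_smul_eq_iff]
    change slin n F g • W = W ↔ slin n F g • slin n F g0 • D = slin n F g0 • D
    rw [e0]

theorem ct_eq (j s : ℕ) : ct 0 0 j 0 0 j s = j + 1 - s := by
  simp only [ct, zero_add, Finset.range_one, Finset.sum_singleton]
  rw [Finset.sum_eq_single 0 (fun b _ hb => by simp [hb]) (by simp),
    Finset.sum_eq_single 0 (fun b _ hb => by simp [hb]) (by simp), ← Finset.card_filter,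
    ← Nat.card_Ico]
  congr 1
  ext z
  simp only [Finset.mem_filter, Finset.mem_range, Finset.mem_Ico]
  omega

theorem num : NumStmt.{u} := by
  intro n F _ _ j N hn hj h3 hN
  rw [ct_eq] at h3
  have h1 := H75.index_parabolicGL (F := F) (sum_cmp (n := n) (by omega) le_rfl (Nat.zero_le j) hj)
  have h2 : Nat.card (GL (Fin n) F ⧸ parabolicGL n F (H79.R3.cmp n 0 0 j)) = N := by
    rw [piS, map_one, fixedPointCharacter, fixedBy_one_eq_univ, Nat.cast_inj] at hN
    rw [← hN, Nat.card_congr (Equiv.Set.univ _)]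
  obtain ⟨m, rfl⟩ := Nat.exists_eq_add_of_le' (show 4 ≤ n by omega)
  have h4 : ∏ s, H75.qfac (Nat.card F) (H79.R3.cmp (m + 4) 0 0 j s) =
      H75.qfac (Nat.card F) 2 * H75.qfac (Nat.card F) (m + 2) := by
    simp only [Fin.prod_univ_succ, H79.R3.cmp, Fin.val_zero, Fin.val_succ]
    obtain rfl | rfl : j = 2 ∨ j = m + 2 := by omega
    · simp [H75.qfac]
    · simp [H75.qfac, mul_comm]
  have hq : 1 ≤ Nat.card F := Nat.card_pos
  rw [h2, h4, show H75.qfac (Nat.card F) (m + 4) = _ from Finset.prod_range_succ _ _,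
    Finset.prod_range_succ, ← mul_assoc, mul_assoc _ _ (∑ _ ∈ _, _), mul_comm] at h1
  have h5 := Nat.eq_of_mul_eq_mul_left (H75.qfac_pos _) h1
  rw [H75.pow_sub_one_eq hq, H75.pow_sub_one_eq hq, H75.pow_sub_one_eq hq]
  rw [show H75.qfac (Nat.card F) 2 = ∑ l ∈ Finset.range (1 + 1), Nat.card F ^ l by
    simp [H75.qfac, Finset.prod_range_succ]] at h5
  calc _ = (Nat.card F - 1) ^ 2 * (N * ∑ l ∈ Finset.range (1 + 1), Nat.card F ^ l) := by ring
    _ = _ := by rw [h5, show m + 4 - 1 = m + 2 + 1 from rfl]; ring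

end Cfsg.Agent.H69.R3Red
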