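import Cfsg.Agent.H79.RbDefs

/-! The action of the neutral fermions on Schur's `Q`-functions, and their orthogonality. -/

set_option autoImplicit false

namespace Cfsg.Agent.H69.RbA

open Finset Cfsg.Agent.H79.RB

theorem anti (hc : CarStmt) {a b : ℤ} (h : a + b ≠ 0) (P : Fk) :
    phi a (phi b P) = -phi b (phi a P) := by
  have := hc a b P
  rw [if_neg h] at this
  exact eq_neg_of_add_eq_zero_left this

theorem top (hc : CarStmt) {m : ℕ} {P : Fk} (h : phi (-(m : ℤ)) P = 0) :
    phi (-(m : ℤ)) (phi m P) = (2 * (-1 : ℂ) ^ m) • P := by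
  have := hc (-(m : ℤ)) m P
  rwa [if_pos (neg_add_cancel _), h, map_zero, add_zero, Int.natAbs_neg, Int.natAbs_natCast] at this

theorem actStmt (hb : BasicStmt) (hc : CarStmt) : ActStmt := by
  obtain ⟨-, -, q0, -, -, -, -, -, -, h1, -, he, hi⟩ := hb
  intro S
  induction S using Finset.induction_on_max with
  | empty =>
    intro _
    refine ⟨by rw [he, h1, qz, if_pos le_rfl, Int.toNat_zero, q0, card_empty, pow_zero, one_smul],
      fun x hx => ⟨fun h => absurd h (notMem_empty x), fun _ => ⟨1, Or.inl rfl, ?_⟩, fun _ => ?_,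
        fun h => absurd h (notMem_empty x)⟩⟩
    · rw [hi ∅ x fun y hy => absurd hy (notMem_empty y), one_smul]
    · rw [he, h1, qz, if_neg (by omega)]
  | insert m S hm ih =>
    intro h0
    have m0 : 0 < m := Nat.pos_of_ne_zero fun e => h0 (e ▸ mem_insert_self _ _)
    have mS : m ∉ S := fun h => lt_irrefl _ (hm m h)
    obtain ⟨i0, ih⟩ := ih fun h => h0 (mem_insert_of_mem h)
    rw [hi S m hm]
    refine ⟨?_, fun x hx => ⟨fun h => ?_, fun h => ?_, fun h => ?_, fun h => ?_⟩⟩
    · rw [anti hc (by omega), i0, map_smul, card_insert_of_notMem mS, pow_succ, mul_neg_one,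
        neg_smul]
    · rcases mem_insert.1 h with rfl | h
      · have := anti hc (a := x) (b := x) (by omega) (QS S)
        have h2 : (2 : ℂ) • phi x (phi x (QS S)) = 0 := by
          rw [two_smul]; exact add_eq_zero_iff_eq_neg.2 this
        exact (smul_eq_zero.1 h2).resolve_left two_ne_zero
      · rw [anti hc (by omega), (ih x hx).1 h, map_zero, neg_zero]
    · rw [mem_insert, not_or] at h
      rcases lt_or_gt_of_ne h.1 with h2 | h2
      · obtain ⟨ε, hε, e⟩ := (ih x hx).2.1 h.2
        refine ⟨-ε, by rcases hε with rfl | rfl <;> simp, ?_⟩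
        rw [anti hc (by omega), e, map_smul, ← hi _ m (fun y hy => by
          rcases mem_insert.1 hy with rfl | hy
          exacts [h2, hm y hy]), insert_comm, neg_smul]
      · refine ⟨1, Or.inl rfl, ?_⟩
        rw [one_smul, hi (insert m S) x (fun y hy => by
          rcases mem_insert.1 hy with rfl | hy
          exacts [h2, (hm y hy).trans h2]), hi S m hm]
    · rw [mem_insert, not_or] at h
      rw [anti hc (by omega), (ih x hx).2.2.1 h.2, map_zero, neg_zero]
    · rcases mem_insert.1 h with rfl | h
      · exact ⟨(-1) ^ x, neg_one_pow_eq_or ℂ x, by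
          rw [top hc ((ih x hx).2.2.1 mS), erase_insert mS]⟩
      · obtain ⟨ε, hε, e⟩ := (ih x hx).2.2.2 h
        have := hm x h
        refine ⟨-ε, by rcases hε with rfl | rfl <;> simp, ?_⟩
        rw [anti hc (by omega), e, map_smul, ← hi _ m fun y hy => hm y (mem_of_mem_erase hy),
          erase_insert_of_ne this.ne', mul_neg, neg_smul]

theorem orthStmt (hb : BasicStmt) (hc : CarStmt) (ha : AdjStmt) : OrthStmt := by
  have act := actStmt hb hc
  obtain ⟨-, -, -, -, -, -, -, -, -, -, -, he, hi⟩ := hb
  have adj := ha.2.2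
  intro S
  induction S using Finset.induction_on_max with
  | empty =>
    intro T _ hT
    induction T using Finset.induction_on_max with
    | empty =>
      rw [if_pos rfl, he, card_empty, pow_zero]
      have := ip_monomial 0 1
      rw [MvPolynomial.monomial_zero', MvPolynomial.C_1] at this
      rw [this]
      simp [nrm]
    | insert m T hm _ =>
      have m0 : 0 < m := Nat.pos_of_ne_zero fun e => hT (e ▸ mem_insert_self _ _)
      rw [if_neg (insert_ne_empty m T).symm, hi T m hm, ip_comm, adj,
        ((act ∅ (notMem_empty 0)).2 m m0).2.2.1 (notMem_empty m), map_zero, mul_zero]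
  | insert m S hm ih =>
    intro T h0 hT
    have m0 : 0 < m := Nat.pos_of_ne_zero fun e => h0 (e ▸ mem_insert_self _ _)
    have mS : m ∉ S := fun h => lt_irrefl _ (hm m h)
    have S0 : 0 ∉ S := fun h => h0 (mem_insert_of_mem h)
    split_ifs with h
    · subst h
      rw [hi S m hm, adj, top hc (((act S S0).2 m m0).2.2.1 mS), map_smul, ih S S0 S0, if_pos rfl,
        card_insert_of_notMem mS, Int.natAbs_natCast, smul_eq_mul]
      rcases neg_one_pow_eq_or ℂ m with e | e <;> rw [e] <;> ring
    · rw [hi S m hm, adj]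
      by_cases hmT : m ∈ T
      · obtain ⟨ε, -, e⟩ := ((act T hT).2 m m0).2.2.2 hmT
        rw [e, map_smul, ih _ S0 fun h => hT (mem_of_mem_erase h),
          if_neg fun e' => h (by rw [e', insert_erase hmT]), smul_zero, mul_zero]
      · rw [((act T hT).2 m m0).2.2.1 hmT, map_zero, mul_zero]

end Cfsg.Agent.H69.RbA
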