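import Cfsg.Agent.H54.RfKitP

/-! # Standard subgroups of type `²F₄(q)`: the action of `U₁` on `P₇` -/

set_option autoImplicit false
set_option linter.unusedSimpArgs false
set_option linter.unnecessarySeqFocus false
set_option linter.unusedSectionVars false

namespace Cfsg.Agent.H69.RfA2

open Cfsg Cfsg.Agent.H15.O8 Cfsg.Agent.H39 Cfsg.Agent.H36.O8T Subgroup Cfsg.Agent.H54.RF
open scoped commutatorElement

universe u v

variable {K : Type*} [Field K] {T : Tits K} {G : Type*} [Group G] {M : FF T G} {t : G}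
  {p r : K → G}

/-- The expected main part of the conjugate. -/
def II (M : FF T G) (r : K → G) (c b : K) : G :=
  P7 M r b * P3 M r (T.θ c * b) * r (c * T.θ b)

/-- The conjugate. -/
def JJ (M : FF T G) (r : K → G) (c b : K) : G :=
  M.φ (x1 T c) * P7 M r b * (M.φ (x1 T c))⁻¹

theorem x17 (c b : K) : x1 T c * x7 T b * (x1 T c)⁻¹ =
    x7 T b * x3 T (T.θ c * b) * x5 T (c * T.θ b) := by
  ext <;> o8s <;> o8ring T

theorem x16 (c b : K) : x1 T c * x6 T b * (x1 T c)⁻¹ = x6 T b * x4 T (c * b) := by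
  ext <;> o8s <;> o8ring T

theorem y25 (w b : K) : y2 T w * x5 T b * (y2 T w)⁻¹ = x5 T b * x4 T (w * b) := by
  ext <;> o8s <;> o8ring T

theorem c12 (c w : K) : y2 T w * x1 T c = x1 T c * y2 T w := by
  ext <;> o8s

theorem mulY {g k : U T} (hg : g ∈ Y T) (hk : k ∈ Y T) :
    (g * k).a4 = g.a4 + k.a4 ∧ (g * k).a6 = g.a6 + k.a6 ∧ (g * k).a7 = g.a7 + k.a7 := by
  obtain ⟨g1, g2, g3, g4, g5, g6, g7⟩ := hg
  obtain ⟨k1, k2, k3, k4, k5, k6, k7⟩ := hk
  o8s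
  simp only [g1, g2, g3, g4, g5, g6, g7, k1, k2, k3, k4, k5, k6, k7, map_zero, mul_zero, zero_mul,
    add_zero, ne_eq, OfNat.ofNat_ne_zero, not_false_eq_true, zero_pow]
  exact ⟨add_comm _ _, add_comm _ _, add_comm _ _⟩

theorem conj7 {g : U T} (hg : g ∈ Y T) (c : K) : (x1 T c * g * (x1 T c)⁻¹).a7 = g.a7 := by
  obtain ⟨g1, g2, g3, g4, g5, g6, g7⟩ := hg
  o8s
  simp only [g1, g2, g3, g4, g5, g6, g7, map_zero, mul_zero, zero_mul,
    add_zero, ne_eq, OfNat.ofNat_ne_zero, not_false_eq_true, zero_pow]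

theorem tor_a3 (d : Kˣ × Kˣ) (g : U T) : (tor T d g).a3 = wt3 T d * g.a3 := by
  rw [tor_apply]; simp [sc, wt3, div_eq_mul_inv]
theorem tor_a4 (d : Kˣ × Kˣ) (g : U T) : (tor T d g).a4 = d.1 * T.θ d.1 * g.a4 := rfl
theorem tor_a5 (d : Kˣ × Kˣ) (g : U T) : (tor T d g).a5 = d.1 * d.2 * g.a5 := rfl
theorem tor_a6 (d : Kˣ × Kˣ) (g : U T) : (tor T d g).a6 = d.2 * T.θ d.2 * g.a6 := rfl
theorem tor_a7 (d : Kˣ × Kˣ) (g : U T) : (tor T d g).a7 = wt7 T d * g.a7 := by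
  rw [tor_apply]; simp [sc, wt7, div_eq_mul_inv]

theorem conj_mul (g a b : G) : g * (a * b) * g⁻¹ = g * a * g⁻¹ * (g * b * g⁻¹) := by group

theorem conj_φ (u w : U T) : M.φ u * M.φ w * (M.φ u)⁻¹ = M.φ (u * w * u⁻¹) := by
  rw [map_mul, map_mul, map_inv]

section

variable (h : HR M t p r)
include h

theorem Y7 (a : K) {u : U T} (hu : u ∈ Y T) : Commute (P7 M r a) (M.φ u) :=
  h.cen7 a ⟨hu.1, hu.2.1, hu.2.2.1, hu.2.2.2.1⟩

theorem Y3 (a : K) {u : U T} (hu : u ∈ Y T) : Commute (P3 M r a) (M.φ u) :=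
  h.cen3 a ⟨hu.2.2.2.2.2.1, hu.2.2.2.2.2.2⟩ hu.2.2.2.2.1

theorem Y5 (a : K) {u : U T} (hu : u ∈ Y T) : Commute (r a) (M.φ u) :=
  h.rcen a u ⟨hu.2.1, hu.2.2.2.2.2.1⟩

theorem YI (c b : K) {u : U T} (hu : u ∈ Y T) : Commute (II M r c b) (M.φ u) :=
  ((Y7 h _ hu).mul_left (Y3 h _ hu)).mul_left (Y5 h _ hu)

theorem YJ (c b : K) {u : U T} (hu : u ∈ Y T) : Commute (JJ M r c b) (M.φ u) := by
  have := comm_conj (Y7 h b (nY.conj_mem _ hu (x1 T c)⁻¹)) (M.φ (x1 T c))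
  have e : ∀ a : U T, a * (a⁻¹ * u * a⁻¹⁻¹) * a⁻¹ = u := fun a => by
    simp only [inv_inv, mul_assoc, mul_inv_cancel, mul_one, mul_inv_cancel_left]
  have e' : M.φ (x1 T c) * M.φ ((x1 T c)⁻¹ * u * (x1 T c)⁻¹⁻¹) * (M.φ (x1 T c))⁻¹ = M.φ u :=
    (conj_φ _ _).trans (congrArg M.φ (e _))
  exact e' ▸ this

theorem x1P3 (c a : K) : M.φ (x1 T c) * P3 M r a * (M.φ (x1 T c))⁻¹ = P3 M r a :=
  conj_eq_iff.2 (h.cen3 a (u := x1 T c) ⟨rfl, rfl⟩ rfl).symm

theorem x1r (c a : K) : M.φ (x1 T c) * r a * (M.φ (x1 T c))⁻¹ = r a :=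
  conj_eq_iff.2 (h.rcen a (x1 T c) ⟨rfl, rfl⟩).symm

theorem I_tor (d : Kˣ × Kˣ) (c b : K) :
    M.h d * II M r c b * (M.h d)⁻¹ = II M r (wt1 T d * c) (wt7 T d * b) := by
  have e1 := congrArg Units.val (i17a (T := T) d)
  have e2 := congrArg Units.val (i17b (T := T) d)
  simp only [Units.val_mul, θu_val] at e1 e2
  rw [II, conj_mul, conj_mul, h.tor7, h.tor3, h.rtor, e1, e2, II, map_mul, map_mul]
  congr 2
  · congr 1; ring
  · ring

theorem J_tor (d : Kˣ × Kˣ) (c b : K) :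
    M.h d * JJ M r c b * (M.h d)⁻¹ = JJ M r (wt1 T d * c) (wt7 T d * b) := by
  rw [JJ, JJ, ← h.tor7, ← tor_x1, ← M.hφ]; group

variable (hc : Ctx M t) (g37 : ∀ a b, Commute (P3 M r a) (P7 M r b))
include hc

theorem J_add (c b b' : K) : JJ M r c (b + b') = JJ M r c b * JJ M r c b' := by
  rw [JJ, (h.f7 hc).add, conj_mul]; rfl

include g37

theorem I_add (c b b' : K) : II M r c (b + b') = II M r c b * II M r c b' := by
  simp only [II, map_add, mul_add, (h.f7 hc).add, (h.f3 hc).add, h.radd, mul_assoc,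
    (g37 _ _).left_comm, (h.c57 _ _).left_comm, (h.c35 _ _).symm.left_comm]

theorem I_zero (c : K) : II M r c 0 = 1 := by
  simp only [II, map_zero, mul_zero, (h.f7 hc).zero, (h.f3 hc).zero, h.f5.zero, mul_one]

theorem I_sq (c b : K) : II M r c b * II M r c b = 1 := by
  rw [← I_add h hc g37, add_self (T := T), I_zero h hc g37]

theorem I_mov (c b : K) : II M r c b * t * (II M r c b)⁻¹ =
    t * M.φ (x7 T b * x3 T (T.θ c * b) * x5 T (c * T.θ b)) := by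
  have k : ∀ {a x y : G} , a * t * a⁻¹ = t * x → Commute a y → a * (t * y) * a⁻¹ = t * (x * y) :=
    fun e1 e2 => by rw [conj_mul, e1, conj_eq_iff.2 e2, mul_assoc]
  have e1 := k ((h.f3 hc).mov (T.θ c * b)) (Y3 h _ (u := x5 T (c * T.θ b)) (by o8s))
  have e2 := k ((h.f7 hc).mov b)
    (Y7 h _ (u := x3 T (T.θ c * b) * x5 T (c * T.θ b)) (by o8s))
  rw [mul_assoc (x7 T b), map_mul, ← e2, map_mul, ← e1, ← h.rmov, II]; group

end

section

variable [Finite K] [Finite G] (h : HR M t p r) (hc : Ctx2 M t)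
  (g37 : ∀ a b, Commute (P3 M r a) (P7 M r b))
include h hc g37

theorem ex_y (c b : K) : ∃ y ∈ Y T, JJ M r c b = II M r c b * M.φ y := by
  by_cases hb : b = 0
  · refine ⟨1, one_mem _, ?_⟩
    rw [hb, I_zero h hc.toCtx g37, JJ, (h.f7 hc.toCtx).zero]; simp
  obtain ⟨y, hy, -, e⟩ := hc.pair (A := Y T) (i := II M r c b) (j := JJ M r c b)
    (W_le_R.trans R_le_Y) cenY (I_sq h hc.toCtx g37 c b) (conj_sq ((h.f7 hc.toCtx).sq b) _)
    (I_mov h hc.toCtx g37 c b) (by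
      have e1 := conj_eq_iff.2 (hc.tφ (x1 T c))
      have e2 := conj_eq_iff.2 (hc.tφ (x1 T c)).inv_left
      rw [← x17, ← conj_φ]
      calc _ = M.φ (x1 T c) * (P7 M r b * ((M.φ (x1 T c))⁻¹ * t * (M.φ (x1 T c))⁻¹⁻¹) *
            (P7 M r b)⁻¹) * (M.φ (x1 T c))⁻¹ := by rw [JJ]; group
        _ = _ := by rw [e2, (h.f7 hc.toCtx).mov, conj_mul, e1])
    (fun e => hb (by have := congrArg U.a7 e; o8s at this; exact this))
    (fun a ha => YI h c b ha) (fun a ha => YJ h c b ha)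
    (fun k hk => (((h.f7 hc.toCtx).odd _ k hk).mul_left ((h.f3 hc.toCtx).odd _ k hk)).mul_left
      (h.rodd _ k hk))
  exact ⟨y, hy, e⟩

/-- The shape of the correction. -/
theorem shape : ∃ k3 e', ∀ c b, JJ M r c b =
    II M r c b * M.φ (x3 T (k3 * (T.θ c * b)) * x5 T (e' * (c * T.θ b))) := by
  choose y hy e using ex_y h hc g37
  have uq : ∀ {c b u}, JJ M r c b = II M r c b * M.φ u → y c b = u := fun k =>
    M.inj (mul_left_cancel ((e _ _).symm.trans k))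
  have add : ∀ c b b', y c (b + b') = y c b * y c b' := fun c b b' => uq (by
    rw [J_add h hc.toCtx, I_add h hc.toCtx g37, e, e, map_mul]
    simp only [mul_assoc, (YI h c b' (hy c b)).symm.left_comm])
  have tr : ∀ d c b, y (wt1 T d * c) (wt7 T d * b) = tor T d (y c b) := fun d c b => uq (by
    rw [← J_tor h, ← I_tor h, e, conj_mul, M.hφ])
  have z1 : ∀ b, y 0 b = 1 := fun b => uq (by
    simp [JJ, II, x1_zero, (h.f3 hc.toCtx).zero, h.f5.zero])
  have z2 : ∀ c, y c 0 = 1 := fun c => uq (by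
    rw [I_zero h hc.toCtx g37, JJ, (h.f7 hc.toCtx).zero]; simp)
  have addc : ∀ c c' b, y (c + c') b = y c b * (x1 T c * y c' b * (x1 T c)⁻¹) := fun c c' b => uq (by
    have : JJ M r (c + c') b = M.φ (x1 T c) * JJ M r c' b * (M.φ (x1 T c))⁻¹ := by
      rw [JJ, JJ, x1_add, map_mul]; group
    rw [this, e c', II, conj_mul, conj_mul, conj_mul, x1P3 h, x1r h, conj_φ, ← JJ, e c,
      map_mul M.φ (y c b)]
    simp only [II, map_add, add_mul, (h.f3 hc.toCtx).add, h.radd, mul_assoc,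
      (Y3 h _ (hy c b)).symm.left_comm, (Y5 h _ (hy c b)).symm.left_comm,
      (h.c35 _ _).symm.left_comm])
  have tr1 : ∀ d, y (wt1 T d) (wt7 T d) = tor T d (y 1 1) := fun d => by simpa using tr d 1 1
  have trα : ∀ (α : Kˣ) c, y c (T.θ α) = tor T (α, α) (y c 1) := fun α c => by
    have := tr (α, α) c 1
    rwa [show wt1 T (α, α) = 1 from div_self' _, show wt7 T (α, α) = θu T α from
      mul_div_cancel_left _ _, Units.val_one, one_mul, mul_one] at this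
  have hz : ∀ f : K → K, (∀ a b, f (a + b) = f a + f b) →
      (∀ α : Kˣ, f (T.θ α) = α * T.θ α * f 1) → ∀ a, f a = 0 := fun f f1 f2 =>
    hom_zero (fun α : Kˣ => T.θ α) (fun α : Kˣ => α * T.θ α) f f1 f2
      (fun c hc0 => by
        obtain ⟨a, ea⟩ := θu_surj (T := T) (Units.mk0 c hc0)
        exact ⟨a, congrArg Units.val ea⟩)
      (by
        obtain ⟨a, h0, h1, h2⟩ := N_not_add (T := T) hc.q2
        exact ⟨Units.mk0 a h0, 1, Units.mk0 _ h1, by simp, by simpa using h2⟩)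
  have y4 : ∀ c b, (y c b).a4 = 0 := fun c =>
    hz (fun b => (y c b).a4) (fun a b => by rw [add]; exact (mulY (hy _ _) (hy _ _)).1)
      fun α => by rw [trα, tor_a4]
  have y6 : ∀ c b, (y c b).a6 = 0 := fun c =>
    hz (fun b => (y c b).a6) (fun a b => by rw [add]; exact (mulY (hy _ _) (hy _ _)).2.1)
      fun α => by rw [trα, tor_a6]
  have y3 : ∀ c b, c ≠ 0 → b ≠ 0 → (y c b).a3 = (y 1 1).a3 * (T.θ c * b) := fun c b =>
    hom_pair (wt1 T) (wt7 T) (wt3 T) w17 (fun c b => T.θ c * b)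
      (fun d => congrArg Units.val (i17a d)) (fun c b => (y c b).a3)
      (fun d => by rw [tr1, tor_a3])
  have y5 : ∀ c b, c ≠ 0 → b ≠ 0 → (y c b).a5 = (y 1 1).a5 * (c * T.θ b) := fun c b =>
    hom_pair (wt1 T) (wt7 T) (fun d => d.1 * d.2) w17 (fun c b => c * T.θ b)
      (fun d => congrArg Units.val (i17b d)) (fun c b => (y c b).a5)
      (fun d => by rw [tr1, tor_a5]; rfl)
  have y7 : ∀ c b, c ≠ 0 → b ≠ 0 → (y c b).a7 = (y 1 1).a7 * b := fun c b =>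
    hom_pair (wt1 T) (wt7 T) (wt7 T) w17 (fun _ b => b) (fun _ => rfl) (fun c b => (y c b).a7)
      (fun d => by rw [tr1, tor_a7])
  have k7 : (y 1 1).a7 = 0 := by
    obtain ⟨a, h0, h1, -⟩ := N_not_add (T := T) hc.q2
    have := congrArg U.a7 (addc a 1 1)
    rw [(mulY (hy _ _) (nY.conj_mem _ (hy _ _) _)).2.2, conj7 (hy _ _), y7 _ _ h1 one_ne_zero,
      y7 _ _ h0 one_ne_zero] at this
    linear_combination -this
  refine ⟨(y 1 1).a3, (y 1 1).a5, fun c b => ?_⟩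
  rw [e]
  congr 2
  by_cases h0 : c = 0
  · simp [h0, z1, x3_zero, x5_zero]
  by_cases h1 : b = 0
  · simp [h1, z2, x3_zero, x5_zero]
  rw [eq_Y (hy c b), y3 c b h0 h1, y5 c b h0 h1, y4, y6, y7 c b h0 h1, k7]
  simp [x4_zero, x6_zero, x7_zero]

omit [Finite K] [Finite G] hc in
theorem k3_zero {k3 e' : K} (e : ∀ c b, JJ M r c b =
    II M r c b * M.φ (x3 T (k3 * (T.θ c * b)) * x5 T (e' * (c * T.θ b)))) : k3 = 0 := by
  have e1 := e 1 1
  simp only [map_one, mul_one, II, map_mul] at e1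
  have n1 := n1_inv M.toPF
  have e2 : M.n1 * JJ M r 1 1 * M.n1 = JJ M r 1 1 := by
    calc _ = (M.n1 * M.φ (x1 T 1) * M.n1) * P3 M r 1 * (M.n1 * M.φ (x1 T 1) * M.n1)⁻¹ := by
          rw [JJ, ← n1_P3]; simp only [mul_inv_rev, n1, mul_assoc]
      _ = M.φ (x1 T 1) * (M.n1 * (M.φ (x1 T 1) * P3 M r 1 * (M.φ (x1 T 1))⁻¹) * M.n1) *
          (M.φ (x1 T 1))⁻¹ := by rw [braid1]; simp only [mul_inv_rev, n1, mul_assoc]
      _ = _ := by rw [x1P3 h]; rfl
  rw [e1] at e2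
  simp only [conj_mul' M.n1n1, n1_P7, n1_P3, h.n1_r, n1_x3, n1_x5] at e2
  rw [(g37 1 1).eq] at e2
  have := congrArg U.a3 (M.inj (mul_right_cancel (mul_left_cancel e2)))
  exact this.symm

omit [Finite K] [Finite G] g37 in
theorem e_eq {e e' : K} (a1 : A1 M p r e) (k : ∀ c b, JJ M r c b =
    II M r c b * M.φ (x5 T (e' * (c * T.θ b)))) : e' = e := by
  have e1 := k 1 1
  simp only [map_one, mul_one, II] at e1
  have e2 := h.y2P7 a1 1 1
  simp only [map_one, mul_one] at e2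
  have e3 : M.φ (y2 T 1) * JJ M r 1 1 * (M.φ (y2 T 1))⁻¹ =
      M.φ (x1 T 1) * (M.φ (y2 T 1) * P7 M r 1 * (M.φ (y2 T 1))⁻¹) * (M.φ (x1 T 1))⁻¹ := by
    have := (φ_comm M).2 (c12 (T := T) 1 1)
    calc _ = M.φ (y2 T 1) * M.φ (x1 T 1) * P7 M r 1 * (M.φ (y2 T 1) * M.φ (x1 T 1))⁻¹ := by
          rw [JJ]; group
      _ = _ := by rw [this.eq]; group
  rw [e2, conj_mul, conj_mul, conj_mul (M.φ (x1 T 1)), x1r h, h.line, conj_φ, x16, ← JJ, e1,
    conj_mul, conj_mul, conj_mul, e2, h.ry2, conj_φ, y25,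
    conj_eq_iff.2 (h.cen3 1 (u := y2 T 1) ⟨rfl, rfl⟩ rfl).symm] at e3
  have c1 : ∀ a, Commute (M.φ (x6 T a)) (r 1) := fun a => (Y5 h 1 (by o8s)).symm
  have c2 : ∀ a, Commute (M.φ (x6 T a)) (P3 M r 1) := fun a => (Y3 h 1 (by o8s)).symm
  have c3 : ∀ a, Commute (M.φ (x4 T a)) (r 1) := fun a => (Y5 h 1 (by o8s)).symm
  have c4 : ∀ a, Commute (M.φ (x5 T a)) (r 1) := fun a => (Y5 h 1 (by o8s)).symm
  have c5 : ∀ a, Commute (M.φ (x5 T a)) (P6 M p 1) := fun a => (h.cen6 1 rfl).symm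
  have c6 : ∀ a b, Commute (M.φ (x6 T a)) (M.φ (x5 T b)) := fun a b =>
    (φ_comm M).2 (by ext <;> o8s)
  simp only [mul_one, one_mul, map_mul, mul_assoc, (c1 _).left_comm, (c2 _).left_comm,
    (c3 _).left_comm, (c3 _).eq, (c4 _).left_comm, (c5 _).left_comm, (c6 _ _).left_comm,
    (h.pφ _ _).symm.left_comm, (h.c36 _ _).symm.left_comm, (h.c56 _ _).symm.left_comm,
    (h.c35 _ _).symm.left_comm, (h.c45 _ _).left_comm, (h.c46 _ _).left_comm,
    mul_left_cancel_iff] at e3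
  exact congrArg U.a4 (M.inj e3)

end

theorem act2 : Act2Stmt.{u, v} := by
  intro K _ _ T G _ _ M t hc p r e h a1 c0 ε g
  obtain ⟨k3, e', k⟩ := shape h hc g.g37
  have h3 := k3_zero h g.g37 k
  simp only [h3, zero_mul, x3_zero, one_mul] at k
  have h5 := e_eq h hc a1 k
  intro c b
  rw [mul_assoc e, ← h5]
  exact k c b

end Cfsg.Agent.H69.RfA2
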