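import Cfsg.Agent.H74.RuDefs

/-!
# Project RU, piece IRR: additive subgroups invariant under squares or cubes
-/

set_option autoImplicit false

namespace Cfsg.Agent.H69.RuIrr

open Cfsg.Agent.H74.Ru

/-- The multipliers of an additive subgroup. -/
def mulr {F : Type} [Field F] (A : AddSubgroup F) : Subring F where
  carrier := {c | ∀ a ∈ A, c * a ∈ A}
  mul_mem' := fun {c d} hc hd a ha => by rw [mul_assoc]; exact hc _ (hd a ha)
  one_mem' := fun a ha => by rwa [one_mul]
  add_mem' := fun {c d} hc hd a ha => by rw [add_mul]; exact A.add_mem (hc a ha) (hd a ha)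
  zero_mem' := fun a _ => by rw [zero_mul]; exact A.zero_mem
  neg_mem' := fun {c} hc a ha => by rw [neg_mul]; exact A.neg_mem (hc a ha)

theorem inv_mem {F : Type} [Field F] [Fintype F] (R : Subring F) {x : F} (hx : x ∈ R)
    (h0 : x ≠ 0) : x⁻¹ ∈ R := by
  have h1 := FiniteField.pow_card_sub_one_eq_one x h0
  have h2 : 1 < Fintype.card F := Fintype.one_lt_card
  obtain ⟨k, hk⟩ : ∃ k, Fintype.card F - 1 = k + 1 := ⟨Fintype.card F - 2, by omega⟩
  rw [hk, pow_succ] at h1
  rw [← eq_inv_of_mul_eq_one_left h1]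
  exact R.pow_mem hx k

theorem sq_le {F : Type} [Field F] [Fintype F] (R : Subring F) {x : F} (hx : x ∉ R) :
    Nat.card R * Nat.card R ≤ Fintype.card F := by
  rw [← Nat.card_prod, ← Nat.card_eq_fintype_card]
  refine Nat.card_le_card_of_injective (fun p : R × R => (p.1 : F) + p.2 * x) ?_
  rintro ⟨a, b⟩ ⟨a', b'⟩ e
  have e : (a : F) + b * x = a' + b' * x := e
  by_cases hb : (b : F) - b' = 0
  · have hb' : (b : F) = b' := sub_eq_zero.1 hb
    rw [hb', add_left_inj] at e
    exact Prod.ext (Subtype.ext e) (Subtype.ext hb')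
  · refine absurd ?_ hx
    have : x = ((a' : F) - a) * ((b : F) - b')⁻¹ := by
      rw [eq_mul_inv_iff_mul_eq₀ hb]
      linear_combination e
    rw [this]
    exact R.mul_mem (R.sub_mem a'.2 a.2) (inv_mem R (R.sub_mem b.2 b'.2) hb)

theorem count {F : Type} [Field F] [Fintype F] (R : Subring F) {j : ℕ} (hj : 0 < j)
    (h : ∀ c : F, c ≠ 0 → c ^ j ∈ R) : Fintype.card F - 1 ≤ j * (Nat.card R - 1) := by
  classical
  have h1 := Finset.card_le_mul_card_image_of_maps_to (f := fun c : F => c ^ j)
    (s := Finset.univ.erase 0) (t := (Finset.univ.filter (· ∈ R)).erase 0)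
    (fun c hc => by
      have := Finset.ne_of_mem_erase hc
      exact Finset.mem_erase.2 ⟨pow_ne_zero _ this, by simpa using h c this⟩) j
    (fun b _ => by
      refine le_trans (Finset.card_le_card (t := (Polynomial.nthRoots j b).toFinset) ?_)
        ((Multiset.toFinset_card_le _).trans (Polynomial.card_nthRoots j b))
      intro c hc
      rw [Multiset.mem_toFinset, Polynomial.mem_nthRoots hj]
      exact (Finset.mem_filter.1 hc).2)
  rw [Finset.card_erase_of_mem (Finset.mem_univ _), Finset.card_univ,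
    Finset.card_erase_of_mem (by simp)] at h1
  rwa [Nat.card_eq_fintype_card, Fintype.card_subtype]

theorem irr : IrrStmt := by
  intro F _ _ q j hF hq hj A hA
  rw [or_iff_not_imp_left]
  intro h0
  obtain ⟨⟨a, ha⟩, ha0⟩ := AddSubgroup.ne_bot_iff_exists_ne_zero.1 h0
  have ha0 : a ≠ 0 := fun e => ha0 (Subtype.ext e)
  have key : ∀ x, x ∈ mulr A := fun x => by
    by_contra hx
    have h1 := sq_le _ hx
    have h2 := count (mulr A) (j := j) (by omega) fun c hc => hA (Units.mk0 c hc)
    rw [hF] at h1 h2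
    generalize Nat.card (mulr A) = r at h1 h2
    have h3 : r ≤ q := by
      by_contra h
      have : (q + 1) * (q + 1) ≤ r * r := Nat.mul_le_mul (by omega) (by omega)
      nlinarith
    have h4 : j * (r - 1) ≤ 3 * (q - 1) := Nat.mul_le_mul (by omega) (by omega)
    have h5 : 3 * q ≤ q ^ 2 := by nlinarith
    omega
  rw [eq_top_iff]
  intro x _
  have := key (x * a⁻¹) a ha
  rwa [inv_mul_cancel_right₀ ha0] at this

end Cfsg.Agent.H69.RuIrr
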