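import Cfsg.Agent.H74.RuDefs
import Cfsg.Agent.H29.RH

/-!
# Project RU, piece KLEIN: the orbit count
-/

set_option autoImplicit false

namespace Cfsg.Agent.H69.RuKlein

open MulAction Cfsg.Agent.H74.Ru

theorem arith1 {n m1 m2 m3 s2 s3 : ℕ} (h1 : m1 * 2 = n) (h2 : m2 * s2 = n) (h3 : m3 * s3 = n)
    (a2 : 2 ≤ s2) (a3 : 4 ≤ s3) (h : m1 + m2 + m3 = n + 2) : m3 ≤ 2 ∨ m3 = 6 ∨ m3 = 12 := by
  have b3 : m3 * 4 ≤ n := h3 ▸ Nat.mul_le_mul_left m3 a3
  have c2 : s2 ≤ 3 := by
    by_contra hne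
    have b2 : m2 * 4 ≤ n := h2 ▸ Nat.mul_le_mul_left m2 (by omega)
    omega
  rcases (show s2 = 2 ∨ s2 = 3 by omega) with rfl | rfl
  · omega
  · have c3 : s3 ≤ 5 := by
      by_contra hne
      have b3 : m3 * 6 ≤ n := h3 ▸ Nat.mul_le_mul_left m3 (by omega)
      omega
    interval_cases s3 <;> omega

theorem arith {n m1 m2 m3 s1 s2 s3 : ℕ} (h1 : m1 * s1 = n) (h2 : m2 * s2 = n) (h3 : m3 * s3 = n)
    (a1 : 2 ≤ s1) (a2 : 2 ≤ s2) (a3 : 4 ≤ s3) (h : m1 + m2 + m3 = n + 2) :
    m3 ≤ 2 ∨ m3 = 6 ∨ m3 = 12 := by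
  by_cases e1 : s1 = 2
  · subst e1
    exact arith1 h1 h2 h3 a2 a3 h
  by_cases e2 : s2 = 2
  · subst e2
    exact arith1 h2 h1 h3 a1 a3 (by omega)
  have b1 : m1 * 3 ≤ n := h1 ▸ Nat.mul_le_mul_left m1 (by omega)
  have b2 : m2 * 3 ≤ n := h2 ▸ Nat.mul_le_mul_left m2 (by omega)
  have b3 : m3 * 4 ≤ n := h3 ▸ Nat.mul_le_mul_left m3 a3
  omega

theorem klein : KleinStmt := by
  classical
  intro M X _ _ _ hfix Ω _ hinv h4
  obtain ⟨R, hR, hcov, hsum⟩ := H29.rh_count (G := M) (X := X) (fun _ => ⊥) (fun _ => bot_le)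
    (fun _ _ => rfl) (fun g hg => Set.finite_of_ncard_ne_zero (by rw [hfix g hg]; decide))
    (fun g hg => by simp [hfix g hg, hg])
  simp only [Subgroup.card_bot, Nat.cast_one, mul_one] at hsum
  have hc : ∀ r : X, (stabilizer M r).index * Nat.card (stabilizer M r) = Nat.card M :=
    fun r => (stabilizer M r).index_mul_card
  have h2 : ∀ r ∈ R, 2 ≤ Nat.card (stabilizer M r) := fun r hr =>
    (Subgroup.one_lt_card_iff_ne_bot _).2 (hR r hr)
  have h1 : ∀ r : X, 1 ≤ (stabilizer M r).index := fun r =>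
    Nat.pos_of_ne_zero Subgroup.index_ne_zero_of_finite
  have b2 : ∀ r ∈ R, (stabilizer M r).index * 2 ≤ Nat.card M := fun r hr =>
    hc r ▸ Nat.mul_le_mul_left _ (h2 r hr)
  have b4 : ∀ r ∈ Ω, (stabilizer M r).index * 4 ≤ Nat.card M := fun r hr =>
    hc r ▸ Nat.mul_le_mul_left _ (h4 r hr)
  have cov : ∀ x ∈ Ω, ∃ r ∈ R, r ∈ Ω ∧ x ∈ orbit M r := fun x hx => by
    obtain ⟨r, hr, g, rfl⟩ := hcov x ((Subgroup.one_lt_card_iff_ne_bot _).1
      (by have := h4 x hx; omega))
    exact ⟨r, hr, by simpa using hinv g⁻¹ _ hx, g, rfl⟩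
  rcases Ω.eq_empty_or_nonempty with rfl | ⟨x, hx⟩
  · simp
  obtain ⟨c, hcR, hcΩ, -⟩ := cov x hx
  rw [← Finset.add_sum_erase _ _ hcR] at hsum
  have hmem : ∀ r ∈ R, r = c ∨ r ∈ R.erase c := fun r hr => by
    by_cases e : r = c
    · exact Or.inl e
    · exact Or.inr (Finset.mem_erase.2 ⟨e, hr⟩)
  have hsub : ∀ r ∈ R.erase c, r ∈ R := fun r hr => Finset.mem_of_mem_erase hr
  generalize R.erase c = T at hsum hmem hsub
  have c1 := h1 c
  have c4 := b4 c hcΩ
  have hT : T.card ≤ 2 := by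
    have k1 : ∀ r ∈ T, (Nat.card M : ℤ) ≤ 2 * ((Nat.card M : ℤ) + (stabilizer M r).index
        - 2 * (stabilizer M r).index) := by
      intro r hr
      have := b2 r (hsub r hr)
      omega
    have k2 := Finset.sum_le_sum k1
    rw [← Finset.mul_sum, Finset.sum_const, nsmul_eq_mul] at k2
    by_contra h
    have : (3 : ℤ) * Nat.card M ≤ T.card * Nat.card M :=
      mul_le_mul_of_nonneg_right (by exact_mod_cast (by omega)) (by positivity)
    omega
  rcases (show T.card = 0 ∨ T.card = 1 ∨ T.card = 2 by omega) with h | h | h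
  · rw [Finset.card_eq_zero] at h
    subst h
    rw [Finset.sum_empty] at hsum
    omega
  · obtain ⟨a, rfl⟩ := Finset.card_eq_one.1 h
    rw [Finset.sum_singleton] at hsum
    left
    have hle : Ω ⊆ orbit M c ∪ orbit M a := fun y hy => by
      obtain ⟨r, hr, -, hy'⟩ := cov y hy
      rcases hmem r hr with rfl | e
      · exact Or.inl hy'
      · rw [Finset.mem_singleton.1 e] at hy'
        exact Or.inr hy'
    have k1 := Set.ncard_le_ncard hle ((Set.finite_range _).union (Set.finite_range _))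
    have k2 := Set.ncard_union_le (orbit M c) (orbit M a)
    rw [← index_stabilizer, ← index_stabilizer] at k2
    omega
  · obtain ⟨a, b, hab, rfl⟩ := Finset.card_eq_two.1 h
    rw [Finset.sum_pair hab] at hsum
    have ha := hsub a (by simp)
    have hb := hsub b (by simp)
    have a2 := b2 a ha
    have b2' := b2 b hb
    have he : Ω = orbit M c := by
      refine Set.Subset.antisymm (fun y hy => ?_) ?_
      · obtain ⟨r, hr, hrΩ, hy'⟩ := cov y hy
        have := b4 r hrΩ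
        rcases hmem r hr with rfl | e
        · exact hy'
        · exfalso
          rcases Finset.mem_insert.1 e with rfl | e
          · omega
          · rw [Finset.mem_singleton.1 e] at this
            omega
      · rintro _ ⟨g, rfl⟩
        exact hinv g c hcΩ
    rw [he, ← index_stabilizer]
    exact arith (hc a) (hc b) (hc c) (h2 a ha) (h2 b hb) (h4 c hcΩ) (by omega)

end Cfsg.Agent.H69.RuKlein
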