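import Cfsg.Agent.H79.SqDefs

/-! The bound `v ≤ 6` in the case `p = v ^ 2 + v + 1`. -/

set_option autoImplicit false

namespace Cfsg.Agent.H69.SqBound

open MulAction Subgroup Cfsg Cfsg.Agent.H58 Cfsg.Agent.H79.Sq
open scoped ComplexConjugate

universe w

section
variable {G : Type*} [Group G] [Fintype G]

/-- The sum over `N` of a function constant off `P ≤ N`. -/
theorem sumOn_split {P N : Subgroup G} (hPN : P ≤ N) {f : G → ℂ} {c : ℂ}
    (h : ∀ g ∈ N, g ∉ P → f g = c) :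
    sumOn N f = sumOn P f + (Nat.card N - Nat.card P) * c := by
  classical
  have h1 : sumOn N f = sumOn N (fun g => c + if g ∈ P then f g + -c else 0) := by
    refine sumOn_congr fun g hg => ?_
    split_ifs with hP
    · ring
    · rw [h g hg hP]; ring
  have h2 : sumOn N (fun g => if g ∈ P then f g + -c else 0) = sumOn P (fun g => f g + -c) := by
    unfold sumOn
    rw [← Finset.sum_filter, Finset.filter_filter]
    refine Finset.sum_congr ?_ fun _ _ => rfl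
    ext g
    simp only [Finset.mem_filter, Finset.mem_univ, true_and, and_iff_right_iff_imp]
    exact fun h => hPN h
  rw [h1, sumOn_add, sumOn_const, h2, sumOn_add, sumOn_const]; ring

theorem fixDim_split {P N : Subgroup G} (hPN : P ≤ N) {e : ℕ}
    (hN : Nat.card N = Nat.card P * e) {f : G → ℂ} (hf : IsCharacter G f) {c : ℕ}
    (h : ∀ g ∈ N, g ∉ P → f g = c) : e * fixDim N f + c = fixDim P f + e * c := by
  have h1 := sumOn_split hPN h
  rw [← card_mul_fixDim N hf, ← card_mul_fixDim P hf, hN] at h1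
  have h2 : (Nat.card P : ℂ) * (e * fixDim N f + c : ℕ) = Nat.card P * (fixDim P f + e * c : ℕ) := by
    push_cast at h1 ⊢; linear_combination h1
  exact_mod_cast mul_left_cancel₀ (H11.card_ne_zero P) h2

open Classical in
theorem card_mul_fixDim_normSq (P : Subgroup G) {θ : G → ℂ} (hθ : IsCharacter G θ) :
    (Nat.card P : ℝ) * fixDim P (θ * fun g => conj (θ g)) = ∑ x : G with x ∈ P, ‖θ x‖ ^ 2 := by
  have h := card_mul_fixDim P (H11.isCharacter_mul hθ (H11.isCharacter_conj hθ))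
  unfold sumOn at h
  simp only [Pi.mul_apply, Complex.mul_conj, Complex.normSq_eq_norm_sq] at h
  exact_mod_cast h

variable {p : ℕ} [hp : Fact p.Prime]

/-- A character without `P`-fixed vectors vanishes on `N(P) \ P`. -/
theorem vanish_of_fixDim (h : SelfCent p G) (P : Sylow p G) {g : G}
    (hg : g ∈ normalizer ((P : Subgroup G) : Set G)) (hgP : g ∉ (P : Subgroup G)) {χ : G → ℂ}
    (hχ : IsCharacter G χ) (h0 : fixDim P χ = 0) : χ g = 0 := by
  classical
  have h1 := sumOn_mul_eq_zero hχ h0 g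
  let f : ↥(P : Subgroup G) → ↥(P : Subgroup G) := fun y =>
    ⟨(y : G)⁻¹ * (g * y * g⁻¹), mul_mem (inv_mem y.2) ((mem_normalizer_iff.1 hg y).1 y.2)⟩
  have hf : Function.Injective f := by
    intro y y' e
    have e1 : (y : G)⁻¹ * (g * y * g⁻¹) = (y' : G)⁻¹ * (g * y' * g⁻¹) := congrArg Subtype.val e
    by_contra hne
    refine hgP (h.mem_of_commute P (x := y' * (y : G)⁻¹) (mul_mem y'.2 (inv_mem y.2))
      (fun e2 => hne (Subtype.ext (mul_inv_eq_one.1 e2).symm)) ?_)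
    calc (y' : G) * (y : G)⁻¹ * g = y' * ((y : G)⁻¹ * (g * y * g⁻¹)) * g * (y : G)⁻¹ := by group
      _ = g * (y' * (y : G)⁻¹) := by rw [e1]; group
  rw [sumOn_eq_sum, ← (Equiv.ofBijective f (Finite.injective_iff_bijective.1 hf)).sum_comp,
    Finset.sum_congr rfl fun y _ => (?_ : _ = χ g), Finset.sum_const, nsmul_eq_mul,
    mul_eq_zero] at h1
  · exact h1.resolve_left (by exact_mod_cast Finset.card_ne_zero.2 Finset.univ_nonempty)
  · rw [← H11.isClassFunction_of_isCharacter hχ g (y : G)⁻¹]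
    congr 1
    simp only [Equiv.ofBijective_apply, f]
    group

theorem arith {v F A a b c : ℕ} (hv : 2 ≤ v)
    (h1 : (v + 1) ^ 4 ≤ (v * (v + 1) + 1) * F)
    (h2 : (v * (v + 1) + 1) * F ≤ (v + 1) ^ 4 + v * (v * v + 1))
    (h3 : v * A + 1 = F + v)
    (h4 : ((v * (v + 1) + 1) * F : ℤ) - (v + 1) ^ 4 = v * (v + 1) * (1 + a - c) - v * b)
    (h5 : 1 + a + b ≤ A) : v ≤ 6 := by
  have e1 : A ≤ v + 5 := by
    have : (v * (v + 1) + 1) * (v * A) ≤ (v * (v + 1) + 1) * (v * (v + 5)) := by nlinarith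
    exact Nat.le_of_mul_le_mul_left (Nat.le_of_mul_le_mul_left this (by omega)) (by omega)
  have e2 : v + 4 < A := by
    have : (v * (v + 1) + 1) * (v * (v + 4)) < (v * (v + 1) + 1) * (v * A) := by nlinarith
    exact Nat.lt_of_mul_lt_mul_left (Nat.lt_of_mul_lt_mul_left this)
  obtain rfl : A = v + 5 := by omega
  have e3 : (F : ℤ) = v * (v + 4) + 1 := by zify at h3; linear_combination -h3
  have e4 : (v : ℤ) * (v * v + 1 + b) = v * ((v + 1) * (1 + a - c)) := by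
    rw [e3] at h4; linear_combination h4
  have e5 := mul_left_cancel₀ (by omega : (v : ℤ) ≠ 0) e4
  have e6 : (v : ℤ) ≤ 1 + a - c := by
    by_contra e6
    nlinarith
  have e7 : (v : ℤ) ≤ b + 1 := by nlinarith
  omega

end

theorem bound : BoundStmt.{w} := by
  intro G _ _ p hp P u D h hε hz hA1 hB2 hA2
  classical
  have := Fintype.ofFinite (IrrCharacter G)
  have hP := D.hP
  have hP' : Nat.card (P : Subgroup G) = p := hP
  have hu := D.hu
  have hpe : p = (u + 1) * (u + 1 + 1) + 1 := D.hpe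
  have hp0 : (p : ℤ) ≠ 0 := by exact_mod_cast hp.out.ne_zero
  have hpZ : (p : ℤ) = (u + 1) * (u + 2) + 1 := by exact_mod_cast D.hpe
  obtain ⟨χ, hχ⟩ := Finset.card_eq_one.1 hA2
  obtain ⟨hχA, hχd⟩ := D.mem_A2.1 (hχ ▸ Finset.mem_singleton_self χ)
  set N := normalizer ((P : Subgroup G) : Set G) with hNd
  have hPN : (P : Subgroup G) ≤ N := le_normalizer
  have hN : Nat.card N = Nat.card (P : Subgroup G) * (u + 1) := by
    rw [hP']; exact h.card_normalizer P D.he P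
  have hG : Nat.card G = charDegree χ.1 * (p * (u + 1 + 1) ^ 2) := by
    rw [D.card_G h, hχd, hpe]; ring
  have hB : ∀ ψ ∈ D.B, fixDim P ψ.1 = 0 := by
    intro ψ hψ
    refine D.fixDim_B hP hψ ?_
    rcases D.degB ψ hψ with e | e
    · omega
    · exact absurd (D.mem_B2.2 ⟨hψ, e⟩) (hB2 ▸ Finset.notMem_empty ψ)
  have hA : ∀ ψ ∈ D.A, ψ = χ := by
    intro ψ hψ
    rcases D.degA ψ hψ with e | e
    · exact absurd (D.mem_A1.2 ⟨hψ, e⟩) (hA1 ▸ Finset.notMem_empty ψ)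
    · exact Finset.mem_singleton.1 (hχ ▸ D.mem_A2.2 ⟨hψ, e⟩)
  have hord : ∀ g ∈ N, g ∉ (P : Subgroup G) → ¬ p ∣ orderOf g := fun g hg hgP hd =>
    hgP (mem_sylow_of_mem_normalizer P (isPGroup_zpowers_of_orderOf_eq (h.orderOf_eq hd)) hg)
  have hχ0 : ∀ g ∈ N, g ∉ (P : Subgroup G) → χ.1 g = (0 : ℕ) := by
    intro g hg hgP
    have h1 : orderOf g ≠ 1 := fun e => hgP (orderOf_eq_one_iff.1 e ▸ one_mem _)
    obtain ⟨r, hr, hr1⟩ := Nat.exists_prime_and_dvd h1
    have h2 : ¬ r ∣ p := fun hd =>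
      hord g hg hgP ((Nat.prime_dvd_prime_iff_eq hr hp.out).1 hd ▸ hr1)
    have h3 : r ∣ u + 1 := by
      have := hr1.trans (N.orderOf_dvd_natCard hg)
      rw [hN, hP'] at this
      exact (hr.dvd_mul.1 this).resolve_left h2
    rw [Nat.cast_zero]
    refine vanish_of_not_dvd χ hr hG (fun hd => ?_) hr1
    have h4 := hr.dvd_of_dvd_pow ((hr.dvd_mul.1 hd).resolve_left h2)
    exact hr.one_lt.ne' (Nat.dvd_one.1 ((Nat.dvd_add_right h3).1 h4))
  have hθ1 : ∀ θ ∈ D.Y, ∀ g ∈ N, g ∉ (P : Subgroup G) → θ.1 g = (1 : ℕ) := by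
    intro θ hθ g hg hgP
    have h1 := D.rel' hP hθ (hord g hg hgP)
    rw [hε, Finset.sum_eq_zero fun ψ hψ => by rw [hA ψ hψ, hχ0 g hg hgP, Nat.cast_zero],
      Finset.sum_eq_zero fun ψ hψ =>
        vanish_of_fixDim h P hg hgP (H11.irr_isCharacter ψ) (hB ψ hψ)] at h1
    simpa using h1
  have hχP : fixDim P χ.1 = u + 1 := D.fixDim_P_A hP hχA (by rw [hχd]; ring)
  have hχN : fixDim N χ.1 = 1 := by
    have := fixDim_split hPN hN (H11.irr_isCharacter χ) hχ0
    rw [hχP] at this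
    exact Nat.eq_of_mul_eq_mul_left (Nat.succ_pos u) (by simpa using this)
  have hθN : ∀ θ ∈ D.Y, 1 ≤ fixDim N θ.1 ∧ 1 ≤ fixDim P θ.1 := by
    intro θ hθ
    have h1 := fixDim_split hPN hN (H11.irr_isCharacter θ) (hθ1 θ hθ)
    have h2 : 1 ≤ fixDim N θ.1 := by
      by_contra h2
      rw [show fixDim N θ.1 = 0 by omega] at h1
      omega
    exact ⟨h2, h2.trans (fixDim_anti hPN (H11.irr_isCharacter θ))⟩
  have hθP : ∀ θ ∈ D.Y, fixDim P θ.1 = 1 := by
    have h1 := D.fixDim_Θ hP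
    rw [hε, hz] at h1
    have h2 : fixDim P D.Θ = u + 2 := by
      have : (p : ℤ) * fixDim P D.Θ = p * (u + 2 : ℕ) := by
        push_cast at h1 ⊢; linear_combination h1 - hpZ
      exact_mod_cast mul_left_cancel₀ hp0 this
    rw [D.fixDim_Θ_eq_sum] at h2
    have h3 : ∑ θ ∈ D.Y, 1 = ∑ θ ∈ D.Y, fixDim P θ.1 := by rw [h2]; simp [D.cardY]
    exact fun θ hθ => ((Finset.sum_eq_sum_iff_of_le fun θ hθ => (hθN θ hθ).2).1 h3 θ hθ).symm
  have hzv : D.z = (u + 1 + 1) ^ 2 := by rw [hz, hpe]; ring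
  have hn1 : ∀ θ ∈ D.Y, ‖θ.1 1‖ ^ 2 = ((u + 1 + 1) ^ 4 : ℕ) := by
    intro θ hθ
    rw [← H21.cast_deg, D.degY θ hθ, hzv, Complex.norm_natCast]; push_cast; ring
  have h1P : (1 : G) ∈ Finset.univ.filter (· ∈ (P : Subgroup G)) := by simp
  have hcol : ∀ x ∈ (Finset.univ.filter (· ∈ (P : Subgroup G))).erase 1,
      ∑ θ ∈ D.Y, ‖θ.1 x‖ ^ 2 ≤ ((u + 1) * (u + 1) + 1 : ℕ) := by
    intro x hx
    have hx1 := Finset.ne_of_mem_erase hx
    have hxP : x ∈ (P : Subgroup G) := by simpa using Finset.mem_of_mem_erase hx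
    have h1 := H11.sum_norm_sq_apply x
    rw [h.card_centralizer (orderOf_eq_of_mem_of_card_prime hp.out hP hxP hx1)] at h1
    have h2 : ∑ ψ ∈ D.X ∪ D.Y, ‖ψ.1 x‖ ^ 2 ≤ p := h1 ▸
      Finset.sum_le_sum_of_subset_of_nonneg (Finset.subset_univ _) fun _ _ _ => by positivity
    rw [Finset.sum_union (Finset.disjoint_left.2 D.disj),
      Finset.sum_congr rfl fun ψ hψ => (by
        rw [D.valX' hψ hxP hx1]; rcases D.sg_pm ψ hψ with e | e <;> simp [e] :
        ‖ψ.1 x‖ ^ 2 = (1 : ℝ)), Finset.sum_const, D.cardX] at h2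
    have h3 : (p : ℝ) = (u + 1) * (u + 2) + 1 := by exact_mod_cast D.hpe
    simp only [nsmul_eq_mul] at h2
    push_cast at h2 ⊢
    linarith
  let F : IrrCharacter G → ℕ := fun θ => fixDim P (θ.1 * fun g => conj (θ.1 g))
  have hF : ∀ θ ∈ D.Y, ((p * F θ : ℕ) : ℝ) = ((u + 1 + 1) ^ 4 : ℕ) +
      ∑ x ∈ (Finset.univ.filter (· ∈ (P : Subgroup G))).erase 1, ‖θ.1 x‖ ^ 2 := by
    intro θ hθ
    have := card_mul_fixDim_normSq (P : Subgroup G) (H11.irr_isCharacter θ)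
    rw [hP', ← Finset.add_sum_erase _ _ h1P, hn1 θ hθ] at this
    rw [← this, Nat.cast_mul]
  obtain ⟨θ, hθ, hle⟩ : ∃ θ ∈ D.Y, p * F θ ≤ (u + 1 + 1) ^ 4 + (u + 1) * ((u + 1) * (u + 1) + 1) := by
    refine Finset.exists_le_of_sum_le (Finset.card_pos.1 (D.cardY.symm ▸ D.t_pos)) ?_
    have hc : ((Finset.univ.filter (· ∈ (P : Subgroup G))).erase 1).card = (u + 1) * (u + 2) := by
      rw [Finset.card_erase_of_mem h1P, ← Fintype.card_subtype, ← Nat.card_eq_fintype_card, hP',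
        hpe, Nat.add_sub_cancel]
    have h1 := Finset.sum_le_sum hcol
    rw [Finset.sum_comm, Finset.sum_const, hc] at h1
    rw [← Nat.cast_le (α := ℝ), Nat.cast_sum, Finset.sum_congr rfl hF, Finset.sum_add_distrib,
      Finset.sum_const, Finset.sum_const, D.cardY]
    simp only [nsmul_eq_mul, smul_eq_mul] at h1 ⊢
    push_cast at h1 ⊢
    linarith
  have hge : (u + 1 + 1) ^ 4 ≤ p * F θ := by
    rw [← Nat.cast_le (α := ℝ), hF θ hθ]
    exact le_add_of_nonneg_right (Finset.sum_nonneg fun _ _ => by positivity)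
  have hθc := H11.irr_isCharacter θ
  have hΞ := H11.isCharacter_mul hθc (H11.isCharacter_conj hθc)
  obtain ⟨m, hm, hm2⟩ := exists_apply_eq_sum hΞ
  have e0 := fixDim_split hPN hN hΞ (c := 1) fun g hg hgP => by simp [hθ1 θ hθ g hg hgP]
  have eN := fixDim_sum N Finset.univ m (fun ψ : IrrCharacter G => ψ.1)
    (fun ψ _ => H11.irr_isCharacter ψ) hm2
  have eP : F θ = ∑ ψ, m ψ * fixDim P ψ.1 :=
    fixDim_sum (P : Subgroup G) Finset.univ m (fun ψ : IrrCharacter G => ψ.1)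
      (fun ψ _ => H11.irr_isCharacter ψ) hm2
  have e2 : ∑ ψ, m ψ * charDegree ψ.1 = (u + 1 + 1) ^ 4 := by
    have := hm2 1
    simp_rw [← H21.cast_deg] at this
    rw [Pi.mul_apply, ← H21.cast_deg, D.degY θ hθ, hzv, Complex.conj_natCast] at this
    rw [show (u + 1 + 1) ^ 4 = (u + 1 + 1) ^ 2 * (u + 1 + 1) ^ 2 by ring]
    exact_mod_cast this.symm
  have e3 : m (H21.triv G) = 1 := by
    have := hm (H21.triv G)
    rw [H21.triv_coe, ← H11.classInner_eq_mul_conj_one, H11.classInner_irr_self θ.2] at this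
    exact_mod_cast this.symm
  have hχt : χ ≠ H21.triv G := (D.mem_A.1 hχA).2.1
  have hχX : χ ∈ D.X := (D.mem_A.1 hχA).1
  have hAe : D.A = {χ} := Finset.eq_singleton_iff_unique_mem.2 ⟨hχA, hA⟩
  have e4 : (p * F θ : ℤ) - ((u + 1 : ℕ) + 1) ^ 4 = (u + 1 : ℕ) * ((u + 1 : ℕ) + 1) *
      (1 + m χ - (∑ ψ ∈ D.B, m ψ : ℕ)) - (u + 1 : ℕ) * (∑ ψ ∈ D.Y, m ψ : ℕ) := by
    have f1 : (p * F θ : ℤ) - ((u + 1 : ℕ) + 1) ^ 4 =
        ∑ ψ, (m ψ : ℤ) * (p * fixDim P ψ.1 - charDegree ψ.1) := by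
      have g1 : (((u + 1 : ℕ) : ℤ) + 1) ^ 4 = ∑ ψ, (m ψ : ℤ) * charDegree ψ.1 := by
        exact_mod_cast e2.symm
      rw [eP, g1]
      push_cast
      rw [Finset.mul_sum, ← Finset.sum_sub_distrib]
      exact Finset.sum_congr rfl fun ψ _ => by ring
    rw [f1, ← Finset.sum_subset (Finset.subset_univ (D.X ∪ D.Y)) fun ψ _ hψ => ?_,
      Finset.sum_union (Finset.disjoint_left.2 D.disj),
      Finset.sum_congr rfl fun ψ hψ => (by rw [D.fixDim_X hP hψ]; ring :
        (m ψ : ℤ) * (p * fixDim P ψ.1 - charDegree ψ.1) =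
          ((D.sg ψ : ℤ) : ℤ) * ((p - 1) * m ψ)),
      Finset.sum_congr (s₁ := D.Y) rfl fun ψ hψ => (by
        rw [hθP ψ hψ, D.degY ψ hψ, hz]; push_cast; ring :
        (m ψ : ℤ) * (p * fixDim P ψ.1 - charDegree ψ.1) = -(u + 1) * m ψ)]
    · have g2 := D.sum_X hP (R := ℤ) fun ψ => (p - 1) * m ψ
      simp only [Int.cast_id] at g2
      rw [g2, hAe, Finset.sum_singleton, e3, ← Finset.mul_sum, ← Finset.mul_sum, hpZ]
      push_cast; ring
    · rw [Finset.mem_union, not_or] at hψ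
      rw [← h.fixDim_notMem D.toBrData hψ.1 hψ.2]; simp
  have e5 : 1 + m χ + ∑ ψ ∈ D.Y, m ψ ≤ fixDim N (θ.1 * fun g => conj (θ.1 g)) := by
    have g1 : χ ∉ D.Y := D.disj χ hχX
    have g2 : H21.triv G ∉ insert χ D.Y := by
      rw [Finset.mem_insert, not_or]; exact ⟨hχt.symm, D.disj _ D.triv_mem⟩
    rw [eN]
    refine le_trans ?_ (Finset.sum_le_sum_of_subset
      (Finset.subset_univ (insert (H21.triv G) (insert χ D.Y))))
    rw [Finset.sum_insert g2, Finset.sum_insert g1, e3, hχN, H21.triv_coe, fixDim_one, mul_one,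
      mul_one, add_assoc]
    gcongr with ψ hψ
    exact Nat.le_mul_of_pos_right _ (hθN ψ hψ).1
  have := arith (v := u + 1) (F := F θ) (by omega) (by rw [← hpe]; exact hge)
    (by rw [← hpe]; exact hle)
    (by simpa using e0) (by rw [← e4, hpZ]; push_cast; ring) e5
  omega

end Cfsg.Agent.H69.SqBound
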