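import Cfsg.Agent.H58.SWDefs

/-! Project SW (S3694), piece KT. -/

set_option autoImplicit false
set_option linter.unusedSectionVars false
open Matrix Cfsg

namespace Cfsg.Agent.H69.SwKt

open Cfsg.Agent.H58.SW

variable {F : Type} [Field F] [Fintype F] [DecidableEq F] {n : ℕ}

/-- the twist of a matrix -/
def tw (σ : F ≃+* F) (b : Bool) (x : Mt n F) : Mt n F := if b = true then (x.map σ)ᵀ else x.map σ

theorem ap_eq (t : Tau F n) (x : Mt n F) :
    t.ap x = (t.A : Mt n F) * tw t.σ t.neg x * ((t.A⁻¹ : Gl n F) : Mt n F) := rfl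

theorem tw_add (σ : F ≃+* F) (b : Bool) (x y : Mt n F) : tw σ b (x + y) = tw σ b x + tw σ b y := by
  cases b <;> ext i j <;> simp [tw]

theorem tw_sub (σ : F ≃+* F) (b : Bool) (x y : Mt n F) : tw σ b (x - y) = tw σ b x - tw σ b y := by
  cases b <;> ext i j <;> simp [tw]

theorem tw_smul (σ : F ≃+* F) (b : Bool) (a : F) (x : Mt n F) :
    tw σ b (a • x) = σ a • tw σ b x := by
  cases b <;> ext i j <;> simp [tw]

theorem tw_one (σ : F ≃+* F) (b : Bool) : tw σ b (1 : Mt n F) = 1 := by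
  cases b <;> simp [tw]

theorem tw_mul (σ : F ≃+* F) (x y : Mt n F) : tw σ false (x * y) = tw σ false x * tw σ false y := by
  simp [tw, Matrix.map_mul]

theorem tw_mul' (σ : F ≃+* F) (x y : Mt n F) : tw σ true (x * y) = tw σ true y * tw σ true x := by
  simp [tw, Matrix.map_mul, transpose_mul]

theorem tw_tw (σ τ : F ≃+* F) (b b' : Bool) (x : Mt n F) :
    tw σ b (tw τ b' x) = tw (σ * τ) (xor b b') x := by
  cases b <;> cases b' <;> ext i j <;> simp [tw]

theorem tw_refl (x : Mt n F) : tw (1 : F ≃+* F) false x = x := by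
  ext i j; simp [tw]

theorem tw_det (σ : F ≃+* F) (b : Bool) (x : Mt n F) : (tw σ b x).det = σ x.det := by
  cases b <;> simp [tw, RingEquiv.map_det]

theorem tw_trace (σ : F ≃+* F) (b : Bool) (x : Mt n F) : (tw σ b x).trace = σ x.trace := by
  cases b <;> simp [tw, Matrix.trace, map_sum]

theorem rank_map (σ : F ≃+* F) (x : Mt n F) : (x.map σ).rank = x.rank := by
  obtain ⟨L, L', D, h⟩ := Matrix.Pivot.exists_list_transvec_mul_diagonal_mul_list_transvec x
  have h1 := Matrix.TransvectionStruct.det_toMatrix_prod L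
  have h2 := Matrix.TransvectionStruct.det_toMatrix_prod L'
  generalize (L.map Matrix.TransvectionStruct.toMatrix).prod = P at h h1
  generalize (L'.map Matrix.TransvectionStruct.toMatrix).prod = P' at h h2
  have h3 : (P.map σ).det = 1 := (tw_det σ false P).trans (by rw [h1, map_one])
  have h4 : (P'.map σ).det = 1 := (tw_det σ false P').trans (by rw [h2, map_one])
  rw [h, Matrix.map_mul, Matrix.map_mul, rank_mul_eq_left_of_isUnit_det _ _ (h4 ▸ isUnit_one),
    rank_mul_eq_right_of_isUnit_det _ _ (h3 ▸ isUnit_one),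
    rank_mul_eq_left_of_isUnit_det _ _ (h2 ▸ isUnit_one),
    rank_mul_eq_right_of_isUnit_det _ _ (h1 ▸ isUnit_one), diagonal_map (map_zero σ), rank_diagonal,
    rank_diagonal]
  simp

theorem tw_rank (σ : F ≃+* F) (b : Bool) (x : Mt n F) : (tw σ b x).rank = x.rank := by
  cases b <;> simp [tw, rank_transpose, rank_map]

/-- the twist of an invertible matrix -/
def tg (σ : F ≃+* F) (b : Bool) : Gl n F →* Gl n F where
  toFun x := ⟨tw σ b ((if b = true then x⁻¹ else x : Gl n F) : Mt n F),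
    tw σ b ((if b = true then x else x⁻¹ : Gl n F) : Mt n F),
    by cases b
       · rw [← tw_mul]; simp [tw_one]
       · rw [← tw_mul']; simp [tw_one],
    by cases b
       · rw [← tw_mul]; simp [tw_one]
       · rw [← tw_mul']; simp [tw_one]⟩
  map_one' := Units.ext (by cases b <;> simp [tw_one])
  map_mul' x y := Units.ext (by
    cases b
    · exact tw_mul σ _ _
    · simp only [if_true, _root_.mul_inv_rev, Units.val_mul]; exact tw_mul' σ _ _)

theorem tg_val (σ : F ≃+* F) (b : Bool) (x : Gl n F) :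
    (tg σ b x : Mt n F) = tw σ b ((if b = true then x⁻¹ else x : Gl n F) : Mt n F) := rfl

theorem tg_inv (σ : F ≃+* F) (b : Bool) (x : Gl n F) :
    (((tg σ b x)⁻¹ : Gl n F) : Mt n F) = tw σ b ((if b = true then x else x⁻¹ : Gl n F) : Mt n F) :=
  rfl

theorem tw_ap (σ : F ≃+* F) (b : Bool) (t : Tau F n) (x : Mt n F) :
    tw σ b (t.ap x) = (tg σ b t.A : Mt n F) * tw (σ * t.σ) (xor b t.neg) x *
      (((tg σ b t.A)⁻¹ : Gl n F) : Mt n F) := by
  rw [ap_eq, tg_val, tg_inv, ← tw_tw]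
  cases b
  · rw [tw_mul, tw_mul]; rfl
  · rw [tw_mul', tw_mul', mul_assoc]; rfl

/-- composition -/
def comp (t t' : Tau F n) : Tau F n := ⟨t.σ * t'.σ, xor t.neg t'.neg, t.A * tg t.σ t.neg t'.A⟩

theorem comp_ap (t t' : Tau F n) (x : Mt n F) : (comp t t').ap x = t.ap (t'.ap x) := by
  rw [ap_eq t, tw_ap, ap_eq]
  simp only [comp, _root_.mul_inv_rev, Units.val_mul, mul_assoc]

/-- inverse -/
def inv (t : Tau F n) : Tau F n := ⟨t.σ⁻¹, t.neg, tg t.σ⁻¹ t.neg t.A⁻¹⟩

theorem inv_ap (t : Tau F n) (x : Mt n F) : (inv t).ap (t.ap x) = x := by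
  rw [← comp_ap, ap_eq]
  simp only [comp, inv, ← map_mul, inv_mul_cancel, map_one, Bool.xor_self, tw_refl, inv_one,
    Units.val_one, one_mul, mul_one]

theorem ap_bij (t : Tau F n) : Function.Bijective t.ap :=
  Finite.injective_iff_bijective.1 (Function.LeftInverse.injective (inv_ap t))

theorem ap_inv (t : Tau F n) (x : Mt n F) : t.ap ((inv t).ap x) = x := by
  obtain ⟨y, rfl⟩ := (ap_bij t).2 x
  rw [inv_ap]

theorem ap_add (t : Tau F n) (x y : Mt n F) : t.ap (x + y) = t.ap x + t.ap y := by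
  simp only [ap_eq, tw_add, mul_add, add_mul]

theorem ap_sub (t : Tau F n) (x y : Mt n F) : t.ap (x - y) = t.ap x - t.ap y := by
  simp only [ap_eq, tw_sub, mul_sub, sub_mul]

theorem ap_zero (t : Tau F n) : t.ap 0 = 0 := by simpa using ap_sub t 0 0

theorem ap_smul (t : Tau F n) (a : F) (x : Mt n F) : t.ap (a • x) = t.σ a • t.ap x := by
  simp only [ap_eq, tw_smul, Matrix.mul_smul, Matrix.smul_mul]

theorem ap_one (t : Tau F n) : t.ap 1 = 1 := by
  rw [ap_eq, tw_one, mul_one, Units.mul_inv]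

theorem ap_mul (t : Tau F n) (h : t.neg = false) (x y : Mt n F) : t.ap (x * y) = t.ap x * t.ap y := by
  simp only [ap_eq, h, tw_mul, mul_assoc, Units.inv_mul_cancel_left]

theorem ap_mul' (t : Tau F n) (h : t.neg = true) (x y : Mt n F) : t.ap (x * y) = t.ap y * t.ap x := by
  simp only [ap_eq, h, tw_mul', mul_assoc, Units.inv_mul_cancel_left]

theorem ap_pow (t : Tau F n) (x : Mt n F) (k : ℕ) : t.ap (x ^ k) = t.ap x ^ k := by
  induction k with
  | zero => rw [pow_zero, pow_zero, ap_one]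
  | succ k ih =>
    cases h : t.neg
    · rw [pow_succ, ap_mul t h, ih, pow_succ]
    · rw [pow_succ, ap_mul' t h, ih, pow_succ']

theorem ap_det (t : Tau F n) (x : Mt n F) : (t.ap x).det = t.σ x.det := by
  rw [ap_eq, det_units_conj, tw_det]

theorem ap_vec (t : Tau F n) (h : t.neg = false) (x : Mt n F) (v : Vc n F) :
    t.ap x *ᵥ t.av v = t.av (x *ᵥ v) := by
  rw [ap_eq, h, Tau.av, Tau.av, mulVec_mulVec, Units.inv_mul_cancel_right, ← mulVec_mulVec]
  congr 1
  funext i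
  simp [tw, mulVec, dotProduct, map_sum]

theorem av_bij (t : Tau F n) : Function.Bijective t.av := by
  refine Finite.injective_iff_bijective.1 fun v w h => funext fun i => t.σ.injective ?_
  exact congrFun (mulVec_injective_iff_isUnit.2 t.A.isUnit h) i

theorem ind_eq {c : Cl F n} {t : Tau F n} {ψ : Au n F} (h : c.Ind t ψ) (x : Gl n F) :
    ψ x = t.A * tg t.σ t.neg x * t.A⁻¹ := Units.ext (h.2.2 x)

theorem neg_false {c : Cl F n} {t : Tau F n} {ψ : Au n F} (h : c.Ind t ψ) (hu : c.u = true) :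
    t.neg = false := by
  cases hn : t.neg
  · rfl
  · rw [(h.2.1 hn).1] at hu; cases hu

theorem st_tw (c : Cl F n) (σ : F ≃+* F) (x : Mt n F) :
    c.st (tw σ false x) = tw σ false (c.st x) := by
  ext i j; simp [Cl.st, tw]

theorem tg_mem {c : Cl F n} (ka : KA c) (σ : F ≃+* F) {b : Bool} (hb : c.u = true → b = false)
    {x : Gl n F} (hx : x ∈ c.St) : tg σ b x ∈ c.St := by
  rw [ka.mem_St] at hx ⊢
  intro hu
  obtain rfl := hb hu
  rw [tg_val, st_tw, ← tw_mul]
  exact (congrArg _ (hx hu)).trans (tw_one σ false)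

theorem ind_inv {c : Cl F n} (ka : KA c) {t : Tau F n} {ψ : Au n F} (h : c.Ind t ψ) :
    c.Ind (inv t) ψ⁻¹ := by
  refine ⟨tg_mem ka _ (neg_false h) (c.St.inv_mem h.1), h.2.1, fun x => ?_⟩
  obtain ⟨y, rfl⟩ := ψ.surjective x
  rw [MulAut.inv_apply_self]
  have : ((if (inv t).neg = true then (ψ y)⁻¹ else ψ y : Gl n F) : Mt n F) = t.ap y := by
    change ((if t.neg = true then (ψ y)⁻¹ else ψ y : Gl n F) : Mt n F) = t.ap y
    have h1 := h.2.2 y
    have h2 := h.2.2 y⁻¹
    cases hn : t.neg <;> simp only [hn, if_true, inv_inv, map_inv] at h1 h2 ⊢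
    · exact h1
    · exact h2
  rw [this, inv_ap]

theorem ind_mul {c : Cl F n} (ka : KA c) {t t' : Tau F n} {ψ ψ' : Au n F} (h : c.Ind t ψ)
    (h' : c.Ind t' ψ') : c.Ind (comp t t') (ψ * ψ') := by
  refine ⟨c.St.mul_mem h.1 (tg_mem ka _ (neg_false h) h'.1), fun hx => ?_, fun x => ?_⟩
  · change xor t.neg t'.neg = true at hx
    cases hn : t.neg
    · rw [hn, Bool.false_xor] at hx; exact h'.2.1 hx
    · exact h.2.1 hn
  · rw [comp_ap, MulAut.mul_apply, h.2.2]
    congr 1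
    change _ = t'.ap ((if xor t.neg t'.neg = true then x⁻¹ else x : Gl n F) : Mt n F)
    have h1 := h'.2.2 x
    have h2 := h'.2.2 x⁻¹
    cases t.neg <;> cases hn : t'.neg <;> simp only [hn, if_true, inv_inv, map_inv] at h1 h2 ⊢
    · exact h1
    · exact h1
    · exact h2
    · exact h2

theorem pres1 {c : Cl F n} (ka : KA c) {t : Tau F n} {ψ : Au n F} (h : c.Ind t ψ) (x : Gl n F) :
    (x ∈ c.St → ψ x ∈ c.St) ∧ (x ∈ c.S → ψ x ∈ c.S) ∧ (x ∈ c.Z → ψ x ∈ c.Z) := by
  have h1 : x ∈ c.St → ψ x ∈ c.St := fun hx => by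
    rw [ind_eq h]
    exact c.St.mul_mem (c.St.mul_mem h.1 (tg_mem ka _ (neg_false h) hx)) (c.St.inv_mem h.1)
  refine ⟨h1, fun hx => ?_, fun hx => ⟨h1 hx.1, ?_⟩⟩
  · have hx' := c.S.inv_mem hx
    rw [ka.mem_S] at hx hx' ⊢
    refine ⟨h1 hx.1, ?_⟩
    rw [h.2.2, ap_det]
    split_ifs
    · rw [hx'.2, map_one]
    · rw [hx.2, map_one]
  · refine Subgroup.mem_center_iff.2 fun g => ?_
    obtain ⟨y, rfl⟩ := ψ.surjective g
    rw [← map_mul, ← map_mul, Subgroup.mem_center_iff.1 hx.2 y]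

theorem pres {c : Cl F n} (ka : KA c) {ψ : Au n F} (h : c.Std ψ) (x : Gl n F) :
    (ψ x ∈ c.St ↔ x ∈ c.St) ∧ (ψ x ∈ c.S ↔ x ∈ c.S) ∧ (ψ x ∈ c.Z ↔ x ∈ c.Z) := by
  obtain ⟨t, h⟩ := h
  have h1 := pres1 ka h x
  have h2 := pres1 ka (ind_inv ka h) (ψ x)
  rw [MulAut.inv_apply_self] at h2
  exact ⟨⟨h2.1, h1.1⟩, ⟨h2.2.1, h1.2.1⟩, h2.2.2, h1.2.2⟩

theorem unip_inv {x : Gl n F} (h : Unip x) : Unip x⁻¹ := by
  have e : ((x⁻¹ : Gl n F) : Mt n F) - 1 = -(((x⁻¹ : Gl n F) : Mt n F) * ((x : Mt n F) - 1)) := by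
    rw [mul_sub, Units.inv_mul, mul_one, neg_sub]
  unfold Unip
  rw [e]
  refine IsNilpotent.neg (Commute.isNilpotent_mul_left ?_ h)
  exact (Commute.units_inv_left (Commute.refl _)).sub_right (Commute.one_right _)

theorem cj_ap (a : Gl n F) (x : Mt n F) :
    (⟨RingEquiv.refl F, false, a⟩ : Tau F n).ap x = cj a x := by
  rw [ap_eq]
  exact congrArg (fun y => (a : Mt n F) * y * ((a⁻¹ : Gl n F) : Mt n F)) (tw_refl x)

theorem cj_ind {c : Cl F n} {a : Gl n F} (ha : a ∈ c.St) :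
    c.Ind ⟨RingEquiv.refl F, false, a⟩ (MulAut.conj a) :=
  ⟨ha, fun h => (by cases h), fun x => by rw [cj_ap]; rfl⟩

theorem st_A {c : Cl F n} (ka : KA c) (hu : c.u = true) {a : Gl n F} (ha : a ∈ c.St) :
    c.st a = ((a⁻¹ : Gl n F) : Mt n F) :=
  (Units.mul_eq_one_iff_eq_inv).1 ((ka.mem_St a).1 ha hu)

theorem hf_av {c : Cl F n} (ka : KA c) {t : Tau F n} {ψ : Au n F} (h : c.Ind t ψ) (hu : c.u = true)
    (v w : Vc n F) : c.hf (t.av v) (t.av w) = t.σ (c.hf v w) := by
  rw [Tau.av, Tau.av, ka.hf_adj hu, mulVec_mulVec, st_A ka hu h.1, Units.inv_mul, one_mulVec]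
  simp [Cl.hf, hermForm, map_sum]

theorem av_smul (t : Tau F n) (a : F) (v : Vc n F) : t.av (a • v) = t.σ a • t.av v := by
  rw [Tau.av, Tau.av, ← mulVec_smul]
  congr 1
  funext i
  simp

theorem kt (hKA : KAStmt) : KTStmt := by
  intro F _ _ _ n c
  have ka := hKA F n c
  refine
    { add := ap_add, sub := ap_sub, zero := ap_zero, smul := ap_smul, one := ap_one
      mul := ap_mul, mul' := ap_mul', bij := ap_bij, det := ap_det
      trace := fun t x => by rw [ap_eq, trace_units_conj, tw_trace]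
      rank := fun t x => ?_
      vec := ap_vec, av_bij := av_bij
      av_add := fun t v w => ?_
      av_smul := av_smul
      st := fun t ψ h hu x => ?_
      hf := fun t ψ h hu => hf_av ka h hu
      stv := fun t ψ h hu v w => ?_
      conj := fun a ha => ⟨cj_ind ha, cj_ap a⟩
      mul_ind := fun t ψ t' ψ' h h' => ⟨_, ind_mul ka h h', rfl, rfl, comp_ap t t'⟩
      inv_ind := fun t ψ h => ⟨_, ind_inv ka h, rfl, rfl, fun x => ⟨inv_ap t x, ap_inv t x⟩⟩
      pres := fun ψ h => pres ka h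
      unip := fun ψ h x hx => ?_
      inner := fun t ψ h hn hσ => ?_
      span := fun H A hA ψ hψ t h x hx => ?_
      hatinv := fun H hH ψ hψ y hy => ?_
      hatG := fun H Y hY a ha y hy => hY _ ((ka.mem_hat H a).1 ha).2 y hy
      hatM := fun H T hT a ha x hx => ?_
      surj := fun H T hT ψ hψ t h x hx =>
        ⟨_, hT _ (H.inv_mem hψ) _ (ind_inv ka h) x hx, ap_inv t x⟩ }
  · rw [ap_eq, rank_mul_eq_left_of_isUnit_det _ _ ((isUnit_iff_isUnit_det _).1 (Units.isUnit _)),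
      rank_mul_eq_right_of_isUnit_det _ _ ((isUnit_iff_isUnit_det _).1 (Units.isUnit _)), tw_rank]
  · rw [Tau.av, Tau.av, Tau.av, ← mulVec_add]
    congr 1
    funext i
    simp
  · rw [ap_eq, ap_eq, neg_false h hu, ka.st_mul hu, ka.st_mul hu, st_tw, st_A ka hu h.1,
      st_A ka hu (c.St.inv_mem h.1), inv_inv, mul_assoc]
  · refine Matrix.toLin'.injective (LinearMap.ext fun y => ?_)
    obtain ⟨y, rfl⟩ := (av_bij t).2 y
    rw [toLin'_apply, toLin'_apply, ap_vec t (neg_false h hu), ka.vec_ap, ka.vec_ap, av_smul,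
      hf_av ka h hu]
  · obtain ⟨t, h⟩ := h
    have h1 : Unip (if t.neg = true then x⁻¹ else x) := by
      split_ifs
      · exact unip_inv hx
      · exact hx
    obtain ⟨k, hk⟩ := h1
    refine ⟨k, ?_⟩
    rw [h.2.2, ← ap_one t, ← ap_sub, ← ap_pow, hk, ap_zero]
  · refine MulEquiv.ext fun x => Units.ext ?_
    rw [h.2.2, ap_eq, hn, hσ, tw_refl]
    rfl
  · induction hx using Submodule.span_induction with
    | mem x hx =>
      obtain ⟨a, ha, rfl⟩ := hx
      refine Submodule.subset_span ⟨ψ (if t.neg = true then a⁻¹ else a), hA ψ hψ _ ?_, ?_⟩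
      · split_ifs
        · exact A.inv_mem ha
        · exact ha
      · refine (h.2.2 _).trans ?_
        cases t.neg <;> simp
    | zero => rw [ap_zero]; exact Submodule.zero_mem _
    | add x y _ _ hx hy => rw [ap_add]; exact Submodule.add_mem _ hx hy
    | smul a x _ hx => rw [ap_smul]; exact Submodule.smul_mem _ _ hx
  · rw [ka.mem_hat] at hy ⊢
    refine ⟨(pres ka (hH ψ hψ) y).1.2 hy.1, ?_⟩
    have e : (MulAut.conj (ψ y) : Au n F) = ψ * MulAut.conj y * ψ⁻¹ :=
      MulEquiv.ext fun g => by simp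
    rw [e]
    exact H.mul_mem (H.mul_mem hψ hy.2) (H.inv_mem hψ)
  · rw [ka.mem_hat] at ha
    rw [← cj_ap]
    exact hT _ ha.2 _ (cj_ind ha.1) x hx

end Cfsg.Agent.H69.SwKt
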