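import Mathlib
import Cfsg.Agent.H41.U6Defs
import Cfsg.Agent.H43.FiAut

/-!
# Project SP6: piece U6-TWO
-/

set_option autoImplicit false

universe u

namespace Cfsg.Agent.H69.U6

open Cfsg.Agent.H41 Cfsg.Agent.H41.Rec Cfsg.Agent.H42 Cfsg.Agent.H45 Cfsg.Agent.H60 Equiv
open Cfsg.Agent.H41.U6S

theorem sq_mem {H : Type*} [Group H] (h6 : Nat.card H = 6) {R : Subgroup H} {x y : H} (hx : x ∈ R)
    (hy : y ∈ R) (x1 : x ≠ 1) (y1 : y ≠ 1) (xy : x * y ≠ 1) (t : H) : t * t ∈ R := by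
  have : Finite H := Nat.finite_of_card_ne_zero (by omega)
  have h3 : 2 < Nat.card R := by
    refine (Set.two_lt_ncard_iff (s := (R : Set H))).2 ?_
    by_cases e : x = y
    · exact ⟨1, x, x * y, one_mem R, hx, mul_mem hx hy, x1.symm, xy.symm, by simpa using y1⟩
    · exact ⟨1, x, y, one_mem R, hx, hy, x1.symm, y1.symm, e⟩
  have h4 := R.card_mul_index
  rw [h6] at h4
  have h5 : R.index = 1 ∨ R.index = 2 := by
    have : R.index ≠ 0 := Subgroup.index_ne_zero_of_finite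
    have : R.index < 3 := by nlinarith
    omega
  rcases h5 with e | e
  · rw [Subgroup.index_eq_one.1 e]; trivial
  · exact Subgroup.mul_self_mem_of_index_two e t

theorem two : TwoStmt.{u} := by
  rintro ⟨τ, hτ, a, W, t1, t2, t3⟩ Q G _ _ _ _ ι ρ N d h x y hx hy
  by_contra hxy
  obtain ⟨θ, -, k, -⟩ := H43.Fi.theta21
  let ρ' : Q →* L21.F.aut := ρ.codRestrict _ h.aut
  obtain ⟨q, hq⟩ := sq_mem H43.Fi.card_C3 (R := (θ.comp ρ').range) ⟨x, rfl⟩ ⟨y, rfl⟩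
    (fun e => hx ((k _).1 e)) (fun e => hy ((k _).1 e))
    (fun e => hxy ((k (ρ' (x * y))).1 (by rw [map_mul, map_mul]; exact e))) (θ ⟨τ, hτ⟩)
  obtain ⟨n, -, hn⟩ := h.rng.ge ((k (⟨τ, hτ⟩ * ⟨τ, hτ⟩ * (ρ' q)⁻¹)).1 (by
    rw [map_mul, map_mul, map_inv, ← hq]; exact mul_inv_cancel _))
  have hg : ρ (n * q) = τ * τ := by
    rw [map_mul, hn]; exact inv_mul_cancel_right (τ * τ) (ρ q)
  generalize n * q = g at hg
  have ex : Ex L21.F (ρ.comp N.subtype) ⟨d, h.dN⟩ :=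
    ⟨by rw [MonoidHom.range_comp, Subgroup.range_subtype, h.rng], fun a => (h.ker a a.2).trans
      (or_congr OneMemClass.coe_eq_one (Subtype.ext_iff (a2 := ⟨d, h.dN⟩)).symm),
      fun e => h.ne (congrArg Subtype.val e)⟩
  have M := mo21.{u}
  obtain ⟨ψ, L⟩ := M.lf ex
  have d2 : d * d = 1 := congrArg Subtype.val ex.sq
  have r : ∀ p, ρ (ψ p) = L21.F.T p := L.rho
  have e0 : ∀ n ∈ N, ∀ p, (ψ (ρ n p) : Q) = n * ψ p * n⁻¹ := fun n hn p =>
    congrArg Subtype.val (L.eqv ⟨n, hn⟩ p)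
  obtain ⟨z, z2, zc, hz⟩ : ∃ z : Q, z * z = 1 ∧ (∀ c, c * z = z * c) ∧
      ∀ p, g * ψ p * g⁻¹ = ψ (ρ g p) * z := by
    obtain ⟨O⟩ : Nonempty (Fin 693) := inferInstance
    obtain ⟨z, z2, zc, hz⟩ : ∃ z : Q, z * z = 1 ∧ (∀ c, c * z = z * c) ∧
        g * ψ O * g⁻¹ = ψ (ρ g O) * z := by
      rcases ex.eq_or (a := ⟨_, h.nor g _ (ψ O).2⟩) (b := ψ (ρ g O)) (by
        change ρ (g * ψ O * g⁻¹) = ρ (ψ _)
        rw [r, map_mul, map_mul, map_inv, r, FS.aut_T (h.aut g)]) with e | e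
      · exact ⟨1, mul_one 1, fun c => by rw [mul_one, one_mul], by
          rw [mul_one]; exact congrArg Subtype.val e⟩
      · exact ⟨d, d2, h.dc, congrArg Subtype.val e⟩
    refine ⟨z, z2, zc, fun p => ?_⟩
    obtain ⟨c, hc, rfl⟩ := (M.r3.at O).tr p
    obtain ⟨n, hn, rfl⟩ := h.rng.ge hc
    rw [show ρ g (ρ n O) = ρ (g * n * g⁻¹) (ρ g O) by simp, e0 _ (h.nor g n hn), mul_assoc _ _ z,
      zc, ← mul_assoc, mul_assoc _ _ z, ← hz, e0 n hn]
    group
  have hg2 : ∀ p, g * g * ψ p * (g * g)⁻¹ = ψ ((τ ^ 4) p) := fun p => by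
    rw [show g * g * ψ p * (g * g)⁻¹ = g * (g * ψ p * g⁻¹) * g⁻¹ by group, hz, ← mul_assoc,
      mul_assoc _ z, ← zc, ← mul_assoc, hz, mul_assoc, z2, mul_one, hg]
    rfl
  have c0 := M.cq.ci_ee ex L
  have i0 := c0.ind_of_card (by rw [M.cq.sp_ee ex L, M.cq.card_AA ex])
  have me : ∀ y, th (ee d fun i => (ψ (sB J21.B i) : Q)) 10 y =
      N.subtype (th (ee ⟨d, h.dN⟩ fun i => ψ (sB J21.B i)) 10 y) := fun y =>
    ((map_th N.subtype _).trans (th_congr (fun i _ => by cases i <;> rfl) _)).symm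
  have c1 : CI (ee d fun i => (ψ (sB J21.B i) : Q)) (9 + 1) := by
    refine ⟨fun i hi => ?_, fun i hi j hj => ?_⟩
    · have := congrArg Subtype.val (c0.sq i hi)
      cases i <;> exact this
    · have := congrArg Subtype.val (c0.comm i hi j hj)
      cases i <;> cases j <;> exact this
  obtain ⟨w, w1, w2⟩ := c1.sgn (f := fun j => (ψ (sB J21.B j) : Q))
    (fun a ha b hb e => i0 a ha b hb (N.subtype_injective (by rw [← me, ← me, e]))) t3 M.cq.km
    (fun j hj => by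
      rw [me, me, th_shift _ 9, th_shift _ 9, Nat.mul_add_div two_pos,
        Nat.mul_div_cancel_left _ two_pos]
      simp only [Nat.testBit_zero, Nat.mul_mod_right, Nat.mul_add_mod, Nat.reduceDiv, add_zero,
        Nat.reduceMod, decide_true, decide_false, Nat.zero_ne_one, if_true, Bool.false_eq_true,
        if_false, one_mul]
      change _ = N.subtype (th (fun i => ψ (sB J21.B i)) 9 _) ∨
        _ ∧ _ = N.subtype (⟨d, h.dN⟩ * th (fun i => ψ (sB J21.B i)) 9 _)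
      rcases lt_or_ge j 9 with hk | hk
      · exact Or.inl (by rw [M.cq.bas j hk, th_two_pow, if_pos hk]; rfl)
      · exact (ex.eq_or ((L.rho _).trans ((M.cq.rel j hj).trans (L.rho_th _).symm))).imp
          (congrArg Subtype.val) fun e => ⟨hk, by rw [e, ex.comm]; rfl⟩)
    (fun _ _ => rfl) (fun σ hσ => by
      have cd : ∀ c : Q, c * d * c⁻¹ = d := fun c => by rw [h.dc, mul_inv_cancel_right]
      rcases List.mem_cons.1 hσ with rfl | hσ
      · exact ⟨g * g, cd _, fun j hj => ⟨(t1 j hj).1, by rw [hg2, (t1 j hj).2]⟩⟩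
      · obtain ⟨c, hc, g1⟩ := J21.sig σ hσ
        obtain ⟨c, hc', rfl⟩ := h.rng.ge hc
        exact ⟨c, cd _, fun j hj => ⟨(g1 j hj).1, by rw [← (g1 j hj).2, e0 c hc']⟩⟩)
  obtain ⟨w', w3, rfl⟩ : ∃ w' : N, (w' = 1 ∨ w' = ⟨d, h.dN⟩) ∧ (w' : Q) = w := by
    rcases w1 with rfl | rfl
    exacts [⟨1, Or.inl rfl, rfl⟩, ⟨_, Or.inr rfl, rfl⟩]
  refine M.nsp N _ _ _ ex (L.mul ex w3) (fun j hj => N.subtype_injective ?_) h.perf
  rw [map_th]
  rcases w2 with e | e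
  · exact e j hj
  · have := e j hj
    rw [t2 j hj, th_shift _ 9, Nat.mul_div_cancel_left _ two_pos] at this
    simp only [Nat.testBit_zero, Nat.mul_mod_right, decide_false, Nat.zero_ne_one,
      Bool.false_eq_true, if_false, one_mul] at this
    exact this

end Cfsg.Agent.H69.U6
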