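import Cfsg.Agent.H53.UwDefs

/-!
# The constituents of the Weil character
-/

set_option autoImplicit false

namespace Cfsg.Agent.H53.Uw.H69

open Module Cfsg.Agent.H31 Cfsg.Agent.H11
open scoped ComplexConjugate

universe u

section Abs

theorem orth {Z : Type u} [Group Z] [Fintype Z] [DecidableEq (Z →* ℂˣ)] (l ν : Z →* ℂˣ) :
    ∑ z, (ν z⁻¹ : ℂ) * l z = if l = ν then (Nat.card Z : ℂ) else 0 := by
  split_ifs with h
  · subst h
    simp [Nat.card_eq_fintype_card]
  · have := sum_hom_units_eq_zero ((Units.coeHom ℂ).comp (ν⁻¹ * l)) (fun e => h (by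
      ext z
      have := DFunLike.congr_fun e z
      simp only [MonoidHom.comp_apply, MonoidHom.mul_apply, MonoidHom.inv_apply,
        Units.coeHom_apply, MonoidHom.one_apply, Units.val_eq_one, inv_mul_eq_one] at this
      rw [this]))
    simpa using this

variable {G : Type u} [Group G] [Fintype G] (Z : Subgroup G) [Fintype Z]

/-- The component of `ω` with central character `ν`. -/
noncomputable def pr (ν : Z →* ℂˣ) (ω : G → ℂ) (g : G) : ℂ :=
  (Nat.card Z : ℂ)⁻¹ * ∑ z : Z, (ν z⁻¹ : ℂ) * ω (z * g)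

variable {Z}

theorem inner_pr [DecidableEq (Z →* ℂˣ)] (ν l : Z →* ℂˣ) (ω : G → ℂ) {χ : G → ℂ}
    (h : ∀ (z : Z) (x : G), χ (z * x) = l z * χ x) :
    classInner (pr Z ν ω) χ = if l = ν then classInner ω χ else 0 := by
  have e1 : pr Z ν ω = (Nat.card Z : ℂ)⁻¹ • ∑ z : Z, (ν z⁻¹ : ℂ) • fun g => ω (z * g) := by
    ext g
    simp [pr, Finset.sum_apply]
  have e2 : ∀ z : Z, classInner (fun g => ω (z * g)) χ = l z * classInner ω χ := fun z => by
    rw [← classInner_comp_equiv (Equiv.mulLeft (z : G)) ω χ]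
    simp only [Equiv.coe_mulLeft, h, classInner_def, map_mul, Finset.mul_sum]
    refine Finset.sum_congr rfl fun g _ => ?_
    rw [conj_monoidHom_apply, map_inv, Units.val_inv_eq_inv_val]
    field_simp
  rw [e1, classInner_smul_left, classInner_sum_left]
  simp only [classInner_smul_left, e2, ← mul_assoc]
  rw [← Finset.sum_mul, orth]
  split_ifs
  · rw [← mul_assoc, inv_mul_cancel₀ (card_ne_zero Z), one_mul]
  · simp

omit [Fintype G] in
theorem classFun_pr (hZ : Z ≤ Subgroup.center G) (ν : Z →* ℂˣ) {ω : G → ℂ}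
    (hω : IsClassFunction G ω) : IsClassFunction G (pr Z ν ω) := fun g h => by
  unfold pr
  congr 1
  refine Finset.sum_congr rfl fun z _ => ?_
  rw [← hω (z * g) h, ← mul_assoc, ← mul_assoc, ← mul_assoc,
    Subgroup.mem_center_iff.1 (hZ z.2) h]

theorem isChar_pr (hZ : Z ≤ Subgroup.center G) (ν : Z →* ℂˣ) {ω : G → ℂ}
    (hω : IsCharacter G ω) : IsCharacter G (pr Z ν ω) := by
  classical
  refine isCharacter_of_classInner_nat (classFun_pr hZ ν (isClassFunction_of_isCharacter hω))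
    fun χ hχ => ?_
  obtain ⟨l, hl, -⟩ := exists_monoidHom_of_le_center hχ Z hZ
  rw [inner_pr ν l ω hl]
  split_ifs
  · exact exists_nat_classInner hω (isCharacter_of_irr hχ)
  · exact ⟨0, Nat.cast_zero.symm⟩

omit [Fintype Z] in
theorem card_dual (hZ : Z ≤ Subgroup.center G) : Nat.card (Z →* ℂˣ) = Nat.card Z := by
  rw [card_monoidHom_eq_index_commutator, (commutator_eq_bot_iff_center_eq_top Z).2,
    Subgroup.index_bot]
  refine eq_top_iff.2 fun a _ => Subgroup.mem_center_iff.2 fun b => Subtype.ext ?_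
  exact Subgroup.mem_center_iff.1 (hZ a.2) b

theorem irr_pr (hZ : Z ≤ Subgroup.center G) {ω : G → ℂ} (hω : IsCharacter G ω) {k : ℕ}
    (hk : k ≤ Nat.card Z) (hn : classInner ω ω = k) (h0 : ∀ ν, pr Z ν ω 1 ≠ 0) (ν : Z →* ℂˣ) :
    IsIrrCharacter G (pr Z ν ω) := by
  classical
  have := finite_monoidHom_units (G := Z)
  let _ := Fintype.ofFinite (Z →* ℂˣ)
  let _ := Fintype.ofFinite (IrrCharacter G)
  choose n hn' using fun ν => exists_nat_classInner (isChar_pr hZ ν hω) (isChar_pr hZ ν hω)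
  choose c hc _ using fun χ : IrrCharacter G => exists_monoidHom_of_le_center χ.2 Z hZ
  have h1 : ∀ ν, 1 ≤ n ν := fun ν => Nat.pos_of_ne_zero fun e => by
    have := hn' ν
    rw [e, Nat.cast_zero, classInner_self_eq_zero] at this
    exact h0 ν (congrFun this 1)
  have h2 : ∑ ν, n ν = k := by
    have : ((∑ ν, n ν : ℕ) : ℂ) = k := by
      rw [← hn, Nat.cast_sum, classInner_eq_sum (isClassFunction_of_isCharacter hω),
        Finset.sum_congr rfl fun ν _ => (hn' ν).symm.trans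
          (classInner_eq_sum (classFun_pr hZ _ (isClassFunction_of_isCharacter hω)) _),
        Finset.sum_comm]
      refine Finset.sum_congr rfl fun χ _ => ?_
      simp only [inner_pr _ (c χ) ω (hc χ)]
      rw [Finset.sum_eq_single (c χ) (fun b _ hb => by rw [if_neg hb.symm, zero_mul])
        (fun h => absurd (Finset.mem_univ _) h), if_pos rfl]
    exact_mod_cast this
  have h3 : ∑ _ν : Z →* ℂˣ, 1 = ∑ ν, n ν := by
    refine le_antisymm (Finset.sum_le_sum fun ν _ => h1 ν) ?_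
    rw [h2, Finset.sum_const, smul_eq_mul, mul_one, Finset.card_univ, ← Nat.card_eq_fintype_card,
      card_dual hZ]
    exact hk
  have h4 := (Finset.sum_eq_sum_iff_of_le fun ν _ => h1 ν).1 h3 ν (Finset.mem_univ _)
  exact isIrrCharacter_of_classInner_self (isChar_pr hZ ν hω) (by rw [hn', ← h4, Nat.cast_one])

theorem inner_pr_self (hZ : Z ≤ Subgroup.center G) {ω : G → ℂ} {ν : Z →* ℂˣ}
    (h : IsIrrCharacter G (pr Z ν ω)) : classInner (pr Z ν ω) ω = 1 := by
  classical
  obtain ⟨l, hl, -⟩ := exists_monoidHom_of_le_center h Z hZ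
  have := inner_pr ν l ω hl
  rw [classInner_irr_self h] at this
  split_ifs at this
  · rw [← conj_classInner, ← this, map_one]
  · exact absurd this one_ne_zero

omit [Fintype G] in
theorem pr_val [DecidableEq (Z →* ℂˣ)] (ν : Z →* ℂˣ) {ω : G → ℂ} {g : G}
    (h : ∀ z ∈ Z, z ≠ 1 → ω (z * g) = -1) :
    pr Z ν ω g = (Nat.card Z : ℂ)⁻¹ * (ω g + 1) - if 1 = ν then 1 else 0 := by
  classical
  have e : ∑ z : Z, (ν z⁻¹ : ℂ) * ω (z * g) =
      ∑ z : Z, ((if z = 1 then ω g + 1 else 0) - (ν z⁻¹ : ℂ) * (1 : Z →* ℂˣ) z) := by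
    refine Finset.sum_congr rfl fun z _ => ?_
    split_ifs with hz
    · subst hz
      simp
    · rw [h z z.2 (fun e => hz (Subtype.ext e))]
      simp
  rw [pr, e, Finset.sum_sub_distrib, orth, Finset.sum_ite_eq' , if_pos (Finset.mem_univ _),
    mul_sub]
  split_ifs
  · rw [inv_mul_cancel₀ (card_ne_zero Z)]
  · rw [mul_zero]

omit [Fintype G] in
theorem sum_pr (ν : Z →* ℂˣ) {ω : G → ℂ} (R : Subgroup G) [Fintype R]
    (h : ∀ g, ∑ r : R, ω (g * r) = 0) (g : G) : ∑ r : R, pr Z ν ω (g * r) = 0 := by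
  simp only [pr]
  rw [← Finset.mul_sum, Finset.sum_comm]
  simp only [← Finset.mul_sum, ← mul_assoc, h, mul_zero, Finset.sum_const_zero]

end Abs

theorem dd {q n : ℕ} (hq : 2 ≤ q) (ho : Odd n) (hn : 3 ≤ n) :
    ((q : ℂ) + 1)⁻¹ * (q ^ n + 1) = DD q n + 1 ∧ DD q n ≠ 0 := by
  obtain ⟨a, ha⟩ : q + 1 ∣ q ^ n + 1 := by simpa using ho.nat_add_dvd_pow_add_pow q 1
  have h1 : q ^ 1 < q ^ n := Nat.pow_lt_pow_right (by omega) (by omega)
  have h2 : 2 ≤ a := by
    by_contra! h
    have : (q + 1) * a ≤ (q + 1) * 1 := Nat.mul_le_mul_left _ (by omega)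
    rw [pow_one] at h1
    omega
  obtain ⟨a, rfl⟩ : ∃ b, a = b + 1 := ⟨a - 1, by omega⟩
  have e : DD q n = a := by
    rw [DD, show q ^ n - q = (q + 1) * a by rw [mul_add] at ha; omega,
      Nat.mul_div_cancel_left _ (Nat.succ_pos q)]
  rw [e]
  refine ⟨?_, by omega⟩
  have hc : (q : ℂ) ^ n + 1 = (q + 1) * (a + 1) := by exact_mod_cast ha
  rw [hc, inv_mul_cancel_left₀ (by exact_mod_cast Nat.succ_ne_zero q)]

section Geo

variable {E V : Type u} [Field E] [AddCommGroup V] [Module E V] {σ : E →+* E}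
  {B : V →ₛₗ[σ] V →ₗ[E] E}

theorem om_val [FiniteDimensional E V] (h : IsHerm B) (ho : Odd (finrank E V)) (q : ℕ)
    {X : Submodule E V} (hX : TotIso B X) {z : isom B} (hz : z ∈ CX B X) (s : isom B)
    (hs : s ∈ Zc B) (h1 : s ≠ 1) : om B q (s * z) = -1 := by
  obtain ⟨a, ha⟩ := hs
  have a1 : 1 - a ≠ 0 := fun e => h1 (isom_ext fun x => by
    rw [ha, ← sub_eq_zero.1 e, one_smul]; rfl)
  have : fx (s * z).1 = ⊥ := eq_bot_iff.2 fun v hv => by
    rw [mem_fx, mul_ap, ha] at hv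
    have e : (1 - a) • v = a • (z.1 v - v) := by rw [smul_sub, hv, sub_smul, one_smul]
    have hv' : v ∈ X := (X.smul_mem_iff a1).1 (e ▸ X.smul_mem a (sub_mem_of_CX h hz v))
    rw [mem_CX.1 hz v (totIso_iff_le_perp.1 hX hv'), sub_self, smul_zero] at e
    exact (smul_eq_zero.1 e).resolve_left a1
  rw [om, this, finrank_bot, pow_zero, mul_one, ho.neg_one_pow]

theorem om_one (q : ℕ) : om B q 1 = q ^ finrank E V := by
  have : fx (1 : isom B).1 = ⊤ := eq_top_iff.2 fun v _ => mem_fx.2 rfl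
  rw [om, this, finrank_top, ← mul_pow, neg_mul_neg, one_mul]

end Geo

theorem wd (weil : WeilStmt.{u}) (norm : NormStmt.{u}) (kit : KitStmt.{u}) (r4 : R4Stmt.{u}) :
    WdStmt.{u} := by
  intro E V _ _ _ _ _ σ B q S ho h3
  classical
  have : FiniteDimensional E V := Module.Finite.of_finite
  let _ := Fintype.ofFinite (isom B)
  have hω := weil E V σ B q S
  obtain ⟨k, hk, hn⟩ := norm E V σ B q S
  obtain ⟨-, cZ, -, sR, -⟩ := kit E V σ B q S
  replace cZ := cZ (by omega)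
  have q2 : 2 ≤ q := by
    have := Fintype.one_lt_card (α := E)
    rw [S.card] at this
    by_contra! h
    interval_cases q <;> simp at this
  have hZ : Zc B ≤ Subgroup.center (isom B) := fun s hs =>
    Subgroup.mem_center_iff.2 fun g => (Zc_comm hs g).symm
  have cZ' : (Nat.card (Zc B) : ℂ) = q + 1 := by rw [cZ, Nat.cast_succ]
  have e0 : om0 B q = pr (Zc B) 1 (om B q) := by
    ext g
    simp [om0, pr, cZ', finsum_eq_sum_of_fintype, -Nat.card_eq_fintype_card]
  obtain ⟨d1, d2⟩ := dd q2 ho h3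
  have val : ∀ ν X, TotIso B X → ∀ z ∈ CX B X, pr (Zc B) ν (om B q) z =
      ((q : ℂ) + 1)⁻¹ * (om B q z + 1) - if 1 = ν then 1 else 0 := fun ν X hX z hz => by
    rw [pr_val ν (om_val S.herm ho q hX hz), cZ']
  have deg : ∀ ν, pr (Zc B) ν (om B q) 1 =
      DD q (finrank E V) + 1 - if 1 = ν then 1 else 0 := fun ν => by
    rw [val ν ⊥ (totIso_iff_le_perp.2 bot_le) 1 (one_mem _), om_one, d1]
  rw [ip_eq] at hn
  have irr := irr_pr hZ hω (cZ ▸ hk) hn fun ν => by
    rw [deg]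
    split_ifs
    · rw [add_sub_cancel_right]
      exact_mod_cast d2
    · rw [sub_zero]
      exact Nat.cast_add_one_ne_zero _
  refine ⟨e0 ▸ irr 1, by rw [e0, deg, if_pos rfl, add_sub_cancel_right], fun χ hχ h => ?_, ?_⟩
  · obtain ⟨l, hl, hl'⟩ := exists_monoidHom_of_le_center hχ _ hZ
    rw [ip_eq, classInner_ne_zero_comm] at h
    have e := irr_eq_of_classInner_ne_zero (irr l) hχ (by rwa [inner_pr l l _ hl, if_pos rfl])
    by_cases h1 : 1 = l
    · exact .inl (by rw [e0, h1, e])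
    · refine .inr ⟨by rw [← e, deg, if_neg h1, sub_zero], ?_⟩
      obtain ⟨z, hz⟩ := DFunLike.ne_iff.1 h1
      refine ⟨z, z.2, fun e => hz (Units.ext ?_)⟩
      rw [hl', mul_eq_right₀ (irr_apply_one_ne_zero hχ)] at e
      exact e.symm
  · have := finite_monoidHom_units (G := Zc B)
    have : Nontrivial (Zc B →* ℂˣ) :=
      Finite.one_lt_card_iff_nontrivial.1 (by rw [card_dual hZ, cZ]; omega)
    obtain ⟨ν, hν⟩ := exists_ne (1 : Zc B →* ℂˣ)
    refine ⟨pr _ ν (om B q) - pr (Zc B) 1 (om B q), fun u hu g => ?_, fun X hX z hz => ?_, ?_⟩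
    · obtain ⟨n, ρ, hρ⟩ := hω
      obtain ⟨a1, a2⟩ := r4 _ _ ρ (CX B (E ∙ u))
      rw [hρ] at a1 a2
      have := a2 (a1.2 (sR u hu))
      simp only [finsum_eq_sum_of_fintype] at this
      simp only [finsum_eq_sum_of_fintype, Pi.sub_apply, Finset.sum_sub_distrib,
        sum_pr _ _ this, sub_zero]
    · rw [Pi.sub_apply, val _ X hX z hz, val _ X hX z hz, if_neg hν.symm, if_pos rfl]
      ring
    · rw [ip_eq, classInner_sub_left, inner_pr_self hZ (irr ν), inner_pr_self hZ (irr 1), sub_self]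

end Cfsg.Agent.H53.Uw.H69
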