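import Mathlib
import Cfsg.Agent.H42.VpDefs

/-! The piece `MStmt` of the project on vanishing elements of prime power order. -/

set_option autoImplicit false

namespace Cfsg.Agent.H69.VpM

open Subgroup Cfsg Cfsg.Agent.H42.Vp

universe u

theorem eq_one_of_pow {G : Type u} [Group G] [Finite G] {p : ℕ} (K : Subgroup G)
    (hK : (Nat.card K).Coprime p) {w : G} (hw : w ∈ K) {n : ℕ} (h : w ^ p ^ n = 1) : w = 1 := by
  have h1 : orderOf w ∣ p ^ n := orderOf_dvd_of_pow_eq_one h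
  have h2 : orderOf w ∣ Nat.card K := K.orderOf_dvd_natCard hw
  have h3 : orderOf w = 1 := Nat.eq_one_of_dvd_coprimes (hK.pow_right n) h2 h1
  exact orderOf_eq_one_iff.1 h3

theorem m (z : ZStmt.{u}) (i1 : I1Stmt.{u}) (i2 : I2Stmt.{u}) : MStmt.{u} := by
  intro G _ _ p hp K _ hK he hv x hx k hk hk1 hc
  obtain ⟨e, he⟩ := he
  obtain ⟨m, hm⟩ := hx
  haveI := Fact.mk hp
  have hnv : ¬ Van (x * k) := by
    intro h
    obtain ⟨j, hj⟩ := hv _ h
    have h1 : (x * k) ^ p ^ j = 1 := hj ▸ pow_orderOf_eq_one (x * k)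
    have h2 : (x * k) ^ p ^ (m + j) = 1 := by
      rw [pow_add, mul_comm (p ^ m), pow_mul, h1, one_pow]
    have h3 : x ^ p ^ (m + j) = 1 := by rw [pow_add, pow_mul, hm, one_pow]
    rw [hc.mul_pow, h3, one_mul] at h2
    exact hk1 (eq_one_of_pow K hK hk h2)
  have hQ : IsPGroup p (G ⧸ K) := IsPGroup.of_card (n := e) he
  have hk0 : ((k : G) : G ⧸ K) = 1 := (QuotientGroup.eq_one_iff k).2 hk
  have hcen : ((x : G) : G ⧸ K) ∈ center (G ⧸ K) := by
    by_contra h
    apply hnv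
    refine H22.VanP.Van.comp (QuotientGroup.mk' K) (QuotientGroup.mk'_surjective K) ?_
    have : QuotientGroup.mk' K (x * k) = (x : G ⧸ K) := by
      rw [QuotientGroup.mk'_apply, QuotientGroup.mk_mul, hk0, mul_one]
    rw [this]
    exact z _ p hp hQ _ h
  have hcx : ∀ g : G, x⁻¹ * (g * x * g⁻¹) ∈ K := by
    intro g
    rw [← QuotientGroup.eq, QuotientGroup.mk_mul, QuotientGroup.mk_mul, QuotientGroup.mk_inv,
      mem_center_iff.1 hcen (g : G ⧸ K), mul_inv_cancel_right]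
  have hin : ∀ θ : K → ℂ, IsIrrCharacter K θ → x ∈ H14.inertia K θ := by
    intro θ hθ
    by_contra hx
    apply hnv
    refine H22.VanP.van_of_inertia K hθ fun g hg => hx ?_
    have hle := H14.le_inertia K (H11.isClassFunction_of_irr hθ)
    have hw : x⁻¹ * (g * x * g⁻¹) * (g * k * g⁻¹) ∈ K :=
      K.mul_mem (hcx g) (‹K.Normal›.conj_mem k hk g)
    have : x = g * (x * k) * g⁻¹ * (x⁻¹ * (g * x * g⁻¹) * (g * k * g⁻¹))⁻¹ := by group
    rw [this]
    exact (H14.inertia K θ).mul_mem hg ((H14.inertia K θ).inv_mem (hle hw))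
  have hxc : x ∈ centralizer (K : Set G) := i2 G p hp K x hK ⟨m, hm⟩ (i1 G K x hin)
  rw [mem_center_iff]
  intro g
  have hw := hcx g
  have hcw : Commute x (x⁻¹ * (g * x * g⁻¹)) := (mem_centralizer_iff.1 hxc _ hw).symm
  have h1 : (x * (x⁻¹ * (g * x * g⁻¹))) ^ p ^ m = 1 := by
    rw [mul_inv_cancel_left, conj_pow, hm, mul_one, mul_inv_cancel]
  rw [hcw.mul_pow, hm, one_mul] at h1
  have h2 := eq_one_of_pow K hK hw h1
  calc g * x = x * (x⁻¹ * (g * x * g⁻¹)) * g := by group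
    _ = x * g := by rw [h2, mul_one]

end Cfsg.Agent.H69.VpM
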