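import Cfsg.Agent.H27.AltBasis
import Cfsg.Agent.H92.LxD

/-! `Sp₆(2)` from Clifford relations on an eight-dimensional module. -/

set_option autoImplicit false

namespace Cfsg.Agent.H69.Cliff

open Module Cfsg.Agent.H27 Cfsg.Agent.H69.XV Cfsg.Agent.H92.Lx

variable {V : Type*} [AddCommGroup V] [Module (ZMod 2) V]

theorem bound [Finite V] : ∀ (m : ℕ) (e f : Fin m → End (ZMod 2) V) (S : Submodule (ZMod 2) V),
    S ≠ ⊥ → (∀ i, ∀ v ∈ S, e i v ∈ S ∧ f i v ∈ S) → (∀ i, e i * e i = 0) →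
    (∀ i, e i * f i + f i * e i = 1) → (∀ i j, e i * e j = e j * e i) →
    (∀ i j, i ≠ j → e i * f j = f j * e i) → 2 ^ 2 ^ m ≤ Nat.card S
  | 0, _, _, S, h, _, _, _, _, _ => by
    have := Submodule.nontrivial_iff_ne_bot.2 h
    exact Finite.one_lt_card
  | m + 1, e, f, S, h, h1, h2, h3, h4, h5 => by
    have ih := bound m (fun i => e i.succ) (fun i => f i.succ) (S ⊓ LinearMap.ker (e 0))
      (fun c => by
        obtain ⟨v, hv, v0⟩ := (Submodule.ne_bot_iff S).1 h
        rw [Submodule.eq_bot_iff] at c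
        exact v0 (c v ⟨hv, c _ ⟨(h1 0 v hv).1, LinearMap.congr_fun (h2 0) v⟩⟩))
      (fun i v hv => ⟨⟨(h1 _ v hv.1).1, (LinearMap.congr_fun (h4 0 _) v).trans (by
        rw [End.mul_apply, hv.2, map_zero])⟩, (h1 _ v hv.1).2,
        (LinearMap.congr_fun (h5 0 _ (Fin.succ_ne_zero i).symm) v).trans (by
        rw [End.mul_apply, hv.2, map_zero])⟩)
      (fun i => h2 _) (fun i => h3 _) (fun i j => h4 _ _)
      fun i j n => h5 _ _ fun c => n (Fin.succ_injective _ c)
    have k : ∀ b ∈ LinearMap.ker (e 0), e 0 (f 0 b) = b := fun b hb => by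
      have := LinearMap.congr_fun (h3 0) b
      rwa [LinearMap.add_apply, End.mul_apply, End.mul_apply, hb, map_zero, add_zero] at this
    rw [pow_succ, pow_mul, sq]
    refine (Nat.mul_le_mul ih ih).trans ?_
    rw [← Nat.card_prod]
    refine Nat.card_le_card_of_injective
      (fun p => ⟨p.1 + f 0 p.2, add_mem p.1.2.1 (h1 0 _ p.2.2.1).2⟩) ?_
    rintro ⟨a, b⟩ ⟨a', b'⟩ c
    have c1 : (a : V) + f 0 b = a' + f 0 b' := congrArg Subtype.val c
    have c2 := congrArg (e 0) c1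
    rw [map_add, map_add, a.2.2, a'.2.2, k _ b.2.2, k _ b'.2.2, zero_add, zero_add] at c2
    rw [c2] at c1
    rw [Subtype.ext c2, Subtype.ext (add_right_cancel c1)]

theorem sp6 [Finite V] (hV : Nat.card V = 256) {H : Type*} [Group H] (ρ : H →* End (ZMod 2) V)
    (D : Set H) (hD : ∀ h, ∀ s ∈ D, h * s * h⁻¹ ∈ D) (sq : ∀ s ∈ D, (ρ s + 1) * (ρ s + 1) = 0)
    (ac : ∀ s ∈ D, ∀ t ∈ D, ∃ c : ZMod 2, (ρ s + 1) * (ρ t + 1) + (ρ t + 1) * (ρ s + 1) = c • 1)
    (cm : ∀ x, (∀ s ∈ D, x * ρ s = ρ s * x) → x = 0 ∨ x = 1) {s t : H} (hs : s ∈ D) (ht : t ∈ D)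
    (o : (ρ s + 1) * (ρ t + 1) + (ρ t + 1) * (ρ s + 1) = 1) (A : Subgroup H)
    (cA : 32 ≤ Nat.card A) (hA : ∀ a ∈ A, a * s = s * a)
    (hA' : ∀ a ∈ A, ρ (a * t * a⁻¹) = ρ t → a = 1) :
    Nonempty (H ⧸ ρ.ker ≃* Matrix.symplecticGroup (Fin 3) (ZMod 2)) := by
  have : Nontrivial V := Finite.one_lt_card_iff_nontrivial.1 (by omega)
  have : Finite (End (ZMod 2) V) := Finite.of_injective _ DFunLike.coe_injective
  obtain ⟨v₀, hv₀⟩ := exists_ne (0 : V)
  obtain ⟨l₀, hl₀⟩ := Projective.exists_dual_eq_one (ZMod 2) hv₀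
  let l : End (ZMod 2) V →ₗ[ZMod 2] ZMod 2 := l₀ ∘ₗ LinearMap.applyₗ v₀
  have l1 : l 1 = 1 := hl₀
  clear_value l
  let β : LinearMap.BilinForm (ZMod 2) (End (ZMod 2) V) :=
    (LinearMap.mul _ _ + (LinearMap.mul _ _).flip).compr₂ l
  have βe : ∀ x y, β x y = l (x * y + y * x) := fun x y => rfl
  clear_value β
  let N := Submodule.span (ZMod 2) (insert 1 ((fun s => ρ s + 1) '' D))
  have m1 : (1 : End (ZMod 2) V) ∈ N := Submodule.subset_span (Set.mem_insert _ _)
  have mF : ∀ s ∈ D, ρ s + 1 ∈ N := fun s hs =>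
    Submodule.subset_span (Set.mem_insert_of_mem _ ⟨s, hs, rfl⟩)
  have acN : ∀ x ∈ N, ∀ y ∈ N, x * y + y * x = β x y • 1 := fun x hx y hy => by
    suffices ∃ c : ZMod 2, x * y + y * x = c • 1 by
      obtain ⟨c, e⟩ := this
      rw [βe, e, map_smul, l1, smul_eq_mul, mul_one]
    induction hx, hy using Submodule.span_induction₂ with
    | mem_mem x y hx hy =>
      rcases hx with rfl | ⟨a, ha, rfl⟩
      · exact ⟨0, by simp [add_self]⟩
      rcases hy with rfl | ⟨b, hb, rfl⟩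
      · exact ⟨0, by simp [add_self]⟩
      exact ac a ha b hb
    | zero_left => exact ⟨0, by simp⟩
    | zero_right => exact ⟨0, by simp⟩
    | add_left x y w _ _ _ a b =>
      obtain ⟨c, a⟩ := a
      obtain ⟨c', b⟩ := b
      exact ⟨c + c', by rw [add_smul, ← a, ← b]; noncomm_ring⟩
    | add_right x y w _ _ _ a b =>
      obtain ⟨c, a⟩ := a
      obtain ⟨c', b⟩ := b
      exact ⟨c + c', by rw [add_smul, ← a, ← b]; noncomm_ring⟩
    | smul_left r x y _ _ a =>
      obtain ⟨c, a⟩ := a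
      exact ⟨r * c, by rw [mul_smul, ← a, smul_add, smul_mul_assoc, mul_smul_comm]⟩
    | smul_right r x y _ _ a =>
      obtain ⟨c, a⟩ := a
      exact ⟨r * c, by rw [mul_smul, ← a, smul_add, smul_mul_assoc, mul_smul_comm]⟩
  have sqN : ∀ x ∈ N, ∃ c : ZMod 2, x * x = c • 1 := fun x hx => by
    induction hx using Submodule.span_induction with
    | mem x hx =>
      rcases hx with rfl | ⟨a, ha, rfl⟩
      exacts [⟨1, by simp⟩, ⟨0, by simpa using sq a ha⟩]
    | zero => exact ⟨0, by simp⟩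
    | add x y hx hy a b =>
      obtain ⟨c, a⟩ := a
      obtain ⟨c', b⟩ := b
      exact ⟨c + c' + β x y, by rw [add_smul, add_smul, ← a, ← b, ← acN x hx y hy]; noncomm_ring⟩
    | smul r x _ a =>
      obtain ⟨c, a⟩ := a
      exact ⟨r * r * c, by rw [mul_smul, mul_smul, ← a, smul_mul_assoc, mul_smul_comm]⟩
  have r1 : ∀ h, ρ h⁻¹ * ρ h = 1 := fun h => by rw [← map_mul, inv_mul_cancel, map_one]
  have r2 : ∀ h, ρ h * ρ h⁻¹ = 1 := fun h => by rw [← map_mul, mul_inv_cancel, map_one]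
  let κ : H → End (ZMod 2) V →ₗ[ZMod 2] End (ZMod 2) V := fun h =>
    LinearMap.mulLeftRight _ (ρ h, ρ h⁻¹)
  have κe : ∀ h x, κ h x = ρ h * x * ρ h⁻¹ := fun h x => rfl
  clear_value κ
  have κ1 : ∀ h, κ h 1 = 1 := fun h => by rw [κe, mul_one, r2]
  have κF : ∀ h s, κ h (ρ s + 1) = ρ (h * s * h⁻¹) + 1 := fun h s => by
    rw [map_add, κ1, κe, map_mul, map_mul]
  have κm : ∀ h x y, κ h (x * y) = κ h x * κ h y := fun h x y => by
    rw [κe, κe, κe, mul_assoc (ρ h * x) (ρ h⁻¹), mul_assoc (ρ h) y, ← mul_assoc (ρ h⁻¹), r1, one_mul,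
      mul_assoc, mul_assoc, mul_assoc]
  have κN : ∀ h, ∀ x ∈ N, κ h x ∈ N := fun h x hx => by
    induction hx using Submodule.span_induction with
    | mem x hx =>
      rcases hx with rfl | ⟨a, ha, rfl⟩
      exacts [(κ1 h).symm ▸ m1, (κF h a).symm ▸ mF _ (hD h a ha)]
    | zero => simp
    | add x y _ _ a b => exact map_add (κ h) x y ▸ add_mem a b
    | smul r x _ a => exact map_smul (κ h) r x ▸ N.smul_mem r a
  have sm1 : ∀ {c c' : ZMod 2}, c • (1 : End (ZMod 2) V) = c' • 1 → c = c' := fun e => by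
    simpa [l1] using congrArg l e
  have κβ : ∀ h, ∀ x ∈ N, ∀ y ∈ N, β (κ h x) (κ h y) = β x y := fun h x hx y hy => sm1 (by
    rw [← acN _ (κN h x hx) _ (κN h y hy), ← κm, ← κm, ← map_add, acN x hx y hy, map_smul, κ1])
  let P : End (ZMod 2) V →ₗ[ZMod 2] End (ZMod 2) V := LinearMap.id + l.smulRight 1
  have Pe : ∀ x, P x = x + l x • 1 := fun x => rfl
  clear_value P
  have P1 : P 1 = 0 := by rw [Pe, l1, one_smul, add_self]
  have β1 : ∀ x, β 1 x = 0 := fun x => by rw [βe, one_mul, mul_one, add_self, map_zero]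
  have βs : ∀ x y, β x y = β y x := fun x y => by rw [βe, βe, add_comm]
  have βP : ∀ x y, β (P x) y = β x y := fun x y => by simp [Pe, β1]
  have βP' : ∀ x y, β y (P x) = β y x := fun x y => by rw [βs, βP, βs]
  let M := N ⊓ LinearMap.ker l
  have PM : ∀ x ∈ N, P x ∈ M := fun x hx =>
    ⟨Pe x ▸ add_mem hx (N.smul_mem _ m1), LinearMap.mem_ker.2 (by simp [Pe, l1, add_self])⟩
  have PP : ∀ x ∈ M, P x = x := fun x hx => by rw [Pe, hx.2, zero_smul, add_zero]
  have Pκ : ∀ h x, P (κ h (P x)) = P (κ h x) := fun h x => by simp [Pe x, κ1, P1]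
  have Pinj : ∀ x y, x * x = 0 → y * y = 0 → P x = P y → x = y := fun x y hx hy e => by
    rw [Pe, Pe] at e
    have e' : x = y + (l x + l y) • 1 := by
      rw [add_smul, add_comm (l x • _), ← add_assoc, ← e, add_add_cancel']
    rcases z2 (l x + l y) with c | c <;> rw [c] at e'
    · simpa using e'
    · rw [e', one_smul, add_mul, mul_add, mul_add, hy] at hx
      exact absurd (show (1 : End (ZMod 2) V) = 0 by
        simp only [mul_one, one_mul] at hx; linear_combination (norm := ch2) hx) one_ne_zero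
  let b : LinearMap.BilinForm (ZMod 2) M := β.restrict M
  have be : ∀ x y : M, b x y = β x y := fun x y => rfl
  have bA : b.IsAlt := fun x => by rw [be, βe, add_self, map_zero]
  have bN : b.Nondegenerate := (LinearMap.IsRefl.nondegenerate_iff_separatingLeft bA.isRefl).2
    fun x hx => Subtype.ext ((cm x fun s hs => by
      have := acN _ x.2.1 _ (mF s hs)
      rw [← βP', ← be x ⟨_, PM _ (mF s hs)⟩, hx, zero_smul, XV.add_eq_zero, mul_add, add_mul,
        mul_one, one_mul] at this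
      exact add_right_cancel this).resolve_right fun e => by
        have : l x = 0 := x.2.2
        rw [e, l1] at this
        exact one_ne_zero this)
  let φ₀ : H →* End (ZMod 2) M :=
    { toFun := fun h => (P ∘ₗ κ h).restrict fun x hx => PM _ (κN h x hx.1)
      map_one' := LinearMap.ext fun x => Subtype.ext (by
        change P (κ 1 x) = x
        rw [κe, inv_one, map_one, one_mul, mul_one, PP _ x.2])
      map_mul' := fun h h' => LinearMap.ext fun x => Subtype.ext (by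
        change P (κ (h * h') x) = P (κ h (P (κ h' x)))
        rw [Pκ, κe, κe, κe, mul_inv_rev, map_mul ρ, map_mul ρ]
        simp only [mul_assoc]) }
  let φ₁ : H →* M ≃ₗ[ZMod 2] M :=
    (LinearMap.GeneralLinearGroup.generalLinearEquiv _ _).toMonoidHom.comp φ₀.toHomUnits
  have φe : ∀ h (x : M), (φ₁ h x : End (ZMod 2) V) = P (κ h x) := fun h x => rfl
  clear_value φ₁
  let φ : H →* isomGroup b := φ₁.codRestrict _ fun h x y => by
    rw [be, be, φe, φe, βP, βP', κβ h _ x.2.1 _ y.2.1]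
  obtain ⟨m, e, f, hy, -, hm⟩ := exists_isHyp_span_eq_top bN bA
  have m3 : m ≤ 3 := by
    choose c hc using fun i => sqN _ (e i).2.1
    have k : ∀ x y : M, ∀ r r' : ZMod 2, (x + r • 1 : End (ZMod 2) V) * (y + r' • 1) +
        (y + r' • 1) * (x + r • 1) = b x y • 1 := fun x y r r' => by
      rw [acN _ (add_mem x.2.1 (N.smul_mem _ m1)) _ (add_mem y.2.1 (N.smul_mem _ m1)), be]
      simp [β1, βs _ 1]
    have := bound m (fun i => (e i : End (ZMod 2) V) + c i • (1 : End (ZMod 2) V))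
      (fun i => (f i : End (ZMod 2) V) + (0 : ZMod 2) • (1 : End (ZMod 2) V)) ⊤ top_ne_bot
      (fun _ _ _ => ⟨trivial, trivial⟩) (fun i => by
        rw [add_mul, mul_add, mul_add, hc]
        rcases z2 (c i) with e | e <;> simp [e]
        ch2)
      (fun i => by rw [k, hy.ef, if_pos rfl, one_smul])
      (fun i j => by rw [← XV.add_eq_zero, k, hy.ee, zero_smul])
      fun i j n => by rw [← XV.add_eq_zero, k, hy.ef, if_neg n, zero_smul]
    rw [Nat.card_congr Submodule.topEquiv.toEquiv, hV] at this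
    by_contra n
    exact absurd ((Nat.pow_le_pow_right two_pos
      (Nat.pow_le_pow_right two_pos (not_le.1 n : 4 ≤ m))).trans this) (by norm_num)
  have cM := natCard_eq_pow_finrank (K := ZMod 2) (V := M)
  rw [Nat.card_zmod, hm] at cM
  have βt : ∀ a ∈ A, β (ρ s + 1) (ρ (a * t * a⁻¹) + 1) = 1 := fun a ha => by
    rw [← κF, show ρ s + 1 = κ a (ρ s + 1) by rw [κF, hA a ha, mul_inv_cancel_right],
      κβ a _ (mF s hs) _ (mF t ht), βe, o, l1]
  let ψ : A × ZMod 2 → M := fun p => ⟨P (ρ (p.1 * t * (p.1 : H)⁻¹) + 1) + p.2 • P (ρ t + 1),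
    add_mem (PM _ (mF _ (hD _ t ht))) (M.smul_mem _ (PM _ (mF t ht)))⟩
  have ψβ : ∀ p, β (ρ s + 1) (ψ p) = 1 + p.2 := fun p => by
    have := βt 1 A.one_mem
    rw [one_mul, inv_one, mul_one] at this
    rw [map_add, map_smul, βP', βP', βt _ p.1.2, this, smul_eq_mul, mul_one]
  have hψ : Function.Injective ψ := by
    rintro ⟨a, r⟩ ⟨a', r'⟩ c
    obtain rfl : r = r' := add_left_cancel ((ψβ (a, r)).symm.trans (c ▸ ψβ (a', r')))
    have c1 := add_right_cancel (Pinj _ _ (sq _ (hD _ t ht)) (sq _ (hD _ t ht))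
      (add_right_cancel (congrArg Subtype.val c)))
    have := hA' _ (A.mul_mem (A.inv_mem a'.2) a.2) (by
      rw [show (a' : H)⁻¹ * a * t * ((a' : H)⁻¹ * a)⁻¹ = (a' : H)⁻¹ * (a * t * (a : H)⁻¹) * a' by
        group, map_mul, map_mul, c1, ← map_mul, ← map_mul]
      congr 1; group)
    rw [Subtype.ext (inv_mul_eq_one.1 this)]
  have : Finite A := Nat.finite_of_card_ne_zero (by omega)
  have c1 := Nat.card_le_card_of_injective _ hψ
  rw [Nat.card_prod, Nat.card_zmod, cM] at c1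
  obtain rfl : m = 3 := by
    by_contra n
    have := Nat.pow_le_pow_right two_pos (show 2 * m ≤ 4 by omega)
    omega
  have sψ := (hψ.bijective_of_nat_card_le (by rw [Nat.card_prod, Nat.card_zmod, cM]; omega)).2
  have tv : ∀ u ∈ D, ∀ x ∈ N, P (κ u x) = P x + β x (ρ u + 1) • P (ρ u + 1) := fun u hu x hx => by
    have e1 := sq u hu
    have e2 := acN x hx _ (mF u hu)
    have e3 : ρ u⁻¹ = ρ u := by
      have : ρ u * ρ u = 1 := by
        rw [add_mul, mul_add, mul_add, mul_one, one_mul, one_mul] at e1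
        linear_combination (norm := ch2) e1
      rw [← mul_one (ρ u⁻¹), ← this, ← mul_assoc, r1, one_mul]
    have e4 : ρ u = ρ u + 1 + 1 := (add_add_cancel' _ _).symm
    rw [κe, e3, e4]
    generalize ρ u + 1 = g at *
    have e5 : g * x * g = β x g • g := by
      have := congrArg (g * ·) e2
      simpa only [mul_add, ← mul_assoc, e1, zero_mul, add_zero, mul_smul_comm, mul_one] using this
    rw [show (g + 1) * x * (g + 1) = x + g * x * g + (x * g + g * x) by noncomm_ring, e5, e2]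
    simp [P1, add_add_cancel']
  have all1 : ∀ w : M, β (ρ s + 1) w = 1 → ∃ u ∈ D, P (ρ u + 1) = w := fun w hw => by
    obtain ⟨⟨a, r⟩, rfl⟩ := sψ w
    rw [ψβ, add_eq_left] at hw
    obtain rfl : r = 0 := hw
    exact ⟨_, hD a t ht, by simp only [ψ, zero_smul, add_zero]⟩
  have all : ∀ w : M, w ≠ 0 → ∃ u ∈ D, P (ρ u + 1) = w := fun w w0 => by
    by_cases c : β (ρ s + 1) w = 0
    swap
    · exact all1 w (z2_ne c)
    obtain ⟨y, y1, y2⟩ : ∃ y : M, β (ρ s + 1) y = 1 ∧ β y w = 1 := by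
      obtain ⟨y, -, y1, y2⟩ := exists_mem_both_ne_zero ⊤ (β (ρ s + 1) ∘ₗ M.subtype) (b w)
        ⟨ψ (1, 0), trivial, by simpa using (ψβ (1, 0)).trans_ne (by simp)⟩ (by
          by_contra n
          push Not at n
          exact w0 (bN.1 w fun y => n y trivial))
      exact ⟨y, z2_ne y1, (βs _ _).trans (z2_ne y2)⟩
    obtain ⟨u, hu, e1⟩ := all1 y y1
    obtain ⟨u', hu', e2⟩ := all1 (y + w) (by rw [Submodule.coe_add, map_add, y1, c, add_zero])
    refine ⟨_, hD u u' hu', ?_⟩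
    rw [← κF, tv u hu _ (mF _ hu'), ← βP, ← βP', e1, e2, Submodule.coe_add, map_add,
      LinearMap.add_apply, βs w, y2, ← be, bA, zero_add, one_smul]
    ch2
  have hs' : Function.Surjective φ := fun g => by
    obtain ⟨h, e⟩ := isomGroup_le_of_altTv_mem bN bA φ₁.range (fun w c => by
      by_cases c0 : w = 0 ∨ c = 0
      · refine ⟨1, (map_one _).trans (LinearEquiv.ext fun x => ?_)⟩
        rcases c0 with rfl | rfl <;> simp [altTv_apply]
      rw [not_or] at c0
      obtain ⟨u, hu, e⟩ := all w c0.1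
      refine ⟨u, LinearEquiv.ext fun x => Subtype.ext ?_⟩
      rw [φe, tv u hu _ x.2.1, PP _ x.2, ← βP', e, altTv_apply, z2_ne c0.2, one_mul]
      rfl) g.2
    exact ⟨h, Subtype.ext e⟩
  have hk : φ.ker = ρ.ker := Subgroup.ext fun h => by
    rw [MonoidHom.mem_ker, MonoidHom.mem_ker]
    refine ⟨fun c => (cm (ρ h) fun u hu => ?_).resolve_left fun c => zero_ne_one
      (by rw [← r2 h, c, zero_mul]), fun c => Subtype.ext (LinearEquiv.ext fun x => Subtype.ext ?_)⟩
    · have := φe h ⟨_, PM _ (mF u hu)⟩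
      rw [show φ₁ h = 1 from congrArg Subtype.val c, Pκ, κF] at this
      rw [← map_mul, show h * u = h * u * h⁻¹ * h by group, map_mul ρ _ h,
        ← add_right_cancel (Pinj _ _ (sq u hu) (sq _ (hD h u hu)) this)]
    · change (φ₁ h x : End (ZMod 2) V) = x
      have := r2 h
      rw [c, one_mul] at this
      rw [φe, κe, c, this, one_mul, mul_one, PP _ x.2]
  obtain ⟨ε⟩ := nonempty_sp_equiv_isomGroup bN bA hm
  exact ⟨((QuotientGroup.quotientMulEquivOfEq hk.symm).trans
    (QuotientGroup.quotientKerEquivOfSurjective φ hs')).trans ε.symm⟩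

end Cfsg.Agent.H69.Cliff
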